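import Cfsg.Agent.LocalEven.SPE
import Cfsg.Prelude.Def_SylowChains
import Mathlib.Logic.Relation

set_option autoImplicit false

open Pointwise

namespace Cfsg.Agent.LocalEven

variable {G : Type*} [Group G] {p : ℕ}

/-- Adjacency in the graph on the Sylow `p`-subgroups. -/
def SylAdj (S T : Sylow p G) : Prop := S ≠ T ∧ (S : Subgroup G) ⊓ (T : Subgroup G) ≠ ⊥

/-- Reachability in the graph on the Sylow `p`-subgroups. -/
abbrev SylReach (S T : Sylow p G) : Prop := Relation.ReflTransGen SylAdj S T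

theorem sylAdj_smul {S T : Sylow p G} (g : G) (h : SylAdj S T) : SylAdj (g • S) (g • T) := by
  refine ⟨fun e => h.1 (smul_left_cancel g e), ?_⟩
  rw [Sylow.coe_subgroup_smul, Sylow.coe_subgroup_smul]
  intro e
  apply h.2
  rw [← Subgroup.map_eq_bot_iff_of_injective _ (f := (MulAut.conj g).toMonoidHom) (MulAut.conj g).injective,
    Subgroup.map_inf _ _ _ (MulAut.conj g).injective]
  exact e

theorem sylReach_symm {S T : Sylow p G} (h : SylReach S T) : SylReach T S := by
  induction h with
  | refl => exact Relation.ReflTransGen.refl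
  | tail _ h2 ih => exact Relation.ReflTransGen.head ⟨h2.1.symm, by rw [inf_comm]; exact h2.2⟩ ih

theorem sylReach_smul {S T : Sylow p G} (g : G) (h : SylReach S T) : SylReach (g • S) (g • T) :=
  h.lift (fun U => g • U) fun _ _ => sylAdj_smul g

theorem sylReach_of_inf_ne_bot {S T : Sylow p G} (h : (S : Subgroup G) ⊓ (T : Subgroup G) ≠ ⊥) :
    SylReach S T := by
  by_cases e : S = T
  · exact e ▸ Relation.ReflTransGen.refl
  · exact Relation.ReflTransGen.single ⟨e, h⟩

theorem isSylowChainConnected_iff :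
    Cfsg.IsSylowChainConnected p G ↔ ∀ S T : Sylow p G, SylReach S T := by
  constructor
  · intro h S T
    obtain ⟨n, c, h0, hn, -, hc⟩ := h S T
    rw [← h0, ← hn]
    have : ∀ i : Fin (n + 1), SylReach (c 0) (c i) := by
      intro i
      induction i using Fin.induction with
      | zero => exact Relation.ReflTransGen.refl
      | succ i ih => exact ih.tail (hc i)
    exact this _
  · intro h S T
    by_cases hST : (S : Subgroup G) ⊓ (T : Subgroup G) = ⊥
    · have : ∃ (n : ℕ) (c : Fin (n + 1) → Sylow p G), c 0 = S ∧ c (Fin.last n) = T ∧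
          ∀ i : Fin n, SylAdj (c i.castSucc) (c i.succ) := by
        refine Relation.ReflTransGen.head_induction_on (motive := fun U _ =>
          ∃ (n : ℕ) (c : Fin (n + 1) → Sylow p G), c 0 = U ∧ c (Fin.last n) = T ∧
            ∀ i : Fin n, SylAdj (c i.castSucc) (c i.succ)) (h S T) ⟨0, fun _ => T, rfl, rfl, Fin.elim0⟩ ?_
        rintro U V hUV - ⟨n, c, h0, hn, hc⟩
        refine ⟨n + 1, Fin.cons U c, Fin.cons_zero _ _, by rw [← Fin.succ_last, Fin.cons_succ, hn], ?_⟩
        intro i
        cases i using Fin.cases with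
        | zero => rw [Fin.castSucc_zero, Fin.cons_zero, Fin.cons_succ, h0]; exact hUV
        | succ i => rw [← Fin.succ_castSucc, Fin.cons_succ, Fin.cons_succ]; exact hc i
      obtain ⟨n, c, h0, hn, hc⟩ := this
      exact ⟨n, c, h0, hn, fun i => hST ▸ bot_le, hc⟩
    · by_cases e : S = T
      · exact ⟨0, fun _ => S, rfl, e ▸ rfl, fun _ => inf_le_left, Fin.elim0⟩
      · refine ⟨1, Fin.cons S (fun _ => T), Fin.cons_zero _ _,
          by rw [← Fin.succ_last, Fin.cons_succ], fun i => ?_, fun i => ?_⟩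
        · cases i using Fin.cases with
          | zero => rw [Fin.cons_zero]; exact inf_le_left
          | succ i => rw [Fin.cons_succ]; exact inf_le_right
        · obtain rfl := Subsingleton.elim i 0
          rw [Fin.castSucc_zero, Fin.cons_zero, Fin.cons_succ]
          exact ⟨e, hST⟩

/-- The stabilizer of the connected component of `S`. -/
def reachStab [Finite G] (S : Sylow p G) : Subgroup G where
  carrier := {g | SylReach S (g • S)}
  one_mem' := by simp only [Set.mem_ofPred_eq, one_smul]; exact Relation.ReflTransGen.refl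
  mul_mem' := fun {a b} ha hb => by
    simp only [Set.mem_ofPred_eq] at ha hb ⊢
    rw [mul_smul]
    exact ha.trans (sylReach_smul a hb)
  inv_mem' := fun {a} ha => by
    simp only [Set.mem_ofPred_eq] at ha ⊢
    have := sylReach_smul a⁻¹ (sylReach_symm ha)
    rwa [inv_smul_smul] at this

theorem exists_spe_of_not_connected [Fact p.Prime] [Finite G] (h : ¬ Cfsg.IsSylowChainConnected p G) :
    ∃ H : Subgroup G, Cfsg.IsStronglyPEmbedded p H := by
  rw [isSylowChainConnected_iff] at h
  obtain ⟨S₀, T₀, h0⟩ : ∃ S T : Sylow p G, ¬ SylReach S T := by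
    by_contra h1; push Not at h1; exact h h1
  set H := reachStab S₀ with hH
  have hne : H ≠ ⊤ := by
    intro e
    obtain ⟨g, rfl⟩ := MulAction.exists_smul_eq G S₀ T₀
    exact h0 (show g ∈ H from e ▸ Subgroup.mem_top g)
  have hSH : (S₀ : Subgroup G) ≤ H := fun s hs => by
    show SylReach S₀ (s • S₀)
    rw [Sylow.smul_eq_iff_mem_normalizer.mpr (Subgroup.le_normalizer hs)]
  have hdiv : p ∣ Nat.card G := by
    by_contra hd
    apply h0
    have : ∀ U : Sylow p G, (U : Subgroup G) = ⊥ := fun U => by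
      rw [← Subgroup.card_eq_one]
      obtain ⟨k, hk⟩ := IsPGroup.iff_card.mp U.isPGroup'
      cases k with
      | zero => simpa using hk
      | succ k => exact absurd ((dvd_pow_self p k.succ_ne_zero).trans (hk ▸ Subgroup.card_subgroup_dvd_card _)) hd
    rw [show T₀ = S₀ from Sylow.ext ((this _).trans (this _).symm)]
  have hdH : p ∣ Nat.card H :=
    (S₀.dvd_card_of_dvd_card hdiv).trans (Subgroup.card_dvd_of_le hSH)
  -- every `p`-element of `H` lies in a reachable Sylow subgroup
  have hmem : ∀ x : G, (∃ k, orderOf x = p ^ k) → x ∈ H → ∃ U : Sylow p G, SylReach S₀ U ∧ x ∈ (U : Subgroup G) := by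
    intro x hxk hx
    obtain ⟨R, hRH, hR, hSR, k, hk, hkR⟩ := exists_cj_le_common S₀.isPGroup'
      (isPGroup_zpowers_of_orderOf hxk) hSH (Subgroup.zpowers_le.mpr hx)
    rw [S₀.is_maximal' hR hSR] at hkR
    refine ⟨k⁻¹ • S₀, show k⁻¹ ∈ H from H.inv_mem hk, ?_⟩
    rw [Sylow.coe_subgroup_smul]
    refine ⟨k * x * k⁻¹, hkR (conj_mem_cj (Subgroup.mem_zpowers x)), ?_⟩
    simp [mul_assoc]
  refine ⟨H, spe_of_mem_of_conj hne hdH fun x g hxp hx hgx => ?_⟩
  obtain ⟨U, hU, hxU⟩ := hmem x ⟨1, by rw [pow_one]; exact hxp⟩ hx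
  obtain ⟨V, hV, hxV⟩ := hmem (g * x * g⁻¹) ⟨1, by
    rw [pow_one, ← hxp]; exact orderOf_injective (MulAut.conj g).toMonoidHom (MulAut.conj g).injective x⟩ hgx
  have hgU : g * x * g⁻¹ ∈ ((g • U : Sylow p G) : Subgroup G) := by
    rw [Sylow.coe_subgroup_smul]
    exact ⟨x, hxU, rfl⟩
  have hne1 : g * x * g⁻¹ ≠ 1 := by
    intro e
    have : x = 1 := by simpa using e
    rw [this, orderOf_one] at hxp
    exact (Fact.out : p.Prime).one_lt.ne hxp
  have h2 : SylReach (g • U) V := sylReach_of_inf_ne_bot fun e =>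
    hne1 (Subgroup.mem_bot.mp (e ▸ Subgroup.mem_inf.mpr ⟨hgU, hxV⟩))
  exact hV.trans ((sylReach_symm h2).trans (sylReach_smul g (sylReach_symm hU)))

theorem not_connected_of_spe [Fact p.Prime] [Finite G] {H : Subgroup G}
    (hH : Cfsg.IsStronglyPEmbedded p H) : ¬ Cfsg.IsSylowChainConnected p G := by
  rw [isSylowChainConnected_iff]
  intro h
  obtain ⟨S, hSH, hS1, -⟩ := spe_exists_sylow hH
  have hall : ∀ T : Sylow p G, SylReach S T → (T : Subgroup G) ≤ H := by
    intro T hT
    induction hT with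
    | refl => exact hSH
    | @tail U V _ hUV ih =>
      refine spe_pGroup_le hH V.isPGroup' fun e => hUV.2 (le_bot_iff.mp ?_)
      rw [← e]
      exact le_inf inf_le_right (inf_le_left.trans ih)
  refine spe_ne_top hH (eq_top_iff.mpr fun g _ => ?_)
  obtain ⟨x, hx, hxp⟩ := exists_orderOf_eq S.isPGroup' hS1
  refine spe_mem_of_conj hH (x := x) ?_ ⟨1, by rw [pow_one]; exact hxp⟩ (hSH hx) ?_
  · rintro rfl; rw [orderOf_one] at hxp; exact (Fact.out : p.Prime).one_lt.ne hxp
  · refine hall (g • S) (h _ _) ?_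
    rw [Sylow.coe_subgroup_smul]
    exact ⟨x, hx, rfl⟩

end Cfsg.Agent.LocalEven
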