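import Cfsg.Agent.LocalEven.ChermakDelgado
import Cfsg.Agent.PLocal.ElemAb
import Cfsg.Agent.FGS3.PGroupFrattini
import Mathlib.GroupTheory.Subgroup.Center

/-!
Minimal centrally large subgroups pushed into a subgroup containing an abelian subgroup which it
centralizes and which satisfies the offender bound.
-/

set_option autoImplicit false
set_option linter.unusedSectionVars false
set_option linter.style.haveILetI false

open scoped commutatorElement

namespace Cfsg.Agent.LocalEven.CD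

variable {G : Type*} [Group G]

/-- The Frattini subgroup of a `p`-subgroup, inside the ambient group. -/
theorem frattini_map_eq [Finite G] {p : ℕ} [Fact p.Prime] {Q : Subgroup G} (hQ : IsPGroup p Q) :
    (frattini Q).map Q.subtype = ⁅Q, Q⁆ ⊔ Cfsg.powerClosure p 1 Q := by
  rw [Agent.FGS3.frattini_eq_sup hQ, Subgroup.map_sup, Subgroup.map_subtype_commutator,
    MonoidHom.map_closure]
  refine congrArg _ (congrArg _ ?_)
  ext y
  constructor
  · rintro ⟨_, ⟨x, rfl⟩, rfl⟩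
    exact ⟨x, x.2, by simp⟩
  · rintro ⟨x, hx, rfl⟩
    exact ⟨_, ⟨⟨x, hx⟩, rfl⟩, by simp⟩

theorem pow_mem_powerClosure {p : ℕ} {H : Subgroup G} {x : G} (hx : x ∈ H) :
    x ^ p ∈ Cfsg.powerClosure p 1 H :=
  Subgroup.subset_closure ⟨x, hx, by rw [pow_one]⟩

theorem powerClosure_le {p : ℕ} {H K : Subgroup G} (h : ∀ x ∈ H, x ^ p ∈ K) :
    Cfsg.powerClosure p 1 H ≤ K := by
  refine (Subgroup.closure_le _).2 ?_
  rintro _ ⟨x, hx, rfl⟩
  simpa using h x hx

/-- In an abelian subgroup the orders of `Ω₁` and of the subgroup of `p`-th powers multiply up. -/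
theorem card_omega_mul_powers {p : ℕ} {A : Subgroup G} (hA : A ≤ cz A) :
    Nat.card (Cfsg.omegaOne p A) * Nat.card (Cfsg.powerClosure p 1 A) = Nat.card A := by
  haveI := isMulCommutative_iff.2 hA
  let f : A →* A :=
    { toFun := fun x => x ^ p
      map_one' := one_pow _
      map_mul' := fun a b => mul_pow' a b p }
  have h1 : f.ker.map A.subtype = Cfsg.omegaOne p A := by
    refine le_antisymm ?_ ((Subgroup.closure_le _).2 ?_)
    · rintro _ ⟨x, hx, rfl⟩
      refine Subgroup.subset_closure ⟨x.2, ?_⟩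
      have := congrArg Subtype.val (MonoidHom.mem_ker.1 hx)
      simpa [f] using this
    · rintro x ⟨hx, hxp⟩
      exact ⟨⟨x, hx⟩, MonoidHom.mem_ker.2 (Subtype.ext (by simpa [f] using hxp)), rfl⟩
  have h2 : f.range.map A.subtype = Cfsg.powerClosure p 1 A := by
    refine le_antisymm ?_ (powerClosure_le fun x hx => ⟨_, ⟨⟨x, hx⟩, rfl⟩, by simp [f]⟩)
    rintro _ ⟨_, ⟨x, rfl⟩, rfl⟩
    simpa [f] using pow_mem_powerClosure (p := p) x.2
  rw [← h1, ← h2, Subgroup.card_map_of_injective A.subtype_injective,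
    Subgroup.card_map_of_injective A.subtype_injective, ← Subgroup.index_ker, Subgroup.card_mul_index]
where
  mul_pow' {M : Type _} [Group M] [IsMulCommutative M] (a b : M) (n : ℕ) :
      (a * b) ^ n = a ^ n * b ^ n := Commute.mul_pow (IsMulCommutative.is_comm.comm a b) n

variable [Finite G]

local notation "MCL" => Cfsg.IsMinimalCentrallyLarge

/-- Replace a minimal centrally large subgroup by one inside `O`. -/
theorem exists_push {O V : Subgroup G} (hVO : V ≤ O) (hVc : V ≤ cz O)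
    (hb : ∀ X : Subgroup G, Nat.card X * Nat.card ↥(V ⊓ cz X) ≤ Nat.card ↥(X ⊓ O) * Nat.card V)
    {Q : Subgroup G} (hQ : MCL Q) :
    ∃ Q' : Subgroup G, MCL Q' ∧ Q' ≤ O ∧ cz Q' = (cz Q ⊓ O) ⊔ V := by
  obtain ⟨mQ, zQ⟩ := cl_iff.mp hQ.1
  set Z := cz Q with hZ
  set R := Q ⊓ O with hR
  set Y := (Z ⊓ O) ⊔ V with hY
  have hVR : V ≤ cz R := hVc.trans (cz_anti inf_le_right)
  have hVV : V ≤ cz V := hVc.trans (cz_anti hVO)
  have hYle : Y ≤ cz (R ⊔ V) := by
    rw [cz_sup]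
    exact sup_le (le_inf (inf_le_left.trans (cz_anti inf_le_left))
      (inf_le_right.trans (le_cz_symm hVc))) (le_inf hVR hVV)
  have e1 : Nat.card ↥(R ⊔ V) * Nat.card ↥(Q ⊓ V) = Nat.card R * Nat.card V := by
    have h := PLocal.card_sup_mul_card_inf (le_normalizer_of_cz (le_cz_symm hVR))
    rwa [show R ⊓ V = Q ⊓ V by rw [hR, inf_assoc, inf_eq_right.mpr hVO]] at h
  have e2 : Nat.card Y * Nat.card ↥(Z ⊓ V) = Nat.card ↥(Z ⊓ O) * Nat.card V := by
    have h := PLocal.card_sup_mul_card_inf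
      (le_normalizer_of_cz ((inf_le_right : Z ⊓ O ≤ O).trans (le_cz_symm hVc)))
    rwa [inf_assoc, inf_eq_right.mpr hVO] at h
  have b1 : Nat.card Q * Nat.card ↥(Z ⊓ V) ≤ Nat.card R * Nat.card V := by
    have h := hb Q
    rwa [inf_comm V] at h
  have b2 : Nat.card Z * Nat.card ↥(Q ⊓ V) ≤ Nat.card ↥(Z ⊓ O) * Nat.card V :=
    le_trans (Nat.mul_le_mul_left _ (Subgroup.card_le_of_le (K := V ⊓ cz Z)
      (le_inf inf_le_right (inf_le_left.trans (le_cz_cz Q))))) (hb Z)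
  have hm : Cfsg.maxCentralizerProduct G ≤ Nat.card ↥(R ⊔ V) * Nat.card Y := by
    rw [← (mQ : _)]
    refine Nat.le_of_mul_le_mul_right ?_
      (Nat.mul_pos (Nat.card_pos : 0 < Nat.card ↥(Z ⊓ V)) (Nat.card_pos : 0 < Nat.card ↥(Q ⊓ V)))
    calc Nat.card Q * Nat.card Z * (Nat.card ↥(Z ⊓ V) * Nat.card ↥(Q ⊓ V))
        = (Nat.card Q * Nat.card ↥(Z ⊓ V)) * (Nat.card Z * Nat.card ↥(Q ⊓ V)) := by ring
      _ ≤ (Nat.card R * Nat.card V) * (Nat.card ↥(Z ⊓ O) * Nat.card V) := Nat.mul_le_mul b1 b2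
      _ = _ := by rw [← e1, ← e2]; ring
  have hYeq : cz (R ⊔ V) = Y := by
    refine (Subgroup.eq_of_le_of_card_ge hYle ?_).symm
    exact Nat.le_of_mul_le_mul_left ((measure_le _).trans hm) Nat.card_pos
  have hcl : Cfsg.IsCentrallyLarge (R ⊔ V) := cl_iff.mpr
    ⟨mem_of_ge (by rw [hYeq]; exact hm), by
      rw [hYeq]
      exact sup_le_sup_right (inf_le_inf_right O zQ) _⟩
  obtain ⟨Q', hle, hQ'⟩ := exists_mcl_le hcl
  refine ⟨Q', hQ', hle.trans (sup_le inf_le_right hVO), ?_⟩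
  have hYQ : Y ≤ cz Q' := by rw [← hYeq]; exact cz_anti hle
  refine (Subgroup.eq_of_le_of_card_ge hYQ ?_).symm
  rw [← (mcl_card hQ hQ').2]
  refine Nat.le_of_mul_le_mul_right ?_ (Nat.card_pos : 0 < Nat.card ↥(Z ⊓ V))
  rw [e2]
  exact le_trans (Nat.mul_le_mul_left _ (Subgroup.card_le_of_le (inf_le_inf_right V zQ))) b2

theorem mcl_commutator_eq {Q R : Subgroup G} (hQ : MCL Q) (hR : MCL R) : ⁅Q, Q⁆ = ⁅R, R⁆ := by
  rw [mcl_commutator hQ hR.1, mcl_commutator hR hQ.1, inf_comm]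

/-- Elements of `V` in the common derived subgroup are central in every minimal centrally large one. -/
theorem inf_commutator_le_cz {O V : Subgroup G} (hVO : V ≤ O) (hVc : V ≤ cz O)
    (hb : ∀ X : Subgroup G, Nat.card X * Nat.card ↥(V ⊓ cz X) ≤ Nat.card ↥(X ⊓ O) * Nat.card V)
    {Q : Subgroup G} (hQ : MCL Q) : V ⊓ ⁅Q, Q⁆ ≤ cz Q := by
  obtain ⟨Q', hQ', -, hc⟩ := exists_push hVO hVc hb hQ
  rintro x ⟨hxV, hxC⟩ y hy
  have hxQ : x ∈ Q := Subgroup.commutator_le.mpr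
    (fun a ha b hb' => mul_mem (mul_mem (mul_mem ha hb') (inv_mem ha)) (inv_mem hb')) hxC
  obtain ⟨a, ha, z, hz, rfl⟩ := mcl_exists_mul hQ hQ'.1 hy
  have h1 : Commute a x := comm_of_cz (show x ∈ cz Q' by rw [hc]; exact Subgroup.mem_sup_right hxV) ha.2
  have h2 : Commute z x := (show Commute x z from comm_of_cz hz hxQ).symm
  exact (h1.mul_left h2).eq

/-- The Frattini subgroups of the minimal centrally large subgroups with largest `Ω₁(Z(Q))`. -/
theorem exists_push_frattini {O V : Subgroup G} {p : ℕ} [Fact p.Prime] (hG : IsPGroup p G)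
    (hVO : V ≤ O) (hVc : V ≤ cz O)
    (hb : ∀ X : Subgroup G, Nat.card X * Nat.card ↥(V ⊓ cz X) ≤ Nat.card ↥(X ⊓ O) * Nat.card V)
    (hVp : ∀ v ∈ V, v ^ p ∈ Cfsg.powerClosure p 1 (Subgroup.center G))
    {Q : Subgroup G} (hQ : MCL Q)
    (hmax : Nat.card (Cfsg.omegaOneCenter p Q) = Cfsg.maxOmegaCenterOfMinimalCL p G) :
    ∃ Q' : Subgroup G, MCL Q' ∧ Q' ≤ O ∧
      Nat.card (Cfsg.omegaOneCenter p Q') = Cfsg.maxOmegaCenterOfMinimalCL p G ∧
      (frattini Q').map Q'.subtype = (frattini Q).map Q.subtype := by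
  obtain ⟨Q', hQ', hO, hc⟩ := exists_push hVO hVc hb hQ
  refine ⟨Q', hQ', hO, ?_⟩
  have zQ := (cl_iff.mp hQ.1).2
  have zQ' := (cl_iff.mp hQ'.1).2
  have hab : cz Q ≤ cz (cz Q) := cz_anti zQ
  have hab' : cz Q' ≤ cz (cz Q') := cz_anti zQ'
  have hcenter : Subgroup.center G ≤ cz Q := Subgroup.center_le_centralizer _
  have hpw : Cfsg.powerClosure p 1 (cz Q') ≤ Cfsg.powerClosure p 1 (cz Q) := by
    refine powerClosure_le fun x hx => ?_
    rw [hc] at hx
    obtain ⟨u, hu, v, hv, rfl⟩ := exists_mul_of_normalizes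
      (le_normalizer_of_cz ((inf_le_right : cz Q ⊓ O ≤ O).trans (le_cz_symm hVc))) hx
    rw [(show Commute u v from comm_of_cz (hVc hv) hu.2).mul_pow]
    refine mul_mem (pow_mem_powerClosure hu.1) ?_
    exact (powerClosure_le fun y hy => pow_mem_powerClosure (hcenter hy)) (hVp v hv)
  have e := card_omega_mul_powers (p := p) hab
  have e' := card_omega_mul_powers (p := p) hab'
  rw [← (mcl_card hQ hQ').2] at e'
  have hw : Cfsg.omegaOneCenter p Q = Cfsg.omegaOne p (cz Q) := by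
    rw [Cfsg.omegaOneCenter, inf_eq_right.mpr zQ]
  have hw' : Cfsg.omegaOneCenter p Q' = Cfsg.omegaOne p (cz Q') := by
    rw [Cfsg.omegaOneCenter, inf_eq_right.mpr zQ']
  have hle' : Nat.card (Cfsg.omegaOne p (cz Q')) ≤ Nat.card (Cfsg.omegaOne p (cz Q)) := by
    rw [← hw, ← hw', hmax]
    exact le_csSup ((Set.finite_range fun R : Subgroup G =>
      Nat.card (Cfsg.omegaOneCenter p R)).subset (by rintro k ⟨R, -, rfl⟩; exact ⟨R, rfl⟩)).bddAbove
      ⟨Q', hQ', rfl⟩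
  have hge : Nat.card (Cfsg.omegaOne p (cz Q)) ≤ Nat.card (Cfsg.omegaOne p (cz Q')) := by
    refine Nat.le_of_mul_le_mul_right ?_
      (Nat.card_pos : 0 < Nat.card (Cfsg.powerClosure p 1 (cz Q)))
    rw [e, ← e']
    exact Nat.mul_le_mul_left _ (Subgroup.card_le_of_le hpw)
  have heq := le_antisymm hle' hge
  have hpeq : Cfsg.powerClosure p 1 (cz Q') = Cfsg.powerClosure p 1 (cz Q) := by
    refine Subgroup.eq_of_le_of_card_ge hpw (le_of_eq ?_)
    refine Nat.eq_of_mul_eq_mul_left (Nat.card_pos : 0 < Nat.card (Cfsg.omegaOne p (cz Q))) ?_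
    rw [e, ← heq, e']
  refine ⟨by rw [hw', heq, ← hw, hmax], ?_⟩
  have key : ∀ {A B : Subgroup G}, MCL A → MCL B →
      Cfsg.powerClosure p 1 (cz A) ≤ Cfsg.powerClosure p 1 (cz B) →
      Cfsg.powerClosure p 1 A ≤ ⁅B, B⁆ ⊔ Cfsg.powerClosure p 1 B := by
    intro A B hA hB h
    refine powerClosure_le fun x hx => Subgroup.mem_sup_right ?_
    obtain ⟨a, ha, z, hz, rfl⟩ := mcl_exists_mul hA hB.1 hx
    rw [(show Commute a z from comm_of_cz hz ha.1).mul_pow]
    exact mul_mem (pow_mem_powerClosure ha.2)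
      ((powerClosure_le fun y hy => pow_mem_powerClosure ((cl_iff.mp hB.1).2 hy))
        (h (pow_mem_powerClosure hz)))
  rw [frattini_map_eq (hG.to_subgroup Q'), frattini_map_eq (hG.to_subgroup Q)]
  exact le_antisymm (sup_le ((mcl_commutator_eq hQ' hQ).le.trans le_sup_left)
      (key hQ' hQ hpeq.le))
    (sup_le ((mcl_commutator_eq hQ hQ').le.trans le_sup_left) (key hQ hQ' hpeq.ge))

/-! ### Transport along injective homomorphisms -/

section Transport

variable {K : Type*} [Group K] {ι₁ ι₂ : K →* G}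

theorem cl_transport (h₁ : Function.Injective ι₁) (h₂ : Function.Injective ι₂) {R : Subgroup K}
    (h : Cfsg.IsCentrallyLarge (R.map ι₁)) : Cfsg.IsCentrallyLarge (R.map ι₂) := by
  have e := (R.equivMapOfInjective ι₁ h₁).symm.trans (R.equivMapOfInjective ι₂ h₂)
  unfold Cfsg.IsCentrallyLarge at h ⊢
  rwa [← Nat.card_congr e.toEquiv, ← Nat.card_congr (Subgroup.centerCongr e).toEquiv]

theorem mcl_transport (h₁ : Function.Injective ι₁) (h₂ : Function.Injective ι₂) {R : Subgroup K}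
    (h : MCL (R.map ι₁)) : MCL (R.map ι₂) := by
  refine ⟨cl_transport h₁ h₂ h.1, fun R' hR' hcl => ?_⟩
  have hle : R' ≤ ι₂.range := hR'.trans (Subgroup.map_le_range _ _)
  have e : (R'.comap ι₂).map ι₂ = R' := Subgroup.map_comap_eq_self hle
  have hR1 : R'.comap ι₂ ≤ R := by
    rwa [← Subgroup.map_le_map_iff_of_injective h₂, e]
  have h' := h.2 _ (Subgroup.map_mono hR1) (cl_transport h₂ h₁ (e.symm ▸ hcl))
  rw [Subgroup.map_injective h₁ h'] at e
  exact e.symm

theorem map_omegaOneCenter {ι : K →* G} (h : Function.Injective ι) (p : ℕ) (R : Subgroup K) :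
    Cfsg.omegaOneCenter p (R.map ι) = (Cfsg.omegaOneCenter p R).map ι := by
  have hi : R.map ι ⊓ cz (R.map ι) = (R ⊓ cz R).map ι := by
    refine le_antisymm ?_ ?_
    · rintro _ ⟨⟨x, hx, rfl⟩, h2⟩
      exact ⟨x, ⟨hx, fun y hy => h (by rw [map_mul, map_mul]; exact h2 _ ⟨y, hy, rfl⟩)⟩, rfl⟩
    · rintro _ ⟨x, ⟨hx, hc⟩, rfl⟩
      refine ⟨⟨x, hx, rfl⟩, ?_⟩
      rintro _ ⟨y, hy, rfl⟩
      rw [← map_mul, ← map_mul, hc y hy]
  unfold Cfsg.omegaOneCenter Cfsg.omegaOne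
  rw [show R.map ι ⊓ Subgroup.centralizer ((R.map ι : Subgroup G) : Set G) = _ from hi,
    MonoidHom.map_closure]
  refine congrArg _ ?_
  ext y
  constructor
  · rintro ⟨⟨x, hx, rfl⟩, hp⟩
    exact ⟨x, ⟨hx, h (by rw [map_pow, hp, map_one])⟩, rfl⟩
  · rintro ⟨x, ⟨hx, hp⟩, rfl⟩
    exact ⟨⟨x, hx, rfl⟩, by rw [← map_pow, hp, map_one]⟩

theorem card_omega_transport (h₁ : Function.Injective ι₁) (h₂ : Function.Injective ι₂) (p : ℕ)
    (R : Subgroup K) : Nat.card (Cfsg.omegaOneCenter p (R.map ι₂)) =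
      Nat.card (Cfsg.omegaOneCenter p (R.map ι₁)) := by
  rw [map_omegaOneCenter h₁, map_omegaOneCenter h₂, Subgroup.card_map_of_injective h₁,
    Subgroup.card_map_of_injective h₂]

end Transport

theorem mcl_commutator_characteristic {Q : Subgroup G} (hQ : MCL Q) :
    (⁅Q, Q⁆ : Subgroup G).Characteristic := by
  refine Subgroup.characteristic_iff_map_le.mpr fun φ => ?_
  have hinj : Function.Injective φ.toMonoidHom := φ.injective
  have h : MCL (Q.map φ.toMonoidHom) :=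
    mcl_transport (ι₁ := MonoidHom.id G) (fun _ _ h => h) hinj (by rwa [Subgroup.map_id])
  rw [Subgroup.map_commutator, mcl_commutator_eq h hQ]

theorem isMulCommutative_of_commutator_bot {Q : Subgroup G} (hab : ⁅Q, Q⁆ = ⊥) :
    IsMulCommutative Q :=
  isMulCommutative_iff.mpr (Subgroup.commutator_eq_bot_iff_le_centralizer.mp hab)

end Cfsg.Agent.LocalEven.CD
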