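import Cfsg.Agent.LocalEven.CharP

set_option autoImplicit false

open scoped commutatorElement

namespace Cfsg.Agent.LocalEven

theorem centralizer_le_of_sylow {G : Type*} [Group G] [Finite G] {p : ℕ} [Fact p.Prime]
    (hG : Subgroup.centralizer (Cfsg.pCore p G : Set G) ≤ Cfsg.pCore p G) (T : Sylow p G)
    {Q : Subgroup G} (hQT : Q ≤ (T : Subgroup G))
    (hQn : (T : Subgroup G) ≤ Subgroup.normalizer (Q : Set G))
    (hC : (T : Subgroup G) ⊓ Subgroup.centralizer (Q : Set G) ≤ Q) :
    Subgroup.centralizer (Q : Set G) ≤ Q := by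
  set V := Cfsg.pCore p G
  set C := Subgroup.centralizer (Q : Set G)
  have hVT : V ≤ (T : Subgroup G) := Core.pCore_le_sylow T
  have hTC : (T : Subgroup G) ≤ Subgroup.normalizer (C : Set G) :=
    hQn.trans (normalizer_le_normalizer_cent Q)
  have h1 : ⁅V, C⁆ ≤ Q := (le_inf ((Subgroup.commutator_le_left _ _).trans hVT)
    (Subgroup.le_normalizer_iff_commutator_le_right.mp (hVT.trans hTC))).trans hC
  have hCp : IsPGroup p C := by
    refine isPGroup_of_coprime fun c hc hcop => ?_
    have hV : IsPGroup p V := Core.isPGroup_pCore p G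
    have hcV : c ∈ Subgroup.centralizer (V : Set G) := by
      refine coprime_stab hV ?_ hcop (iter_eq_bot_of_chain
        ((Subgroup.commutator_mono le_rfl (Subgroup.zpowers_le.mpr hc)).trans h1) ?_)
      · rw [Subgroup.normalizer_eq_top_iff.mpr (Cfsg.pCore_normal p G)]; exact Subgroup.mem_top c
      · rw [← le_bot_iff]
        refine (Subgroup.commutator_mono le_rfl (Subgroup.zpowers_le.mpr hc)).trans (le_of_eq ?_)
        rw [Subgroup.commutator_comm, Subgroup.commutator_eq_bot_iff_le_centralizer]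
    obtain ⟨k, hk⟩ := IsPGroup.iff_orderOf.mp hV ⟨c, hG hcV⟩
    rw [Subgroup.orderOf_mk] at hk
    exact orderOf_eq_one_iff.mp (Nat.eq_one_of_dvd_coprimes (hcop.pow_right k) dvd_rfl hk.dvd)
  intro c hc
  have hTC' : IsPGroup p ↥((T : Subgroup G) ⊔ C) := T.isPGroup'.to_sup_of_normal_right' hCp hTC
  have : c ∈ (T : Subgroup G) := (T.is_maximal' hTC' le_sup_left) ▸ Subgroup.mem_sup_right hc
  exact hC (Subgroup.mem_inf.mpr ⟨this, hc⟩)

theorem charP_of_contains {G : Type*} [Group G] [Finite G] {p : ℕ} [Fact p.Prime]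
    (hG : Subgroup.centralizer (Cfsg.pCore p G : Set G) ≤ Cfsg.pCore p G) (T : Sylow p G)
    {Q : Subgroup G} (hQT : Q ≤ (T : Subgroup G))
    (hQn : (T : Subgroup G) ≤ Subgroup.normalizer (Q : Set G))
    (hC : (T : Subgroup G) ⊓ Subgroup.centralizer (Q : Set G) ≤ Q) {L : Subgroup G} (hQL : Q ≤ L) :
    L ⊓ Subgroup.centralizer (op p L : Set G) ≤ op p L := by
  have hCQ := centralizer_le_of_sylow hG T hQT hQn hC
  set V := Cfsg.pCore p G
  set C := L ⊓ Subgroup.centralizer (op p L : Set G) with hCdef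
  set E := V ⊓ Q
  have hV : IsPGroup p V := Core.isPGroup_pCore p G
  have hVn : ∀ X : Subgroup G, X ≤ Subgroup.normalizer (V : Set G) := fun X => by
    rw [Subgroup.normalizer_eq_top_iff.mpr (Cfsg.pCore_normal p G)]; exact le_top
  have hQp : IsPGroup p Q := T.isPGroup'.to_le hQT
  have hVT : V ≤ (T : Subgroup G) := Core.pCore_le_sylow T
  have hEop : E ≤ op p L := by
    have h : V ⊓ L ≤ op p L := le_op inf_le_right
      (le_trans (le_inf (hVn L) Subgroup.le_normalizer) Subgroup.inf_normalizer_le_normalizer_inf)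
      (hV.to_le inf_le_left)
    exact (inf_le_inf_left V hQL).trans h
  have hCE : C ≤ Subgroup.centralizer (E : Set G) :=
    inf_le_right.trans (Subgroup.centralizer_le (SetLike.coe_subset_coe.mpr hEop))
  have hVQ : ⁅V, Q⁆ ≤ E := le_inf (Subgroup.commutator_le_left _ _)
    (Subgroup.le_normalizer_iff_commutator_le_right.mp (hVT.trans hQn))
  have hQC : Q ≤ Subgroup.normalizer (C : Set G) := by
    refine hQL.trans (le_trans (le_inf Subgroup.le_normalizer ?_) Subgroup.inf_normalizer_le_normalizer_inf)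
    exact (map_pCore_normalized L).trans (normalizer_le_normalizer_cent _)
  have h3 : ⁅⁅Q, C⁆, V⁆ ≤ E := by
    refine three_le ?_ (hCE.trans (Subgroup.centralizer_le_normalizer _)) ?_ ?_ ?_
    · exact le_trans (le_inf (hVn Q) Subgroup.le_normalizer) Subgroup.inf_normalizer_le_normalizer_inf
    · exact le_trans (le_inf (hVn V) (hVT.trans hQn)) Subgroup.inf_normalizer_le_normalizer_inf
    · refine (Subgroup.commutator_mono (Subgroup.commutator_le_right C V) le_rfl).trans hVQ
    · refine (Subgroup.commutator_mono hVQ le_rfl).trans ?_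
      rw [Subgroup.commutator_comm, Subgroup.commutator_eq_bot_iff_le_centralizer.mpr hCE]
      exact bot_le
  have hCL : L ≤ Subgroup.normalizer (C : Set G) :=
    le_trans (le_inf Subgroup.le_normalizer
      ((map_pCore_normalized L).trans (normalizer_le_normalizer_cent _)))
      Subgroup.inf_normalizer_le_normalizer_inf
  set D := ⁅Q, C⁆
  have hDC : D ≤ C := Subgroup.le_normalizer_iff_commutator_le_right.mp hQC
  have hcop : ∀ {c : G} {X : Subgroup G}, IsPGroup p X → c ∈ X → (orderOf c).Coprime p → c = 1 := by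
    intro c X hX hc h
    obtain ⟨k, hk⟩ := IsPGroup.iff_orderOf.mp hX ⟨c, hc⟩
    rw [Subgroup.orderOf_mk] at hk
    exact orderOf_eq_one_iff.mp (Nat.eq_one_of_dvd_coprimes (h.pow_right k) dvd_rfl hk.dvd)
  have hDp : IsPGroup p D := by
    refine isPGroup_of_coprime fun d hd hdc => ?_
    refine hcop hV (hG (coprime_stab hV (hVn ⊤ (Subgroup.mem_top d)) hdc
      (iter_eq_bot_of_chain (M := E) ?_ ?_))) hdc
    · exact (Subgroup.commutator_mono le_rfl (Subgroup.zpowers_le.mpr hd)).trans
        (by rwa [Subgroup.commutator_comm])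
    · rw [← le_bot_iff]
      refine (Subgroup.commutator_mono le_rfl (Subgroup.zpowers_le.mpr (hDC hd))).trans (le_of_eq ?_)
      rw [Subgroup.commutator_comm]
      exact Subgroup.commutator_eq_bot_iff_le_centralizer.mpr hCE
  have hDop : D ≤ op p L := by
    have hDn : C ≤ Subgroup.normalizer (D : Set G) := Subgroup.normalizer_commutator_ge_right Q C
    have hDC' : D ≤ op p C := le_op hDC hDn hDp
    exact hDC'.trans (le_op ((op_le C).trans inf_le_left)
      (fun l hl => cj_eq_self_iff.mp (by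
        rw [op, ← map_pCore_cj, cj_eq_self_iff.mpr (hCL hl)])) (isPGroup_op C))
  refine le_op inf_le_left hCL ?_
  refine isPGroup_of_coprime fun c hc hcc => ?_
  set R := Q ⊔ D
  have hQD : Q ≤ Subgroup.normalizer (D : Set G) := Subgroup.normalizer_commutator_ge_left Q C
  have hR : IsPGroup p R := hQp.to_sup_of_normal_right' hDp hQD
  set Z := Subgroup.zpowers c
  have hZC : Z ≤ C := Subgroup.zpowers_le.mpr hc
  have hDZ : ⁅D, Z⁆ = ⊥ := by
    rw [← le_bot_iff]
    refine (Subgroup.commutator_mono hDop (hZC.trans inf_le_right)).trans (le_of_eq ?_)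
    rw [Subgroup.commutator_comm, Subgroup.commutator_eq_bot_iff_le_centralizer]
  have hRZ : ⁅R, Z⁆ ≤ D := comm_sup_le hQD Subgroup.le_normalizer
    (Subgroup.commutator_mono le_rfl hZC) (hDZ.le.trans bot_le)
  have hcR : c ∈ Subgroup.normalizer (R : Set G) :=
    (Subgroup.le_normalizer_iff_commutator_le_left.mpr (hRZ.trans le_sup_right))
      (Subgroup.mem_zpowers c)
  have := coprime_stab hR hcR hcc (iter_eq_bot_of_chain hRZ hDZ)
  exact hcop hQp (hCQ (Subgroup.centralizer_le (SetLike.coe_subset_coe.mpr le_sup_left) this)) hcc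

end Cfsg.Agent.LocalEven
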