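import Cfsg.Agent.LocalEven.ChermakDelgado

/-! A minimal centrally large subgroup normalised by `J(P)` and by all minimal centrally large
subgroups. -/

set_option autoImplicit false

open scoped Pointwise commutatorElement

namespace Cfsg.Agent.LocalEven.CD

variable {G : Type*} [Group G] [Finite G]

local notation "Mem" => Cfsg.IsCentralizerLarge
local notation "CL" => Cfsg.IsCentrallyLarge

theorem cj_mem_of_mem {a x : G} {H : Subgroup G} (ha : a ∈ Subgroup.normalizer (H : Set G))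
    (hx : x ∈ H) : a⁻¹ * x * a ∈ H := by
  have h := Subgroup.mem_normalizer_iff''.mp ha x
  exact h.mp hx

/-- In a nilpotent group a member `M` above `X` is normalised by every atom over `X`. -/
theorem atom_le_normalizer [Group.IsNilpotent G] {X a M : Subgroup G} (hX : Mem X) (ha : Mem a)
    (hM : Mem M) (hXa : X ≤ a) (hXM : X ≤ M)
    (hmin : ∀ Y, Mem Y → X ≤ Y → Y ≤ a → Y = X ∨ Y = a) :
    a ≤ Subgroup.normalizer (M : Set G) := by
  by_cases haM : a ≤ M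
  · exact haM.trans Subgroup.le_normalizer
  set T := a ⊔ M
  have hMT : M ≤ T := le_sup_right
  have hlt : M.subgroupOf T ≠ ⊤ := fun e =>
    haM (le_sup_left.trans (Subgroup.subgroupOf_eq_top.mp e))
  obtain ⟨Co, hCo, hle⟩ := (eq_top_or_exists_le_coatom (M.subgroupOf T)).resolve_left hlt
  haveI : Co.Normal := Subgroup.NormalizerCondition.normal_of_coatom Co Group.normalizerCondition_of_isNilpotent hCo
  set N := sSup {K : Subgroup G | ∃ t ∈ T, K = cj t M}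
  have hNmem : Mem N :=
    mem_sSup ⟨_, 1, T.one_mem, rfl⟩ (by rintro K ⟨t, -, rfl⟩; exact mem_cj' hM)
  have hMN : M ≤ N := le_sSup ⟨1, T.one_mem, (cj_one M).symm⟩
  have hNCo : N ≤ Co.map T.subtype := by
    refine sSup_le ?_
    rintro K ⟨t, ht, rfl⟩ x hx
    rw [mem_cj] at hx
    refine ⟨⟨t, ht⟩ * ⟨t⁻¹ * x * t, hMT hx⟩ * ⟨t, ht⟩⁻¹,
      Subgroup.Normal.conj_mem inferInstance _ (hle (by simpa [Subgroup.mem_subgroupOf] using hx)) _,
      ?_⟩
    simp [mul_assoc]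
  have hNT : N ≤ T := hNCo.trans (Subgroup.map_subtype_le _)
  rcases hmin (N ⊓ a) (inf_mem hNmem ha) (le_inf (hXM.trans hMN) hXa) inf_le_right with h | h
  · have hNM : N ≤ M := by
      intro x hx
      obtain ⟨b, hb, m, hm, rfl⟩ := exists_mul_sup ha hM (hNT hx)
      have hbN : b ∈ N := by simpa using mul_mem hx (inv_mem (hMN hm))
      exact mul_mem (hXM (h ▸ (⟨hbN, hb⟩ : b ∈ N ⊓ a) : b ∈ X)) hm
    intro g hg
    rw [← cj_eq_self_iff]
    refine Subgroup.eq_of_le_of_card_ge ?_ (card_cj _ M).ge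
    exact le_trans (show cj g M ≤ N from le_sSup ⟨g, Subgroup.mem_sup_left hg, rfl⟩) hNM
  · exfalso
    have haN : a ≤ N := h ▸ inf_le_left
    refine hCo.1 (top_le_iff.mp fun x _ => ?_)
    obtain ⟨y, hy, e⟩ := hNCo ((sup_le haN hMN) x.2)
    rwa [show x = y from Subtype.ext e.symm]

variable (G) in
/-- The group generated by `J(P)` and the minimal centrally large subgroups. -/
abbrev genL : Subgroup G := Cfsg.thompsonSubgroupA G ⊔ Cfsg.minimalCentrallyLargeJoin G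

/-- An abelian member normalised by `genL`. -/
def Good (X : Subgroup G) : Prop :=
  Mem X ∧ X ≤ cz X ∧ genL G ≤ Subgroup.normalizer (X : Set G)

theorem exists_good_max : ∃ X : Subgroup G, Good X ∧ ∀ Y, Good Y → X ≤ Y → Y = X := by
  have hK := cl_centrallyLargeJoin (G := G)
  have hne : ({X : Subgroup G | Good X}).Nonempty := by
    refine ⟨cz (Cfsg.centrallyLargeJoin G), cz_mem_of_mem (cl_iff.mp hK).1,
      (cl_iff.mp hK).2.trans (le_cz_cz _), ?_⟩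
    intro g _
    rw [← cj_eq_self_iff, ← cz_cj]
    congr 1
    refine Subgroup.eq_of_le_of_card_ge ?_ (card_cj _ _).ge
    unfold Cfsg.centrallyLargeJoin
    rw [cj, Subgroup.map_le_iff_le_comap]
    refine sSup_le fun R hR => ?_
    rw [← Subgroup.map_le_iff_le_comap]
    refine le_sSup (cl_iff.mpr ⟨mem_cj' (cl_iff.mp hR).1, ?_⟩)
    show cz (cj g R) ≤ cj g R
    rw [cz_cj]
    exact cj_mono (cl_iff.mp hR).2
  obtain ⟨X, hX, hmax⟩ := Set.exists_max_image {X : Subgroup G | Good X}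
    (fun X => Nat.card X) (Set.toFinite _) hne
  exact ⟨X, hX, fun Y hY h => (Subgroup.eq_of_le_of_card_ge h (hmax Y hY)).symm⟩

theorem normalizer_cz {X : Subgroup G} {g : G} (hg : g ∈ Subgroup.normalizer (X : Set G)) :
    g ∈ Subgroup.normalizer (cz X : Set G) := by
  rw [← cj_eq_self_iff] at hg ⊢
  rw [← cz_cj, hg]

theorem cz_le_normalizer [Group.IsNilpotent G] {X : Subgroup G} (hX : Good X)
    (hmax : ∀ Y, Good Y → X ≤ Y → Y = X) {M : Subgroup G} (hM : Mem M) (hXM : X ≤ M) :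
    cz X ≤ Subgroup.normalizer (M : Set G) := by
  obtain ⟨mX, hXab, hL⟩ := hX
  set At := {a : Subgroup G | Mem a ∧ X < a ∧ a ≤ cz X ∧
    ∀ Y, Mem Y → X ≤ Y → Y ≤ a → Y = X ∨ Y = a}
  set S := sSup (insert X At) with hS
  have mS : Mem S := mem_sSup ⟨X, Set.mem_insert _ _⟩ (by
    rintro R (rfl | hR)
    · exact mX
    · exact hR.1)
  have hXS : X ≤ S := le_sSup (Set.mem_insert _ _)
  have hSW : S ≤ cz X := sSup_le (by
    rintro R (rfl | hR)
    · exact hXab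
    · exact hR.2.2.1)
  have hSn : genL G ≤ Subgroup.normalizer (S : Set G) := by
    intro g hg
    have hgX : cj g X = X := cj_eq_self_iff.mpr (hL hg)
    rw [← cj_eq_self_iff]
    refine Subgroup.eq_of_le_of_card_ge ?_ (card_cj _ _).ge
    rw [hS, cj, Subgroup.map_le_iff_le_comap]
    refine sSup_le ?_
    rintro R (rfl | hR)
    · rw [← Subgroup.map_le_iff_le_comap]
      exact hgX.le.trans hXS
    · rw [← Subgroup.map_le_iff_le_comap]
      refine le_sSup (Set.mem_insert_of_mem _ ⟨mem_cj' hR.1, ?_, ?_, ?_⟩)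
      · show X < cj g R
        refine lt_of_le_not_ge (hgX.ge.trans (cj_mono hR.2.1.le)) fun h => hR.2.1.not_ge ?_
        exact cj_le_iff.mp (h.trans hgX.ge)
      · show cj g R ≤ cz X
        rw [← hgX, cz_cj]; exact cj_mono hR.2.2.1
      · intro Y hY hXY hYR
        have e : cj g (cj g⁻¹ Y) = Y := by rw [cj_cj, mul_inv_cancel, cj_one]
        rcases hR.2.2.2 (cj g⁻¹ Y) (mem_cj' hY)
          (cj_le_iff.mp (show cj g X ≤ _ by rw [hgX, e]; exact hXY))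
          (cj_le_iff.mp (show _ ≤ cj g R by rw [e]; exact hYR)) with h | h
        · left; rw [← e, h, hgX]
        · right; rw [← e, h]
  have hSS : S ⊓ cz S = X := hmax _ ⟨inf_mem mS (cz_mem_of_mem mS),
    inf_le_right.trans (cz_anti inf_le_left), fun g hg => by
      rw [← cj_eq_self_iff]
      have h1 := cj_eq_self_iff.mpr (hSn hg)
      refine Subgroup.eq_of_le_of_card_ge ?_ (card_cj _ _).ge
      refine le_inf (le_trans (cj_mono inf_le_left) h1.le) (le_trans (cj_mono inf_le_right) ?_)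
      rw [← cz_cj, h1]⟩ (le_inf hXS (le_cz_symm hSW))
  have hcS : cz S = X := by
    by_contra hne
    have hlt : X < cz S := lt_of_le_of_ne (le_cz_symm hSW) (Ne.symm hne)
    obtain ⟨a, ⟨ma, hXa, haS⟩, hamin⟩ := Set.exists_min_image
      {a : Subgroup G | Mem a ∧ X < a ∧ a ≤ cz S} (fun a => Nat.card a) (Set.toFinite _)
      ⟨_, cz_mem_of_mem mS, hlt, le_rfl⟩
    have haAt : a ∈ At := ⟨ma, hXa, haS.trans (cz_anti hXS), fun Y hY hXY hYa => by
      rcases eq_or_lt_of_le hXY with h | h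
      · exact Or.inl h.symm
      · exact Or.inr (Subgroup.eq_of_le_of_card_ge hYa (hamin Y ⟨hY, h, hYa.trans haS⟩))⟩
    have : a ≤ S ⊓ cz S := le_inf (le_sSup (Set.mem_insert_of_mem _ haAt)) haS
    exact hXa.not_ge (this.trans hSS.le)
  rw [← hcS, cz_cz mS]
  refine sSup_le ?_
  rintro R (rfl | hR)
  · exact hXM.trans Subgroup.le_normalizer
  · exact atom_le_normalizer mX hR.1 hM hR.2.1.le hXM hR.2.2.2

/-- The union of the abelian members above `X`. -/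
def InU (X : Subgroup G) (u : G) : Prop := ∃ Y, Mem Y ∧ X ≤ Y ∧ Y ≤ cz Y ∧ u ∈ Y

theorem inU_conj_maxAb [Group.IsNilpotent G] {X : Subgroup G} (hX : Good X)
    (hmax : ∀ Y, Good Y → X ≤ Y → Y = X) {A : Subgroup G}
    (hA : A ∈ Cfsg.maxAbelianSubgroups G) {a : G} (ha : a ∈ A) {u : G} (hu : InU X u) :
    InU X (u⁻¹ * a⁻¹ * u * a) := by
  obtain ⟨Y0, mY0, hXY0, hY0, huY0⟩ := hu
  obtain ⟨Y, ⟨mY, hY0Y, hYY⟩, hYmax⟩ := Set.exists_max_image
    {Y : Subgroup G | Mem Y ∧ Y0 ≤ Y ∧ Y ≤ cz Y} (fun Y => Nat.card Y) (Set.toFinite _)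
    ⟨Y0, mY0, le_rfl, hY0⟩
  have hXY : X ≤ Y := hXY0.trans hY0Y
  have huY : u ∈ Y := hY0Y huY0
  have hAX : A ≤ Subgroup.normalizer (X : Set G) :=
    (le_sSup hA).trans (le_sup_left.trans hX.2.2)
  set Yh := sSup {K : Subgroup G | ∃ b ∈ A, K = cj b Y}
  have mYh : Mem Yh := mem_sSup ⟨_, 1, A.one_mem, rfl⟩ (by
    rintro K ⟨b, -, rfl⟩; exact mem_cj' mY)
  have hYYh : Y ≤ Yh := le_sSup ⟨1, A.one_mem, (cj_one Y).symm⟩
  have hXYh : X ≤ Yh := hXY.trans hYYh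
  have hYhW : Yh ≤ cz X := sSup_le (by
    rintro K ⟨b, hb, rfl⟩
    rw [← cj_eq_self_iff.mpr (hAX hb), cz_cj]
    exact cj_mono (hYY.trans (cz_anti hXY)))
  have hAYh : ∀ b ∈ A, cj b Yh = Yh := by
    intro b hb
    refine Subgroup.eq_of_le_of_card_ge ?_ (card_cj _ _).ge
    rw [cj, Subgroup.map_le_iff_le_comap]
    refine sSup_le ?_
    rintro K ⟨c, hc, rfl⟩
    rw [← Subgroup.map_le_iff_le_comap]
    exact le_sSup ⟨b * c, mul_mem hb hc, cj_cj b c Y⟩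
  set N := cz Yh
  have mN : Mem N := cz_mem_of_mem mYh
  have hXN : X ≤ N := le_cz_symm hYhW
  set Z0 := Yh ⊓ N with hZ0
  have mZ0 : Mem Z0 := inf_mem mYh mN
  have hXZ0 : X ≤ Z0 := le_inf hXYh hXN
  have hZ0Y : Z0 ≤ Y := by
    have h1 : Y ⊔ Z0 ≤ cz (Y ⊔ Z0) := sup_le_cz hYY (inf_le_right.trans (cz_anti inf_le_left))
      (hYYh.trans ((le_cz_cz Yh).trans (cz_anti inf_le_right)))
    have h2 := Subgroup.eq_of_le_of_card_ge (le_sup_left : Y ≤ Y ⊔ Z0)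
      (hYmax _ ⟨sup_mem mY mZ0, hY0Y.trans le_sup_left, h1⟩)
    rw [h2]
    exact le_sup_right
  have hNY : N ≤ cz Y := cz_anti hYYh
  set W0 := cz Z0
  have mW0 : Mem W0 := cz_mem_of_mem mZ0
  have hW0 : ∀ x ∈ W0, ∃ h ∈ Yh, ∃ ν ∈ N, x = h * ν := by
    intro x hx
    have e : W0 = Yh ⊔ N := by
      show cz Z0 = _
      rw [hZ0, cz_inf mYh mN, cz_cz mYh, sup_comm]
    rw [e] at hx
    exact exists_mul_sup mYh mN hx
  have hYhW0 : Yh ≤ W0 := (le_cz_cz Yh).trans (cz_anti inf_le_right)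
  have hW0cl : CL W0 := cl_iff.mpr ⟨mW0, by
    show cz (cz Z0) ≤ cz Z0
    rw [cz_cz mZ0]; exact inf_le_left.trans hYhW0⟩
  -- the max abelian subgroup of `W0` normalised by `A`
  set A2 := Z0 ⊔ (W0 ⊓ A) with hA2
  have hA2max : A2 ∈ Cfsg.maxAbelianSubgroups G := by
    have := (cl_sup_maxAb hW0cl hA).2.2
    rwa [show cz W0 = Z0 from cz_cz mZ0] at this
  have hA2ab := maxAb_le_cz hA2max
  have hZ0A2 : Z0 ≤ A2 := le_sup_left
  have hA2W0 : A2 ≤ W0 := sup_le (inf_le_left.trans hYhW0) inf_le_left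
  have hA2fix : ∀ b ∈ A, ∀ t ∈ A2, ∃ z ∈ Z0, b⁻¹ * t * b = z * t := by
    intro b hb t ht
    obtain ⟨z, hz, t0, ht0, rfl⟩ := exists_mul_of_normalizes (le_normalizer_of_cz
      (show Z0 ≤ cz (W0 ⊓ A) from (le_cz_cz Z0).trans (cz_anti inf_le_left))) ht
    have hbN : b ∈ Subgroup.normalizer (Yh : Set G) := cj_eq_self_iff.mp (hAYh b hb)
    have hbz : b⁻¹ * z * b ∈ Z0 :=
      ⟨cj_mem_of_mem hbN hz.1, cj_mem_of_mem (normalizer_cz hbN) hz.2⟩
    refine ⟨b⁻¹ * z * b * z⁻¹, mul_mem hbz (inv_mem hz), ?_⟩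
    have hc : b * t0 = t0 * b := comm_of_cz (maxAb_le_cz hA ht0.2) hb
    calc b⁻¹ * (z * t0) * b = b⁻¹ * z * (t0 * b) := by group
      _ = b⁻¹ * z * (b * t0) := by rw [hc]
      _ = _ := by group
  set T2 := A2 ⊓ cz Y
  have hT2N : T2 ≤ N := by
    intro t ht
    refine (le_cz_symm ?_ : Subgroup.zpowers t ≤ cz Yh) (Subgroup.mem_zpowers t)
    refine sSup_le ?_
    rintro K ⟨b, hb, rfl⟩
    refine le_cz_symm ((Subgroup.zpowers_le).mpr ?_)
    rw [cz_cj, mem_cj]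
    obtain ⟨z, hz, e⟩ := hA2fix b hb t ht.1
    rw [e]
    exact mul_mem (hNY hz.2) ht.2
  have hczY : CL (cz Y) := cl_iff.mpr ⟨cz_mem_of_mem mY, by rw [cz_cz mY]; exact hYY⟩
  have hB : Y ⊔ T2 ∈ Cfsg.maxAbelianSubgroups G := by
    have := (cl_sup_maxAb hczY hA2max).2.2
    rwa [cz_cz mY, inf_comm] at this
  have hBmem : ∀ x ∈ Y ⊔ T2, ∃ y ∈ Y, ∃ τ ∈ T2, x = y * τ := fun x hx =>
    exists_mul_of_normalizes (le_normalizer_of_cz
      (show Y ≤ cz T2 from le_cz_symm inf_le_right)) hx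
  have hZ0T2 : Z0 ≤ T2 := le_inf hZ0A2 (inf_le_right.trans hNY)
  have hνT2 : ∀ ν ∈ N, ν ∈ cz T2 → ν ∈ T2 := by
    intro ν hν hc
    have hνB : ν ∈ Y ⊔ T2 := by
      rw [← maxAb_cz hB]
      show ν ∈ cz (Y ⊔ T2)
      rw [cz_sup]
      exact ⟨hNY hν, hc⟩
    obtain ⟨y, hy, τ, hτ, rfl⟩ := hBmem ν hνB
    have hyN : y ∈ N := (Subgroup.mul_mem_cancel_right _ (hT2N hτ)).mp hν
    exact mul_mem (hZ0T2 ⟨hYYh hy, hyN⟩) hτ
  have hA2dec : ∀ t ∈ A2, ∃ h ∈ A2 ⊓ Yh, ∃ ν ∈ T2, t = h * ν := by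
    intro t ht
    obtain ⟨h, hh, ν, hν, rfl⟩ := hW0 t (hA2W0 ht)
    have hhc : h ∈ cz T2 := le_cz_symm hT2N hh
    have hνc : ν ∈ cz T2 :=
      (Subgroup.mul_mem_cancel_left _ hhc).mp (cz_anti inf_le_left (hA2ab ht))
    have hν2 := hνT2 ν hν hνc
    exact ⟨h, ⟨(Subgroup.mul_mem_cancel_right _ hν2.1).mp ht, hh⟩, ν, hν2, rfl⟩
  set Y2 := A2 ⊓ Yh
  have hY2ab : Y2 ≤ cz Y2 := inf_le_left.trans (hA2ab.trans (cz_anti inf_le_left))
  have e1 : Y ⊓ T2 = Z0 :=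
    le_antisymm (le_inf (inf_le_left.trans hYYh) (inf_le_right.trans hT2N)) (le_inf hZ0Y hZ0T2)
  have e2 : Y2 ⊓ T2 = Z0 :=
    le_antisymm (le_inf (inf_le_left.trans inf_le_right) (inf_le_right.trans hT2N))
      (le_inf (le_inf hZ0A2 inf_le_left) hZ0T2)
  have c1 := card_mul_eq_of_product (le_sup_left : Y ≤ Y ⊔ T2) le_sup_right hBmem
  have c2 := card_mul_eq_of_product (inf_le_left : Y2 ≤ A2) inf_le_left hA2dec
  rw [e1] at c1
  rw [e2] at c2
  have hBA : Nat.card ↥(Y ⊔ T2) = Nat.card A2 :=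
    le_antisymm (hA2max.2 _ hB.1) (hB.2 _ hA2max.1)
  rw [hBA, c2] at c1
  have hcard : Nat.card Y2 = Nat.card Y := Nat.eq_of_mul_eq_mul_right Nat.card_pos c1
  have hCYh : ∀ h ∈ Yh, h ∈ cz Y → h ∈ Y := by
    intro h hh hc
    have hhB : h ∈ Y ⊔ T2 := by
      rw [← maxAb_cz hB]
      show h ∈ cz (Y ⊔ T2)
      rw [cz_sup]
      exact ⟨hc, le_cz_symm hT2N hh⟩
    obtain ⟨y, hy, τ, hτ, rfl⟩ := hBmem h hhB
    have hτY : τ ∈ Yh := (Subgroup.mul_mem_cancel_left _ (hYYh hy)).mp hh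
    exact mul_mem hy (hZ0Y ⟨hτY, hT2N hτ⟩)
  have c3 : Nat.card Z0 * Nat.card (cz Y) ≤ Nat.card Y * Nat.card N := by
    have hp : ∀ c ∈ cz Y, ∃ y ∈ Y, ∃ ν ∈ N, c = y * ν := by
      intro c hc
      obtain ⟨h, hh, ν, hν, rfl⟩ := hW0 c (cz_anti hZ0Y hc)
      exact ⟨h, hCYh h hh ((Subgroup.mul_mem_cancel_right _ (hNY hν)).mp hc), ν, hν, rfl⟩
    have := card_mul_le_of_product hYY hNY hp
    rwa [show Y ⊓ N = Z0 from le_antisymm (inf_le_inf_right _ hYYh) (le_inf hZ0Y inf_le_right)]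
      at this
  have e3 : Y2 ⊓ N = Z0 :=
    le_antisymm (inf_le_inf_right _ inf_le_right) (le_inf (le_inf hZ0A2 inf_le_left) inf_le_right)
  have c4 := card_mul_le_of_le (J := Y2 ⊔ N) (H := Y2) (K := N) le_sup_left le_sup_right
  rw [e3, hcard] at c4
  have hY2N : Y2 ⊔ N ≤ cz Y2 := sup_le hY2ab (cz_anti inf_le_right)
  have c5 : Nat.card (cz Y) ≤ Nat.card ↥(Y2 ⊔ N) :=
    Nat.le_of_mul_le_mul_left (c3.trans c4) Nat.card_pos
  have mY2 : Mem Y2 := mem_of_ge (by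
    rw [hcard, ← (mY : Nat.card Y * Nat.card (cz Y) = _)]
    exact Nat.mul_le_mul_left _ (c5.trans (Subgroup.card_le_of_le hY2N)))
  have ecz : cz Y2 = Y2 ⊔ N := by
    refine (Subgroup.eq_of_le_of_card_ge hY2N (le_trans ?_ c5)).symm
    refine (Nat.eq_of_mul_eq_mul_left (Nat.card_pos (α := Y)) ?_).le
    nth_rewrite 1 [← hcard]
    exact (mY2 : _).trans (Eq.symm mY)
  -- conclusion
  have hZ0Y2 : Z0 ≤ Y2 := le_inf hZ0A2 inf_le_left
  have hH : CL (cz Y2) := cl_iff.mpr ⟨cz_mem_of_mem mY2, by rw [cz_cz mY2]; exact hY2ab⟩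
  obtain ⟨hG2, hG2p, -⟩ := cl_sup_maxAb hH hA
  have hXG2 : X ≤ cz Y2 ⊔ A := (hXN.trans (cz_anti inf_le_right)).trans le_sup_left
  have huN := cz_le_normalizer hX hmax (cl_iff.mp hG2).1 hXG2 (cz_anti hXY (hYY huY))
  have h1 : u⁻¹ * a⁻¹ * u * a ∈ cz Y2 ⊔ A :=
    mul_mem (cj_mem_of_mem huN (inv_mem (Subgroup.mem_sup_right ha))) (Subgroup.mem_sup_right ha)
  have h2 : u⁻¹ * a⁻¹ * u * a ∈ Yh := by
    have := mul_mem (inv_mem (hYYh huY))
      (cj_mem_of_mem (cj_eq_self_iff.mp (hAYh a ha)) (hYYh huY))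
    simpa [mul_assoc] using this
  set c := u⁻¹ * a⁻¹ * u * a
  obtain ⟨h, hh, a', ha', hc⟩ := hG2p _ h1
  have hhW0 : h ∈ W0 := cz_anti hZ0Y2 hh
  have ha'W : a' ∈ W0 := (Subgroup.mul_mem_cancel_left _ hhW0).mp (hc ▸ hYhW0 h2)
  have hc2 : c ∈ cz Y2 := hc ▸ mul_mem hh
    (cz_anti inf_le_left (hA2ab (Subgroup.mem_sup_right ⟨ha'W, ha'⟩)))
  rw [ecz] at hc2
  obtain ⟨y, hy, ν, hν, hc'⟩ := exists_mul_sup mY2 mN hc2
  have hνYh : ν ∈ Yh := (Subgroup.mul_mem_cancel_left _ hy.2).mp (hc' ▸ h2)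
  exact ⟨Y2, mY2, hXZ0.trans hZ0Y2, hY2ab, hc' ▸ mul_mem hy (hZ0Y2 ⟨hνYh, hν⟩)⟩

theorem inU_conj_cz [Group.IsNilpotent G] {X : Subgroup G} (hX : Good X)
    (hmax : ∀ Y, Good Y → X ≤ Y → Y = X) {R : Subgroup G} (hR : Cfsg.IsMinimalCentrallyLarge R)
    {z : G} (hz : z ∈ cz R) {u : G} (hu : InU X u) : InU X (u⁻¹ * z⁻¹ * u * z) := by
  obtain ⟨Y, mY, hXY, hYY, huY⟩ := hu
  obtain ⟨mR, zR⟩ := cl_iff.mp hR.1
  have huW : u ∈ cz X := cz_anti hXY (hYY huY)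
  have mZ := cz_mem_of_mem mR
  set M := X ⊔ cz R
  have hzL : z ∈ genL G := Subgroup.mem_sup_right (le_sSup (α := Subgroup G) hR (zR hz))
  have huM : u ∈ Subgroup.normalizer (M : Set G) :=
    cz_le_normalizer hX hmax (sup_mem hX.1 mZ) le_sup_left huW
  have h1 : u⁻¹ * z⁻¹ * u * z ∈ M :=
    mul_mem (cj_mem_of_mem huM (inv_mem (Subgroup.mem_sup_right hz))) (Subgroup.mem_sup_right hz)
  have h2 : u⁻¹ * z⁻¹ * u * z ∈ cz X := by
    have := mul_mem (inv_mem huW) (cj_mem_of_mem (normalizer_cz (hX.2.2 hzL)) huW)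
    simpa [mul_assoc] using this
  obtain ⟨x, hx, z', hz', e⟩ := exists_mul_sup hX.1 mZ h1
  refine ⟨X ⊔ (cz R ⊓ cz X), sup_mem hX.1 (inf_mem mZ (cz_mem_of_mem hX.1)), le_sup_left,
    sup_le_cz hX.2.1 (inf_le_left.trans ((zR.trans (le_cz_cz R)).trans (cz_anti inf_le_left)))
      (le_cz_symm inf_le_right), ?_⟩
  rw [e]
  refine mul_mem (Subgroup.mem_sup_left hx) (Subgroup.mem_sup_right ⟨hz', ?_⟩)
  exact (Subgroup.mul_mem_cancel_left _ (hX.2.1 hx)).mp (e ▸ h2)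

theorem inU_conj_cz_self [Group.IsNilpotent G] {X : Subgroup G} (hX : Good X)
    (hmax : ∀ Y, Good Y → X ≤ Y → Y = X) {w : G} (hw : w ∈ cz X) {u : G} (hu : InU X u) :
    InU X (u⁻¹ * w⁻¹ * u * w) := by
  obtain ⟨Y, mY, hXY, hYY, huY⟩ := hu
  refine ⟨Y, mY, hXY, hYY, ?_⟩
  have := mul_mem (inv_mem huY) (cj_mem_of_mem (cz_le_normalizer hX hmax mY hXY hw) huY)
  simpa [mul_assoc] using this

/-- The normalised minimal centrally large subgroup. -/
theorem exists_mcl_normalized [Group.IsNilpotent G] :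
    ∃ Q : Subgroup G, Cfsg.IsMinimalCentrallyLarge Q ∧
      genL G ≤ Subgroup.normalizer (Q : Set G) := by
  obtain ⟨X, hX, hmax⟩ := exists_good_max (G := G)
  have hW : CL (cz X) := cl_iff.mpr ⟨cz_mem_of_mem hX.1, by rw [cz_cz hX.1]; exact hX.2.1⟩
  obtain ⟨Q, hQW, hQ⟩ := exists_mcl_le hW
  have hU : ∀ u, InU X u → u ∈ X := by
    by_contra hcon
    push Not at hcon
    classical
    have hex : ∃ k, ∃ u, InU X u ∧ u ∉ X ∧
        u ∈ X ⊔ Subgroup.upperCentralSeries G k := by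
      obtain ⟨u, hu, huX⟩ := hcon
      obtain ⟨n, hn⟩ := Group.IsNilpotent.nilpotent G
      exact ⟨n, u, hu, huX, by rw [hn, sup_top_eq]; trivial⟩
    obtain ⟨u, hu, huX, huk⟩ := Nat.find_spec hex
    have hk : ∃ k, Nat.find hex = k + 1 := by
      rcases h : Nat.find hex with _ | k
      · rw [h, Subgroup.upperCentralSeries_zero, sup_bot_eq] at huk
        exact absurd huk huX
      · exact ⟨k, rfl⟩
    obtain ⟨k, hk⟩ := hk
    rw [hk] at huk
    have hfix : ∀ g ∈ Subgroup.normalizer (X : Set G), InU X (u⁻¹ * g⁻¹ * u * g) →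
        u⁻¹ * g⁻¹ * u * g ∈ X := by
      intro g hg hc
      by_contra hcX
      have hlt : k < Nat.find hex := by omega
      refine Nat.find_min hex hlt ⟨_, hc, hcX, ?_⟩
      have h1 : u ∈ ((X ⊔ Subgroup.upperCentralSeries G (k + 1) : Subgroup G) : Set G) := huk
      rw [Subgroup.mul_normal] at h1
      obtain ⟨x, hx, z, hz, rfl⟩ := h1
      have hZ : ∀ c ∈ Subgroup.upperCentralSeries G (k + 1), ∀ d : G,
          c⁻¹ * d⁻¹ * c * d ∈ Subgroup.upperCentralSeries G k := by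
        intro c hc d
        have := Subgroup.mem_upperCentralSeries_succ_iff.mp (inv_mem hc) d⁻¹
        simpa [commutatorElement_def, mul_assoc] using this
      have hxg : x⁻¹ * g⁻¹ * x * g ∈ X := by
        have := mul_mem (inv_mem hx) (cj_mem_of_mem hg hx)
        simpa [mul_assoc] using this
      set c := x⁻¹ * g⁻¹ * x * g
      have h2 : (x * z)⁻¹ * g⁻¹ * (x * z) * g =
          c * (c⁻¹ * z⁻¹ * c * z) * (z⁻¹ * g⁻¹ * z * g) := by
        show _ = (x⁻¹ * g⁻¹ * x * g) * ((x⁻¹ * g⁻¹ * x * g)⁻¹ * z⁻¹ * (x⁻¹ * g⁻¹ * x * g) * z) *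
          (z⁻¹ * g⁻¹ * z * g)
        group
      rw [h2]
      refine mul_mem (mul_mem (Subgroup.mem_sup_left hxg) (Subgroup.mem_sup_right ?_))
        (Subgroup.mem_sup_right (hZ z hz g))
      have := inv_mem (hZ z hz c)
      simpa [mul_assoc] using this
    obtain ⟨Y0, mY0, hXY0, hY0, huY0⟩ := hu
    have hu : InU X u := ⟨Y0, mY0, hXY0, hY0, huY0⟩
    set Y := sInf {M : Subgroup G | Mem M ∧ X ≤ M ∧ u ∈ M}
    have hYne : Set.Nonempty {M : Subgroup G | Mem M ∧ X ≤ M ∧ u ∈ M} :=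
      ⟨Y0, mY0, hXY0, huY0⟩
    have mY : Mem Y := mem_sInf hYne fun M hM => hM.1
    have hXY : X ≤ Y := le_sInf fun M hM => hM.2.1
    have huY : u ∈ Y := Subgroup.mem_sInf.mpr fun M hM => hM.2.2
    have hYY0 : Y ≤ Y0 := sInf_le ⟨mY0, hXY0, huY0⟩
    have hstab : ∀ g ∈ Subgroup.normalizer (X : Set G), u⁻¹ * g⁻¹ * u * g ∈ X →
        g ∈ Subgroup.normalizer (Y : Set G) := by
      intro g hg hc
      rw [← cj_eq_self_iff]
      refine (Subgroup.eq_of_le_of_card_ge (show Y ≤ cj g Y from sInf_le ⟨mem_cj' mY, ?_, ?_⟩)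
        (card_cj _ _).le).symm
      · exact (cj_eq_self_iff.mpr hg).ge.trans (cj_mono hXY)
      · rw [mem_cj]
        simpa [mul_assoc] using mul_mem huY (hXY hc)
    have hgood : Good Y := by
      refine ⟨mY, hYY0.trans (hY0.trans (cz_anti hYY0)), sup_le (sSup_le ?_) (sSup_le ?_)⟩
      · intro A hA a ha
        have haX := hX.2.2 (Subgroup.mem_sup_left (le_sSup (α := Subgroup G) hA ha))
        exact hstab a haX (hfix a haX (inU_conj_maxAb hX hmax hA ha hu))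
      · intro R hR r hr
        obtain ⟨r0, hr0, z, hz, rfl⟩ := mcl_exists_mul hR hQ.1 hr
        have hzL : z ∈ Subgroup.normalizer (X : Set G) :=
          hX.2.2 (Subgroup.mem_sup_right (le_sSup (α := Subgroup G) hR ((cl_iff.mp hR.1).2 hz)))
        have hr0X : r0 ∈ Subgroup.normalizer (X : Set G) :=
          le_normalizer_of_cz le_rfl (hQW hr0.2)
        exact mul_mem (hstab r0 hr0X (hfix r0 hr0X (inU_conj_cz_self hX hmax (hQW hr0.2) hu)))
          (hstab z hzL (hfix z hzL (inU_conj_cz hX hmax hR hz hu)))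
    exact huX ((hmax Y hgood hXY) ▸ huY)
  refine ⟨cz X, ?_, fun g hg => normalizer_cz (hX.2.2 hg)⟩
  have mQ := (cl_iff.mp hQ.1).1
  have h1 : cz Q = X := by
    refine le_antisymm (fun u hu => hU u ⟨cz Q, cz_mem_of_mem mQ, ?_, ?_, hu⟩) ?_
    · exact le_cz_symm hQW
    · exact ((cl_iff.mp hQ.1).2).trans (le_cz_cz Q)
    · exact le_cz_symm hQW
  rw [show cz X = Q by rw [← h1, cz_cz mQ]]
  exact hQ

end Cfsg.Agent.LocalEven.CD
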