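import Cfsg.Prelude.Def_DStar
import Cfsg.Agent.LocalEven.Conj
import Mathlib.GroupTheory.Nilpotent

/-! `D*(S)` is abelian and a member of its family. -/

set_option autoImplicit false
set_option linter.style.haveILetI false

open scoped commutatorElement

namespace Cfsg.Agent.LocalEven.DSt

variable {S : Type*} [Group S]

theorem cj_mem {A : Subgroup S} (hA : A ∈ Cfsg.dStarFamily S) (g : S) :
    cj g A ∈ Cfsg.dStarFamily S := by
  haveI := hA.1
  refine ⟨inferInstanceAs (IsMulCommutative (A.map (MulAut.conj g).toMonoidHom)), fun x hx => ?_⟩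
  rintro _ ⟨a, ha, rfl⟩
  have e : cj g⁻¹ (cj g A ⊔ Subgroup.zpowers x) = A ⊔ Subgroup.zpowers (g⁻¹ * x * g) := by
    show Subgroup.map _ _ = _
    rw [Subgroup.map_sup, MonoidHom.map_zpowers]
    congr 1
    · show cj g⁻¹ (cj g A) = A
      rw [cj_cj, inv_mul_cancel, cj_one]
    · simp
  have h2 := congrArg (cj g⁻¹) hx
  rw [show cj g⁻¹ (⊥ : Subgroup S) = ⊥ from Subgroup.map_bot _] at h2
  rw [cj, Subgroup.map_commutator, Subgroup.map_commutator] at h2
  rw [show (cj g A ⊔ Subgroup.zpowers x).map (MulAut.conj g⁻¹).toMonoidHom = _ from e] at h2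
  have h3 := hA.2 _ h2 a ha
  show g * a * g⁻¹ * x = x * (g * a * g⁻¹)
  calc g * a * g⁻¹ * x = g * (a * (g⁻¹ * x * g)) * g⁻¹ := by group
    _ = g * ((g⁻¹ * x * g) * a) * g⁻¹ := by rw [h3]
    _ = _ := by group

theorem commutator_le_of_product {H C D Z : Subgroup S}
    (hH : ∀ h ∈ H, ∃ c ∈ C, ∃ d ∈ D, h = c * d) (hCH : C ≤ H) (hDH : D ≤ H)
    (hC : IsMulCommutative C) (hD : IsMulCommutative D) (hZ : Z ≤ Subgroup.centralizer (H : Set S))
    (hCD : ∀ c ∈ C, ∀ d ∈ D, c * d * c⁻¹ * d⁻¹ ∈ Z) : ⁅H, H⁆ ≤ Z := by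
  rw [Subgroup.commutator_le]
  intro g hg g' hg'
  obtain ⟨a, ha, b, hb, rfl⟩ := hH g hg
  obtain ⟨a', ha', b', hb', rfl⟩ := hH g' hg'
  have hz : ∀ z ∈ Z, ∀ h ∈ H, h * z = z * h := fun z hz h hh =>
    Subgroup.mem_centralizer_iff.mp (hZ hz) h hh
  set z1 := b * a' * b⁻¹ * a'⁻¹ with h1
  have hz1 : z1 ∈ Z := by
    have := inv_mem (hCD a' ha' b hb)
    simpa [h1, mul_assoc] using this
  set z2 := a * b' * a⁻¹ * b'⁻¹ with h2
  have hz2 : z2 ∈ Z := hCD a ha b' hb'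
  have eba : b * a' = z1 * (a' * b) := by rw [h1]; group
  have cbb : b * b' = b' * b := congrArg Subtype.val (mul_comm' (⟨b, hb⟩ : D) ⟨b', hb'⟩)
  have caa : a * a' = a' * a := congrArg Subtype.val (mul_comm' (⟨a, ha⟩ : C) ⟨a', ha'⟩)
  have e : ⁅a * b, a' * b'⁆ = z1 * z2 := by
    rw [commutatorElement_def]
    calc a * b * (a' * b') * (a * b)⁻¹ * (a' * b')⁻¹
        = a * (b * a') * (b' * b⁻¹) * a⁻¹ * b'⁻¹ * a'⁻¹ := by group
      _ = a * z1 * a' * (b * b') * b⁻¹ * a⁻¹ * b'⁻¹ * a'⁻¹ := by rw [eba]; group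
      _ = z1 * (a * a') * (b' * b) * b⁻¹ * a⁻¹ * b'⁻¹ * a'⁻¹ := by
          rw [hz z1 hz1 a (hCH ha), cbb]; group
      _ = z1 * (a' * z2 * a'⁻¹) := by rw [caa, h2]; group
      _ = z1 * z2 := by rw [hz z2 hz2 a' (hCH ha'), mul_inv_cancel_right]
  rw [e]
  exact mul_mem hz1 hz2

theorem commute_aux [Finite S] {p : ℕ} [Fact p.Prime] (hS : IsPGroup p S) :
    ∀ n : ℕ, ∀ A B : Subgroup S, A ∈ Cfsg.dStarFamily S → B ∈ Cfsg.dStarFamily S →
      Nat.card ↥(A ⊔ B) = n → A ≤ Subgroup.centralizer (B : Set S) := by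
  intro n
  induction n using Nat.strong_induction_on with
  | _ n ih =>
  intro A B hA hB hn
  set H := A ⊔ B
  haveI := hA.1
  haveI := hB.1
  by_cases hHA : H ≤ A
  · exact fun a ha => Subgroup.mem_centralizer_iff.mpr fun b hb =>
      congrArg Subtype.val (mul_comm' (⟨b, hHA (Subgroup.mem_sup_right hb)⟩ : A) ⟨a, ha⟩)
  by_cases hHB : H ≤ B
  · exact fun a ha => Subgroup.mem_centralizer_iff.mpr fun b hb =>
      congrArg Subtype.val (mul_comm' (⟨b, hb⟩ : B) ⟨a, hHB (Subgroup.mem_sup_left ha)⟩)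
  haveI : Group.IsNilpotent ↥H := (hS.to_subgroup H).isNilpotent
  -- the closure of a member under `H`
  have clo : ∀ C : Subgroup S, C ∈ Cfsg.dStarFamily S → C ≤ H → ¬ H ≤ C →
      ∃ K : Subgroup S, C ≤ K ∧ K ≤ H ∧ IsMulCommutative K ∧ H ≤ Subgroup.normalizer (K : Set S) := by
    intro C hC hCH hne
    obtain ⟨M, hM, hCM⟩ := (eq_top_or_exists_le_coatom (C.subgroupOf H)).resolve_left
      fun e => hne (Subgroup.subgroupOf_eq_top.mp e)
    haveI := Subgroup.NormalizerCondition.normal_of_coatom M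
      Group.normalizerCondition_of_isNilpotent hM
    have hconj : ∀ h : H, cj (h : S) C ≤ M.map H.subtype := by
      rintro h _ ⟨c, hc, rfl⟩
      exact ⟨h * ⟨c, hCH hc⟩ * h⁻¹, ‹M.Normal›.conj_mem _ (hCM (show (⟨c, hCH hc⟩ : H) ∈ C.subgroupOf H from hc)) h, rfl⟩
    have hlt : Nat.card ↥(M.map H.subtype) < n := by
      rw [← hn, Subgroup.card_map_of_injective H.subtype_injective]
      exact lt_of_le_of_ne (Subgroup.card_le_card_group M) fun e =>
        hM.1 (Subgroup.eq_top_of_card_eq M e)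
    refine ⟨⨆ h : H, cj (h : S) C, le_iSup_of_le (1 : H) (cj_one C).ge,
      iSup_le fun h => (hconj h).trans (Subgroup.map_subtype_le M), ?_, ?_⟩
    · rw [← Subgroup.le_centralizer_iff_isMulCommutative]
      refine iSup_le fun h => Subgroup.le_centralizer_iff.mpr (iSup_le fun h' => ?_)
      exact ih _ (lt_of_le_of_lt (Subgroup.card_le_of_le (sup_le (hconj h') (hconj h))) hlt) _ _
        (cj_mem hC _) (cj_mem hC _) rfl
    · intro g hg
      rw [← cj_eq_self_iff]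
      refine Subgroup.eq_of_le_of_card_ge ?_ (card_cj g _).ge
      rw [cj, Subgroup.map_iSup]
      exact iSup_le fun h => le_iSup_of_le (⟨g, hg⟩ * h : H) (cj_cj g h C).le
  obtain ⟨K, hAK, hKH, hK, hKn⟩ := clo A hA le_sup_left hHA
  obtain ⟨L, hBL, hLH, hL, hLn⟩ := clo B hB le_sup_right hHB
  have hprod : ∀ h ∈ H, ∃ c ∈ K, ∃ d ∈ L, h = c * d := by
    intro h hh
    have hh' : h ∈ ((K ⊔ L : Subgroup S) : Set S) := (sup_le_sup hAK hBL : H ≤ K ⊔ L) hh
    rw [Subgroup.coe_mul_of_right_le_normalizer_left K L (hLH.trans hKn)] at hh'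
    obtain ⟨c, hc, d, hd, e⟩ := hh'
    exact ⟨c, hc, d, hd, e.symm⟩
  have hZ : K ⊓ L ≤ Subgroup.centralizer (H : Set S) := by
    intro z hz
    rw [Subgroup.mem_centralizer_iff]
    intro h hh
    obtain ⟨c, hc, d, hd, rfl⟩ := hprod h hh
    have h1 : c * z = z * c := congrArg Subtype.val (mul_comm' (⟨c, hc⟩ : K) ⟨z, hz.1⟩)
    have h2 : d * z = z * d := congrArg Subtype.val (mul_comm' (⟨d, hd⟩ : L) ⟨z, hz.2⟩)
    rw [mul_assoc, h2, ← mul_assoc, h1, mul_assoc]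
  have hCD : ∀ c ∈ K, ∀ d ∈ L, c * d * c⁻¹ * d⁻¹ ∈ K ⊓ L := fun c hc d hd =>
    ⟨by
      rw [mul_assoc (c * d), show c * d * (c⁻¹ * d⁻¹) = c * (d * c⁻¹ * d⁻¹) by group]
      exact K.mul_mem hc ((Subgroup.mem_normalizer_iff.mp (hKn (hLH hd)) _).mp (K.inv_mem hc)),
     L.mul_mem ((Subgroup.mem_normalizer_iff.mp (hLn (hKH hc)) d).mp hd) (L.inv_mem hd)⟩
  have hcl : ⁅⁅H, H⁆, H⁆ = ⊥ := Subgroup.commutator_eq_bot_iff_le_centralizer.mpr
    ((commutator_le_of_product hprod hKH hLH hK hL hZ hCD).trans hZ)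
  intro a ha
  rw [Subgroup.mem_centralizer_iff]
  intro b hb
  have hle : A ⊔ Subgroup.zpowers b ≤ H :=
    sup_le le_sup_left (Subgroup.zpowers_le.mpr (Subgroup.mem_sup_right hb))
  exact (hA.2 b (le_bot_iff.mp (hcl ▸ Subgroup.commutator_mono
    (Subgroup.commutator_mono hle hle) hle)) a ha).symm

theorem dStar_mem [Finite S] {p : ℕ} [Fact p.Prime] (hS : IsPGroup p S) :
    Cfsg.dStar S ∈ Cfsg.dStarFamily S := by
  refine ⟨?_, fun x hx d hd => ?_⟩
  · rw [← Subgroup.le_centralizer_iff_isMulCommutative]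
    exact sSup_le fun A hA => Subgroup.le_centralizer_iff.mpr
      (sSup_le fun B hB => commute_aux hS _ B A hB hA rfl)
  · have hle : Cfsg.dStar S ≤ Subgroup.centralizer ({x} : Set S) := sSup_le fun A hA a ha => by
      rw [Subgroup.mem_centralizer_singleton_iff]
      have hle : A ⊔ Subgroup.zpowers x ≤ Cfsg.dStar S ⊔ Subgroup.zpowers x :=
        sup_le_sup_right (le_sSup hA) _
      exact hA.2 x (le_bot_iff.mp (hx ▸ Subgroup.commutator_mono
        (Subgroup.commutator_mono hle hle) hle)) a ha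
    exact Subgroup.mem_centralizer_singleton_iff.mp (hle hd)

end Cfsg.Agent.LocalEven.DSt
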