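import Cfsg.Agent.LocalEven.DStarAbelian
import Cfsg.Prelude.Def_PLocal
import Cfsg.Agent.PLocal.ZJ

/-! The `D*` theorem. -/

set_option autoImplicit false
set_option linter.style.haveILetI false

namespace Cfsg.Agent.LocalEven.DSt

variable {G : Type*} [Group G]

/-- `A` belongs to the family of `P`, inside the ambient group. -/
def InFam (P A : Subgroup G) : Prop :=
  A ≤ P ∧ A.subgroupOf P ∈ Cfsg.dStarFamily P

theorem class_two_map {P : Subgroup G} (A : Subgroup P) (x : P) :
    ⁅⁅A.map P.subtype ⊔ Subgroup.zpowers (x : G), A.map P.subtype ⊔ Subgroup.zpowers (x : G)⁆,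
      A.map P.subtype ⊔ Subgroup.zpowers (x : G)⁆ = ⊥ ↔
    ⁅⁅A ⊔ Subgroup.zpowers x, A ⊔ Subgroup.zpowers x⁆, A ⊔ Subgroup.zpowers x⁆ = ⊥ := by
  have e : (A ⊔ Subgroup.zpowers x).map P.subtype = A.map P.subtype ⊔ Subgroup.zpowers (x : G) := by
    rw [Subgroup.map_sup, MonoidHom.map_zpowers]; rfl
  rw [← e, ← Subgroup.map_commutator, ← Subgroup.map_commutator,
    Subgroup.map_eq_bot_iff_of_injective _ P.subtype_injective]

theorem inFam_iff {P A : Subgroup G} (h : A ≤ P) : InFam P A ↔ IsMulCommutative A ∧ ∀ x ∈ P,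
    ⁅⁅A ⊔ Subgroup.zpowers x, A ⊔ Subgroup.zpowers x⁆, A ⊔ Subgroup.zpowers x⁆ = ⊥ →
      ∀ a ∈ A, a * x = x * a := by
  have e : (A.subgroupOf P).map P.subtype = A := by
    rw [Subgroup.subgroupOf_map_subtype, inf_of_le_left h]
  constructor
  · rintro ⟨-, hab, hA⟩
    haveI := hab
    refine ⟨e ▸ (inferInstanceAs (IsMulCommutative ((A.subgroupOf P).map P.subtype))), ?_⟩
    intro x hx hcl a ha
    rw [← e, show x = ((⟨x, hx⟩ : P) : G) from rfl, class_two_map] at hcl
    exact congrArg Subtype.val (hA ⟨x, hx⟩ hcl ⟨a, h ha⟩ ha)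
  · rintro ⟨hab, hA⟩
    refine ⟨h, ⟨⟨fun a b => ?_⟩⟩, fun x hcl a ha => ?_⟩
    · haveI := hab
      exact Subtype.ext (Subtype.ext (congrArg (fun z : A => (z : G))
        (mul_comm' (⟨((a : P) : G), a.2⟩ : A) ⟨((b : P) : G), b.2⟩)))
    · refine Subtype.ext (hA x x.2 ?_ _ ha)
      have := (class_two_map (A.subgroupOf P) x).mpr hcl
      rwa [e] at this

theorem dStarOf_le (P : Subgroup G) : Cfsg.dStarOf P ≤ P := Subgroup.map_subtype_le _

theorem dStarOf_inFam [Finite G] {p : ℕ} [Fact p.Prime] {P : Subgroup G} (hP : IsPGroup p P) :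
    InFam P (Cfsg.dStarOf P) := by
  refine ⟨dStarOf_le P, ?_⟩
  rw [Cfsg.dStarOf, show ((Cfsg.dStar P).map P.subtype).subgroupOf P = Cfsg.dStar P from
    Subgroup.comap_map_eq_self_of_injective P.subtype_injective _]
  exact dStar_mem hP

theorem le_dStarOf {P A : Subgroup G} (h : InFam P A) : A ≤ Cfsg.dStarOf P := fun a ha =>
  ⟨⟨a, h.1 ha⟩, (le_sSup h.2 : A.subgroupOf P ≤ Cfsg.dStar P) ha, rfl⟩

theorem inFam_commute [Finite G] {p : ℕ} [Fact p.Prime] {P A B : Subgroup G} (hP : IsPGroup p P)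
    (hA : InFam P A) (hB : InFam P B) : A ≤ Subgroup.centralizer (B : Set G) := by
  intro a ha
  rw [Subgroup.mem_centralizer_iff]
  intro b hb
  exact congrArg Subtype.val (Subgroup.mem_centralizer_iff.mp
    (commute_aux hP _ _ _ hA.2 hB.2 rfl (show (⟨a, hA.1 ha⟩ : P) ∈ A.subgroupOf P from ha))
    ⟨b, hB.1 hb⟩ hb)

theorem cj_dStarOf [Finite G] {p : ℕ} [Fact p.Prime] {P : Subgroup G} (hP : IsPGroup p P) {n : G}
    (hn : n ∈ Subgroup.normalizer (P : Set G)) : cj n (Cfsg.dStarOf P) = Cfsg.dStarOf P := by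
  refine Subgroup.eq_of_le_of_card_ge (le_dStarOf ?_) (card_cj n _).ge
  have hle : cj n (Cfsg.dStarOf P) ≤ P :=
    (cj_mono (dStarOf_le P)).trans (cj_eq_self_iff.mpr hn).le
  obtain ⟨hab, hA⟩ := (inFam_iff (dStarOf_le P)).mp (dStarOf_inFam hP)
  haveI := hab
  refine (inFam_iff hle).mpr
    ⟨inferInstanceAs (IsMulCommutative ((Cfsg.dStarOf P).map (MulAut.conj n).toMonoidHom)), ?_⟩
  intro x hx hcl
  rintro _ ⟨a, ha, rfl⟩
  have e : cj n (Cfsg.dStarOf P ⊔ Subgroup.zpowers (n⁻¹ * x * n)) =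
      cj n (Cfsg.dStarOf P) ⊔ Subgroup.zpowers x := by
    show Subgroup.map _ _ = _
    rw [Subgroup.map_sup, MonoidHom.map_zpowers]
    congr 1
    simp [mul_assoc]
  rw [← e, cj, ← Subgroup.map_commutator, ← Subgroup.map_commutator,
    Subgroup.map_eq_bot_iff_of_injective _ (MulAut.conj n).injective] at hcl
  have h3 := hA _ ((Subgroup.mem_normalizer_iff''.mp hn x).mp hx) hcl a ha
  show n * a * n⁻¹ * x = x * (n * a * n⁻¹)
  calc n * a * n⁻¹ * x = n * (a * (n⁻¹ * x * n)) * n⁻¹ := by group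
    _ = n * ((n⁻¹ * x * n) * a) * n⁻¹ := by rw [h3]
    _ = _ := by group

/-- The `D*` theorem. -/
theorem dStarOf_normal [Finite G] {p : ℕ} [Fact p.Prime]
    (hc : Subgroup.centralizer (Cfsg.pCore p G : Set G) ≤ Cfsg.pCore p G)
    (hst : ∀ (P : Subgroup G) [P.Normal], IsPGroup p P → Cfsg.IsPStableOn p P) (S : Sylow p G) :
    (Cfsg.dStarOf (S : Subgroup G)).Normal := by
  set D := Cfsg.dStarOf (S : Subgroup G)
  set O := Cfsg.pCore p G
  have hOn : O.Normal := inferInstance
  have hDS : D ≤ (S : Subgroup G) := dStarOf_le _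
  have hSD : (S : Subgroup G) ≤ Subgroup.normalizer (D : Set G) := fun s hs =>
    cj_eq_self_iff.mp (cj_dStarOf S.isPGroup' (Subgroup.le_normalizer hs))
  obtain ⟨hDab, hDfam⟩ := (inFam_iff hDS).mp (dStarOf_inFam S.isPGroup')
  have hcomm : ∀ X : Subgroup G, X ≤ (S : Subgroup G) → ⁅X, D⁆ ≤ D := fun X hX =>
    Subgroup.commutator_le.mpr fun s hs d hd => by
      rw [commutatorElement_def]
      exact mul_mem ((Subgroup.mem_normalizer_iff.mp (hSD (hX hs)) d).mp hd) (inv_mem hd)
  have hDD : ⁅D, D⁆ = ⊥ := Subgroup.commutator_eq_bot_iff_le_centralizer.mpr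
    (Subgroup.le_centralizer_iff_isMulCommutative.mpr hDab)
  -- `D ≤ O_p`
  have hDO : D ≤ O := by
    intro d hd
    have h1 := hst O (Core.isPGroup_pCore p G) d (le_bot_iff.mp (hDD ▸ Subgroup.commutator_mono
      ((Subgroup.commutator_mono le_rfl (Subgroup.zpowers_le.mpr hd)).trans
        (hcomm O (Core.pCore_le_sylow S))) (Subgroup.zpowers_le.mpr hd)))
    haveI : ((Cfsg.pCore p (G ⧸ Subgroup.centralizer (O : Set G))).comap
        (QuotientGroup.mk' (Subgroup.centralizer (O : Set G)))).Normal :=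
      Subgroup.Normal.comap inferInstance _
    refine Core.le_pCore this ?_ h1
    refine (Core.isPGroup_pCore p _).comap_of_ker_isPGroup _ ?_
    rw [QuotientGroup.ker_mk']
    exact (Core.isPGroup_pCore p G).to_le hc
  -- the normal closure is abelian
  set V := Subgroup.normalClosure (D : Set G)
  haveI hVn : V.Normal := inferInstance
  have hcjO : ∀ g : G, cj g D ≤ O := fun g =>
    (cj_mono hDO).trans (cj_eq_self_iff.mpr (Subgroup.normalizer_eq_top_iff.mpr hOn ▸ Subgroup.mem_top g)).le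
  have hfamO : ∀ g : G, InFam O (cj g D) := by
    intro g
    refine (inFam_iff (hcjO g)).mpr
      ⟨haveI := hDab; inferInstanceAs (IsMulCommutative (D.map (MulAut.conj g).toMonoidHom)), ?_⟩
    intro x hx hcl
    rintro _ ⟨a, ha, rfl⟩
    have e : cj g (D ⊔ Subgroup.zpowers (g⁻¹ * x * g)) = cj g D ⊔ Subgroup.zpowers x := by
      show Subgroup.map _ _ = _
      rw [Subgroup.map_sup, MonoidHom.map_zpowers]
      congr 1
      simp [mul_assoc]
    rw [← e, cj, ← Subgroup.map_commutator, ← Subgroup.map_commutator,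
      Subgroup.map_eq_bot_iff_of_injective _ (MulAut.conj g).injective] at hcl
    have hx' : g⁻¹ * x * g ∈ (S : Subgroup G) := Core.pCore_le_sylow S (by
      simpa using hOn.conj_mem x hx g⁻¹)
    have h3 := hDfam _ hx' hcl a ha
    show g * a * g⁻¹ * x = x * (g * a * g⁻¹)
    calc g * a * g⁻¹ * x = g * (a * (g⁻¹ * x * g)) * g⁻¹ := by group
      _ = g * ((g⁻¹ * x * g) * a) * g⁻¹ := by rw [h3]
      _ = _ := by group
  have hV : ∀ X : Subgroup G, (∀ g : G, cj g D ≤ X) → V ≤ X := by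
    intro X hX
    refine (Subgroup.closure_le _).mpr fun y hy => ?_
    obtain ⟨d, hd, hdy⟩ := Group.mem_conjugatesOfSet_iff.mp hy
    obtain ⟨g, rfl⟩ := isConj_iff.mp hdy
    exact hX g ⟨d, hd, rfl⟩
  have hVO : V ≤ O := hV O hcjO
  have hVab : IsMulCommutative V := by
    rw [← Subgroup.le_centralizer_iff_isMulCommutative]
    refine hV _ fun g => Subgroup.le_centralizer_iff.mpr (hV _ fun g' => ?_)
    exact inFam_commute (Core.isPGroup_pCore p G) (hfamO g') (hfamO g)
  have hDV : D ≤ V := Subgroup.le_normalClosure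
  -- Frattini
  set C := Subgroup.centralizer (V : Set G)
  set K := (Cfsg.pCore p (G ⧸ C)).comap (QuotientGroup.mk' C)
  haveI : K.Normal := Subgroup.Normal.comap inferInstance _
  have hCK : C ≤ K := fun x hx => by
    show QuotientGroup.mk' C x ∈ Cfsg.pCore p (G ⧸ C)
    rw [show QuotientGroup.mk' C x = 1 from (QuotientGroup.eq_one_iff x).mpr hx]
    exact one_mem _
  have hk : ∃ k, C.relIndex K ∣ p ^ k := by
    obtain ⟨k, hk⟩ := IsPGroup.iff_card.mp (Core.isPGroup_pCore p (G ⧸ C))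
    refine ⟨k, ?_⟩
    have e : C = (⊥ : Subgroup (G ⧸ C)).comap (QuotientGroup.mk' C) := by
      rw [MonoidHom.comap_bot, QuotientGroup.ker_mk']
    nth_rewrite 1 [e]
    rw [Subgroup.relIndex_comap, Subgroup.map_comap_eq_self_of_surjective
      (QuotientGroup.mk'_surjective C), Subgroup.relIndex_bot_left, hk]
  have hFr := PLocal.normalizer_inf_sup_eq_top S K C hCK hk
  -- `V` is a member of the family of `S`
  have hfam : InFam (S : Subgroup G) V := by
    refine (inFam_iff (hVO.trans (Core.pCore_le_sylow S))).mpr ⟨hVab, fun x hx hcl => ?_⟩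
    have hquad : ⁅⁅V, Subgroup.zpowers x⁆, Subgroup.zpowers x⁆ = ⊥ := le_bot_iff.mp (hcl ▸
      Subgroup.commutator_mono (Subgroup.commutator_mono le_sup_left le_sup_right) le_sup_right)
    have hle : V ≤ Subgroup.centralizer ({x} : Set G) := by
      refine hV _ fun g => ?_
      have hg : g ∈ ((C ⊔ Subgroup.normalizer (((S : Subgroup G) ⊓ K : Subgroup G) : Set G) :
          Subgroup G) : Set G) := by rw [hFr]; exact Subgroup.mem_top g
      rw [Subgroup.normal_mul] at hg
      obtain ⟨c, hc', n, hn, rfl⟩ := hg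
      rintro _ ⟨d, hd, rfl⟩
      rw [Subgroup.mem_centralizer_singleton_iff]
      have hnd : n * d * n⁻¹ ∈ V := hVn.conj_mem d (hDV hd) n
      show c * n * d * (c * n)⁻¹ * x = x * (c * n * d * (c * n)⁻¹)
      have e1 : c * n * d * (c * n)⁻¹ = n * d * n⁻¹ := by
        calc c * n * d * (c * n)⁻¹ = c * (n * d * n⁻¹) * c⁻¹ := by group
          _ = _ := by rw [← Subgroup.mem_centralizer_iff.mp hc' _ hnd, mul_inv_cancel_right]
      rw [e1]
      -- the conjugate of `x` acts quadratically on `D`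
      set y := n⁻¹ * x * n
      have hxR : x ∈ (S : Subgroup G) ⊓ K := ⟨hx, hst V ((Core.isPGroup_pCore p G).to_le hVO) x hquad⟩
      have hyR : y ∈ (S : Subgroup G) ⊓ K := (Subgroup.mem_normalizer_iff''.mp hn x).mp hxR
      have hyq : ⁅⁅V, Subgroup.zpowers y⁆, Subgroup.zpowers y⁆ = ⊥ := by
        have h := congrArg (cj n⁻¹) hquad
        rw [cj, Subgroup.map_commutator, Subgroup.map_commutator, MonoidHom.map_zpowers,
          show V.map (MulAut.conj n⁻¹).toMonoidHom = V from cj_eq_self_iff.mpr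
            (Subgroup.normalizer_eq_top_iff.mpr hVn ▸ Subgroup.mem_top _),
          show cj n⁻¹ (⊥ : Subgroup G) = ⊥ from Subgroup.map_bot _] at h
        simpa [y] using h
      set H := D ⊔ Subgroup.zpowers y
      have hyD : Subgroup.zpowers y ≤ Subgroup.normalizer (D : Set G) :=
        Subgroup.zpowers_le.mpr (hSD hyR.1)
      have hprod : ∀ h ∈ H, ∃ a ∈ D, ∃ b ∈ Subgroup.zpowers y, h = a * b := fun h hh => by
        have hh' : h ∈ ((D ⊔ Subgroup.zpowers y : Subgroup G) : Set G) := hh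
        rw [Subgroup.coe_mul_of_right_le_normalizer_left D _ hyD] at hh'
        obtain ⟨a, ha, b, hb, e⟩ := hh'
        exact ⟨a, ha, b, hb, e.symm⟩
      set Z := D ⊓ Subgroup.centralizer (Subgroup.zpowers y : Set G)
      have hZ : Z ≤ Subgroup.centralizer (H : Set G) := by
        refine Subgroup.le_centralizer_iff.mp (sup_le ?_ ?_)
        · exact (Subgroup.le_centralizer_iff_isMulCommutative.mpr hDab).trans
            (Subgroup.centralizer_le inf_le_left)
        · exact Subgroup.le_centralizer_iff.mp inf_le_right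
      have hclass : ⁅⁅H, H⁆, H⁆ = ⊥ := Subgroup.commutator_eq_bot_iff_le_centralizer.mpr
        ((commutator_le_of_product hprod le_sup_left le_sup_right hDab inferInstance hZ
          fun a ha b hb => ⟨?_, ?_⟩).trans hZ)
      · have h3 := hDfam y hyR.1 hclass d hd
        calc n * d * n⁻¹ * x = n * (d * y) * n⁻¹ := by simp only [y]; group
          _ = n * (y * d) * n⁻¹ := by rw [h3]
          _ = _ := by simp only [y]; group
      · have := D.mul_mem ha
          ((Subgroup.mem_normalizer_iff.mp (hyD hb) _).mp (D.inv_mem ha))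
        simpa [mul_assoc] using this
      · have h2 : a * b * a⁻¹ * b⁻¹ ∈ ⁅V, Subgroup.zpowers y⁆ :=
          Subgroup.commutator_mem_commutator (hDV ha) hb
        exact Subgroup.commutator_eq_bot_iff_le_centralizer.mp hyq h2
    intro a ha
    exact Subgroup.mem_centralizer_singleton_iff.mp (hle ha)
  have : V = D := le_antisymm (le_dStarOf hfam) hDV
  rw [← this]
  exact hVn

end Cfsg.Agent.LocalEven.DSt
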