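import Cfsg.Agent.FGS3.Extraspecial
import Mathlib.LinearAlgebra.LinearIndependent.Lemmas
import Mathlib.LinearAlgebra.Dual.Lemmas
import Mathlib.LinearAlgebra.Eigenspace.Charpoly
import Mathlib.LinearAlgebra.Charpoly.BaseChange
import Mathlib.FieldTheory.IsAlgClosed.AlgebraicClosure
import Mathlib.Algebra.Module.ZMod
import Mathlib.FieldTheory.Finiteness

/-! The dimension of a faithful module of an extraspecial group. -/

set_option autoImplicit false

namespace Cfsg.Agent.LocalEven

open Module

/-- A representation in which the centre of an extraspecial group acts by non-trivial scalars has dimension at least `p ^ w`. -/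
theorem extraspecial_scalar_bound {E : Type*} [Group E] [Finite E] {p : ℕ} [hp : Fact p.Prime]
    (hE : Cfsg.IsExtraspecial p E) {w : ℕ} (hcard : Nat.card E = p ^ (2 * w + 1))
    {K U : Type*} [Field K] [AddCommGroup U] [Module K U] [FiniteDimensional K U] [Nontrivial U]
    (ρ : E →* Module.End K U) {z : E} (hz : z ∈ Subgroup.center E) {ζ : K} (hζ : ζ ≠ 1)
    (hρz : ρ z = ζ • 1) : p ^ w ≤ finrank K U := by
  classical
  haveI : Fact (Nat.card (Subgroup.center E)).Prime := ⟨hE.2 ▸ hp.out⟩
  have hz1 : z ≠ 1 := by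
    rintro rfl
    obtain ⟨u, hu⟩ := exists_ne (0 : U)
    rw [map_one] at hρz
    have h1 : u = ζ • u := LinearMap.congr_fun hρz u
    have h2 : (ζ - 1) • u = 0 := by rw [sub_smul, one_smul, ← h1, sub_self]
    exact hu ((smul_eq_zero.mp h2).resolve_left (sub_ne_zero.mpr hζ))
  have hgen : ∀ c ∈ Subgroup.center E, ∃ i : ℕ, c = z ^ i := by
    intro c hc
    rcases Subgroup.eq_bot_or_eq_top_of_prime_card (Subgroup.zpowers (⟨z, hz⟩ : ↥(Subgroup.center E))) with h | h
    · exact absurd (congrArg Subtype.val (Subgroup.zpowers_eq_bot.mp h)) hz1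
    · obtain ⟨i, hi⟩ := (mem_powers_iff_mem_zpowers.mpr (h ▸ Subgroup.mem_top (⟨c, hc⟩ : ↥(Subgroup.center E))))
      exact ⟨i, (congrArg Subtype.val hi).symm⟩
  obtain ⟨u₀, hu₀⟩ := exists_ne (0 : U)
  have hscal : ∀ a b : K, a • (1 : Module.End K U) = b • 1 → a = b := by
    intro a b h
    have h1 : a • u₀ = b • u₀ := LinearMap.congr_fun h u₀
    have h2 : (a - b) • u₀ = 0 := by rw [sub_smul, h1, sub_self]
    exact sub_eq_zero.mp ((smul_eq_zero.mp h2).resolve_right hu₀)
  have hσ : ∀ c : ↥(Subgroup.center E), ∃ a : K, ρ (c : E) = a • 1 := by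
    intro c
    obtain ⟨i, hi⟩ := hgen c c.2
    exact ⟨ζ ^ i, by rw [hi, map_pow, hρz, smul_pow, one_pow]⟩
  choose σ hσ using hσ
  let σh : ↥(Subgroup.center E) →* K :=
    { toFun := σ
      map_one' := hscal _ _ (by rw [← hσ, Subgroup.coe_one, map_one, one_smul])
      map_mul' := fun a b => hscal _ _ (by
        rw [← hσ, Subgroup.coe_mul, map_mul, hσ, hσ, smul_mul_smul_comm, mul_one]) }
  have hσ1 : ∀ c : ↥(Subgroup.center E), σh c = 1 → c = 1 := by
    intro c hc
    by_contra hne
    rcases Subgroup.eq_bot_or_eq_top_of_prime_card (Subgroup.zpowers c) with h | h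
    · exact hne (Subgroup.zpowers_eq_bot.mp h)
    · obtain ⟨i, hi⟩ := (mem_powers_iff_mem_zpowers.mpr (h ▸ Subgroup.mem_top (⟨z, hz⟩ : ↥(Subgroup.center E))))
      have hi' : z = (c : E) ^ i := (congrArg Subtype.val hi).symm
      refine hζ (hscal _ _ ?_)
      rw [← hρz, hi', map_pow, hσ, show σ c = 1 from hc, one_smul, one_pow]
  have hmem : ∀ g e : E, g * e * g⁻¹ * e⁻¹ ∈ Subgroup.center E := by
    intro g e
    rw [← hE.1.2.2, ← commutatorElement_def]
    exact Subgroup.commutator_mem_commutator (Subgroup.mem_top g) (Subgroup.mem_top e)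
  let cm : E → E → ↥(Subgroup.center E) := fun g e => ⟨g * e * g⁻¹ * e⁻¹, hmem g e⟩
  have hmul : ∀ g h e : E, cm (g * h) e = cm g e * cm h e := by
    intro g h e
    refine Subtype.ext ?_
    have hc := Subgroup.mem_center_iff.mp (hmem h e) g
    show g * h * e * (g * h)⁻¹ * e⁻¹ = (g * e * g⁻¹ * e⁻¹) * (h * e * h⁻¹ * e⁻¹)
    calc g * h * e * (g * h)⁻¹ * e⁻¹ = (g * (h * e * h⁻¹ * e⁻¹)) * (e * g⁻¹ * e⁻¹) := by group
      _ = ((h * e * h⁻¹ * e⁻¹) * g) * (e * g⁻¹ * e⁻¹) := by rw [hc]
      _ = (h * e * h⁻¹ * e⁻¹) * (g * e * g⁻¹ * e⁻¹) := by group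
      _ = _ := (Subgroup.mem_center_iff.mp (hmem h e) _).symm
  let χ : E ⧸ Subgroup.center E → (E →* K) := fun q =>
    { toFun := fun g => σh (cm g q.out)
      map_one' := by
        rw [show cm 1 q.out = 1 from Subtype.ext (by simp [cm]), map_one]
      map_mul' := fun g h => by rw [hmul, map_mul] }
  have hχ : Function.Injective χ := by
    intro q q' h
    rw [← QuotientGroup.out_eq' q, ← QuotientGroup.out_eq' q', QuotientGroup.eq, Subgroup.mem_center_iff]
    intro g
    have h1 : σh (cm g q.out) = σh (cm g q'.out) := DFunLike.congr_fun h g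
    have h2 : cm g q.out * (cm g q'.out)⁻¹ = 1 := hσ1 _ (by rw [map_mul, h1, ← map_mul, mul_inv_cancel, map_one])
    have h3 : g * q.out * g⁻¹ * q.out⁻¹ = g * q'.out * g⁻¹ * q'.out⁻¹ := congrArg Subtype.val (mul_inv_eq_one.mp h2)
    calc g * (q.out⁻¹ * q'.out) = (g * q.out * g⁻¹)⁻¹ * (g * q'.out * g⁻¹) * g := by group
      _ = ((g * q.out * g⁻¹ * q.out⁻¹) * q.out)⁻¹ * ((g * q'.out * g⁻¹ * q'.out⁻¹) * q'.out) * g := by group
      _ = ((g * q'.out * g⁻¹ * q'.out⁻¹) * q.out)⁻¹ * ((g * q'.out * g⁻¹ * q'.out⁻¹) * q'.out) * g := by rw [h3]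
      _ = q.out⁻¹ * q'.out * g := by group
  letI := Fintype.ofFinite (E ⧸ Subgroup.center E)
  have hli : LinearIndependent K fun q : E ⧸ Subgroup.center E => ρ q.out := by
    rw [Fintype.linearIndependent_iff]
    intro c hc q
    have hind := (linearIndependent_monoidHom E K).comp χ hχ
    rw [Fintype.linearIndependent_iff] at hind
    have hvec : c q • ρ q.out = 0 := by
      rw [← Module.forall_dual_apply_eq_zero_iff K]
      intro φ
      rw [map_smul, smul_eq_mul]
      refine hind (fun q => c q * φ (ρ q.out)) (funext fun g => ?_) q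
      have hconj : ∀ q : E ⧸ Subgroup.center E, ρ g * ρ q.out * ρ g⁻¹ = χ q g • ρ q.out := by
        intro q
        rw [← map_mul, ← map_mul]
        have : g * q.out * g⁻¹ = (cm g q.out : E) * q.out := by simp [cm]
        rw [this, map_mul, hσ, smul_mul_assoc, one_mul]
        rfl
      have h0 := congrArg (fun T => φ (ρ g * T * ρ g⁻¹)) hc
      simp only [Finset.mul_sum, Finset.sum_mul, mul_smul_comm, smul_mul_assoc, hconj, map_sum, map_smul,
        mul_zero, zero_mul, map_zero, smul_eq_mul] at h0
      simp only [Finset.sum_apply, Pi.smul_apply, Function.comp_apply, smul_eq_mul, Pi.zero_apply]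
      rw [← h0]
      exact Finset.sum_congr rfl fun q _ => by ring
    refine (smul_eq_zero.mp hvec).resolve_right fun h => ?_
    have h1 : ρ q.out * ρ q.out⁻¹ = 1 := by rw [← map_mul, mul_inv_cancel, map_one]
    rw [h, zero_mul] at h1
    exact hu₀ (LinearMap.congr_fun h1 u₀).symm
  have hb := hli.fintype_card_le_finrank
  rw [Module.finrank_linearMap] at hb
  have hidx : Fintype.card (E ⧸ Subgroup.center E) = p ^ (2 * w) := by
    rw [← Nat.card_eq_fintype_card, ← Subgroup.index_eq_card]
    refine Nat.eq_of_mul_eq_mul_left (n := p) hp.out.pos ?_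
    rw [← pow_succ', ← hcard, ← Subgroup.card_mul_index (Subgroup.center E), hE.2]
  rw [hidx, two_mul, pow_add] at hb
  exact Nat.mul_self_le_mul_self_iff.mp hb

/-- The dimension of a faithful module over a prime field. -/
theorem extraspecial_faithful_bound {E : Type*} [Group E] [Finite E] {p r : ℕ} [hp : Fact p.Prime]
    [hr : Fact r.Prime] (hpr : p ≠ r) (hE : Cfsg.IsExtraspecial p E) {w : ℕ} (hcard : Nat.card E = p ^ (2 * w + 1))
    {V : Type*} [AddCommGroup V] [Module (ZMod r) V] [FiniteDimensional (ZMod r) V]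
    (ρ : E →* Module.End (ZMod r) V) {z : E} (hz : z ∈ Subgroup.center E) (hρz : ρ z ≠ 1)
    (n : ℕ) (hmin : ∀ k : ℕ, 1 ≤ k → p ∣ r ^ k - 1 → n ≤ k) : n * p ^ w ≤ finrank (ZMod r) V := by
  classical
  set T := ρ z with hT
  let K := AlgebraicClosure (ZMod r)
  haveI : CharP K r := charP_of_injective_algebraMap (algebraMap (ZMod r) K).injective r
  have hzp : z ^ p = 1 := by
    have := congrArg Subtype.val (pow_card_eq_one' (x := (⟨z, hz⟩ : ↥(Subgroup.center E))))
    rwa [hE.2] at this
  have hTp : T ^ p = 1 := by rw [hT, ← map_pow, hzp, map_one]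
  let ρK : E →* Module.End K (TensorProduct (ZMod r) K V) :=
    { toFun := fun e => (ρ e).baseChange K
      map_one' := by rw [map_one]; exact LinearMap.baseChange_one (ZMod r) V
      map_mul' := fun a b => by rw [map_mul]; exact LinearMap.baseChange_mul _ _ }
  have hchar : (ρK z).charpoly = T.charpoly.map (algebraMap (ZMod r) K) := LinearMap.charpoly_baseChange T K
  -- a non-trivial eigenvalue
  obtain ⟨ζ, hζroot, hζ1⟩ : ∃ ζ : K, (T.charpoly.map (algebraMap (ZMod r) K)).IsRoot ζ ∧ ζ ≠ 1 := by
    by_contra hcon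
    push Not at hcon
    apply hρz
    have hmon : (T.charpoly.map (algebraMap (ZMod r) K)).Monic := T.charpoly_monic.map _
    have hsp : (T.charpoly.map (algebraMap (ZMod r) K)).Splits := IsAlgClosed.splits _
    have heq := Polynomial.Splits.eq_prod_roots_of_monic hsp hmon
    have hrep : (T.charpoly.map (algebraMap (ZMod r) K)).roots =
        Multiset.replicate (T.charpoly.map (algebraMap (ZMod r) K)).roots.card 1 :=
      Multiset.eq_replicate_card.mpr fun a ha => hcon a ((Polynomial.mem_roots hmon.ne_zero).mp ha)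
    rw [hrep, Multiset.map_replicate, Multiset.prod_replicate] at heq
    set d := (T.charpoly.map (algebraMap (ZMod r) K)).roots.card
    have hchar' : T.charpoly = (Polynomial.X - Polynomial.C (1 : ZMod r)) ^ d := by
      refine Polynomial.map_injective _ (algebraMap (ZMod r) K).injective ?_
      rw [heq]
      simp
    have hnil : (T - 1) ^ d = 0 := by
      have h1 := LinearMap.aeval_self_charpoly T
      rw [hchar'] at h1
      simpa using h1
    rcases subsingleton_or_nontrivial (Module.End (ZMod r) V) with h | h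
    · exact Subsingleton.elim _ _
    haveI : CharP (Module.End (ZMod r) V) r :=
      charP_of_injective_algebraMap (algebraMap (ZMod r) (Module.End (ZMod r) V)).injective r
    have hpowN : T ^ r ^ d = 1 := by
      have h2 : (T - 1 + 1) ^ r ^ d = (T - 1) ^ r ^ d + 1 ^ r ^ d := add_pow_char_pow_of_commute (p := r) (n := d) (Commute.one_right (T - 1))
      rw [sub_add_cancel, one_pow] at h2
      rw [h2, pow_eq_zero_of_le (Nat.lt_pow_self hr.out.one_lt).le hnil, zero_add]
    have hcop : Nat.gcd p (r ^ d) = 1 := ((Nat.coprime_primes hp.out hr.out).mpr hpr).pow_right d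
    have h3 := pow_gcd_eq_one.mpr ⟨hTp, hpowN⟩
    rwa [hcop, pow_one] at h3
  have heig : ∀ μ : K, (T.charpoly.map (algebraMap (ZMod r) K)).IsRoot μ →
      Module.End.HasEigenvalue (ρK z) μ := fun μ hμ => by
    rw [Module.End.hasEigenvalue_iff_isRoot_charpoly, hchar]; exact hμ
  have hζp : ζ ^ p = 1 := by
    obtain ⟨v, hv⟩ := (heig ζ hζroot).exists_hasEigenvector
    have h1 := hv.pow_apply p
    rw [← map_pow, hzp, map_one] at h1
    have h2 : (ζ ^ p - 1) • v = 0 := (sub_smul (ζ ^ p) 1 v).trans (by rw [← h1, one_smul]; exact sub_self v)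
    exact sub_eq_zero.mp ((smul_eq_zero.mp h2).resolve_right hv.2)
  have hord : orderOf ζ = p := orderOf_eq_prime hζp hζ1
  -- the Galois conjugates
  have hroots : ∀ i : ℕ, (T.charpoly.map (algebraMap (ZMod r) K)).IsRoot (ζ ^ r ^ i) := by
    intro i
    induction i with
    | zero => simpa using hζroot
    | succ i ih =>
      rw [Polynomial.IsRoot, Polynomial.eval_map, ← Polynomial.aeval_def] at ih ⊢
      rw [pow_succ, pow_mul, ← Polynomial.expand_aeval, ZMod.expand_card, map_pow, ih,
        zero_pow hr.out.ne_zero]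
  let μ : Fin n → K := fun i => ζ ^ r ^ (i : ℕ)
  have key : ∀ a b : ℕ, a < b → b < n → ζ ^ r ^ a ≠ ζ ^ r ^ b := by
    intro a b hab hb heq
    have h0 : ζ ≠ 0 := by rintro rfl; rw [zero_pow hp.out.ne_zero] at hζp; exact zero_ne_one hζp
    have hle : r ^ a ≤ r ^ b := Nat.pow_le_pow_right hr.out.pos hab.le
    have h1 : ζ ^ (r ^ b - r ^ a) = 1 := by
      rw [pow_sub₀ ζ h0 hle, ← heq, mul_inv_cancel₀ (pow_ne_zero _ h0)]
    rw [← orderOf_dvd_iff_pow_eq_one, hord, show r ^ b = r ^ a * r ^ (b - a) by rw [← pow_add, Nat.add_sub_cancel' hab.le],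
      ← Nat.mul_sub_one] at h1
    rcases (Nat.Prime.dvd_mul hp.out).mp h1 with h2 | h2
    · exact hpr ((Nat.prime_dvd_prime_iff_eq hp.out hr.out).mp (hp.out.dvd_of_dvd_pow h2))
    · have := hmin (b - a) (by omega) h2
      omega
  have hμ : Function.Injective μ := by
    intro i j h
    by_contra hne
    rcases lt_or_gt_of_ne (fun e => hne (Fin.ext e) : (i : ℕ) ≠ j) with hlt | hlt
    · exact key _ _ hlt j.2 h
    · exact key _ _ hlt i.2 h.symm
  -- each eigenspace has the required dimension
  have hbound : ∀ i, p ^ w ≤ finrank K (Module.End.eigenspace (ρK z) (μ i)) := by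
    intro i
    set U := Module.End.eigenspace (ρK z) (μ i) with hU
    haveI : Nontrivial U := Submodule.nontrivial_iff_ne_bot.mpr (heig _ (hroots _))
    have hinv : ∀ (e : E) (u : TensorProduct (ZMod r) K V), u ∈ U → ρK e u ∈ U := by
      intro e u hu
      rw [hU, Module.End.mem_eigenspace_iff] at hu ⊢
      have hc : ρK z * ρK e = ρK e * ρK z := by
        rw [← map_mul, ← map_mul, Subgroup.mem_center_iff.mp hz e]
      have := LinearMap.congr_fun hc u
      rw [Module.End.mul_apply, Module.End.mul_apply, hu, map_smul] at this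
      exact this
    let ρU : E →* Module.End K U :=
      { toFun := fun e => (ρK e).restrict (hinv e)
        map_one' := LinearMap.ext fun u => Subtype.ext (by simp [LinearMap.restrict_apply])
        map_mul' := fun a b => LinearMap.ext fun u => Subtype.ext (by simp [LinearMap.restrict_apply]) }
    refine extraspecial_scalar_bound (U := ↥U) hE hcard ρU hz (ζ := μ i) ?_ ?_
    · intro h1
      have h2 : orderOf ζ ∣ r ^ (i : ℕ) := orderOf_dvd_of_pow_eq_one h1
      rw [hord] at h2
      exact hpr ((Nat.prime_dvd_prime_iff_eq hp.out hr.out).mp (hp.out.dvd_of_dvd_pow h2))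
    · exact LinearMap.ext fun u => Subtype.ext (Module.End.mem_eigenspace_iff.mp u.2)
  -- the eigenspaces are independent
  have hind : iSupIndep fun i => Module.End.eigenspace (ρK z) (μ i) :=
    (Module.End.eigenspaces_iSupIndep (ρK z)).comp hμ
  have hsum : ∀ s : Finset (Fin n), s.card * p ^ w ≤
      finrank K ↥(s.sup fun i => Module.End.eigenspace (ρK z) (μ i)) := by
    intro s
    induction s using Finset.induction with
    | empty => simp
    | @insert a s ha ih =>
      rw [Finset.sup_insert, Finset.card_insert_of_notMem ha, add_mul, one_mul]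
      have hd : Disjoint (Module.End.eigenspace (ρK z) (μ a)) (s.sup fun i => Module.End.eigenspace (ρK z) (μ i)) := by
        refine (hind a).mono_right (Finset.sup_le fun i hi => ?_)
        exact le_iSup₂ (f := fun j (_ : j ≠ a) => Module.End.eigenspace (ρK z) (μ j)) i (fun h => ha (h ▸ hi))
      have h1 := Submodule.finrank_sup_add_finrank_inf_eq (Module.End.eigenspace (ρK z) (μ a))
        (s.sup fun i => Module.End.eigenspace (ρK z) (μ i))
      rw [hd.eq_bot, finrank_bot] at h1
      have := hbound a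
      omega
  have h := (hsum Finset.univ).trans (Submodule.finrank_le _)
  rwa [Finset.card_univ, Fintype.card_fin, Module.finrank_baseChange] at h

/-- A ring-theoretic form of a homomorphism into automorphisms of an abelian group of prime exponent. -/
noncomputable def zmodRep {E V : Type*} [Group E] [AddCommGroup V] (r : ℕ) [Module (ZMod r) V]
    (φ : E →* Multiplicative V ≃* Multiplicative V) : E →* Module.End (ZMod r) V where
  toFun e := (AddMonoidHom.mk' (fun a => Multiplicative.toAdd (φ e (Multiplicative.ofAdd a))) (fun a b => by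
    simp only [ofAdd_add, map_mul, toAdd_mul])).toZModLinearMap r
  map_one' := by
    refine LinearMap.ext fun a => ?_
    simp
  map_mul' a b := by
    refine LinearMap.ext fun x => ?_
    simp

theorem zmodRep_apply {E V : Type*} [Group E] [AddCommGroup V] (r : ℕ) [Module (ZMod r) V]
    (φ : E →* Multiplicative V ≃* Multiplicative V) (e : E) (v : V) :
    zmodRep r φ e v = Multiplicative.toAdd (φ e (Multiplicative.ofAdd v)) := by
  simp [zmodRep]

theorem extraspecial_zmod_bound {E V : Type*} [Group E] [Finite E] [AddCommGroup V] {p r : ℕ} [Fact p.Prime]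
    [Fact r.Prime] [Module (ZMod r) V] [FiniteDimensional (ZMod r) V] (hpr : p ≠ r) (hE : Cfsg.IsExtraspecial p E)
    {w : ℕ} (hcard : Nat.card E = p ^ (2 * w + 1)) (φ : E →* Multiplicative V ≃* Multiplicative V)
    {z : E} (hz : z ∈ Subgroup.center E) (hφ : φ z ≠ 1) (n : ℕ)
    (hmin : ∀ k : ℕ, 1 ≤ k → p ∣ r ^ k - 1 → n ≤ k) : n * p ^ w ≤ finrank (ZMod r) V := by
  refine extraspecial_faithful_bound hpr hE hcard (zmodRep r φ) hz (fun h => hφ (MulEquiv.ext fun a => ?_)) n hmin
  have h0 := LinearMap.congr_fun h (Multiplicative.toAdd a)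
  rw [zmodRep_apply] at h0
  exact Multiplicative.toAdd.injective h0

/-- The order of an abelian group of prime exponent with a faithful action of an extraspecial group. -/
theorem extraspecial_group_bound {E A : Type*} [Group E] [Finite E] [CommGroup A] [Finite A] {p r : ℕ}
    [Fact p.Prime] [hr : Fact r.Prime] (hpr : p ≠ r) (hE : Cfsg.IsExtraspecial p E) {w : ℕ}
    (hcard : Nat.card E = p ^ (2 * w + 1)) (hexp : ∀ a : A, a ^ r = 1) (φ : E →* MulAut A)
    {z : E} (hz : z ∈ Subgroup.center E) (hφ : φ z ≠ 1) (n : ℕ)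
    (hmin : ∀ k : ℕ, 1 ≤ k → p ∣ r ^ k - 1 → n ≤ k) : r ^ (n * p ^ w) ≤ Nat.card A := by
  haveI : Module (ZMod r) (Additive A) := AddCommGroup.zmodModule (n := r) (G := Additive A) (fun a => by
    rw [← ofMul_toMul a, ← ofMul_pow, hexp, ofMul_one])
  haveI : Module.Finite (ZMod r) (Additive A) := Module.Finite.of_finite
  let ψ : E →* Multiplicative (Additive A) ≃* Multiplicative (Additive A) := φ
  have h := extraspecial_zmod_bound (r := r) hpr hE hcard ψ hz hφ n hmin
  rw [← Nat.card_congr (Additive.toMul : Additive A ≃ A), Module.natCard_eq_pow_finrank (K := ZMod r), Nat.card_zmod]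
  exact Nat.pow_le_pow_right hr.out.pos h

end Cfsg.Agent.LocalEven
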