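/-
Biadditive maps of a field of characteristic two which commute with multiplication by scalars in both
variables at once: `B (x, y) ^ 2` is a multiple of `x * y`.
-/
import Mathlib

set_option autoImplicit false

namespace Cfsg.Agent.LocalEven.FixedSinger

variable {F : Type*} [Field F] [CharP F 2]

/-- Two additive maps tied by inversion. -/
theorem sq_map {g f : F → F} (hg : ∀ a b, g (a + b) = g a + g b) (hf : ∀ a b, f (a + b) = f a + f b)
    (h : ∀ x, x ≠ 0 → f x = x * g x⁻¹) (x : F) : f (x * x) = f 1 * x := by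
  have h2 : (2 : F) = 0 := CharTwo.two_eq_zero
  have hc : f 1 = g 1 := by rw [h 1 one_ne_zero, inv_one, one_mul]
  by_cases h0 : x = 0
  · rw [h0, mul_zero, mul_zero]
    have := hf 0 0
    rw [add_zero] at this
    exact left_eq_add.mp this
  by_cases h1 : x + 1 = 0
  · have hx : x = 1 := CharTwo.add_eq_zero.mp h1
    rw [hx, mul_one, mul_one]
  have hu : x * (x + 1) ≠ 0 := mul_ne_zero h0 h1
  have e : (x * (x + 1))⁻¹ = x⁻¹ + (x + 1)⁻¹ := by
    field_simp
    linear_combination -x * h2
  have a1 := h _ hu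
  rw [e, hg] at a1
  have a2 : x * g x⁻¹ = f x := (h x h0).symm
  have a3 : (x + 1) * g (x + 1)⁻¹ = f x + f 1 := by rw [← hf, ← h _ h1]
  have a4 : f (x * (x + 1)) = f (x * x) + f x := by rw [← hf]; congr 1; ring
  linear_combination a1 - a4 + (x + 1) * a2 + x * a3 + x * f x * h2

/-- An equivariant biadditive map. -/
theorem biadd_sq [Finite F] {B : F → F → F} (hl : ∀ a b y, B (a + b) y = B a y + B b y)
    (hr : ∀ x a b, B x (a + b) = B x a + B x b)
    (he : ∀ k, k ≠ 0 → ∀ x y, B (k * x) (k * y) = k * B x y) (x y : F) :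
    B x y * B x y = B 1 1 * B 1 1 * (x * y) := by
  have key : ∀ t, B t 1 * B t 1 = B 1 1 * B 1 1 * t := by
    intro t
    obtain ⟨s, rfl⟩ := FiniteField.isSquare_of_char_two (ringChar.eq F 2) t
    rw [sq_map (g := fun y => B 1 y) (f := fun x => B x 1) (hr 1) (fun a b => hl a b 1) (fun z hz => by
      show B z 1 = z * B 1 z⁻¹
      rw [← he z hz, mul_one, mul_inv_cancel₀ hz]) s]
    ring
  by_cases hy : y = 0
  · have h0 : B x 0 = 0 := by
      have := hr x 0 0
      rw [add_zero] at this
      exact left_eq_add.mp this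
    rw [hy, h0, mul_zero, mul_zero, mul_zero]
  · have e : B x y = y * B (x / y) 1 := by
      rw [← he y hy, mul_one, mul_div_cancel₀ x hy]
    have h' := key (x / y)
    have hd : y * (x / y) = x := mul_div_cancel₀ x hy
    rw [e]
    linear_combination y * y * h' + B 1 1 * B 1 1 * y * hd

/-- An alternating one vanishes. -/
theorem biadd_alt [Finite F] {B : F → F → F} (hl : ∀ a b y, B (a + b) y = B a y + B b y)
    (hr : ∀ x a b, B x (a + b) = B x a + B x b)
    (he : ∀ k, k ≠ 0 → ∀ x y, B (k * x) (k * y) = k * B x y) (ha : B 1 1 = 0) (x y : F) : B x y = 0 := by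
  have := biadd_sq hl hr he x y
  rw [ha, zero_mul, zero_mul] at this
  exact mul_self_eq_zero.mp this

end Cfsg.Agent.LocalEven.FixedSinger
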