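/-
An involutory automorphism of a 2-group whose fixed points form a central elementary abelian subgroup
identified with a field whose multiplicative group acts compatibly: the elements displaced into that
subgroup, and the passage to the quotient.
-/
import Cfsg.Agent.LocalEven.FixedSingerBiadd

set_option autoImplicit false
set_option linter.unusedSectionVars false

namespace Cfsg.Agent.LocalEven.FixedSinger

open Subgroup
open scoped commutatorElement

variable {F : Type} [Field F] [Finite F] [CharP F 2]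

/-- The hypotheses. -/
structure Hyp (Q : Type*) [Group Q] (F : Type) [Field F] (α : MulAut Q) (μ : Fˣ →* MulAut Q)
    (e : F → Q) : Prop where
  pg : IsPGroup 2 Q
  e_add : ∀ a b, e (a + b) = e a * e b
  e_inj : Function.Injective e
  e_cen : ∀ a x, x * e a = e a * x
  fix : ∀ x, α x = x ↔ ∃ a, e a = x
  inv : ∀ x, α (α x) = x
  comm : ∀ k x, α (μ k x) = μ k (α x)
  μ_e : ∀ (k : Fˣ) a, μ k (e a) = e ((k : F) * a)

variable {Q : Type*} [Group Q] [Finite Q] {α : MulAut Q} {μ : Fˣ →* MulAut Q} {e : F → Q}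

/-- The displacement. -/
def disp (α : MulAut Q) (x : Q) : Q := x⁻¹ * α x

/-- The inverse of `e`. -/
noncomputable def co (e : F → Q) (x : Q) : F := Function.invFun e x

variable (h : Hyp Q F α μ e)
include h

theorem e_zero : e 0 = 1 := by
  have := h.e_add 0 0
  rw [add_zero] at this
  exact left_eq_mul.mp this

theorem e_sq (a : F) : e a * e a = 1 := by
  rw [← h.e_add, CharTwo.add_self_eq_zero, e_zero h]

theorem e_inv (a : F) : (e a)⁻¹ = e a := inv_eq_of_mul_eq_one_right (e_sq h a)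

theorem co_e (a : F) : co e (e a) = a := Function.leftInverse_invFun h.e_inj a

omit h in
theorem e_co {x : Q} (hx : ∃ a, e a = x) : e (co e x) = x := Function.invFun_eq hx

/-- The fixed subgroup. -/
def base (h : Hyp Q F α μ e) : Subgroup Q where
  carrier := {x | ∃ a, e a = x}
  one_mem' := ⟨0, e_zero h⟩
  mul_mem' := by
    rintro _ _ ⟨a, rfl⟩ ⟨b, rfl⟩
    exact ⟨a + b, h.e_add a b⟩
  inv_mem' := by
    rintro _ ⟨a, rfl⟩
    exact ⟨a, (e_inv h a).symm⟩

theorem e_mem (a : F) : e a ∈ base h := ⟨a, rfl⟩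

theorem base_cen {z : Q} (hz : z ∈ base h) (x : Q) : x * z = z * x := by
  obtain ⟨a, rfl⟩ := hz
  exact h.e_cen a x

theorem base_normal : (base h).Normal :=
  ⟨fun n hn g => by rw [base_cen h hn g, mul_inv_cancel_right]; exact hn⟩

theorem co_mul {x y : Q} (hx : x ∈ base h) (hy : y ∈ base h) : co e (x * y) = co e x + co e y := by
  obtain ⟨a, rfl⟩ := hx
  obtain ⟨b, rfl⟩ := hy
  rw [← h.e_add, co_e h, co_e h, co_e h]

theorem co_eq_zero {x : Q} (hx : x ∈ base h) (h0 : co e x = 0) : x = 1 := by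
  rw [← e_co hx, h0, e_zero h]

theorem co_map (k : Fˣ) {x : Q} (hx : x ∈ base h) : co e (μ k x) = (k : F) * co e x := by
  obtain ⟨a, rfl⟩ := hx
  rw [h.μ_e, co_e h, co_e h]

theorem map_base (k : Fˣ) {x : Q} (hx : x ∈ base h) : μ k x ∈ base h := by
  obtain ⟨a, rfl⟩ := hx
  exact ⟨_, (h.μ_e k a).symm⟩

theorem map_disp (x : Q) : α (disp α x) = (disp α x)⁻¹ := by
  simp only [disp, map_mul, map_inv, h.inv, mul_inv_rev, inv_inv]

theorem disp_map (k : Fˣ) (x : Q) : disp α (μ k x) = μ k (disp α x) := by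
  simp only [disp, map_mul, map_inv, h.comm]

theorem mem_base_of_inverted {x : Q} (hx : α x = x⁻¹) (h2 : x * x = 1) : x ∈ base h :=
  (h.fix x).mp (by rw [hx, inv_eq_of_mul_eq_one_right h2])

/-- A subgroup containing every element whose displacement it contains is everything. -/
theorem eq_top_of_disp (L : Subgroup Q) (hL : ∀ y, disp α y ∈ L → y ∈ L) : L = ⊤ := by
  classical
  by_contra hne
  obtain ⟨y, hy⟩ : ∃ y, y ∉ L := by
    by_contra hc
    push Not at hc
    exact hne ((Subgroup.eq_top_iff' L).mpr hc)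
  have hd : disp α y ∉ L := fun hh => hy (hL y hh)
  set d := disp α y with hdd
  have hex : ∃ k, d ^ 2 ^ k ∈ L := by
    obtain ⟨k, hk⟩ := h.pg d
    exact ⟨k, by rw [hk]; exact one_mem L⟩
  have h0 : Nat.find hex ≠ 0 := fun e' => hd (by
    have h' := Nat.find_spec hex
    rwa [e', pow_zero, pow_one] at h')
  obtain ⟨j, hj⟩ := Nat.exists_eq_succ_of_ne_zero h0
  have hz : d ^ 2 ^ j ∉ L := Nat.find_min hex (by omega)
  refine hz (hL _ ?_)
  rw [show disp α (d ^ 2 ^ j) = (d ^ 2 ^ (j + 1))⁻¹ by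
    rw [disp, map_pow, map_disp h, inv_pow, ← mul_inv_rev, ← pow_add, ← two_mul, ← pow_succ']]
  have h' := Nat.find_spec hex
  rw [hj] at h'
  exact inv_mem h'

/-- The elements displaced into the fixed subgroup. -/
def inner (h : Hyp Q F α μ e) : Subgroup Q where
  carrier := {x | disp α x ∈ base h}
  one_mem' := by simp [disp, one_mem]
  mul_mem' := by
    intro a b ha hb
    show (a * b)⁻¹ * α (a * b) ∈ base h
    rw [show (a * b)⁻¹ * α (a * b) = b⁻¹ * disp α a * α b by
      simp only [disp, mul_inv_rev, map_mul, mul_assoc], base_cen h ha b⁻¹, mul_assoc]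
    exact mul_mem ha hb
  inv_mem' := by
    intro a ha
    show a⁻¹⁻¹ * α a⁻¹ ∈ base h
    rw [show a⁻¹⁻¹ * α a⁻¹ = a * (disp α a)⁻¹ * a⁻¹ by
      simp only [disp, map_inv, mul_inv_rev, inv_inv]; group, base_cen h (inv_mem ha) a,
      mul_inv_cancel_right]
    exact inv_mem ha

theorem mem_inner {x : Q} : x ∈ inner h ↔ disp α x ∈ base h := Iff.rfl

theorem base_le_inner : base h ≤ inner h := fun x hx => by
  rw [mem_inner, disp, (h.fix x).mpr hx, inv_mul_cancel]
  exact one_mem _

theorem map_inner (k : Fˣ) {x : Q} (hx : x ∈ inner h) : μ k x ∈ inner h := by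
  rw [mem_inner, disp_map h]; exact map_base h k hx

/-- The coordinate of the displacement. -/
noncomputable def dl (α : MulAut Q) (e : F → Q) (x : Q) : F := co e (disp α x)

theorem dl_mul {x y : Q} (hx : x ∈ inner h) (hy : y ∈ inner h) : dl α e (x * y) = dl α e x + dl α e y := by
  show co e (disp α (x * y)) = _
  rw [show disp α (x * y) = y⁻¹ * disp α x * α y by simp only [disp, mul_inv_rev, map_mul, mul_assoc],
    base_cen h hx y⁻¹, mul_assoc, show y⁻¹ * α y = disp α y from rfl, co_mul h hx hy]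
  rfl

theorem dl_map (k : Fˣ) {x : Q} (hx : x ∈ inner h) : dl α e (μ k x) = (k : F) * dl α e x := by
  show co e (disp α (μ k x)) = _
  rw [disp_map h, co_map h k hx]
  rfl

theorem dl_eq_zero {x : Q} (hx : x ∈ inner h) (h0 : dl α e x = 0) : x ∈ base h :=
  (h.fix x).mp (inv_mul_eq_one.mp (co_eq_zero h hx h0)).symm

theorem dl_base {x : Q} (hx : x ∈ base h) : dl α e x = 0 := by
  show co e (disp α x) = 0
  rw [disp, (h.fix x).mpr hx, inv_mul_cancel, ← e_zero h, co_e h]

theorem dl_sub {x y : Q} (hx : x ∈ inner h) (hy : y ∈ inner h) (hd : dl α e x = dl α e y) :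
    x⁻¹ * y ∈ base h := by
  refine dl_eq_zero h (mul_mem (inv_mem hx) hy) ?_
  have h1 := dl_mul h hx (mul_mem (inv_mem hx) hy)
  rw [mul_inv_cancel_left, ← hd] at h1
  exact left_eq_add.mp h1

/-- Either everything is fixed or the displacement coordinate is onto. -/
theorem exists_dl (hne : base h ≠ ⊤) (b : F) : ∃ x ∈ inner h, dl α e x = b := by
  obtain ⟨y, hy, hy0⟩ : ∃ y ∈ inner h, dl α e y ≠ 0 := by
    by_contra hc
    push Not at hc
    refine hne (eq_top_of_disp h _ fun y hy => dl_eq_zero h hy (hc y hy))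
  by_cases hb : b = 0
  · exact ⟨1, one_mem _, by rw [hb, dl_base h (one_mem _)]⟩
  · refine ⟨μ (Units.mk0 (b / dl α e y) (div_ne_zero hb hy0)) y, map_inner h _ hy, ?_⟩
    rw [dl_map h _ hy, Units.val_mk0, div_mul_cancel₀ b hy0]

/-- The order of the subgroup of elements displaced into the fixed subgroup. -/
theorem card_inner (hne : base h ≠ ⊤) : Nat.card (inner h) = Nat.card F * Nat.card F := by
  choose s hs hsd using exists_dl h hne
  rw [← Nat.card_prod]
  symm
  refine Nat.card_congr (Equiv.ofBijective (fun p : F × F =>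
    (⟨e p.1 * s p.2, mul_mem (base_le_inner h (e_mem h _)) (hs _)⟩ : inner h)) ⟨?_, ?_⟩)
  · rintro ⟨a, b⟩ ⟨a', b'⟩ he
    have he' : e a * s b = e a' * s b' := congrArg Subtype.val he
    have h1 := congrArg (dl α e) he'
    rw [dl_mul h (base_le_inner h (e_mem h a)) (hs b), dl_mul h (base_le_inner h (e_mem h a')) (hs b'),
      dl_base h (e_mem h a), dl_base h (e_mem h a'), hsd, hsd, zero_add, zero_add] at h1
    subst h1
    rw [h.e_inj (mul_right_cancel he')]
  · rintro ⟨x, hx⟩
    obtain ⟨a, ha⟩ := dl_sub h (hs (dl α e x)) hx (hsd _)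
    refine ⟨(a, dl α e x), Subtype.ext ?_⟩
    show e a * s (dl α e x) = x
    rw [← h.e_cen a, ha, mul_inv_cancel_left]

theorem comm_mem_base {x y : Q} (hx : x ∈ inner h) (hy : y ∈ inner h) : ⁅x, y⁆ ∈ base h := by
  refine dl_eq_zero h ?_ ?_
  · rw [commutatorElement_def]
    exact mul_mem (mul_mem (mul_mem hx hy) (inv_mem hx)) (inv_mem hy)
  · have h1 := dl_mul h (mul_mem (mul_mem (mul_mem hx hy) (inv_mem hx)) (inv_mem hy)) (mul_mem hy hx)
    rw [show x * y * x⁻¹ * y⁻¹ * (y * x) = x * y by group, dl_mul h hx hy, dl_mul h hy hx,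
      add_comm (dl α e y)] at h1
    rw [commutatorElement_def]
    exact right_eq_add.mp h1

/-- Commutators with values in the fixed subgroup are additive. -/
theorem co_comm_left {x x' y : Q} (h1 : ⁅x, y⁆ ∈ base h) (h2 : ⁅x', y⁆ ∈ base h) :
    co e ⁅x * x', y⁆ = co e ⁅x, y⁆ + co e ⁅x', y⁆ := by
  rw [show ⁅x * x', y⁆ = x * ⁅x', y⁆ * x⁻¹ * ⁅x, y⁆ by simp only [commutatorElement_def]; group,
    base_cen h h2 x, mul_inv_cancel_right, co_mul h h2 h1, add_comm]

theorem co_comm_right {x y y' : Q} (h1 : ⁅x, y⁆ ∈ base h) (h2 : ⁅x, y'⁆ ∈ base h) :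
    co e ⁅x, y * y'⁆ = co e ⁅x, y⁆ + co e ⁅x, y'⁆ := by
  rw [show ⁅x, y * y'⁆ = ⁅x, y⁆ * (y * ⁅x, y'⁆ * y⁻¹) by simp only [commutatorElement_def]; group,
    base_cen h h2 y, mul_inv_cancel_right, co_mul h h1 h2]

theorem co_comm_map (k : Fˣ) {x y : Q} (h1 : ⁅x, y⁆ ∈ base h) :
    co e ⁅μ k x, μ k y⁆ = (k : F) * co e ⁅x, y⁆ := by
  rw [← map_commutatorElement, co_map h k h1]

theorem comm_base_mul {x y z : Q} (hz : z ∈ base h) : ⁅x * z, y⁆ = ⁅x, y⁆ := by
  simp only [commutatorElement_def, mul_inv_rev]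
  calc x * z * y * (z⁻¹ * x⁻¹) * y⁻¹ = x * (z * y * z⁻¹) * x⁻¹ * y⁻¹ := by group
    _ = _ := by rw [← base_cen h hz y, mul_inv_cancel_right]

theorem comm_mul_base {x y z : Q} (hz : z ∈ base h) : ⁅x, y * z⁆ = ⁅x, y⁆ := by
  rw [← commutatorElement_inv, comm_base_mul h hz, commutatorElement_inv]

theorem dl_one {x : Q} (hx : x ∈ inner h) (k : Fˣ) (hk : (k : F) = dl α e x) (b : Q) (hb : b ∈ inner h)
    (hb1 : dl α e b = 1) : ∃ z ∈ base h, x = μ k b * z :=
  ⟨(μ k b)⁻¹ * x, dl_sub h (map_inner h k hb) hx (by rw [dl_map h k hb, hb1, mul_one, hk]),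
    (mul_inv_cancel_left _ _).symm⟩

/-- The elements displaced into the fixed subgroup commute. -/
theorem inner_comm {x y : Q} (hx : x ∈ inner h) (hy : y ∈ inner h) : x * y = y * x := by
  by_cases hne : base h = ⊤
  · exact base_cen h (hne ▸ mem_top y) x
  choose s hs hsd using exists_dl h hne
  have hred : ∀ {u v : Q}, u ∈ inner h → v ∈ inner h → ⁅u, v⁆ = ⁅s (dl α e u), s (dl α e v)⁆ := by
    intro u v hu hv
    have a1 := dl_sub h (hs (dl α e u)) hu (hsd _)
    have a2 := dl_sub h (hs (dl α e v)) hv (hsd _)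
    conv_lhs => rw [show u = s (dl α e u) * ((s (dl α e u))⁻¹ * u) from (mul_inv_cancel_left _ _).symm,
      show v = s (dl α e v) * ((s (dl α e v))⁻¹ * v) from (mul_inv_cancel_left _ _).symm]
    rw [comm_base_mul h a1, comm_mul_base h a2]
  have key : ∀ a b : F, co e ⁅s a, s b⁆ = 0 := by
    refine biadd_alt (B := fun a b => co e ⁅s a, s b⁆) ?_ ?_ ?_ ?_
    · intro a b c
      show co e ⁅s (a + b), s c⁆ = co e ⁅s a, s c⁆ + co e ⁅s b, s c⁆
      rw [← co_comm_left h (comm_mem_base h (hs a) (hs c)) (comm_mem_base h (hs b) (hs c)),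
        hred (mul_mem (hs a) (hs b)) (hs c), dl_mul h (hs a) (hs b), hsd, hsd, hsd]
    · intro a b c
      show co e ⁅s a, s (b + c)⁆ = co e ⁅s a, s b⁆ + co e ⁅s a, s c⁆
      rw [← co_comm_right h (comm_mem_base h (hs a) (hs b)) (comm_mem_base h (hs a) (hs c)),
        hred (hs a) (mul_mem (hs b) (hs c)), dl_mul h (hs b) (hs c), hsd, hsd, hsd]
    · intro k hk a b
      show co e ⁅s (k * a), s (k * b)⁆ = k * co e ⁅s a, s b⁆
      have h1 := co_comm_map h (Units.mk0 k hk) (comm_mem_base h (hs a) (hs b))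
      rw [hred (map_inner h _ (hs a)) (map_inner h _ (hs b)), dl_map h _ (hs a), dl_map h _ (hs b), hsd,
        hsd] at h1
      exact h1
    · show co e ⁅s 1, s 1⁆ = 0
      rw [show ⁅s 1, s 1⁆ = 1 by simp, ← e_zero h, co_e h]
  refine commutatorElement_eq_one_iff_mul_comm.mp (co_eq_zero h (comm_mem_base h hx hy) ?_)
  rw [hred hx hy]; exact key _ _

theorem sq_mem_base {x : Q} (hx : x ∈ inner h) : x * x ∈ base h :=
  dl_eq_zero h (mul_mem hx hx) (by rw [dl_mul h hx hx, CharTwo.add_self_eq_zero])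

/-- The square is a multiple of the displacement. -/
theorem exists_sq_coeff : ∃ c : F, ∀ x ∈ inner h, co e (x * x) = c * dl α e x := by
  by_cases hne : base h = ⊤
  · refine ⟨0, fun x _ => ?_⟩
    obtain ⟨a, rfl⟩ : x ∈ base h := hne ▸ mem_top x
    rw [e_sq h, ← e_zero h, co_e h, zero_mul]
  obtain ⟨b, hb, hb1⟩ := exists_dl h hne 1
  refine ⟨co e (b * b), fun x hx => ?_⟩
  by_cases h0 : dl α e x = 0
  · obtain ⟨a, rfl⟩ := dl_eq_zero h hx h0
    rw [e_sq h, ← e_zero h, co_e h, h0, mul_zero]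
  obtain ⟨z, hz, e1⟩ := dl_one h hx (Units.mk0 _ h0) rfl b hb hb1
  obtain ⟨a, rfl⟩ := hz
  conv_lhs => rw [e1, (Commute.mul_mul_mul_comm (h.e_cen a _).symm _ _ : _), e_sq h, mul_one, ← map_mul,
    co_map h _ (sq_mem_base h hb), Units.val_mk0, mul_comm]

/-- If some involution of the inner subgroup lies outside the fixed one, the group is elementary abelian. -/
theorem elementary_of_outside {u : Q} (hu : u ∈ inner h) (huE : u ∉ base h) (hu2 : u * u = 1) :
    inner h = ⊤ ∧ ∀ x : Q, x * x = 1 := by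
  obtain ⟨c, hc⟩ := exists_sq_coeff h
  have hc0 : c = 0 := by
    have h1 := hc u hu
    rw [hu2, ← e_zero h, co_e h] at h1
    exact (mul_eq_zero.mp h1.symm).resolve_right fun e' => huE (dl_eq_zero h hu e')
  have hall : ∀ x ∈ inner h, x * x = 1 := fun x hx =>
    co_eq_zero h (sq_mem_base h hx) (by rw [hc x hx, hc0, zero_mul])
  have htop : inner h = ⊤ :=
    eq_top_of_disp h _ fun y hy => mem_base_of_inverted h (map_disp h y) (hall _ hy)
  exact ⟨htop, fun x => hall x (htop ▸ mem_top x)⟩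

theorem nontrivial_fixed_center (hne : base h ≠ ⊤) :
    ∃ z ∈ inner h, z ∉ base h ∧ ∀ x, ⁅z, x⁆ ∈ base h := by
  classical
  haveI := base_normal h
  haveI : Nontrivial (Q ⧸ base h) := QuotientGroup.nontrivial_iff.mpr hne
  haveI := Fact.mk Nat.prime_two
  have hq : IsPGroup 2 (Q ⧸ base h) := h.pg.to_quotient _
  haveI := hq.center_nontrivial
  obtain ⟨⟨z', hz'⟩, hz1⟩ := exists_ne (1 : Subgroup.center (Q ⧸ base h))
  obtain ⟨z, rfl⟩ := QuotientGroup.mk_surjective z'
  have hzE : z ∉ base h := fun hh => hz1 (Subtype.ext ((QuotientGroup.eq_one_iff z).mpr hh))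
  have hcz : ∀ x, ⁅z, x⁆ ∈ base h := fun x => by
    rw [← QuotientGroup.eq_one_iff, ← QuotientGroup.mk'_apply, map_commutatorElement,
      commutatorElement_eq_one_iff_mul_comm]
    exact (Subgroup.mem_center_iff.mp hz' _).symm
  let C : Subgroup Q :=
    { carrier := {w | ∀ x, ⁅w, x⁆ ∈ base h}
      one_mem' := fun x => by simp [one_mem]
      mul_mem' := fun {a b} ha hb x => by
        show ⁅a * b, x⁆ ∈ base h
        rw [show ⁅a * b, x⁆ = a * ⁅b, x⁆ * a⁻¹ * ⁅a, x⁆ by simp only [commutatorElement_def]; group,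
          base_cen h (hb x) a, mul_inv_cancel_right]
        exact mul_mem (hb x) (ha x)
      inv_mem' := fun {a} ha x => by
        show ⁅a⁻¹, x⁆ ∈ base h
        rw [show ⁅a⁻¹, x⁆ = a⁻¹ * (⁅a, x⁆)⁻¹ * a by simp only [commutatorElement_def]; group,
          base_cen h (inv_mem (ha x)) a⁻¹, inv_mul_cancel_right]
        exact inv_mem (ha x) }
  have hαb : ∀ y ∈ base h, α y ∈ base h := fun y hy => by rw [(h.fix y).mpr hy]; exact hy
  have hCα : ∀ w ∈ C, α w ∈ C := fun w hw x => by
    obtain ⟨x', rfl⟩ := α.surjective x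
    rw [← map_commutatorElement]; exact hαb _ (hw x')
  by_cases hi : z ∈ inner h
  · exact ⟨z, hi, hzE, hcz⟩
  -- descend along powers of the displacement
  have hd : disp α z ∈ C := mul_mem (inv_mem hcz) (hCα z hcz)
  have hex : ∃ k, disp α z ^ 2 ^ k ∈ base h := by
    obtain ⟨k, hk⟩ := h.pg (disp α z)
    exact ⟨k, by rw [hk]; exact one_mem _⟩
  have h0 : Nat.find hex ≠ 0 := fun e' => hi (by
    have h' := Nat.find_spec hex
    rwa [e', pow_zero, pow_one] at h')
  obtain ⟨j, hj⟩ := Nat.exists_eq_succ_of_ne_zero h0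
  refine ⟨disp α z ^ 2 ^ j, ?_, Nat.find_min hex (by omega), fun x => pow_mem hd _ x⟩
  rw [mem_inner, show disp α (disp α z ^ 2 ^ j) = (disp α z ^ 2 ^ (j + 1))⁻¹ by
    rw [disp, map_pow, map_disp h, inv_pow, ← mul_inv_rev, ← pow_add, ← two_mul, ← pow_succ']]
  have h' := Nat.find_spec hex
  rw [hj] at h'
  exact inv_mem h'

theorem comm_inner_mem_base {w : Q} (hw : w ∈ inner h) (x : Q) : ⁅w, x⁆ ∈ base h := by
  by_cases hne : base h = ⊤
  · rw [hne]; exact mem_top _
  obtain ⟨z, hz, hzE, hzc⟩ := nontrivial_fixed_center h hne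
  by_cases h0 : dl α e w = 0
  · have hwb := dl_eq_zero h hw h0
    rw [commutatorElement_eq_one_iff_mul_comm.mpr (base_cen h hwb x).symm]
    exact one_mem _
  have hd : dl α e z ≠ 0 := fun e' => hzE (dl_eq_zero h hz e')
  set k : Fˣ := Units.mk0 (dl α e w / dl α e z) (div_ne_zero h0 hd) with hk
  have hsub := dl_sub h (map_inner h k hz) hw (by
    rw [dl_map h k hz, hk, Units.val_mk0, div_mul_cancel₀ _ hd])
  obtain ⟨x', rfl⟩ := (μ k).surjective x
  rw [show w = μ k z * ((μ k z)⁻¹ * w) from (mul_inv_cancel_left _ _).symm, comm_base_mul h hsub,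
    ← map_commutatorElement]
  exact map_base h k (hzc x')

omit h in
/-- The quotient by the fixed subgroup satisfies the same hypotheses. -/
theorem exists_quotient (h : Hyp Q F α μ e) (hne : base h ≠ ⊤) :
    ∀ [hn : (base h).Normal], ∃ (α' : MulAut (Q ⧸ base h)) (μ' : Fˣ →* MulAut (Q ⧸ base h))
      (e' : F → Q ⧸ base h), Hyp (Q ⧸ base h) F α' μ' e' ∧
      (∀ x : Q, α' (x : Q ⧸ base h) = (α x : Q ⧸ base h)) ∧
      (∀ k (x : Q), μ' k (x : Q ⧸ base h) = (μ k x : Q ⧸ base h)) ∧
      (∀ x : Q, (∃ a, e' a = (x : Q ⧸ base h)) ↔ x ∈ inner h) ∧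
      ∀ x ∈ inner h, e' (dl α e x) = (x : Q ⧸ base h) := by
  intro hn
  have hαb : (base h).map (α : Q ≃* Q).toMonoidHom = base h := by
    ext v
    constructor
    · rintro ⟨w, hw, rfl⟩
      show α w ∈ base h
      rw [(h.fix w).mpr hw]; exact hw
    · intro hv
      exact ⟨v, hv, (h.fix v).mpr hv⟩
  have hμb : ∀ k : Fˣ, (base h).map (μ k : Q ≃* Q).toMonoidHom = base h := by
    intro k
    ext v
    constructor
    · rintro ⟨w, hw, rfl⟩; exact map_base h k hw
    · intro hv
      refine ⟨μ k⁻¹ v, map_base h _ hv, ?_⟩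
      show μ k (μ k⁻¹ v) = v
      rw [← MulAut.mul_apply, ← map_mul, mul_inv_cancel, map_one, MulAut.one_apply]
  let α' : MulAut (Q ⧸ base h) := QuotientGroup.congr _ _ α hαb
  let μ' : Fˣ →* MulAut (Q ⧸ base h) :=
    { toFun := fun k => QuotientGroup.congr _ _ (μ k) (hμb k)
      map_one' := MulEquiv.ext fun y => by
        induction y using QuotientGroup.induction_on with
        | H t => show ((μ 1 t : Q) : Q ⧸ base h) = _; rw [map_one]; rfl
      map_mul' := fun k l => MulEquiv.ext fun y => by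
        induction y using QuotientGroup.induction_on with
        | H t => show ((μ (k * l) t : Q) : Q ⧸ base h) = _; rw [map_mul]; rfl }
  choose s hs hsd using exists_dl h hne
  refine ⟨α', μ', fun b => (s b : Q ⧸ base h), ?_, fun x => rfl, fun k x => rfl, fun x => ⟨?_, ?_⟩, ?_⟩
  · refine ⟨h.pg.to_quotient _, fun a b => ?_, fun a b hab => ?_, fun a y => ?_, fun y => ?_, fun y => ?_,
      fun k y => ?_, fun k a => ?_⟩
    · rw [← QuotientGroup.mk_mul]
      exact QuotientGroup.eq.mpr (dl_sub h (hs _) (mul_mem (hs a) (hs b)) (by rw [dl_mul h (hs a) (hs b), hsd, hsd, hsd]))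
    · have hm : (s a)⁻¹ * s b ∈ base h := QuotientGroup.eq.mp hab
      have h1 := dl_mul h (hs a) (base_le_inner h hm)
      rw [mul_inv_cancel_left, hsd, hsd, dl_base h hm, add_zero] at h1
      exact h1.symm
    · induction y using QuotientGroup.induction_on with
      | H t =>
        rw [← QuotientGroup.mk_mul, ← QuotientGroup.mk_mul]
        refine (QuotientGroup.eq.mpr ?_).symm
        have := comm_inner_mem_base h (inv_mem (hs a)) t⁻¹
        rw [show (s a * t)⁻¹ * (t * s a) = ⁅t⁻¹, (s a)⁻¹⁆ by simp only [commutatorElement_def]; group,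
          ← commutatorElement_inv]
        exact inv_mem this
    · induction y using QuotientGroup.induction_on with
      | H t =>
        constructor
        · intro ht
          have hd : disp α t ∈ base h := QuotientGroup.eq.mp (show ((t : Q) : Q ⧸ base h) = (α t : Q) from ht.symm)
          exact ⟨dl α e t, QuotientGroup.eq.mpr (dl_sub h (hs _) hd (hsd _))⟩
        · rintro ⟨a, ha⟩
          rw [← ha]
          exact (QuotientGroup.eq.mpr (show disp α (s a) ∈ base h from hs a)).symm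
    · induction y using QuotientGroup.induction_on with
      | H t => show ((α (α t) : Q) : Q ⧸ base h) = _; rw [h.inv]
    · induction y using QuotientGroup.induction_on with
      | H t => show ((α (μ k t) : Q) : Q ⧸ base h) = ((μ k (α t) : Q) : Q ⧸ base h); rw [h.comm]
    · exact QuotientGroup.eq.mpr (dl_sub h (map_inner h k (hs a)) (hs _) ((dl_map h k (hs a)).trans (by rw [hsd, hsd])))
  · rintro ⟨a, ha⟩
    have hm : (s a)⁻¹ * x ∈ base h := QuotientGroup.eq.mp ha
    rw [show x = s a * ((s a)⁻¹ * x) from (mul_inv_cancel_left _ _).symm]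
    exact mul_mem (hs a) (base_le_inner h hm)
  · exact fun hx => ⟨dl α e x, QuotientGroup.eq.mpr (dl_sub h (hs _) hx (hsd _))⟩
  · exact fun x hx => QuotientGroup.eq.mpr (dl_sub h (hs _) hx (hsd _))

end Cfsg.Agent.LocalEven.FixedSinger
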