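/-
Under the hypotheses of `FixedSinger.Hyp` a non-abelian group has order `q ^ 3` and squares and
commutators in the fixed subgroup; scalars act linearly modulo that subgroup.
-/
import Cfsg.Agent.LocalEven.FixedSingerCore

set_option autoImplicit false
set_option linter.unusedSectionVars false

namespace Cfsg.Agent.LocalEven.FixedSinger

open Subgroup
open scoped commutatorElement

variable {F : Type} [Field F] [Finite F] [CharP F 2]

open scoped Classical in
/-- The scalar endomorphism, trivial for the scalar zero. -/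
noncomputable def scal {Q : Type*} [Group Q] (μ : Fˣ →* MulAut Q) (a : F) : Q →* Q :=
  if ha : a = 0 then 1 else (μ (Units.mk0 a ha)).toMonoidHom

universe u

variable {Q : Type u} [Group Q] [Finite Q] {α : MulAut Q} {μ : Fˣ →* MulAut Q} {e : F → Q}

theorem scal_zero (x : Q) : scal μ (0 : F) x = 1 := by simp [scal]

theorem scal_of_ne {a : F} (ha : a ≠ 0) (x : Q) : scal μ a x = μ (Units.mk0 a ha) x := by simp [scal, ha]

theorem scal_scal (a b : F) (x : Q) : scal μ a (scal μ b x) = scal μ (a * b) x := by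
  by_cases hb : b = 0
  · subst hb; rw [mul_zero, scal_zero, map_one]
  by_cases ha : a = 0
  · subst ha; rw [zero_mul, scal_zero, scal_zero]
  rw [scal_of_ne ha, scal_of_ne hb, scal_of_ne (mul_ne_zero ha hb), ← MulAut.mul_apply, ← map_mul]
  congr 2
  exact Units.ext rfl

theorem scal_one (x : Q) : scal μ (1 : F) x = x := by
  rw [scal_of_ne one_ne_zero, show Units.mk0 (1 : F) one_ne_zero = 1 from Units.ext rfl, map_one]
  rfl

variable (h : Hyp Q F α μ e)
include h

theorem scal_base (a : F) {x : Q} (hx : x ∈ base h) : scal μ a x ∈ base h := by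
  by_cases ha : a = 0
  · subst ha; rw [scal_zero]; exact one_mem _
  · rw [scal_of_ne ha]; exact map_base h _ hx

theorem co_scal (a : F) {x : Q} (hx : x ∈ base h) : co e (scal μ a x) = a * co e x := by
  by_cases ha : a = 0
  · subst ha; rw [scal_zero, zero_mul, ← e_zero h, co_e h]
  · rw [scal_of_ne ha, co_map h _ hx, Units.val_mk0]

theorem scal_inner (a : F) {x : Q} (hx : x ∈ inner h) : scal μ a x ∈ inner h := by
  by_cases ha : a = 0
  · subst ha; rw [scal_zero]; exact one_mem _
  · rw [scal_of_ne ha]; exact map_inner h _ hx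

theorem disp_scal (a : F) (x : Q) : disp α (scal μ a x) = scal μ a (disp α x) := by
  by_cases ha : a = 0
  · subst ha; simp [disp, scal_zero]
  · rw [scal_of_ne ha, scal_of_ne ha, disp_map h]

theorem dl_scal (a : F) {x : Q} (hx : x ∈ inner h) : dl α e (scal μ a x) = a * dl α e x := by
  show co e (disp α (scal μ a x)) = _
  rw [disp_scal h, co_scal h a hx]
  rfl

theorem disp_mul (x y : Q) : disp α (x * y) = ⁅y⁻¹, disp α x⁆ * disp α x * disp α y := by
  simp only [disp, map_mul, commutatorElement_def]; group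

section Small

variable (hcom : ∀ x y : Q, ⁅x, y⁆ ∈ base h) (hsq : ∀ x : Q, x * x ∈ base h)
include hcom hsq

theorem disp_mem_inner (x : Q) : disp α x ∈ inner h := by
  rw [mem_inner]
  show (disp α x)⁻¹ * α (disp α x) ∈ base h
  rw [map_disp h, ← mul_inv_rev]
  exact inv_mem (hsq _)

theorem dl_disp_mul (x y : Q) :
    dl α e (disp α (x * y)) = dl α e (disp α x) + dl α e (disp α y) := by
  have hw := base_le_inner h (hcom y⁻¹ (disp α x))
  have d1 := disp_mem_inner h hcom hsq x
  have d2 := disp_mem_inner h hcom hsq y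
  rw [disp_mul h, dl_mul h (mul_mem hw d1) d2, dl_mul h hw d1, dl_base h (hcom _ _), zero_add]

theorem dl_disp_scal (a : F) (x : Q) : dl α e (disp α (scal μ a x)) = a * dl α e (disp α x) := by
  rw [disp_scal h, dl_scal h a (disp_mem_inner h hcom hsq x)]

/-- Scalars add modulo the fixed subgroup. -/
theorem scal_add (a b : F) (x : Q) :
    (scal μ (a + b) x)⁻¹ * (scal μ a x * scal μ b x) ∈ base h := by
  haveI := base_normal h
  have hc : ∀ p q : Q ⧸ base h, p * q = q * p := by
    rintro ⟨p⟩ ⟨q⟩
    refine commutatorElement_eq_one_iff_mul_comm.mp ?_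
    show ⁅QuotientGroup.mk' (base h) p, QuotientGroup.mk' (base h) q⁆ = 1
    rw [← map_commutatorElement]
    exact (QuotientGroup.eq_one_iff _).mpr (hcom p q)
  have hs : ∀ p : Q ⧸ base h, p * p = 1 := by
    rintro ⟨p⟩
    exact (QuotientGroup.eq_one_iff _).mpr (hsq p)
  have two : ∀ a b : F, a + b + (a + b) = 0 := fun a b => CharTwo.add_self_eq_zero _
  let D : F → F → Q → Q := fun a b x => scal μ a x * scal μ b x * scal μ (a + b) x
  have hlow : ∀ a b, ∀ w ∈ inner h, D a b w ∈ base h := by
    intro a b w hw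
    have m1 := scal_inner h a hw
    have m2 := scal_inner h b hw
    have m3 := scal_inner h (a + b) hw
    refine dl_eq_zero h (mul_mem (mul_mem m1 m2) m3) ?_
    rw [dl_mul h (mul_mem m1 m2) m3, dl_mul h m1 m2, dl_scal h a hw, dl_scal h b hw, dl_scal h (a + b) hw]
    linear_combination dl α e w * two a b
  have hmid : ∀ a b x, D a b x ∈ inner h := by
    intro a b x
    have h0 : dl α e (disp α (D a b x)) = 0 := by
      rw [dl_disp_mul h hcom hsq, dl_disp_mul h hcom hsq, dl_disp_scal h hcom hsq, dl_disp_scal h hcom hsq,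
        dl_disp_scal h hcom hsq]
      linear_combination dl α e (disp α x) * two a b
    rw [mem_inner]
    exact dl_eq_zero h (disp_mem_inner h hcom hsq _) h0
  obtain ⟨k, rfl⟩ := FiniteField.isSquare_of_char_two (ringChar.eq F 2) a
  obtain ⟨l, rfl⟩ := FiniteField.isSquare_of_char_two (ringChar.eq F 2) b
  have hDD := (QuotientGroup.eq_one_iff _).mpr (hlow k l _ (hmid k l x))
  have hsum : (k + l) * (k + l) = k * k + l * l := by linear_combination k * l * (CharTwo.two_eq_zero : (2 : F) = 0)
  simp only [D, map_mul, scal_scal, QuotientGroup.mk_mul, mul_comm l k, mul_comm (k + l) k, mul_comm (k + l) l,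
    hsum] at hDD
  apply QuotientGroup.eq.mp
  rw [QuotientGroup.mk_mul]
  generalize ((scal μ (k * k) x : Q) : Q ⧸ base h) = A at hDD ⊢
  generalize ((scal μ (l * l) x : Q) : Q ⧸ base h) = B at hDD ⊢
  generalize ((scal μ (k * k + l * l) x : Q) : Q ⧸ base h) = C at hDD ⊢
  generalize ((scal μ (k * l) x : Q) : Q ⧸ base h) = X at hDD
  generalize ((scal μ (k * (k + l)) x : Q) : Q ⧸ base h) = Y at hDD
  generalize ((scal μ (l * (k + l)) x : Q) : Q ⧸ base h) = Z at hDD
  letI : CommGroup (Q ⧸ base h) := { (inferInstance : Group (Q ⧸ base h)) with mul_comm := hc }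
  have e1 : A * B * C = 1 := by
    calc A * B * C = A * B * C * ((X * X) * (Y * Y) * (Z * Z)) := by simp [hs]
      _ = A * X * Y * (X * B * Z) * (Y * Z * C) := by ac_rfl
      _ = 1 := hDD
  exact (eq_inv_of_mul_eq_one_right e1).trans (inv_eq_of_mul_eq_one_right (hs _))

end Small

omit h in
theorem class_two_aux (N : ℕ) : ∀ (Q : Type u) [Group Q] [Finite Q] (α : MulAut Q) (μ : Fˣ →* MulAut Q)
    (e : F → Q) (h : Hyp Q F α μ e), Nat.card Q ≤ N → (∃ x y : Q, x * y ≠ y * x) → (∃ c : F, c ≠ 0 ∧ c ≠ 1) →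
    (∀ x y : Q, ⁅x, y⁆ ∈ base h) ∧ (∀ x : Q, x * x ∈ base h) ∧
      Nat.card Q = Nat.card F * (Nat.card F * Nat.card F) := by
  induction N with
  | zero =>
    intro Q _ _ α μ e h hN _ _
    have := Nat.card_pos (α := Q)
    omega
  | succ N ih =>
    intro Q _ _ α μ e h hN hna hk
    have two : ∀ a : F, a + a = 0 := CharTwo.add_self_eq_zero
    have co1 : co e 1 = 0 := by rw [← e_zero h, co_e h]
    have hne : base h ≠ ⊤ := fun e' => by
      obtain ⟨x, y, hxy⟩ := hna
      exact hxy (base_cen h (e' ▸ mem_top y) x)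
    have hin : inner h ≠ ⊤ := fun e' => by
      obtain ⟨x, y, hxy⟩ := hna
      exact hxy (inner_comm h (e' ▸ mem_top x) (e' ▸ mem_top y))
    haveI := base_normal h
    obtain ⟨α', μ', e', h', hα', hμ', hmem, hval⟩ := exists_quotient h hne
    have hb' : ∀ x : Q, (x : Q ⧸ base h) ∈ base h' ↔ x ∈ inner h := hmem
    have hval' : ∀ x ∈ inner h, co e' (x : Q ⧸ base h) = dl α e x := fun x hx => by
      rw [← hval x hx, co_e h']
    have hscal : ∀ (a : F) (x : Q), scal μ' a (x : Q ⧸ base h) = ((scal μ a x : Q) : Q ⧸ base h) := by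
      intro a x
      by_cases ha : a = 0
      · subst ha; rw [scal_zero, scal_zero]; rfl
      · rw [scal_of_ne ha, scal_of_ne ha, hμ']
    have hne' : base h' ≠ ⊤ := fun e'' => hin ((Subgroup.eq_top_iff' _).mpr fun x =>
      (hb' x).mp (e'' ▸ mem_top _))
    have hcardE : Nat.card (base h) = Nat.card F :=
      (Nat.card_congr (Equiv.ofBijective (fun a => (⟨e a, e_mem h a⟩ : base h))
        ⟨fun a b e'' => h.e_inj (congrArg Subtype.val e''), by rintro ⟨_, a, rfl⟩; exact ⟨a, rfl⟩⟩)).symm
    have hcardQ := Subgroup.card_eq_card_quotient_mul_card_subgroup (base h)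
    rw [hcardE] at hcardQ
    have hF2 : 2 ≤ Nat.card F := by
      haveI := Fintype.ofFinite F
      rw [Nat.card_eq_fintype_card]
      exact Fintype.one_lt_card
    by_cases hA : ∀ x y : Q, ⁅x, y⁆ ∈ base h
    · by_cases hsq : ∀ x : Q, x * x ∈ base h
      · -- the small case
        refine ⟨hA, hsq, ?_⟩
        have htop : inner h' = ⊤ := by
          refine (Subgroup.eq_top_iff' _).mpr fun y => mem_base_of_inverted h' (map_disp h' y) ?_
          obtain ⟨z, hz⟩ := QuotientGroup.mk_surjective (disp α' y)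
          rw [← hz]
          exact (QuotientGroup.eq_one_iff _).mpr (hsq z)
        have := card_inner h' hne'
        rw [htop, Subgroup.card_top] at this
        rw [hcardQ, this]; ring
      · exfalso
        push Not at hsq
        obtain ⟨x0, hx0⟩ := hsq
        have hc' : ∀ p q : Q ⧸ base h, p * q = q * p := by
          rintro ⟨p⟩ ⟨q⟩
          refine commutatorElement_eq_one_iff_mul_comm.mp ?_
          show ⁅QuotientGroup.mk' (base h) p, QuotientGroup.mk' (base h) q⁆ = 1
          rw [← map_commutatorElement]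
          exact (QuotientGroup.eq_one_iff _).mpr (hA p q)
        have hinv' : ∀ p : Q ⧸ base h, p * p = 1 → p ∈ base h' := by
          intro p hp
          by_contra hpb
          have hd : disp α' p * disp α' p = 1 := by
            have hp' : p⁻¹ * p⁻¹ = 1 := by rw [← mul_inv_rev, hp, inv_one]
            show p⁻¹ * α' p * (p⁻¹ * α' p) = 1
            calc p⁻¹ * α' p * (p⁻¹ * α' p) = p⁻¹ * (α' p * p⁻¹) * α' p := by group
              _ = p⁻¹ * (p⁻¹ * α' p) * α' p := by rw [hc' (α' p)]
              _ = (p⁻¹ * p⁻¹) * (α' p * α' p) := by group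
              _ = 1 := by rw [hp', ← map_mul, hp, map_one, one_mul]
          have hpi : p ∈ inner h' := mem_base_of_inverted h' (map_disp h' p) hd
          exact hx0 ((QuotientGroup.eq_one_iff _).mp ((elementary_of_outside h' hpi hpb hp).2 x0))
        classical
        have hex : ∃ M, ∀ p : Q ⧸ base h, p ^ 2 ^ M = 1 := by
          obtain ⟨j, hj⟩ := IsPGroup.iff_card.mp h'.pg
          exact ⟨j, fun p => by rw [← hj]; exact pow_card_eq_one'⟩
        obtain ⟨m, hm⟩ : ∃ m, Nat.find hex = m + 1 := Nat.exists_eq_succ_of_ne_zero fun e0 => hx0 (by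
          have h1 := Nat.find_spec hex (x0 : Q ⧸ base h)
          rw [e0, pow_zero, pow_one] at h1
          have h2 := (QuotientGroup.eq_one_iff x0).mp h1
          exact mul_mem h2 h2)
        have hM : ∀ p : Q ⧸ base h, p ^ 2 ^ (m + 1) = 1 := hm ▸ Nat.find_spec hex
        obtain ⟨p0, hp0⟩ : ∃ p : Q ⧸ base h, p ^ 2 ^ m ≠ 1 := by
          by_contra hc
          push Not at hc
          exact Nat.find_min hex (by omega) hc
        let P : (Q ⧸ base h) →* (Q ⧸ base h) :=
          MonoidHom.mk' (fun p => p ^ 2 ^ m) fun a b => (Commute.mul_pow (hc' a b) _)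
        let S : (Q ⧸ base h) →* (Q ⧸ base h) :=
          MonoidHom.mk' (fun p => p * p) fun a b => by
            show a * b * (a * b) = a * a * (b * b)
            exact Commute.mul_mul_mul_comm (hc' b a) a b
        have hPr : P.range = base h' := by
          refine le_antisymm ?_ ?_
          · rintro _ ⟨p, rfl⟩
            exact hinv' _ (by
              show p ^ 2 ^ m * p ^ 2 ^ m = 1
              rw [← pow_add, ← two_mul, ← pow_succ', hM])
          · intro v hv
            obtain ⟨c, hc⟩ : p0 ^ 2 ^ m ∈ base h' := hinv' _ (by rw [← pow_add, ← two_mul, ← pow_succ', hM])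
            have hc0 : c ≠ 0 := fun e0 => hp0 (by rw [← hc, e0, e_zero h'])
            obtain ⟨a, rfl⟩ := hv
            by_cases ha : a = 0
            · exact ⟨1, by rw [map_one, ha, e_zero h']⟩
            refine ⟨μ' (Units.mk0 (a / c) (div_ne_zero ha hc0)) p0, ?_⟩
            show (μ' _ p0) ^ 2 ^ m = e' a
            rw [← map_pow, ← hc, h'.μ_e, Units.val_mk0, div_mul_cancel₀ a hc0]
        have hSk : S.ker = base h' := le_antisymm (fun p hp => hinv' p hp) (by
          rintro _ ⟨a, rfl⟩; exact e_sq h' a)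
        have hker : P.ker = S.range := by
          refine (Subgroup.eq_of_le_of_card_ge ?_ ?_).symm
          · rintro _ ⟨p, rfl⟩
            show (p * p) ^ 2 ^ m = 1
            rw [← pow_two, ← pow_mul, ← pow_succ', hM]
          · have c1 := Subgroup.card_eq_card_quotient_mul_card_subgroup P.ker
            have c2 := Subgroup.card_eq_card_quotient_mul_card_subgroup S.ker
            rw [Nat.card_congr (QuotientGroup.quotientKerEquivRange P).toEquiv, hPr] at c1
            rw [Nat.card_congr (QuotientGroup.quotientKerEquivRange S).toEquiv, hSk] at c2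
            have hpos : 0 < Nat.card (base h') := Nat.card_pos
            exact le_of_eq (Nat.eq_of_mul_eq_mul_left hpos (c1.symm.trans (c2.trans (mul_comm _ _))))
        let π : Q → F := fun x => co e' (P x)
        have hPb : ∀ x : Q, P x ∈ base h' := fun x => hPr ▸ ⟨_, rfl⟩
        have hπ : ∀ x y : Q, π (x * y) = π x + π y := fun x y => by
          show co e' (P ((x * y : Q) : Q ⧸ base h)) = _
          rw [QuotientGroup.mk_mul, map_mul, co_mul h' (hPb x) (hPb y)]
        have hπμ : ∀ (k : Fˣ) (x : Q), π (μ k x) = (k : F) * π x := fun k x => by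
          show co e' ((((μ k x : Q) : Q ⧸ base h)) ^ 2 ^ m) = _
          rw [← hμ', ← map_pow, co_map h' k (show (x : Q ⧸ base h) ^ 2 ^ m ∈ base h' from hPb x)]
          rfl
        choose r hr using fun a : F => (show ∃ x : Q, π x = a by
          obtain ⟨p, hp⟩ : e' a ∈ P.range := hPr ▸ e_mem h' a
          obtain ⟨x, rfl⟩ := QuotientGroup.mk_surjective p
          exact ⟨x, by show co e' (P x) = a; rw [hp, co_e h']⟩)
        have hsym : ∀ x y : Q, co e ⁅x, y⁆ = co e ⁅y, x⁆ := fun x y => by
          obtain ⟨a, ha⟩ := hA x y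
          rw [← commutatorElement_inv x y, ← ha, e_inv h]
        have hker2 : ∀ x x' y : Q, π x = π x' → co e ⁅x, y⁆ = co e ⁅x', y⁆ := by
          intro x x' y hxx
          have hmemk : ((x⁻¹ * x' : Q) : Q ⧸ base h) ∈ P.ker := by
            refine co_eq_zero h' (hPb _) ?_
            show π (x⁻¹ * x') = 0
            have h1 := hπ x (x⁻¹ * x')
            rw [mul_inv_cancel_left, ← hxx] at h1
            exact left_eq_add.mp h1
          rw [hker] at hmemk
          obtain ⟨p, hp⟩ := hmemk
          obtain ⟨w, rfl⟩ := QuotientGroup.mk_surjective p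
          have hz : (w * w)⁻¹ * (x⁻¹ * x') ∈ base h := QuotientGroup.eq.mp hp
          rw [show x' = x * (w * w) * ((w * w)⁻¹ * (x⁻¹ * x')) by group, comm_base_mul h hz,
            co_comm_left h (hA _ _) (hA _ _), co_comm_left h (hA _ _) (hA _ _), two, add_zero]
        have hB0 : ∀ a b : F, co e ⁅r a, r b⁆ = 0 := by
          refine biadd_alt (B := fun a b => co e ⁅r a, r b⁆) ?_ ?_ ?_ ?_
          · intro a b c
            show co e ⁅r (a + b), r c⁆ = co e ⁅r a, r c⁆ + co e ⁅r b, r c⁆
            rw [hker2 (r (a + b)) (r a * r b) _ (by rw [hπ, hr, hr, hr]), co_comm_left h (hA _ _) (hA _ _)]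
          · intro a b c
            show co e ⁅r a, r (b + c)⁆ = co e ⁅r a, r b⁆ + co e ⁅r a, r c⁆
            rw [hsym, hker2 (r (b + c)) (r b * r c) _ (by rw [hπ, hr, hr, hr]), hsym,
              co_comm_right h (hA _ _) (hA _ _)]
          · intro k hk a b
            show co e ⁅r (k * a), r (k * b)⁆ = k * co e ⁅r a, r b⁆
            rw [hker2 (r (k * a)) (μ (Units.mk0 k hk) (r a)) _ (by rw [hr, hπμ, hr, Units.val_mk0]), hsym,
              hker2 (r (k * b)) (μ (Units.mk0 k hk) (r b)) _ (by rw [hr, hπμ, hr, Units.val_mk0]), hsym,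
              co_comm_map h _ (hA _ _), Units.val_mk0]
          · show co e ⁅r 1, r 1⁆ = 0
            rw [show ⁅r 1, r 1⁆ = 1 by simp, co1]
        obtain ⟨x, y, hxy⟩ := hna
        refine hxy (commutatorElement_eq_one_iff_mul_comm.mp (co_eq_zero h (hA x y) ?_))
        rw [hker2 x (r (π x)) y (by rw [hr]), hsym, hker2 y (r (π y)) _ (by rw [hr]), hB0]
    · exfalso
      push Not at hA
      obtain ⟨a₀, b₀, hab⟩ := hA
      have hna' : ∃ p q : Q ⧸ base h, p * q ≠ q * p := ⟨a₀, b₀, fun e'' => hab (by
        rw [← QuotientGroup.eq_one_iff, ← QuotientGroup.mk'_apply, map_commutatorElement,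
          commutatorElement_eq_one_iff_mul_comm]
        exact e'')⟩
      have hsmall : Nat.card (Q ⧸ base h) ≤ N := by
        have := Nat.mul_le_mul_left (Nat.card (Q ⧸ base h)) hF2
        have := Nat.card_pos (α := Q ⧸ base h)
        omega
      obtain ⟨hcom', hsq', -⟩ := ih (Q ⧸ base h) α' μ' e' h' hsmall hna' hk
      have hC : ∀ x y : Q, ⁅x, y⁆ ∈ inner h := fun x y => by
        rw [← hb', ← QuotientGroup.mk'_apply, map_commutatorElement]; exact hcom' _ _
      have hS : ∀ x : Q, x * x ∈ inner h := fun x => by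
        rw [← hb', QuotientGroup.mk_mul]; exact hsq' _
      have hwc : ∀ {w : Q}, w ∈ inner h → ∀ c, ⁅w, c⁆ ∈ base h := fun hw c => comm_inner_mem_base h hw c
      have hadd : ∀ (a b : F) (x : Q), (scal μ (a + b) x)⁻¹ * (scal μ a x * scal μ b x) ∈ inner h := by
        intro a b x
        have := scal_add h' hcom' hsq' a b (x : Q ⧸ base h)
        rw [hscal, hscal, hscal] at this
        exact (hb' _).mp this
      -- commutators of the inner subgroup
      have Gw : ∀ {w w' : Q}, w ∈ inner h → w' ∈ inner h → dl α e w = dl α e w' →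
          ∀ c, co e ⁅w, c⁆ = co e ⁅w', c⁆ := by
        intro w w' hw hw' hd c
        conv_rhs => rw [show w' = w * (w⁻¹ * w') from (mul_inv_cancel_left _ _).symm,
          comm_base_mul h (dl_sub h hw hw' hd)]
      have Gc : ∀ {w : Q}, w ∈ inner h → ∀ {c c' : Q}, c⁻¹ * c' ∈ inner h → co e ⁅w, c⁆ = co e ⁅w, c'⁆ := by
        intro w hw c c' hcc
        conv_rhs => rw [show c' = c * (c⁻¹ * c') from (mul_inv_cancel_left _ _).symm]
        rw [co_comm_right h (hwc hw _) (hwc hw _),
          commutatorElement_eq_one_iff_mul_comm.mpr (inner_comm h hw hcc), co1, add_zero]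
      -- commutators modulo the fixed subgroup
      let β : Q → Q → F := fun x y => dl α e ⁅x, y⁆
      have βcomm : ∀ x y, β x y = β y x := fun x y => by
        show dl α e ⁅x, y⁆ = dl α e ⁅y, x⁆
        have h1 := dl_mul h (hC x y) (hC y x)
        rw [← commutatorElement_inv x y, mul_inv_cancel, dl_base h (one_mem _)] at h1
        rw [← commutatorElement_inv x y]
        exact CharTwo.add_eq_zero.mp h1.symm
      have βl : ∀ x x' y, β (x * x') y = β x y + β x' y := fun x x' y => by
        show dl α e ⁅x * x', y⁆ = dl α e ⁅x, y⁆ + dl α e ⁅x', y⁆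
        have hm : x * ⁅x', y⁆ * x⁻¹ = ⁅x, ⁅x', y⁆⁆ * ⁅x', y⁆ := by simp only [commutatorElement_def]; group
        have hb : ⁅x, ⁅x', y⁆⁆ ∈ base h := by
          rw [← commutatorElement_inv]; exact inv_mem (hwc (hC x' y) x)
        rw [show ⁅x * x', y⁆ = x * ⁅x', y⁆ * x⁻¹ * ⁅x, y⁆ by simp only [commutatorElement_def]; group, hm,
          dl_mul h (mul_mem (base_le_inner h hb) (hC _ _)) (hC _ _), dl_mul h (base_le_inner h hb) (hC _ _),
          dl_base h hb, zero_add, add_comm]
      have βinv : ∀ x y, β x y⁻¹ = β x y := fun x y => by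
        have h1 := βl y y⁻¹ x
        rw [mul_inv_cancel, show β 1 x = 0 by
          show dl α e ⁅1, x⁆ = 0
          rw [commutatorElement_one_left, dl_base h (one_mem _)]] at h1
        rw [βcomm x, βcomm x, ← CharTwo.add_eq_zero.mp h1.symm]
      have βin : ∀ x x' y, x⁻¹ * x' ∈ inner h → β x y = β x' y := fun x x' y hxx => by
        conv_rhs => rw [show x' = x * (x⁻¹ * x') from (mul_inv_cancel_left _ _).symm, βl,
          show β (x⁻¹ * x') y = 0 from dl_base h (hwc hxx y)]
        rw [add_zero]
      have βscal : ∀ k : F, ∀ x y, β (scal μ k x) (scal μ k y) = k * β x y := fun k x y => by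
        show dl α e ⁅scal μ k x, scal μ k y⁆ = _
        rw [← map_commutatorElement, dl_scal h k (hC x y)]
      obtain ⟨w₁, hw₁, hw₁d⟩ := exists_dl h hne 1
      obtain ⟨t, ht0, ht1⟩ := hk
      have hmain : ∀ a b : Q, β a b ≠ 0 → ∀ w ∈ inner h, co e ⁅w, a⁆ = 0 := by
        intro a b hβ
        let g : F → F → F := fun x l => co e ⁅scal μ x w₁, scal μ l a⁆
        have gl : ∀ x x' l, g (x + x') l = g x l + g x' l := fun x x' l => by
          show co e ⁅_, _⁆ = co e ⁅_, _⁆ + co e ⁅_, _⁆
          rw [← co_comm_left h (hwc (scal_inner h x hw₁) _) (hwc (scal_inner h x' hw₁) _)]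
          refine Gw (scal_inner h _ hw₁) (mul_mem (scal_inner h x hw₁) (scal_inner h x' hw₁)) ?_ _
          rw [dl_mul h (scal_inner h x hw₁) (scal_inner h x' hw₁), dl_scal h _ hw₁, dl_scal h _ hw₁,
            dl_scal h _ hw₁, add_mul]
        have gr : ∀ x l l', g x (l + l') = g x l + g x l' := fun x l l' => by
          show co e ⁅_, _⁆ = co e ⁅_, _⁆ + co e ⁅_, _⁆
          rw [← co_comm_right h (hwc (scal_inner h x hw₁) _) (hwc (scal_inner h x hw₁) _)]
          exact Gc (scal_inner h x hw₁) (hadd l l' a)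
        have ge : ∀ k, k ≠ 0 → ∀ x l, g (k * x) (k * l) = k * g x l := fun k _ x l => by
          show co e ⁅_, _⁆ = k * co e ⁅_, _⁆
          rw [← scal_scal, ← scal_scal, ← map_commutatorElement, co_scal h k (hwc (scal_inner h x hw₁) _)]
        have gval : ∀ {w : Q}, w ∈ inner h → ∀ l, co e ⁅w, scal μ l a⁆ = g (dl α e w) l := fun hw l =>
          Gw hw (scal_inner h _ hw₁) (by rw [dl_scal h _ hw₁, hw₁d, mul_one]) _
        have hφ : ∀ x l, β (scal μ x a) (scal μ l a) = 0 := by
          refine biadd_alt (B := fun x l => β (scal μ x a) (scal μ l a)) ?_ ?_ ?_ ?_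
          · intro x x' l; show β _ _ = _; rw [βin _ _ _ (hadd x x' a), βl]
          · intro x l l'; show β _ _ = _; rw [βcomm, βin _ _ _ (hadd l l' a), βl, βcomm, βcomm (scal μ l' a)]
          · intro k _ x l; show β _ _ = k * β _ _; rw [← scal_scal, ← scal_scal, βscal]
          · show dl α e ⁅_, _⁆ = 0
            simp [dl_base h (one_mem _)]
        let hh : F → F → F := fun x l => β (scal μ x a) (scal μ l b)
        have hhsq := biadd_sq (B := hh) (fun x x' l => by show β _ _ = _; rw [βin _ _ _ (hadd x x' a), βl])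
          (fun x l l' => by show β _ _ = _; rw [βcomm, βin _ _ _ (hadd l l' b), βl, βcomm, βcomm (scal μ l' b)])
          (fun k _ x l => by show β _ _ = k * β _ _; rw [← scal_scal, ← scal_scal, βscal]) t 1
        have h11 : hh 1 1 = β a b := by show β _ _ = _; rw [scal_one, scal_one]
        set c := scal μ t a with hc
        have hc_b : β c b = hh t 1 := by show _ = β _ _; rw [scal_one]
        have hca : β c a = 0 := by have := hφ t 1; rwa [scal_one] at this
        have key : co e ⁅⁅b⁻¹, a⁆, c⁆ + co e ⁅⁅c⁻¹, b⁆, a⁆ + co e ⁅⁅a⁻¹, c⁆, b⁆ = 0 := by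
          have J : b * ⁅⁅b⁻¹, a⁆, c⁆ * b⁻¹ * (c * ⁅⁅c⁻¹, b⁆, a⁆ * c⁻¹) * (a * ⁅⁅a⁻¹, c⁆, b⁆ * a⁻¹) = 1 := by
            simp only [commutatorElement_def]; group
          have m1 := hwc (hC b⁻¹ a) c
          have m2 := hwc (hC a⁻¹ c) b
          have m3 := hwc (hC c⁻¹ b) a
          rw [base_cen h m1 b, mul_inv_cancel_right, base_cen h m2 a, mul_inv_cancel_right, base_cen h m3 c,
            mul_inv_cancel_right] at J
          have h1 := co_mul h (mul_mem m1 m3) m2
          rw [J, co_mul h m1 m3, co1] at h1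
          rw [h1]
        have v1 : co e ⁅⁅b⁻¹, a⁆, c⁆ = g (β a b) t := by
          rw [hc, gval (hC b⁻¹ a) t]
          show g (β b⁻¹ a) t = _
          rw [βcomm b⁻¹, βinv]
        have v2 : co e ⁅⁅c⁻¹, b⁆, a⁆ = g (hh t 1) 1 := by
          conv_lhs => arg 2; arg 2; rw [← scal_one (μ := μ) a]
          rw [gval (hC c⁻¹ b) 1]
          show g (β c⁻¹ b) 1 = _
          rw [βcomm c⁻¹, βinv, βcomm b, hc_b]
        have v3 : co e ⁅⁅a⁻¹, c⁆, b⁆ = 0 := by
          have hz : ⁅a⁻¹, c⁆ ∈ base h := dl_eq_zero h (hC _ _) (by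
            show β a⁻¹ c = 0
            rw [βcomm, βinv, hca])
          rw [commutatorElement_eq_one_iff_mul_comm.mpr (base_cen h hz b).symm, co1]
        rw [v1, v2, v3, add_zero, CharTwo.add_eq_zero] at key
        have e1 := biadd_sq (B := g) gl gr ge (β a b) t
        have e2 := biadd_sq (B := g) gl gr ge (hh t 1) 1
        rw [key, e2] at e1
        rw [h11, mul_one] at hhsq
        have hg11 : g 1 1 = 0 := by
          by_contra hg
          have hgg : g 1 1 * g 1 1 ≠ 0 := mul_ne_zero hg hg
          have e3 : hh t 1 = β a b * t := by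
            have := mul_left_cancel₀ hgg e1
            rwa [mul_one] at this
          rw [e3] at hhsq
          have : t * t = t := mul_left_cancel₀ (mul_ne_zero hβ hβ) (by linear_combination hhsq)
          exact ht1 (mul_left_cancel₀ ht0 (by rw [this, mul_one]))
        intro w hw
        conv_lhs => arg 2; arg 2; rw [← scal_one (μ := μ) a]
        rw [gval hw 1]
        exact biadd_alt gl gr ge hg11 _ _
      have hcentral : ∀ w ∈ inner h, ∀ a, co e ⁅w, a⁆ = 0 := by
        intro w hw a
        have hβ0 : β a₀ b₀ ≠ 0 := fun e'' => hab (dl_eq_zero h (hC _ _) e'')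
        by_cases hz : β a b₀ = 0
        · have h1 := hmain (a * a₀) b₀ (by rw [βl, hz, zero_add]; exact hβ0) w hw
          rwa [co_comm_right h (hwc hw _) (hwc hw _), hmain a₀ b₀ hβ0 w hw, add_zero] at h1
        · exact hmain a b₀ hz w hw
      have hwa : ∀ {w : Q}, w ∈ inner h → ∀ a, a * w = w * a := fun hw a =>
        (commutatorElement_eq_one_iff_mul_comm.mp (co_eq_zero h (hwc hw a) (hcentral _ hw a))).symm
      have hd2 : ⁅a₀, b₀⁆ * ⁅a₀, b₀⁆ = 1 := by
        have e1 : ⁅a₀, b₀ * b₀⁆ = ⁅a₀, b₀⁆ * (b₀ * ⁅a₀, b₀⁆ * b₀⁻¹) := by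
          simp only [commutatorElement_def]; group
        rw [hwa (hC a₀ b₀) b₀, mul_inv_cancel_right,
          commutatorElement_eq_one_iff_mul_comm.mpr (hwa (hS b₀) a₀)] at e1
        exact e1.symm
      exact hin (elementary_of_outside h (hC a₀ b₀) hab hd2).1

/-- Squares and commutators lie in the fixed subgroup and the order is `q ^ 3`. -/
theorem class_two (hna : ∃ x y : Q, x * y ≠ y * x) (hk : ∃ c : F, c ≠ 0 ∧ c ≠ 1) :
    (∀ x y : Q, ⁅x, y⁆ ∈ base h) ∧ (∀ x : Q, x * x ∈ base h) ∧
      Nat.card Q = Nat.card F * (Nat.card F * Nat.card F) :=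
  class_two_aux (Nat.card Q) Q α μ e h le_rfl hna hk

end Cfsg.Agent.LocalEven.FixedSinger
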