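/-
Central extensions of a two dimensional space by the field with the squaring map given by a quadratic
form, and the quadratic form of a group with an involutory automorphism fixing exactly the field part.
-/
import Cfsg.Agent.LocalEven.FixedSingerClassTwo
import Cfsg.Agent.Suzuki.TwoGroupTypeA

set_option autoImplicit false
set_option linter.unusedSectionVars false

namespace Cfsg.Agent.LocalEven.FixedSinger

open Subgroup
open scoped commutatorElement

variable {F : Type} [Field F] [Finite F] [CharP F 2]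

/-- A central extension with the squares given by `φ`, up to squaring. -/
structure Frame {P : Type*} [Group P] {V : Type*} [AddGroup V] (π : P → V) (ι : F → P) (φ : V → F) :
    Prop where
  add : ∀ p r, π (p * r) = π p + π r
  ι_add : ∀ a b, ι (a + b) = ι a * ι b
  ι_cen : ∀ a p, ι a * p = p * ι a
  ker : ∀ p, π p = 0 ↔ ∃ a, ι a = p
  surj : Function.Surjective π
  inj : Function.Injective ι
  sq : ∀ p, ∃ a, ι a = p * p ∧ a * a = φ (π p)

theorem Frame.iso {P R : Type*} [Group P] [Group R] [Finite P] [Finite R] {V : Type*} [AddGroup V]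
    {π : P → V} {ι : F → P} {π' : R → V} {ι' : F → R} {φ : V → F} (h : Frame π ι φ) (h' : Frame π' ι' φ) :
    Nonempty (P ≃* R) :=
  Suzuki.TwoGroup.exists_iso_of_sq π h.add ι h.ι_add h.ι_cen h.ker h.surj π' h'.add ι' h'.ι_add h'.ι_cen
    h'.ker h'.surj h.inj h'.inj fun p r hpr => by
    obtain ⟨a, ha, ha'⟩ := h.sq p
    obtain ⟨b, hb, hb'⟩ := h'.sq r
    rw [hpr, ← hb', ← pow_two, ← pow_two] at ha'
    rw [← CharTwo.sq_injective ha'] at hb
    exact ⟨a, ha, hb⟩

theorem Frame.change {P : Type*} [Group P] {V W : Type*} [AddGroup V] [AddGroup W]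
    {π : P → V} {ι : F → P} {φ : V → F} (h : Frame π ι φ) (g : V ≃+ W) {r : F} (hr : r ≠ 0)
    (ψ : W → F) (hψ : ∀ v, φ v = r * r * ψ (g v)) : Frame (fun p => g (π p)) (fun a => ι (r * a)) ψ where
  add p s := by rw [h.add, map_add]
  ι_add a b := by rw [mul_add, h.ι_add]
  ι_cen a p := h.ι_cen _ p
  ker p := by
    rw [AddEquivClass.map_eq_zero_iff, h.ker]
    exact ⟨fun ⟨a, ha⟩ => ⟨a / r, by rw [mul_div_cancel₀ a hr, ha]⟩, fun ⟨a, ha⟩ => ⟨r * a, ha⟩⟩
  surj := g.surjective.comp h.surj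
  inj a b e := mul_left_cancel₀ hr (h.inj e)
  sq p := by
    obtain ⟨a, ha, ha'⟩ := h.sq p
    refine ⟨a / r, by rw [mul_div_cancel₀ a hr, ha], ?_⟩
    rw [hψ] at ha'
    field_simp
    linear_combination ha'

variable {Q : Type*} [Group Q] [Finite Q] {α : MulAut Q} {μ : Fˣ →* MulAut Q} {e : F → Q}

/-- The quadratic form. -/
theorem exists_form (h : Hyp Q F α μ e) (hna : ∃ x y : Q, x * y ≠ y * x) (hk : ∃ c : F, c ≠ 0 ∧ c ≠ 1) :
    ∃ (π : Q → F × F) (A B C : F), B ≠ 0 ∧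
      Frame π e (fun v => A * (v.1 * v.1) + B * (v.1 * v.2) + C * (v.2 * v.2)) := by
  obtain ⟨hcom, hsq, -⟩ := class_two h hna hk
  have co1 : co e 1 = 0 := by rw [← e_zero h, co_e h]
  have hne : base h ≠ ⊤ := fun e' => by
    obtain ⟨x, y, hxy⟩ := hna
    exact hxy (base_cen h (e' ▸ mem_top y) x)
  have hin : inner h ≠ ⊤ := fun e' => by
    obtain ⟨x, y, hxy⟩ := hna
    exact hxy (inner_comm h (e' ▸ mem_top x) (e' ▸ mem_top y))
  let ψ : Q → F := fun x => dl α e (disp α x)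
  have hψadd : ∀ x y, ψ (x * y) = ψ x + ψ y := dl_disp_mul h hcom hsq
  have hψscal : ∀ a x, ψ (scal μ a x) = a * ψ x := dl_disp_scal h hcom hsq
  have hψker : ∀ x, ψ x = 0 → x ∈ inner h := fun x hx =>
    (mem_inner h).mpr (dl_eq_zero h (disp_mem_inner h hcom hsq x) hx)
  have hψin : ∀ x ∈ inner h, ψ x = 0 := fun x hx => dl_base h hx
  obtain ⟨x₀, hx₀⟩ : ∃ x, ψ x ≠ 0 := by
    by_contra hc
    push Not at hc
    exact hin ((Subgroup.eq_top_iff' _).mpr fun x => hψker x (hc x))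
  set a₀ := scal μ (ψ x₀)⁻¹ x₀ with ha₀
  have ha₀ψ : ψ a₀ = 1 := by rw [ha₀, hψscal, inv_mul_cancel₀ hx₀]
  obtain ⟨b₀, hb₀, hb₀d⟩ := exists_dl h hne 1
  let z : Q → Q := fun x => (scal μ (ψ x) a₀)⁻¹ * x
  have hψS : ∀ x, ψ (scal μ (ψ x) a₀) = ψ x := fun x => by rw [hψscal, ha₀ψ, mul_one]
  have hz : ∀ x, z x ∈ inner h := fun x => hψker _ (by
    have h1 := hψadd (scal μ (ψ x) a₀) (z x)
    rw [show scal μ (ψ x) a₀ * z x = x from mul_inv_cancel_left _ _, hψS] at h1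
    exact left_eq_add.mp h1)
  have hsplit : ∀ x, scal μ (ψ x) a₀ * z x = x := fun x => mul_inv_cancel_left _ _
  obtain ⟨cb, hcb⟩ := exists_sq_coeff h
  let G : F → F → F := fun l k => co e ⁅scal μ l b₀, scal μ k a₀⁆
  have hGe : ∀ m, m ≠ 0 → ∀ l k, G (m * l) (m * k) = m * G l k := fun m _ l k => by
    show co e ⁅_, _⁆ = m * co e ⁅_, _⁆
    rw [← scal_scal, ← scal_scal, ← map_commutatorElement, co_scal h m (hcom _ _)]
  have hred : ∀ {u v : Q}, u⁻¹ * v ∈ base h → ∀ x, co e ⁅v, x⁆ = co e ⁅u, x⁆ := fun {u v} huv x => by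
    rw [show v = u * (u⁻¹ * v) from (mul_inv_cancel_left _ _).symm, comm_base_mul h huv]
  have hred' : ∀ {u v : Q}, u⁻¹ * v ∈ base h → ∀ x, co e ⁅x, v⁆ = co e ⁅x, u⁆ := fun {u v} huv x => by
    rw [show v = u * (u⁻¹ * v) from (mul_inv_cancel_left _ _).symm, comm_mul_base h huv]
  have hadd : ∀ a b x, (scal μ a x * scal μ b x)⁻¹ * scal μ (a + b) x ∈ base h := fun a b x => by
    have := inv_mem (scal_add h hcom hsq a b x)
    rwa [mul_inv_rev, inv_inv] at this
  have hGl : ∀ l l' k, G (l + l') k = G l k + G l' k := fun l l' k => by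
    show co e ⁅_, _⁆ = co e ⁅_, _⁆ + co e ⁅_, _⁆
    rw [hred (hadd l l' b₀), co_comm_left h (hcom _ _) (hcom _ _)]
  have hGr : ∀ l k k', G l (k + k') = G l k + G l k' := fun l k k' => by
    show co e ⁅_, _⁆ = co e ⁅_, _⁆ + co e ⁅_, _⁆
    rw [hred' (hadd k k' a₀), co_comm_right h (hcom _ _) (hcom _ _)]
  have hGsq := biadd_sq hGl hGr hGe
  let π : Q → F × F := fun x => (ψ x, dl α e (z x))
  have hzb : ∀ x, (scal μ (dl α e (z x)) b₀)⁻¹ * z x ∈ base h := fun x =>
    dl_sub h (scal_inner h _ hb₀) (hz x) (by rw [dl_scal h _ hb₀, hb₀d, mul_one])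
  refine ⟨π, co e (a₀ * a₀) * co e (a₀ * a₀), G 1 1 * G 1 1, cb * cb, ?_, ?_⟩
  · intro h0
    have hG0 : ∀ l k, G l k = 0 := biadd_alt hGl hGr hGe (mul_self_eq_zero.mp h0)
    have hA0 : ∀ k k', co e ⁅scal μ k a₀, scal μ k' a₀⁆ = 0 := by
      refine biadd_alt (B := fun k k' => co e ⁅scal μ k a₀, scal μ k' a₀⁆) ?_ ?_ ?_ ?_
      · intro a b c
        show co e ⁅_, _⁆ = co e ⁅_, _⁆ + co e ⁅_, _⁆
        rw [hred (hadd a b a₀), co_comm_left h (hcom _ _) (hcom _ _)]
      · intro a b c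
        show co e ⁅_, _⁆ = co e ⁅_, _⁆ + co e ⁅_, _⁆
        rw [hred' (hadd b c a₀), co_comm_right h (hcom _ _) (hcom _ _)]
      · intro m _ a b
        show co e ⁅_, _⁆ = m * co e ⁅_, _⁆
        rw [← scal_scal, ← scal_scal, ← map_commutatorElement, co_scal h m (hcom _ _)]
      · show co e ⁅_, _⁆ = 0
        simp [co1]
    have hsym : ∀ u v : Q, co e ⁅u, v⁆ = co e ⁅v, u⁆ := fun u v => by
      obtain ⟨a, ha⟩ := hcom u v
      rw [← commutatorElement_inv u v, ← ha, e_inv h]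
    obtain ⟨x, y, hxy⟩ := hna
    refine hxy (commutatorElement_eq_one_iff_mul_comm.mp (co_eq_zero h (hcom x y) ?_))
    have hexp : ∀ a w b v : Q, co e ⁅a * w, b * v⁆ =
        co e ⁅a, b⁆ + co e ⁅a, v⁆ + (co e ⁅w, b⁆ + co e ⁅w, v⁆) := fun a w b v => by
      rw [co_comm_left h (hcom _ _) (hcom _ _), co_comm_right h (hcom _ _) (hcom _ _),
        co_comm_right h (hcom _ _) (hcom _ _)]
    have e1 := hexp (scal μ (ψ x) a₀) (z x) (scal μ (ψ y) a₀) (z y)
    rw [hsplit x, hsplit y] at e1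
    rw [e1, hA0, commutatorElement_eq_one_iff_mul_comm.mpr (inner_comm h (hz x) (hz y)), co1, hsym (scal μ (ψ x) a₀), hred (hzb y), hred (hzb x),
      show co e ⁅scal μ (dl α e (z y)) b₀, scal μ (ψ x) a₀⁆ = 0 from hG0 _ _,
      show co e ⁅scal μ (dl α e (z x)) b₀, scal μ (ψ y) a₀⁆ = 0 from hG0 _ _]
    simp
  refine ⟨?_, h.e_add, fun a p => (h.e_cen a p).symm, ?_, ?_, h.e_inj, ?_⟩
  · intro x y
    refine Prod.ext (hψadd x y) ?_
    show dl α e (z (x * y)) = dl α e (z x) + dl α e (z y)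
    have hd : (scal μ (ψ x + ψ y) a₀)⁻¹ * (scal μ (ψ x) a₀ * scal μ (ψ y) a₀) ∈ base h :=
      scal_add h hcom hsq _ _ _
    have hc : ⁅(scal μ (ψ y) a₀)⁻¹, z x⁆ ∈ base h := hcom _ _
    have e1 : z (x * y) = (scal μ (ψ x + ψ y) a₀)⁻¹ * (scal μ (ψ x) a₀ * scal μ (ψ y) a₀) *
        (⁅(scal μ (ψ y) a₀)⁻¹, z x⁆ * z x * z y) := by
      show (scal μ (ψ (x * y)) a₀)⁻¹ * (x * y) = _
      rw [hψadd]
      conv_lhs => arg 2; rw [← hsplit x, ← hsplit y]
      simp only [commutatorElement_def]; group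
    rw [e1, dl_mul h (base_le_inner h hd) (mul_mem (mul_mem (base_le_inner h hc) (hz x)) (hz y)),
      dl_mul h (mul_mem (base_le_inner h hc) (hz x)) (hz y), dl_mul h (base_le_inner h hc) (hz x),
      dl_base h hd, dl_base h hc, zero_add, zero_add]
  · intro p
    constructor
    · intro hp
      obtain ⟨h1, h2⟩ := Prod.ext_iff.mp hp
      have h1' : ψ p = 0 := h1
      have : z p = p := by show (scal μ (ψ p) a₀)⁻¹ * p = p; rw [h1', scal_zero, inv_one, one_mul]
      exact dl_eq_zero h (hψker p h1') (by rw [← this]; exact h2)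
    · intro hp
      have hb : p ∈ base h := hp
      have h1 : ψ p = 0 := hψin p (base_le_inner h hb)
      refine Prod.ext h1 ?_
      show dl α e ((scal μ (ψ p) a₀)⁻¹ * p) = 0
      rw [h1, scal_zero, inv_one, one_mul, dl_base h hb]
  · rintro ⟨k, l⟩
    have hk' : ψ (scal μ k a₀ * scal μ l b₀) = k := by
      rw [hψadd, hψscal, ha₀ψ, mul_one, hψin _ (scal_inner h l hb₀), add_zero]
    refine ⟨scal μ k a₀ * scal μ l b₀, Prod.ext hk' ?_⟩
    show dl α e ((scal μ (ψ (scal μ k a₀ * scal μ l b₀)) a₀)⁻¹ * _) = l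
    rw [hk', inv_mul_cancel_left, dl_scal h l hb₀, hb₀d, mul_one]
  · intro p
    refine ⟨co e (p * p), e_co (hsq p), ?_⟩
    set k := ψ p
    set l := dl α e (z p)
    set a := scal μ k a₀
    have e1 : p * p = ⁅z p, a⁆ * ((a * a) * (z p * z p)) := by
      conv_lhs => rw [← hsplit p]
      calc a * z p * (a * z p) = a * ⁅z p, a⁆ * (a * z p) * z p := by
            simp only [commutatorElement_def]; group
        _ = _ := by rw [base_cen h (hcom _ _) a]; group
    have e2 : co e (a * a) = k * co e (a₀ * a₀) := by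
      rw [show a * a = scal μ k (a₀ * a₀) from (map_mul _ _ _).symm, co_scal h k (hsq _)]
    have e3 : co e ⁅z p, a⁆ = G l k := hred (hzb p) a
    rw [e1, co_mul h (hcom _ _) (mul_mem (hsq _) (hsq _)), co_mul h (hsq _) (hsq _), e2, hcb _ (hz p), e3]
    linear_combination hGsq l k + (G l k * (k * co e (a₀ * a₀)) + G l k * (cb * l) +
      k * co e (a₀ * a₀) * (cb * l)) * (CharTwo.two_eq_zero : (2 : F) = 0)

end Cfsg.Agent.LocalEven.FixedSinger
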