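/-
The two models: the Sylow 2-subgroups of the three dimensional linear and unitary groups.
-/
import Cfsg.Agent.LocalEven.FixedSingerForm
import Cfsg.Agent.LocalEven.FixedSingerUnitary
import Cfsg.Agent.Fusion.HeisSL3

set_option autoImplicit false
set_option linter.unusedSectionVars false

namespace Cfsg.Agent.LocalEven.FixedSinger

open Polynomial
open Cfsg.Agent.Fusion.Heis Cfsg.Agent.Fusion.PSLn Cfsg.Agent.KnownB Cfsg.Agent.KnownB.AutPSL

variable {F : Type} [Field F] [Fintype F] [CharP F 2] {P : Type*} [Group P] [Finite P]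

/-- A split form gives the linear group. -/
theorem split_case {π : P → F × F} {ι : F → P} (h : Frame π ι fun v => v.1 * v.2) :
    ∃ S : Sylow 2 (Matrix.ProjectiveSpecialLinearGroup (Fin 3) F),
      Nonempty (P ≃* ↥(S : Subgroup (Matrix.ProjectiveSpecialLinearGroup (Fin 3) F))) := by
  classical
  haveI : Fact (Nat.Prime 2) := ⟨Nat.prime_two⟩
  have h2 : (2 : F) = 0 := CharTwo.two_eq_zero
  let A : upperUni 3 F → F := fun u => u.val.val 0 1
  let B : upperUni 3 F → F := fun u => u.val.val 1 2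
  let C : upperUni 3 F → F := fun u => u.val.val 0 2
  have hext : ∀ u v, A u = A v → B u = B v → C u = C v → u = v := fun u v a b c => Subtype.ext (by
    rw [eq_hMat u.2, eq_hMat v.2]
    exact congr (congr (congrArg hMat a) b) c)
  have hA : ∀ u v, A (u * v) = A u + A v ∧ B (u * v) = B u + B v ∧ C (u * v) = C u + C v + A u * B v := by
    rintro ⟨u, hu⟩ ⟨v, hv⟩
    obtain ⟨a, b, c, rfl⟩ : ∃ a b c : F, u = hMat a b c := ⟨_, _, _, eq_hMat hu⟩
    obtain ⟨a', b', c', rfl⟩ : ∃ a b c : F, v = hMat a b c := ⟨_, _, _, eq_hMat hv⟩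
    simp only [A, B, C, Subgroup.coe_mul, hMat_mul]
    simp [hMat]
  let ι' : F → upperUni 3 F := fun c => ⟨hMat 0 0 c, hMat_mem _ _ _⟩
  have hι : ∀ c, A (ι' c) = 0 ∧ B (ι' c) = 0 ∧ C (ι' c) = c := fun c => by simp [A, B, C, ι', hMat]
  have hframe : Frame (fun u : upperUni 3 F => (A u * A u, B u * B u)) ι' fun v => v.1 * v.2 := by
    refine ⟨fun u v => ?_, fun a b => ?_, fun a u => ?_, fun u => ?_, ?_, fun a b hab => ?_, fun u => ?_⟩
    · obtain ⟨e1, e2, -⟩ := hA u v
      refine Prod.ext ?_ ?_ <;> simp only [e1, e2, Prod.fst_add, Prod.snd_add]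
      · linear_combination A u * A v * h2
      · linear_combination B u * B v * h2
    · obtain ⟨e1, e2, e3⟩ := hA (ι' a) (ι' b)
      obtain ⟨a1, a2, a3⟩ := hι a
      obtain ⟨b1, b2, b3⟩ := hι b
      obtain ⟨c1, c2, c3⟩ := hι (a + b)
      exact hext _ _ (by rw [c1, e1, a1, b1, add_zero]) (by rw [c2, e2, a2, b2, add_zero])
        (by rw [c3, e3, a3, b3, a1, zero_mul, add_zero])
    · obtain ⟨e1, e2, e3⟩ := hA (ι' a) u
      obtain ⟨f1, f2, f3⟩ := hA u (ι' a)
      obtain ⟨a1, a2, a3⟩ := hι a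
      exact hext _ _ (by rw [e1, f1, add_comm]) (by rw [e2, f2, add_comm])
        (by rw [e3, f3, a1, a2, zero_mul, mul_zero, add_comm (C u)])
    · constructor
      · intro hu
        obtain ⟨h1, h2'⟩ := Prod.ext_iff.mp hu
        obtain ⟨a1, a2, a3⟩ := hι (C u)
        exact ⟨C u, hext _ _ (by rw [a1, mul_self_eq_zero.mp h1]) (by rw [a2, mul_self_eq_zero.mp h2']) a3⟩
      · rintro ⟨a, rfl⟩
        obtain ⟨a1, a2, -⟩ := hι a
        simp [a1, a2]
    · rintro ⟨x, y⟩
      obtain ⟨a, rfl⟩ := FiniteField.isSquare_of_char_two (ringChar.eq F 2) x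
      obtain ⟨b, rfl⟩ := FiniteField.isSquare_of_char_two (ringChar.eq F 2) y
      exact ⟨⟨hMat a b 0, hMat_mem _ _ _⟩, by simp [A, B, hMat]⟩
    · rw [← (hι a).2.2, ← (hι b).2.2, hab]
    · obtain ⟨e1, e2, e3⟩ := hA u u
      refine ⟨A u * B u, hext _ _ ?_ ?_ ?_, by ring⟩
      · rw [(hι _).1, e1, CharTwo.add_self_eq_zero]
      · rw [(hι _).2.1, e2, CharTwo.add_self_eq_zero]
      · rw [(hι _).2.2, e3, CharTwo.add_self_eq_zero, zero_add]
  obtain ⟨Ψ⟩ := h.iso hframe
  obtain ⟨S⟩ : Nonempty (Sylow 2 (Matrix.ProjectiveSpecialLinearGroup (Fin 3) F)) := inferInstance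
  obtain ⟨g, hg⟩ := exists_proj_sylow (le_refl 3) S
  have hinj : Function.Injective ((proj g).comp (upperUni 3 F).subtype) := by
    rintro ⟨u, hu⟩ ⟨v, hv⟩ e
    obtain ⟨c, hc⟩ := (proj_eq_iff g u v).mp e
    exact Subtype.ext (uni_smul_eq (by norm_num) hu hv hc)
  exact ⟨S, ⟨(Ψ.trans (MonoidHom.ofInjective hinj)).trans (MulEquiv.subgroupCongr (by
    rw [hg, MonoidHom.range_comp, Subgroup.range_subtype]))⟩⟩

/-- A form without zeros gives the unitary group. -/
theorem anisotropic_case {n : ℕ} (hn : 2 ≤ n) (hF : Fintype.card F = 2 ^ n) {π : P → F × F} {ι : F → P}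
    {A B C : F} (hA : A ≠ 0) (hB : B ≠ 0) (hno : ∀ r : F, A * (r * r) + B * r + C ≠ 0)
    (h : Frame π ι fun v => A * (v.1 * v.1) + B * (v.1 * v.2) + C * (v.2 * v.2)) :
    ∃ (K : Type) (_ : Field K) (_ : Fintype K), Fintype.card K = 4 ^ n ∧
      ∃ S : Sylow 2 (Cfsg.PSU 3 K (2 ^ n)), Nonempty (P ≃* ↥(S : Subgroup (Cfsg.PSU 3 K (2 ^ n)))) := by
  classical
  haveI : Fact (Nat.Prime 2) := ⟨Nat.prime_two⟩
  set b := B / A with hb
  set c := C / A with hc
  have hb0 : b ≠ 0 := div_ne_zero hB hA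
  set f : F[X] := X ^ 2 + Polynomial.C b * X + Polynomial.C c with hf
  have hdeg : f.natDegree = 2 := by rw [hf]; compute_degree!
  have hmon : f.Monic := by rw [hf]; monicity!
  have hirr : Irreducible f := by
    rw [hmon.irreducible_iff_roots_eq_zero_of_degree_le_three hdeg.ge (by rw [hdeg]; norm_num),
      Multiset.eq_zero_iff_forall_notMem]
    intro r hr
    rw [Polynomial.mem_roots hmon.ne_zero, Polynomial.IsRoot, hf] at hr
    simp only [eval_add, eval_pow, eval_X, eval_mul, eval_C] at hr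
    refine hno r ?_
    rw [hb, hc] at hr
    field_simp at hr
    linear_combination hr
  haveI := Fact.mk hirr
  haveI : Module.Finite F (AdjoinRoot f) := (AdjoinRoot.powerBasis hmon.ne_zero).finite
  haveI : Finite (AdjoinRoot f) := Module.finite_of_finite F
  letI : Fintype (AdjoinRoot f) := Fintype.ofFinite _
  set σ : F →+* AdjoinRoot f := algebraMap F (AdjoinRoot f) with hσ
  set θ := AdjoinRoot.root f with hθ
  have hcK : Fintype.card (AdjoinRoot f) = 4 ^ n := by
    rw [← Nat.card_eq_fintype_card, Module.natCard_eq_pow_finrank (K := F),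
      (AdjoinRoot.powerBasis hmon.ne_zero).finrank, AdjoinRoot.powerBasis_dim, hdeg,
      Nat.card_eq_fintype_card, hF, ← pow_mul, mul_comm, pow_mul]
    norm_num
  haveI : CharP (AdjoinRoot f) 2 := charP_of_injective_ringHom σ.injective 2
  have h2 : (2 : AdjoinRoot f) = 0 := CharTwo.two_eq_zero
  have hcK' : Fintype.card (AdjoinRoot f) = (2 ^ n) ^ 2 := by
    rw [hcK, ← pow_mul, mul_comm, pow_mul]; norm_num
  have hroot : θ * θ + σ b * θ + σ c = 0 := by
    have : Polynomial.aeval θ (X ^ 2 + Polynomial.C b * X + Polynomial.C c) = 0 := by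
      rw [← hf, hθ, AdjoinRoot.aeval_eq, AdjoinRoot.mk_self]
    simp only [map_add, map_mul, map_pow, aeval_X, aeval_C] at this
    rw [← hσ] at this
    linear_combination this
  set q := 2 ^ n with hq
  have hfq : ∀ x y : AdjoinRoot f, (x + y) ^ q = x ^ q + y ^ q := fun x y => add_pow_char_pow x y 2 n
  have hσq : ∀ x : F, σ x ^ q = σ x := fun x => by rw [← map_pow, ← hF, FiniteField.pow_card]
  have hθF : ∀ x : F, θ ≠ σ x := by
    intro x e
    refine hno x ?_
    rw [e, ← map_mul, ← map_mul, ← map_add, ← map_add, map_eq_zero_iff σ σ.injective, hb, hc] at hroot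
    field_simp at hroot
    linear_combination hroot
  have hfix : ∀ x : AdjoinRoot f, x ^ q = x → ∃ a, σ a = x := by
    intro x hx
    by_contra hno'
    push Not at hno'
    have hq2 : 2 ≤ q := le_trans (by norm_num) (Nat.pow_le_pow_right (by norm_num) (by omega : 1 ≤ n))
    have hsub : (insert x (Finset.univ.image σ)).val ≤
        (Polynomial.X ^ q - Polynomial.X : (AdjoinRoot f)[X]).roots := by
      refine Finset.val_le_iff_val_subset.2 fun y hy => ?_
      rw [Finset.mem_val, Finset.mem_insert, Finset.mem_image] at hy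
      rw [Polynomial.mem_roots (FiniteField.X_pow_card_sub_X_ne_zero _ hq2)]
      rcases hy with rfl | ⟨a, -, rfl⟩
      · simp [sub_eq_zero.2 hx]
      · simp [sub_eq_zero.2 (hσq a)]
    have h1 := (Multiset.card_le_card hsub).trans (Polynomial.card_roots' _)
    rw [FiniteField.X_pow_card_sub_X_natDegree_eq _ (by omega : 1 < q), Finset.card_val,
      Finset.card_insert_of_notMem (by simpa [eq_comm] using hno'), Finset.card_image_of_injective _ σ.injective,
      Finset.card_univ, hF] at h1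
    omega
  have hθq : θ ^ q = θ + σ b := by
    have e1 : θ ^ q * θ ^ q + σ b * θ ^ q + σ c = 0 := by
      have := congrArg (· ^ q) hroot
      simp only [hfq, mul_pow, hσq, zero_pow (show q ≠ 0 by positivity)] at this
      exact this
    have e2 : (θ ^ q - θ) * (θ ^ q + θ + σ b) = 0 := by linear_combination e1 - hroot
    rcases mul_eq_zero.mp e2 with e3 | e3
    · obtain ⟨a, ha⟩ := hfix θ (sub_eq_zero.mp e3)
      exact absurd ha.symm (hθF a)
    · linear_combination e3 - (θ + σ b) * h2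
  let N : AdjoinRoot f → F := fun w => Function.invFun σ (w ^ q * w)
  have hN : ∀ w : AdjoinRoot f, σ (N w) = w ^ q * w := fun w => Function.invFun_eq (hfix _ (by
    rw [mul_pow, ← pow_mul w q q, ← pow_two, ← hcK', FiniteField.pow_card, mul_comm]))
  let g₀ : F × F →+ AdjoinRoot f := AddMonoidHom.mk' (fun v => σ v.1 + θ * σ v.2) fun u v => by
    rw [Prod.fst_add, Prod.snd_add, map_add, map_add]; ring
  have hg : Function.Bijective g₀ := by
    refine (Fintype.bijective_iff_injective_and_card _).mpr ⟨?_, ?_⟩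
    · refine (injective_iff_map_eq_zero g₀).mpr ?_
      rintro ⟨x, y⟩ hv
      have hv' : σ x + θ * σ y = 0 := hv
      by_cases hy : y = 0
      · subst hy
        rw [map_zero, mul_zero, add_zero, map_eq_zero_iff σ σ.injective] at hv'
        rw [hv']; rfl
      · exfalso
        refine hθF (x / y) ?_
        rw [map_div₀, eq_div_iff ((map_ne_zero_iff σ σ.injective).mpr hy)]
        linear_combination hv' - σ x * h2
    · rw [Fintype.card_prod, hF, hcK', hq, pow_two]
  obtain ⟨r, hr⟩ := FiniteField.isSquare_of_char_two (ringChar.eq F 2) A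
  have hr0 : r ≠ 0 := fun e => hA (by rw [hr, e, mul_zero])
  have hframe := h.change (AddEquiv.ofBijective g₀ hg) hr0 N (by
    rintro ⟨x, y⟩
    show A * (x * x) + B * (x * y) + C * (y * y) = r * r * N (σ x + θ * σ y)
    rw [← hr]
    apply σ.injective
    rw [map_mul σ A (N _), hN, hfq, mul_pow, hσq, hσq, hθq, show B = A * b by rw [hb, mul_div_cancel₀ B hA],
      show C = A * c by rw [hc, mul_div_cancel₀ C hA]]
    simp only [map_add, map_mul]
    linear_combination -(σ A * σ y * σ y * hroot) + σ A * (σ y * σ y * σ c - σ x * σ y * θ) * h2)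
  obtain ⟨S⟩ : Nonempty (Sylow 2 (Cfsg.PSU 3 (AdjoinRoot f) q)) := inferInstance
  refine ⟨AdjoinRoot f, inferInstance, inferInstance, hcK, S, ?_⟩
  obtain ⟨a, γ, hext, hadd, hγ, hmem, hsur⟩ := unitary_coords hn rfl hcK' S
  have ha1 : a 1 = 0 := by have := hadd 1 1; rw [mul_one] at this; exact left_eq_add.mp this
  have hsq : ∀ x, a (x * x) = 0 ∧ γ (x * x) = a x ^ q * a x := fun x => by
    rw [hadd, hγ, CharTwo.add_self_eq_zero, CharTwo.add_self_eq_zero, zero_add]
    exact ⟨rfl, rfl⟩
  choose ι' hι'a hι'γ using fun z : F => hsur 0 (σ z) (by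
    rw [hσq, CharTwo.add_self_eq_zero, zero_pow (by omega)])
  have hframe' : Frame (fun s => a s * a s) ι' N := by
    refine ⟨fun s t => ?_, fun u v => ?_, fun u s => ?_, fun s => ?_, ?_, fun u v huv => ?_, fun s => ?_⟩
    · show a (s * t) * a (s * t) = a s * a s + a t * a t
      rw [hadd]; linear_combination a s * a t * h2
    · refine hext _ _ ?_ ?_
      · rw [hadd, hι'a, hι'a, hι'a, add_zero]
      · rw [hγ, hι'γ, hι'γ, hι'γ, hι'a, hι'a, mul_zero, add_zero, map_add]
    · refine hext _ _ ?_ ?_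
      · rw [hadd, hadd, add_comm]
      · rw [hγ, hγ, hι'a, zero_pow (show q ≠ 0 by positivity), zero_mul, mul_zero, add_comm (γ (ι' u))]
    · constructor
      · intro hs
        have h0 : a s = 0 := mul_self_eq_zero.mp hs
        have h1 := hmem s
        rw [h0, zero_pow (by omega), CharTwo.add_eq_zero] at h1
        obtain ⟨u, hu⟩ := hfix _ h1.symm
        exact ⟨u, hext _ _ (by rw [hι'a, h0]) (by rw [hι'γ, hu])⟩
      · rintro ⟨u, rfl⟩
        show a (ι' u) * a (ι' u) = 0
        rw [hι'a, mul_zero]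
    · intro w
      obtain ⟨v, rfl⟩ := FiniteField.isSquare_of_char_two (ringChar.eq (AdjoinRoot f) 2) w
      obtain ⟨t, ht⟩ : ∃ t : AdjoinRoot f, t + t ^ q = v ^ (q + 1) := by
        obtain ⟨d, hd⟩ := hfix (v ^ (q + 1)) (by
          rw [pow_succ, mul_pow, ← pow_mul v q q, ← pow_two, ← hcK', FiniteField.pow_card, mul_comm])
        refine ⟨σ (d / b) * θ, ?_⟩
        rw [mul_pow, hσq, hθq, ← hd]
        have : σ (d / b) * σ b = σ d := by rw [← map_mul, div_mul_cancel₀ d hb0]
        linear_combination this + σ (d / b) * θ * h2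
      obtain ⟨s, hs, -⟩ := hsur v t ht
      exact ⟨s, by show a s * a s = v * v; rw [hs]⟩
    · have := congrArg γ huv
      rw [hι'γ, hι'γ] at this
      exact σ.injective this
    · refine ⟨Function.invFun σ (a s ^ q * a s), hext _ _ ?_ ?_, ?_⟩
      · rw [hι'a, (hsq s).1]
      · rw [hι'γ, (hsq s).2]; exact hN (a s)
      · apply σ.injective
        show σ (N (a s) * N (a s)) = σ (N (a s * a s))
        rw [map_mul, hN, hN, mul_pow]; ring
  exact hframe.iso hframe'

/-- The dichotomy. -/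
theorem of_form {n : ℕ} (hn : 2 ≤ n) (hF : Fintype.card F = 2 ^ n) {π : P → F × F} {ι : F → P} {A B C : F}
    (hB : B ≠ 0) (h : Frame π ι fun v => A * (v.1 * v.1) + B * (v.1 * v.2) + C * (v.2 * v.2)) :
    (∃ (K : Type) (_ : Field K) (_ : Fintype K), Fintype.card K = 4 ^ n ∧
      ∃ S : Sylow 2 (Cfsg.PSU 3 K (2 ^ n)), Nonempty (P ≃* ↥(S : Subgroup (Cfsg.PSU 3 K (2 ^ n))))) ∨
    (∃ (K : Type) (_ : Field K) (_ : Fintype K), Fintype.card K = 2 ^ n ∧
      ∃ S : Sylow 2 (Matrix.ProjectiveSpecialLinearGroup (Fin 3) K),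
        Nonempty (P ≃* ↥(S : Subgroup (Matrix.ProjectiveSpecialLinearGroup (Fin 3) K)))) := by
  have h2 : (2 : F) = 0 := CharTwo.two_eq_zero
  have key : ∀ (L : F × F →+ F × F), Function.Injective L →
      (∀ v : F × F, A * (v.1 * v.1) + B * (v.1 * v.2) + C * (v.2 * v.2) = (L v).1 * (L v).2) →
      ∃ S : Sylow 2 (Matrix.ProjectiveSpecialLinearGroup (Fin 3) F),
        Nonempty (P ≃* ↥(S : Subgroup (Matrix.ProjectiveSpecialLinearGroup (Fin 3) F))) := fun L hL hv =>
    split_case (h.change (AddEquiv.ofBijective L ⟨hL, Finite.injective_iff_surjective.mp hL⟩) one_ne_zero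
      (fun v => v.1 * v.2) fun v => by rw [one_mul, one_mul]; exact hv v)
  by_cases hA : A = 0
  · refine Or.inr ⟨F, inferInstance, inferInstance, hF, key
      (AddMonoidHom.mk' (fun v => (B * v.1 + C * v.2, v.2)) fun u v => Prod.ext (by
        show B * (u.1 + v.1) + C * (u.2 + v.2) = _ + _
        ring) rfl) ?_ ?_⟩
    · rintro ⟨x, y⟩ ⟨x', y'⟩ e
      obtain ⟨e1, e2⟩ := Prod.ext_iff.mp e
      simp only [AddMonoidHom.mk'_apply] at e1 e2
      subst e2
      rw [mul_left_cancel₀ hB (add_right_cancel e1)]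
    · intro v
      show _ = (B * v.1 + C * v.2) * v.2
      rw [hA]; ring
  by_cases hroot : ∃ r : F, A * (r * r) + B * r + C = 0
  · obtain ⟨r, hr⟩ := hroot
    refine Or.inr ⟨F, inferInstance, inferInstance, hF, key
      (AddMonoidHom.mk' (fun v => (v.1 + r * v.2, A * v.1 + (A * r + B) * v.2)) fun u v => Prod.ext (by
        show u.1 + v.1 + r * (u.2 + v.2) = _ + _
        ring) (by
        show A * (u.1 + v.1) + (A * r + B) * (u.2 + v.2) = _ + _
        ring)) ?_ ?_⟩
    · rintro ⟨x, y⟩ ⟨x', y'⟩ e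
      obtain ⟨e1, e2⟩ := Prod.ext_iff.mp e
      simp only [AddMonoidHom.mk'_apply] at e1 e2
      have hy : y = y' := mul_left_cancel₀ hB (by linear_combination e2 - A * e1)
      subst hy
      rw [add_right_cancel e1]
    · intro v
      show _ = (v.1 + r * v.2) * (A * v.1 + (A * r + B) * v.2)
      linear_combination -(v.2 * v.2 * hr) + (C * (v.2 * v.2) - A * r * v.1 * v.2) * h2
  · exact Or.inl (anisotropic_case hn hF hA hB (fun r hr => hroot ⟨r, hr⟩) h)

end Cfsg.Agent.LocalEven.FixedSinger
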