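/-
Cores inverted by an involution with constrained centralizer: trivial two-layers and balance.
-/
import Cfsg.Agent.Components.Local
import Cfsg.Agent.Components.Signalizer

set_option autoImplicit false
set_option linter.style.haveILetI false

namespace Cfsg.Agent.LocalEven

open Subgroup Cfsg.Agent Cfsg.Agent.Components
open scoped commutatorElement

variable {G : Type*} [Group G] [Finite G]

/-- An involution fixing only the identity of an odd subgroup inverts it. -/
theorem inverts_of_fixed_point_free {T : Subgroup G} {z : G} (hz : z * z = 1)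
    (hT : (Nat.card T).Coprime 2) (hn : ∀ t ∈ T, z * t * z ∈ T)
    (hfix : ∀ t ∈ T, z * t * z = t → t = 1) : ∀ t ∈ T, z * t * z = t⁻¹ := by
  have hzt : ∀ t : G, z * (z * t * z) * z = t := fun t => by
    calc z * (z * t * z) * z = (z * z) * t * (z * z) := by group
      _ = t := by rw [hz]; group
  let f : T → T := fun t => ⟨(t : G)⁻¹ * (z * t * z), T.mul_mem (T.inv_mem t.2) (hn t t.2)⟩
  have hf : Function.Injective f := by
    intro a b hab
    have h : (a : G)⁻¹ * (z * a * z) = (b : G)⁻¹ * (z * b * z) := congrArg Subtype.val hab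
    have hz' : z⁻¹ = z := inv_eq_of_mul_eq_one_left hz
    have h1 : z * ((b : G) * (a : G)⁻¹) * z = (b : G) * (a : G)⁻¹ := by
      calc z * ((b : G) * (a : G)⁻¹) * z = (z * b * z) * (z * a * z)⁻¹ := by
            rw [mul_inv_rev, mul_inv_rev, hz']
            calc z * ((b : G) * (a : G)⁻¹) * z = z * b * 1 * (a : G)⁻¹ * z := by group
              _ = z * b * (z * z) * (a : G)⁻¹ * z := by rw [hz]
              _ = _ := by group
        _ = (b : G) * ((b : G)⁻¹ * (z * b * z)) * (z * a * z)⁻¹ := by group
        _ = (b : G) * ((a : G)⁻¹ * (z * a * z)) * (z * a * z)⁻¹ := by rw [h]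
        _ = (b : G) * (a : G)⁻¹ := by group
    have := hfix _ (T.mul_mem b.2 (T.inv_mem a.2)) h1
    exact Subtype.ext (mul_inv_eq_one.mp this).symm
  intro t ht
  obtain ⟨g, hg⟩ := (Finite.injective_iff_surjective.mp hf) ⟨t, ht⟩
  have he : (g : G)⁻¹ * (z * g * z) = t := congrArg Subtype.val hg
  rw [← he]
  have hz' : z⁻¹ = z := inv_eq_of_mul_eq_one_left hz
  calc z * ((g : G)⁻¹ * (z * g * z)) * z = z * (g : G)⁻¹ * z * g * (z * z) := by group
    _ = z * (g : G)⁻¹ * z * g := by rw [hz, mul_one]
    _ = ((g : G)⁻¹ * (z * g * z))⁻¹ := by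
      rw [mul_inv_rev, mul_inv_rev, mul_inv_rev, inv_inv, hz']
      group

/-- An odd subgroup inverted by an element is commutative. -/
theorem comm_of_inverted {T : Subgroup G} {z : G} (hz : z * z = 1)
    (h : ∀ t ∈ T, z * t * z = t⁻¹) : ∀ a ∈ T, ∀ b ∈ T, a * b = b * a := by
  intro a ha b hb
  have h1 := h (a * b) (T.mul_mem ha hb)
  have h2 : z * (a * b) * z = a⁻¹ * b⁻¹ := by
    calc z * (a * b) * z = z * a * 1 * b * z := by group
      _ = z * a * (z * z) * b * z := by rw [hz]
      _ = (z * a * z) * (z * b * z) := by group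
      _ = a⁻¹ * b⁻¹ := by rw [h a ha, h b hb]
  rw [h2, ← mul_inv_rev, inv_inj] at h1
  exact h1.symm

/-- A group without components whose odd core is inverted by an involution with componentless
centralizer has trivial two-layer. -/
theorem pLayer_two_eq_bot {H : Type*} [Group H] [Finite H] (hE : Cfsg.layer H = ⊥) {z : H}
    (hz : z * z = 1) (hinv : ∀ o ∈ Cfsg.pPrimeCore 2 H, z * o * z = o⁻¹)
    (hzE : Cfsg.layer ↥(centralizer ({z} : Set H)) = ⊥) : Cfsg.pLayer 2 H = ⊥ := by
  haveI : Fact (Nat.Prime 2) := ⟨Nat.prime_two⟩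
  rw [pLayer_eq_bot_iff, layer_eq_bot_iff]
  intro L hL
  set O := Cfsg.pPrimeCore 2 H with hO
  set π := pBar 2 H with hπ
  set C := centralizer (O : Set H) with hC
  have hOC : O ≤ C := fun a ha b hb => comm_of_inverted hz hinv b hb a ha
  have hker : π.ker ≤ C := by rw [hπ, pBar_ker]; exact hOC
  haveI hCn : C.Normal := by rw [hC]; infer_instance
  haveI : (C.map π).Normal := hCn.map π pBar_surjective
  rcases component_le_or_commutator_normal hL (C.map π) with hle | hcomm
  · -- the component lifts to one of the group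
    have hK := isPComponent_pComp hL
    have hKC : pComp L ≤ C := by
      refine (pComp_le L).trans ?_
      rw [← Subgroup.comap_map_eq_self hker]
      exact Subgroup.comap_mono hle
    have hq : Cfsg.IsQuasisimple ↥(pComp L) := by
      rw [pComponent_quasisimple_iff hK, pPrimeCore_map_subtype hK.1, commutator_eq_bot_iff_le_centralizer]
      intro k hk o ho
      exact hKC hk o ho.2
    exact layer_eq_bot_iff.mp hE _ ⟨hK.1, hq⟩
  · -- otherwise the involution centralizes the component modulo the core
    have hzC : ∀ g : H, g * z * g⁻¹ * z⁻¹ ∈ C := by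
      intro g o ho
      have hz' : z⁻¹ = z := inv_eq_of_mul_eq_one_left hz
      have hg : g⁻¹ * o * g ∈ O := by
        have := (inferInstance : O.Normal).conj_mem o ho g⁻¹
        rwa [inv_inv] at this
      have h1 := hinv _ hg
      have h2 := hinv o ho
      rw [hz']
      calc o * (g * z * g⁻¹ * z) = g * (g⁻¹ * o * g) * z * g⁻¹ * z := by group
        _ = g * (z * (z * (g⁻¹ * o * g) * z)) * g⁻¹ * z := by
          rw [← mul_assoc z, ← mul_assoc z, hz]; group
        _ = g * z * g⁻¹ * (o⁻¹ * z) := by rw [h1]; group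
        _ = g * z * g⁻¹ * (z * o * z * z) := by rw [h2]
        _ = g * z * g⁻¹ * z * o := by rw [mul_assoc (z * o), hz]; group
    have h1 : ⁅L, zpowers (π z)⁆ ≤ C.map π := by
      rw [commutator_le]
      rintro l hl y hy
      obtain ⟨g, rfl⟩ := pBar_surjective (p := 2) l
      obtain ⟨i, rfl⟩ := mem_zpowers_iff.mp hy
      have hmk : ∀ g : H, (QuotientGroup.mk' C (g * z * g⁻¹ * z⁻¹)) = 1 := fun g =>
        (QuotientGroup.eq_one_iff _).mpr (hzC g)
      refine ⟨⁅g, z ^ i⁆, (QuotientGroup.eq_one_iff _).mp ?_, by rw [map_commutatorElement, map_zpow]⟩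
      show QuotientGroup.mk' C ⁅g, z ^ i⁆ = 1
      rw [map_commutatorElement, map_zpow, commutatorElement_eq_one_iff_mul_comm]
      have h := hmk g
      simp only [map_mul, map_inv] at h
      rw [mul_inv_eq_one, mul_inv_eq_iff_eq_mul] at h
      exact ((Commute.zpow_right h) i).eq
    have h2 : ⁅⁅L, zpowers (π z)⁆, L⁆ = ⊥ := by
      refine le_bot_iff.mp ((commutator_mono h1 le_rfl).trans ?_)
      rw [commutator_comm, hcomm]
    have h3 : ⁅⁅zpowers (π z), L⁆, L⁆ = ⊥ := by rwa [commutator_comm (zpowers (π z)) L]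
    have h4 := Subgroup.commutator_commutator_eq_bot_of_rotate h2 h3
    rw [component_commutator_self hL, commutator_eq_bot_iff_le_centralizer] at h4
    let f : ↥(centralizer ({z} : Set H)) →* H ⧸ O := π.comp (centralizer ({z} : Set H)).subtype
    have hLf : L ≤ f.range := by
      intro l hl
      obtain ⟨g, rfl⟩ := pBar_surjective (p := 2) l
      have hcz : π g * π z = π z * π g := (h4 hl (π z) (mem_zpowers _)).symm
      set e := g⁻¹ * z * g * z⁻¹ with he
      have heO : e ∈ O := by
        have h : π e = 1 := by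
          rw [he, map_mul, map_mul, map_mul, map_inv, map_inv, mul_assoc _ (π z), ← hcz]
          group
        exact pBar_eq_one_iff.mp h
      obtain ⟨n, hn⟩ : Odd (orderOf e) := by
        rw [← Nat.not_even_iff_odd, even_iff_two_dvd]
        intro hd
        exact Core.not_dvd_card_pPrimeCore 2 H (hd.trans (Subgroup.orderOf_dvd_natCard _ heO))
      set o := e ^ (n + 1) with ho
      have hoo : o * o = e := by
        rw [ho, ← pow_add, show n + 1 + (n + 1) = orderOf e + 1 by omega, pow_succ, pow_orderOf_eq_one,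
          one_mul]
      have hoO : o ∈ O := O.pow_mem heO _
      have hz' : z⁻¹ = z := inv_eq_of_mul_eq_one_left hz
      have hgo : g * o ∈ centralizer ({z} : Set H) := by
        refine mem_centralizer_singleton_iff.mpr ?_
        have h5 : z * o = o⁻¹ * z := by
          rw [← hinv o hoO, mul_assoc (z * o), hz, mul_one]
        have h6 : z * g = g * e * z := by
          rw [he, hz']
          calc z * g = z * g * (z * z) := by rw [hz, mul_one]
            _ = g * (g⁻¹ * z * g * z) * z := by group
        calc g * o * z = g * (o * o * o⁻¹) * z := by group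
          _ = g * e * (o⁻¹ * z) := by rw [hoo]; group
          _ = g * e * z * o := by rw [← h5]; group
          _ = z * (g * o) := by rw [← h6]; group
      refine ⟨⟨g * o, hgo⟩, ?_⟩
      show π (g * o) = π g
      rw [map_mul, pBar_eq_one_iff.mpr hoO, mul_one]
    have hfi : Function.Injective f := by
      rw [← MonoidHom.ker_eq_bot_iff, eq_bot_iff]
      intro g hg
      have hgO : (g : H) ∈ O := pBar_eq_one_iff.mp hg
      have h5 := hinv _ hgO
      rw [← mem_centralizer_singleton_iff.mp g.2, mul_assoc, hz, mul_one, eq_inv_iff_mul_eq_one] at h5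
      refine mem_bot.mpr (Subtype.ext (orderOf_eq_one_iff.mp ?_))
      refine Nat.eq_one_of_dvd_coprimes (Nat.Coprime.coprime_dvd_left
        (Subgroup.orderOf_dvd_natCard _ hgO) (Core.card_pPrimeCore_coprime 2 H)) dvd_rfl ?_
      exact orderOf_dvd_of_pow_eq_one (by rw [pow_two]; exact h5)
    refine layer_eq_bot_iff.mp hzE (L.comap f) ⟨hL.1.comap f, ?_⟩
    exact isQuasisimple_of_equiv ((Subgroup.equivMapOfInjective _ f hfi).trans
      (MulEquiv.subgroupCongr (Subgroup.map_comap_eq_self hLf))).symm hL.2

omit [Finite G] in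
/-- Conjugation carries the core of a centralizer to that of the conjugate element. -/
theorem core_centralizer_conj (g y : G) :
    ((Cfsg.oddCore ↥(centralizer ({y} : Set G))).map (centralizer ({y} : Set G)).subtype).map
      (MulAut.conj g).toMonoidHom =
    (Cfsg.oddCore ↥(centralizer ({g * y * g⁻¹} : Set G))).map
      (centralizer ({g * y * g⁻¹} : Set G)).subtype := by
  have h : (centralizer ({y} : Set G)).map (MulAut.conj g).toMonoidHom =
      centralizer ({g * y * g⁻¹} : Set G) := by
    ext c
    constructor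
    · rintro ⟨d, hd, rfl⟩
      refine mem_centralizer_singleton_iff.mpr ?_
      show g * d * g⁻¹ * (g * y * g⁻¹) = g * y * g⁻¹ * (g * d * g⁻¹)
      calc g * d * g⁻¹ * (g * y * g⁻¹) = g * (d * y) * g⁻¹ := by group
        _ = g * (y * d) * g⁻¹ := by rw [mem_centralizer_singleton_iff.mp hd]
        _ = _ := by group
    · intro hc
      refine ⟨g⁻¹ * c * g, mem_centralizer_singleton_iff.mpr ?_, ?_⟩
      · calc g⁻¹ * c * g * y = g⁻¹ * (c * (g * y * g⁻¹)) * g := by group
          _ = g⁻¹ * (g * y * g⁻¹ * c) * g := by rw [mem_centralizer_singleton_iff.mp hc]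
          _ = _ := by group
      · show g * (g⁻¹ * c * g) * g⁻¹ = c
        group
  set e := ((MulAut.conj g).subgroupMap (centralizer ({y} : Set G))).trans (MulEquiv.subgroupCongr h)
  show _ = (Cfsg.pPrimeCore 2 _).map _
  rw [← Core.pPrimeCore_map_equiv (p := 2) e, Subgroup.map_map, Subgroup.map_map]
  rfl

end Cfsg.Agent.LocalEven
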