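import Cfsg.Prelude.Def_LocalEven
import Cfsg.Agent.Core.Cores
import Cfsg.Agent.Core.Residual
import Cfsg.Agent.Components.FStar
import Cfsg.Agent.Coprime.Generation
import Cfsg.Agent.LocalEven.Conj

/-! Isolated `p`-minimal subgroups: the structure of the normal closure `Y` of `O^p(P)` modulo
`O_p(G)`, from an abstract dichotomy. -/

set_option autoImplicit false
set_option linter.style.haveILetI false

namespace Cfsg.Agent.LocalEven.Iso

open scoped commutatorElement

variable {G : Type*} [Group G]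

/-- What is used about the images of `S`, `R = O_p(L)`, `Q = O^p(P)`, `Y`, `L` in `G/O_p(G)`. -/
structure IsoData (p : ℕ) (S R Q Y L : Subgroup G) : Prop where
  op : Cfsg.pCore p G = ⊥
  sp : IsPGroup p ↥S
  rs : R ≤ S
  sl : S ≤ L
  rn : L ≤ Subgroup.normalizer (R : Set G)
  qs : S ≤ Subgroup.normalizer (Q : Set G)
  hy : Y = Subgroup.normalClosure (Q : Set G)
  qr : ⁅Q, R⁆ ≠ ⊥
  qcl : Q ≤ Subgroup.normalClosure (R : Set G)
  ql : ¬ Q ≤ L
  gen : ∀ A : Subgroup G, S ≤ Subgroup.normalizer (A : Set G) → A ≤ L ∨ Q ≤ A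
  gen2 : ∀ A : Subgroup G, S ≤ Subgroup.normalizer (A : Set G) → (Nat.card A).Coprime p →
    A ≤ (A ⊓ L) ⊔ Q
  top : Y ⊔ L = ⊤

theorem coprime_of_nilpotent_normal [Finite G] {p : ℕ} [hp : Fact p.Prime]
    (hop : Cfsg.pCore p G = ⊥) {N : Subgroup G} (hN : N.Normal) (hnil : Group.IsNilpotent ↥N) :
    (Nat.card N).Coprime p := by
  haveI := hN
  haveI := hnil
  obtain ⟨T⟩ := (inferInstance : Nonempty (Sylow p N))
  haveI : (T : Subgroup N).Normal :=
    Sylow.normal_of_normalizerCondition Group.normalizerCondition_of_isNilpotent T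
  haveI : (T : Subgroup N).Characteristic := Sylow.characteristic_of_normal T inferInstance
  have hle : (T : Subgroup N).map N.subtype ≤ Cfsg.pCore p G :=
    Core.le_pCore inferInstance (T.isPGroup'.map _)
  rw [hop, le_bot_iff, Subgroup.map_eq_bot_iff_of_injective _ N.subtype_injective] at hle
  refine (hp.out.coprime_iff_not_dvd.mpr fun hd => ?_).symm
  have := T.not_dvd_index
  rw [hle, Subgroup.index_bot] at this
  exact this hd

namespace IsoData

variable {p : ℕ} {S R Q Y L : Subgroup G}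

theorem normal (d : IsoData p S R Q Y L) : Y.Normal := d.hy ▸ Subgroup.normalClosure_normal

theorem q_le (d : IsoData p S R Q Y L) : Q ≤ Y := d.hy ▸ Subgroup.le_normalClosure

theorem y_le (d : IsoData p S R Q Y L) {N : Subgroup G} (hN : N.Normal) (h : Q ≤ N) : Y ≤ N := by
  haveI := hN
  rw [d.hy]
  exact Subgroup.normalClosure_le_normal h

theorem r_norm (d : IsoData p S R Q Y L) {A : Subgroup G}
    (h : S ≤ Subgroup.normalizer (A : Set G)) : R ≤ Subgroup.normalizer (A : Set G) := d.rs.trans h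

theorem norm_y (d : IsoData p S R Q Y L) (X : Subgroup G) : X ≤ Subgroup.normalizer (Y : Set G) :=
  le_top.trans (Subgroup.normalizer_eq_top_iff.mpr d.normal).ge

/-- A subnormal `S`-invariant subgroup avoiding `Q` centralizes `R`. -/
theorem comm_R [Finite G] [Fact p.Prime] (d : IsoData p S R Q Y L) {N : Subgroup G}
    (hsn : N.IsSubnormal) (hS : S ≤ Subgroup.normalizer (N : Set G)) (hQ : ¬ Q ≤ N) :
    ⁅N, R⁆ = ⊥ := by
  have hNR : N ≤ Subgroup.normalizer (R : Set G) := ((d.gen N hS).resolve_right hQ).trans d.rn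
  have h1 : ⁅N, R⁆ ≤ N ⊓ R := le_inf (Subgroup.le_normalizer_iff_commutator_le_left.mp (d.r_norm hS))
    (Subgroup.commutator_comm N R ▸ Subgroup.le_normalizer_iff_commutator_le_left.mp hNR)
  have h2 : (N ⊓ R).IsSubnormal := Subgroup.IsSubnormal.step _ N inf_le_left hsn
    (Subgroup.normal_subgroupOf_of_le_normalizer
      ((le_inf Subgroup.le_normalizer hNR).trans Subgroup.inf_normalizer_le_normalizer_inf))
  have h3 := Core.le_pCore_of_isSubnormal h2 (d.sp.to_le (inf_le_right.trans d.rs))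
  exact le_bot_iff.mp ((h1.trans h3).trans d.op.le)

theorem normal_dichotomy [Finite G] [Fact p.Prime] (d : IsoData p S R Q Y L) {N : Subgroup G}
    (hN : N.Normal) (hY : ¬ Y ≤ N) : ⁅Y, N⁆ = ⊥ := by
  haveI := hN
  have hQ : ¬ Q ≤ N := fun h => hY (d.y_le hN h)
  have h := d.comm_R hN.isSubnormal (le_top.trans (Subgroup.normalizer_eq_top_iff.mpr hN).ge) hQ
  have hR : R ≤ Subgroup.centralizer (N : Set G) := by
    rw [← Subgroup.commutator_eq_bot_iff_le_centralizer, Subgroup.commutator_comm]; exact h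
  rw [Subgroup.commutator_eq_bot_iff_le_centralizer]
  exact d.y_le inferInstance (d.qcl.trans (Subgroup.normalClosure_le_normal hR))

theorem y_not_central (d : IsoData p S R Q Y L) : ⁅Y, R⁆ ≠ ⊥ := fun h =>
  d.qr (le_bot_iff.mp ((Subgroup.commutator_mono d.q_le le_rfl).trans h.le))

/-- `Y = [Y, R]`. -/
theorem comm_eq [Finite G] [hp : Fact p.Prime] (d : IsoData p S R Q Y L) : ⁅Y, R⁆ = Y := by
  have hRY : R ≤ Subgroup.normalizer (Y : Set G) := d.norm_y R
  have hDY : ⁅Y, R⁆ ≤ Y := Subgroup.le_normalizer_iff_commutator_le_left.mp hRY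
  have hL : L ≤ Subgroup.normalizer ((⁅Y, R⁆ : Subgroup G) : Set G) := by
    intro l hl
    rw [← cj_eq_self_iff, cj, Subgroup.map_commutator]
    exact congrArg₂ _ (cj_eq_self_iff.mpr (d.norm_y L hl)) (cj_eq_self_iff.mpr (d.rn hl))
  haveI hDn : (⁅Y, R⁆ : Subgroup G).Normal := Subgroup.normalizer_eq_top_iff.mp
    (top_le_iff.mp (d.top.ge.trans (sup_le (Subgroup.normalizer_commutator_ge_left Y R) hL)))
  by_contra hne
  have hY : ¬ Y ≤ ⁅Y, R⁆ := fun h => hne (le_antisymm hDY h)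
  have h1 : ⁅⁅Y, R⁆, Y⁆ = ⊥ := by rw [Subgroup.commutator_comm]; exact d.normal_dichotomy hDn hY
  have h2 : ⁅⁅R, Y⁆, Y⁆ = ⊥ := by rw [Subgroup.commutator_comm R Y]; exact h1
  have h3 : ⁅⁅Y, Y⁆, R⁆ = ⊥ := Subgroup.commutator_commutator_eq_bot_of_rotate h1 h2
  haveI := d.normal
  have h4 : ¬ Y ≤ ⁅Y, Y⁆ := fun h =>
    d.y_not_central (le_bot_iff.mp ((Subgroup.commutator_mono h le_rfl).trans h3.le))
  have h5 : ⁅⁅Y, Y⁆, Y⁆ = ⊥ := by
    rw [Subgroup.commutator_comm]; exact d.normal_dichotomy inferInstance h4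
  have hcop := coprime_of_nilpotent_normal d.op d.normal
    (Components.isNilpotent_of_commutator_central h5)
  have h6 : ⁅⁅Y, R⁆, R⁆ = ⊥ :=
    d.comm_R hDn.isSubnormal (le_top.trans (Subgroup.normalizer_eq_top_iff.mpr hDn).ge)
      fun h => hY (d.y_le hDn h)
  haveI : Group.IsNilpotent ↥R := IsPGroup.isNilpotent (d.sp.to_le d.rs)
  obtain ⟨k, hk⟩ := IsPGroup.iff_card.mp (d.sp.to_le d.rs)
  exact d.y_not_central (Coprime.commutator_eq_bot_of_commutator_commutator hRY
    (hk ▸ hcop.symm.pow_left k) h6)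

/-- A subnormal `S`- and `Y`-invariant subgroup of `Y` avoiding `Q` is central in `Y`. -/
theorem central_of_not_le [Finite G] [Fact p.Prime] (d : IsoData p S R Q Y L) {N : Subgroup G}
    (hNY : N ≤ Y) (hY : Y ≤ Subgroup.normalizer (N : Set G))
    (hS : S ≤ Subgroup.normalizer (N : Set G)) (hQ : ¬ Q ≤ N) : ⁅Y, N⁆ = ⊥ := by
  have hsn : N.IsSubnormal := Subgroup.IsSubnormal.step _ Y hNY d.normal.isSubnormal
    (Subgroup.normal_subgroupOf_of_le_normalizer hY)
  have h := d.comm_R hsn hS hQ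
  have h1 : ⁅⁅R, N⁆, Y⁆ = ⊥ := by rw [Subgroup.commutator_comm R N, h, Subgroup.commutator_bot_left]
  have h2 : ⁅⁅N, Y⁆, R⁆ = ⊥ := le_bot_iff.mp ((Subgroup.commutator_mono
    (Subgroup.le_normalizer_iff_commutator_le_left.mp hY) le_rfl).trans h.le)
  have h3 : ⁅⁅Y, R⁆, N⁆ = ⊥ := Subgroup.commutator_commutator_eq_bot_of_rotate h1 h2
  rwa [d.comm_eq] at h3

/-- A coprime `S`-invariant subgroup avoiding `Q` centralizes `R`. -/
theorem comm_coprime [Finite G] [Fact p.Prime] (d : IsoData p S R Q Y L) {A : Subgroup G}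
    (hS : S ≤ Subgroup.normalizer (A : Set G)) (hcop : (Nat.card A).Coprime p) (hQ : ¬ Q ≤ A) :
    A ≤ Subgroup.centralizer (R : Set G) := by
  rw [← Subgroup.commutator_eq_bot_iff_le_centralizer]
  have hAR : A ≤ Subgroup.normalizer (R : Set G) := ((d.gen A hS).resolve_right hQ).trans d.rn
  obtain ⟨k, hk⟩ := IsPGroup.iff_card.mp (d.sp.to_le d.rs)
  refine le_bot_iff.mp ((le_inf (Subgroup.le_normalizer_iff_commutator_le_left.mp (d.r_norm hS))
    (Subgroup.commutator_comm A R ▸ Subgroup.le_normalizer_iff_commutator_le_left.mp hAR)).trans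
    (le_of_eq (Subgroup.inf_eq_bot_of_coprime ?_)))
  rw [hk]; exact hcop.pow_right k

/-- In the `p'` case `Y` is a `t`-group. -/
theorem exists_prime_pgroup [Finite G] [hp : Fact p.Prime] (d : IsoData p S R Q Y L)
    (hcop : (Nat.card Y).Coprime p) : ∃ t : ℕ, t.Prime ∧ t ≠ p ∧ IsPGroup t ↥Y := by
  haveI : Group.IsNilpotent ↥S := IsPGroup.isNilpotent d.sp
  obtain ⟨k, hk⟩ := IsPGroup.iff_card.mp d.sp
  have hcS : (Nat.card S).Coprime (Nat.card Y) := hk ▸ hcop.symm.pow_left k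
  have hinv : ∀ r : ℕ, r.Prime → ∃ P : Subgroup G, P ≤ Y ∧ IsPGroup r P ∧ ¬ r ∣ P.relIndex Y ∧
      S ≤ Subgroup.normalizer (P : Set G) := fun r hr => by
    haveI := Fact.mk hr
    exact Coprime.exists_invariant_sylow (d.norm_y S) hcS r
  obtain ⟨t, ht, T, hTY, hT, hTi, hTS, hTc⟩ : ∃ t : ℕ, t.Prime ∧ ∃ T : Subgroup G, T ≤ Y ∧
      IsPGroup t T ∧ ¬ t ∣ T.relIndex Y ∧ S ≤ Subgroup.normalizer (T : Set G) ∧
      ¬ T ≤ Subgroup.centralizer (R : Set G) := by
    by_contra hcon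
    refine d.y_not_central (Subgroup.commutator_eq_bot_iff_le_centralizer.mpr
      (Coprime.le_of_forall_invariant_sylow fun r hr => ?_))
    obtain ⟨P, h1, h2, h3, h4⟩ := hinv r hr
    exact ⟨P, h1, by_contra fun h => hcon ⟨r, hr, P, h1, h2, h3, h4, h⟩, h3⟩
  haveI := Fact.mk ht
  have hTcop : (Nat.card T).Coprime p := hcop.coprime_dvd_left (Subgroup.card_dvd_of_le hTY)
  have hQT : Q ≤ T := by_contra fun h => hTc (d.comm_coprime hTS hTcop h)
  set C := Y ⊓ Subgroup.centralizer (R : Set G)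
  have hC : ∀ r : ℕ, r.Prime → r ≠ t → ¬ r ∣ C.relIndex Y := by
    intro r hr hrt
    haveI := Fact.mk hr
    obtain ⟨P, h1, h2, h3, h4⟩ := hinv r hr
    have hQP : ¬ Q ≤ P := fun h => d.qr (by
      have := Subgroup.inf_eq_bot_of_coprime (H := P) (K := T) (IsPGroup.coprime_card_of_ne r t hrt P T h2 hT)
      rw [le_bot_iff.mp ((le_inf h hQT).trans this.le), Subgroup.commutator_bot_left])
    have h5 : P ≤ C := le_inf h1
      (d.comm_coprime h4 (hcop.coprime_dvd_left (Subgroup.card_dvd_of_le h1)) hQP)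
    exact fun h => h3 (h.trans (Subgroup.relIndex_dvd_of_le_left Y h5))
  have hco : (C.relIndex Y).Coprime (T.relIndex Y) :=
    Nat.coprime_of_dvd fun r hr h1 h2 => by
      by_cases hrt : r = t
      · exact hTi (hrt ▸ h2)
      · exact hC r hr hrt h1
  have hle : Nat.card (Y ⧸ C.subgroupOf Y) ≤ Nat.card (T ⧸ C.subgroupOf T) := by
    refine Nat.le_of_dvd Nat.card_pos (?_ : C.relIndex Y ∣ C.relIndex T)
    have h1 : C.relIndex Y ∣ (C ⊓ T).relIndex Y := Subgroup.relIndex_dvd_of_le_left Y inf_le_left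
    rw [← Subgroup.relIndex_mul_relIndex (C ⊓ T) T Y inf_le_right hTY,
      Subgroup.inf_relIndex_right] at h1
    exact hco.dvd_of_dvd_mul_right h1
  have hbij := Function.Injective.bijective_of_nat_card_le
    (Subgroup.quotientSubgroupOfEmbeddingOfLE C hTY).injective hle
  have hYT : ⁅Y, R⁆ ≤ T := by
    rw [Subgroup.commutator_le]
    intro y hy r hr
    obtain ⟨q, hq⟩ := hbij.2 (QuotientGroup.mk ⟨y, hy⟩)
    obtain ⟨⟨x, hx⟩, rfl⟩ := QuotientGroup.mk_surjective q
    rw [Subgroup.quotientSubgroupOfEmbeddingOfLE_apply_mk] at hq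
    have hc := Subgroup.mem_subgroupOf.mp (QuotientGroup.eq.mp hq)
    have hc' : (x⁻¹ * y) * r = r * (x⁻¹ * y) := ((Subgroup.mem_centralizer_iff.mp hc.2) r hr).symm
    have e : ⁅y, r⁆ = ⁅x, r⁆ := by
      calc ⁅y, r⁆ = x * ((x⁻¹ * y) * r) * (x⁻¹ * y)⁻¹ * x⁻¹ * r⁻¹ := by
            rw [commutatorElement_def]; group
        _ = x * (r * (x⁻¹ * y)) * (x⁻¹ * y)⁻¹ * x⁻¹ * r⁻¹ := by rw [hc']
        _ = ⁅x, r⁆ := by rw [commutatorElement_def]; group
    rw [e, commutatorElement_def, mul_assoc x r x⁻¹, mul_assoc x]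
    exact T.mul_mem hx ((Subgroup.mem_normalizer_iff.mp (d.r_norm hTS hr) _).mp (T.inv_mem hx))
  rw [d.comm_eq] at hYT
  refine ⟨t, ht, ?_, hT.to_le hYT⟩
  rintro rfl
  obtain ⟨j, hj⟩ := IsPGroup.iff_card.mp hT
  rcases j with - | j
  · rw [pow_zero] at hj
    exact hTc ((Subgroup.eq_bot_of_card_eq T hj) ▸ bot_le)
  · exact ht.coprime_iff_not_dvd.mp hTcop.symm (hj ▸ dvd_pow_self t (Nat.succ_ne_zero j))

/-- In the nilpotent case `Y = Q`. -/
theorem eq_q [Finite G] [hp : Fact p.Prime] (d : IsoData p S R Q Y L)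
    (hcop : (Nat.card Y).Coprime p) (hnil : Group.IsNilpotent ↥Y) : Q = Y := by
  by_contra hne
  haveI := hnil
  have hne' : Q.subgroupOf Y ≠ ⊤ := fun h =>
    hne (le_antisymm d.q_le (Subgroup.subgroupOf_eq_top.mp h))
  obtain ⟨M, hM, hQM⟩ := (eq_top_or_exists_le_coatom (Q.subgroupOf Y)).resolve_left hne'
  haveI hMn : M.Normal := Subgroup.NormalizerCondition.normal_of_coatom M
    Group.normalizerCondition_of_isNilpotent hM
  set M' := M.map Y.subtype
  have hQM' : Q ≤ M' := fun x hx => ⟨⟨x, d.q_le hx⟩, hQM (Subgroup.mem_subgroupOf.mpr hx), rfl⟩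
  have hconj : ∀ x ∈ Y, ∀ m ∈ M', x * m * x⁻¹ ∈ M' := by
    rintro x hx _ ⟨m, hm, rfl⟩
    exact ⟨⟨x, hx⟩ * m * ⟨x, hx⟩⁻¹, hMn.conj_mem m hm _, rfl⟩
  let K : Subgroup G :=
    { carrier := {x | x ∈ Y ∧ ∀ r ∈ R, ⁅x, r⁆ ∈ M'}
      one_mem' := ⟨Y.one_mem, fun r _ => by rw [commutatorElement_one_left]; exact M'.one_mem⟩
      mul_mem' := fun {x y} hx hy => ⟨Y.mul_mem hx.1 hy.1, fun r hr => by
        have e : ⁅x * y, r⁆ = x * ⁅y, r⁆ * x⁻¹ * ⁅x, r⁆ := by
          simp only [commutatorElement_def]; group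
        rw [e]
        exact M'.mul_mem (hconj x hx.1 _ (hy.2 r hr)) (hx.2 r hr)⟩
      inv_mem' := fun {x} hx => ⟨Y.inv_mem hx.1, fun r hr => by
        have e : ⁅x⁻¹, r⁆ = x⁻¹ * ⁅x, r⁆⁻¹ * (x⁻¹)⁻¹ := by simp only [commutatorElement_def]; group
        rw [e]
        exact hconj _ (Y.inv_mem hx.1) _ (M'.inv_mem (hx.2 r hr))⟩ }
  have hA : Y ⊓ L ≤ Subgroup.centralizer (R : Set G) := d.comm_coprime
    ((le_inf (d.norm_y S) (d.sl.trans Subgroup.le_normalizer)).trans
      Subgroup.inf_normalizer_le_normalizer_inf)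
    (hcop.coprime_dvd_left (Subgroup.card_dvd_of_le inf_le_left))
    fun h => d.ql (h.trans inf_le_right)
  have hK : Y ≤ K := by
    refine (d.gen2 Y (d.norm_y S) hcop).trans (sup_le (fun x hx => ?_) fun x hx => ?_)
    · refine ⟨hx.1, fun r hr => ?_⟩
      rw [commutatorElement_eq_one_iff_mul_comm.mpr ((Subgroup.mem_centralizer_iff.mp (hA hx)) r hr).symm]
      exact M'.one_mem
    · refine ⟨d.q_le hx, fun r hr => hQM' ?_⟩
      rw [commutatorElement_def, mul_assoc x r x⁻¹, mul_assoc x]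
      exact Q.mul_mem hx ((Subgroup.mem_normalizer_iff.mp (d.r_norm d.qs hr) _).mp (Q.inv_mem hx))
  have hle : Y ≤ M' := d.comm_eq ▸ Subgroup.commutator_le.mpr fun x hx r hr => (hK hx).2 r hr
  exact hM.1 (top_le_iff.mp fun x _ => by
    obtain ⟨m, hm, e⟩ := hle x.2
    rwa [← Subtype.ext e])

theorem y_ne_bot (d : IsoData p S R Q Y L) : Y ≠ ⊥ := fun h => d.y_not_central (by
  rw [h, Subgroup.commutator_bot_left])

theorem class_two [Finite G] [hp : Fact p.Prime] (d : IsoData p S R Q Y L)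
    (hnil : Group.IsNilpotent ↥Y) : ⁅⁅Y, Y⁆, Y⁆ = ⊥ := by
  haveI := d.normal
  have h : ¬ Y ≤ ⁅Y, Y⁆ := fun h => d.y_ne_bot (Components.perfect_eq_bot_of_le_solvable
    (le_antisymm (Subgroup.commutator_le_self Y) h) le_rfl (IsNilpotent.to_isSolvable))
  rw [Subgroup.commutator_comm]
  exact d.normal_dichotomy inferInstance h

theorem perfect [Finite G] [hp : Fact p.Prime] (d : IsoData p S R Q Y L)
    (hd : p ∣ Nat.card Y) : ⁅Y, Y⁆ = Y := by
  haveI := d.normal
  by_contra hne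
  have h : ¬ Y ≤ ⁅Y, Y⁆ := fun h => hne (le_antisymm (Subgroup.commutator_le_self Y) h)
  have h5 : ⁅⁅Y, Y⁆, Y⁆ = ⊥ := by
    rw [Subgroup.commutator_comm]; exact d.normal_dichotomy inferInstance h
  exact hp.out.coprime_iff_not_dvd.mp (coprime_of_nilpotent_normal d.op d.normal
    (Components.isNilpotent_of_commutator_central h5)).symm hd

theorem layer_top [Finite G] [hp : Fact p.Prime] (d : IsoData p S R Q Y L)
    (hd : p ∣ Nat.card Y) : Cfsg.layer ↥Y = ⊤ := by
  haveI := d.normal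
  have hperf := d.perfect hd
  by_contra hne
  set E := (Cfsg.layer ↥Y).map Y.subtype
  have hYE : ¬ Y ≤ E := fun h => hne (top_le_iff.mp fun x _ => by
    obtain ⟨m, hm, e⟩ := h x.2
    rwa [← Subtype.ext e])
  have hE := d.normal_dichotomy (N := E) inferInstance hYE
  have hbot : Cfsg.layer ↥Y = ⊥ := by
    refine (Components.map_inj_eq_bot_iff Y.subtype_injective).mp ?_
    have h1 : ⁅E, E⁆ = E := by rw [← Subgroup.map_commutator, Components.layer_commutator_self]
    exact h1.symm.trans (le_bot_iff.mp ((Subgroup.commutator_mono (Subgroup.map_subtype_le _) le_rfl).trans hE.le))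
  set F := (Cfsg.fittingSubgroup ↥Y).map Y.subtype
  have hnot : ¬ Group.IsNilpotent ↥Y := fun h =>
    d.y_ne_bot (Components.perfect_eq_bot_of_le_solvable hperf le_rfl (IsNilpotent.to_isSolvable))
  have hFtop : Cfsg.fittingSubgroup ↥Y ≠ ⊤ := fun h => hnot (by
    have := Core.isNilpotent_fittingSubgroup ↥Y
    rw [h] at this
    exact Group.isNilpotent_top.mp this)
  have hYF : ¬ Y ≤ F := fun h => hFtop (top_le_iff.mp fun x _ => by
    obtain ⟨m, hm, e⟩ := h x.2
    rwa [← Subtype.ext e])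
  have hF := Subgroup.commutator_eq_bot_iff_le_centralizer.mp (d.normal_dichotomy (N := F) inferInstance hYF)
  refine hFtop (top_le_iff.mp (le_trans ?_
    (Components.centralizer_fitting_le_of_layer_eq_bot hbot)))
  intro x _
  rw [Subgroup.mem_centralizer_iff]
  intro f hf
  exact Subtype.ext ((Subgroup.mem_centralizer_iff.mp (hF x.2)) f ⟨f, hf, rfl⟩)

/-- `S` is transitive on the components in `Y`. -/
theorem transitive [Finite G] [hp : Fact p.Prime] (d : IsoData p S R Q Y L)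
    (hd : p ∣ Nat.card Y) {k₁ k₂ : Subgroup G} (hk₁ : Cfsg.IsComponent k₁) (hk₁Y : k₁ ≤ Y)
    (hk₂ : Cfsg.IsComponent k₂) (hk₂Y : k₂ ≤ Y) : ∃ s ∈ S, k₂ = cj s k₁ := by
  haveI := d.normal
  have hgen : ∀ X : Subgroup G, (∀ J, Cfsg.IsComponent J → J ≤ Y → J ≤ X) → Y ≤ X := by
    intro X hX x hx
    have h : Cfsg.layer ↥Y ≤ X.comap Y.subtype := Components.layer_le_iff.mpr fun J hJ => by
      rw [← Subgroup.map_le_iff_le_comap]
      exact hX _ ((Components.isComponent_subtype_iff d.normal.isSubnormal J).mpr hJ)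
        (Subgroup.map_subtype_le _)
    rw [d.layer_top hd] at h
    exact h (Subgroup.mem_top (⟨x, hx⟩ : ↥Y))
  have hnorm : ∀ k : Subgroup G, Cfsg.IsComponent k → Y ≤ Subgroup.normalizer (k : Set G) := fun k hk =>
    hgen (Subgroup.normalizer (k : Set G)) fun J hJ _ => by
      rcases eq_or_ne J k with h | hne
      · exact h.le.trans Subgroup.le_normalizer
      · exact (Components.components_commute_le hJ hk hne).trans
          (Subgroup.centralizer_le_normalizer (k : Set G))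
  let O : Subgroup G → Subgroup G := fun k => ⨆ s : S, cj (s : G) k
  have hOY : ∀ k, k ≤ Y → O k ≤ Y := fun k hk => iSup_le fun s =>
    (cj_mono hk).trans (cj_eq_self_iff.mpr (d.norm_y ⊤ (Subgroup.mem_top _))).le
  have hOS : ∀ k, S ≤ Subgroup.normalizer ((O k : Subgroup G) : Set G) := by
    intro k s hs
    rw [← cj_eq_self_iff]
    refine Subgroup.eq_of_le_of_card_ge ?_ (card_cj s _).ge
    rw [cj, Subgroup.map_le_iff_le_comap]
    refine iSup_le fun t => ?_
    rw [← Subgroup.map_le_iff_le_comap]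
    exact (cj_cj s t k).le.trans (le_iSup (fun s : S => cj (s : G) k) (⟨s, hs⟩ * t))
  have hOn : ∀ k : Subgroup G, Cfsg.IsComponent k → Y ≤ Subgroup.normalizer ((O k : Subgroup G) : Set G) := by
    intro k hk y hy
    rw [← cj_eq_self_iff]
    refine Subgroup.eq_of_le_of_card_ge ?_ (card_cj y _).ge
    rw [cj, Subgroup.map_le_iff_le_comap]
    refine iSup_le fun t => ?_
    rw [← Subgroup.map_le_iff_le_comap]
    exact (cj_eq_self_iff.mpr (hnorm _ (Components.isComponent_conj hk t) hy)).le.trans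
      (le_iSup (fun s : S => cj (s : G) k) t)
  have key : ∀ k : Subgroup G, Cfsg.IsComponent k → k ≤ Y → Q ≤ O k := by
    intro k hk hkY
    by_contra hQ
    have h := d.central_of_not_le (hOY k hkY) (hOn k hk) (hOS k) hQ
    refine Components.component_not_commute hk (le_bot_iff.mp ((Subgroup.commutator_mono hkY ?_).trans h.le))
    exact (cj_one k).ge.trans (le_iSup (fun s : S => cj (s : G) k) 1)
  by_contra hcon
  have h1 := key k₁ hk₁ hk₁Y
  have h2 := key k₂ hk₂ hk₂Y
  have hcen : Y ≤ Subgroup.centralizer (Q : Set G) := hgen _ fun J hJ hJY => by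
    by_cases hJ1 : ∃ a : S, J = cj (a : G) k₁
    · obtain ⟨a, rfl⟩ := hJ1
      refine le_trans ?_ (Subgroup.centralizer_le (SetLike.coe_subset_coe.mpr h2))
      refine Subgroup.le_centralizer_iff.mp (iSup_le fun b => ?_)
      refine Components.components_commute_le (Components.isComponent_conj hk₂ b) hJ fun e => ?_
      refine hcon ⟨(b : G)⁻¹ * a, S.mul_mem (S.inv_mem b.2) a.2, ?_⟩
      rw [← cj_cj, ← e, cj_cj, inv_mul_cancel, cj_one]
    · refine le_trans ?_ (Subgroup.centralizer_le (SetLike.coe_subset_coe.mpr h1))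
      refine Subgroup.le_centralizer_iff.mp (iSup_le fun b => ?_)
      exact Components.components_commute_le (Components.isComponent_conj hk₁ b) hJ
        fun e => hJ1 ⟨b, e.symm⟩
  have hQc : Y ≤ Subgroup.centralizer (Y : Set G) :=
    d.y_le inferInstance (Subgroup.le_centralizer_iff.mp hcen)
  exact d.y_ne_bot ((d.perfect hd).symm.trans (Subgroup.commutator_eq_bot_iff_le_centralizer.mpr hQc))

end IsoData

end Cfsg.Agent.LocalEven.Iso
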