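import Cfsg.Agent.LocalEven.IsolatedPMin
import Cfsg.Agent.LocalEven.PMinimalComponent

/-! Isolated `p`-minimal subgroups: transfer from `G/O_p(G)` to `G`. -/

set_option autoImplicit false
set_option linter.style.haveILetI false

namespace Cfsg.Agent.LocalEven.Iso

open scoped commutatorElement

variable {G : Type*} [Group G]

/-- `O_p(X)` as a subgroup of `G`. -/
abbrev coreIn (p : ℕ) (X : Subgroup G) : Subgroup G := (Cfsg.pCore p ↥X).map X.subtype

/-- `O^p(X)` as a subgroup of `G`. -/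
abbrev resIn (p : ℕ) (X : Subgroup G) : Subgroup G := (Cfsg.pResidual p ↥X).map X.subtype

/-- The subgroup `L` attached to `S` and `P`. -/
def othersJoin (p : ℕ) (S P : Subgroup G) : Subgroup G :=
  Subgroup.normalizer (S : Set G) ⊔
    ⨆ P' : {P' : Subgroup G // S ≤ P' ∧ Cfsg.IsPMinimal p ↥P' ∧ P' ≠ P}, (P' : Subgroup G)

theorem le_coreIn [Finite G] {p : ℕ} [Fact p.Prime] {N X : Subgroup G} (hNX : N ≤ X)
    (hp : IsPGroup p ↥N) (hn : X ≤ Subgroup.normalizer (N : Set G)) : N ≤ coreIn p X := by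
  intro x hx
  refine ⟨⟨x, hNX hx⟩, Core.le_pCore (Subgroup.normal_subgroupOf_of_le_normalizer hn)
    (hp.of_equiv (Subgroup.subgroupOfEquivOfLe hNX).symm) (Subgroup.mem_subgroupOf.mpr hx), rfl⟩

theorem le_normalizer_map_subtype {X : Subgroup G} (N : Subgroup ↥X) [N.Normal] :
    X ≤ Subgroup.normalizer ((N.map X.subtype : Subgroup G) : Set G) := by
  have h := Subgroup.le_normalizer_map (H := N) X.subtype
  rwa [Subgroup.normalizer_eq_top_iff.mpr inferInstance, ← MonoidHom.range_eq_map,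
    Subgroup.range_subtype] at h

theorem le_normalizer_sup {H A B : Subgroup G} (hA : H ≤ Subgroup.normalizer (A : Set G))
    (hB : H ≤ Subgroup.normalizer (B : Set G)) :
    H ≤ Subgroup.normalizer ((A ⊔ B : Subgroup G) : Set G) := fun h hh => by
  rw [← cj_eq_self_iff, cj, Subgroup.map_sup]
  exact congrArg₂ _ (cj_eq_self_iff.mpr (hA hh)) (cj_eq_self_iff.mpr (hB hh))

theorem mem_of_coprime_order [Finite G] {p : ℕ} {A T : Subgroup G} (hT : IsPGroup p ↥T)
    (hTA : T ≤ Subgroup.normalizer (A : Set G)) {x : G} (hx : x ∈ A ⊔ T)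
    (ho : (orderOf x).Coprime p) : x ∈ A := by
  obtain ⟨a, ha, t, ht, e⟩ := Coprime.exists_mul_of_mem_sup hTA hx
  have hpow : ∀ n : ℕ, x ^ n * (t ^ n)⁻¹ ∈ A := fun n => by
    induction n with
    | zero => simp
    | succ n ih =>
      have h1 : t ^ n * a * (t ^ n)⁻¹ ∈ A :=
        (Subgroup.mem_normalizer_iff.mp (hTA (T.pow_mem ht n)) a).mp ha
      have e2 : x ^ (n + 1) * (t ^ (n + 1))⁻¹ = x ^ n * (t ^ n)⁻¹ * (t ^ n * a * (t ^ n)⁻¹) := by
        have e3 : x * t⁻¹ = a := by rw [← e, mul_inv_cancel_right]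
        rw [pow_succ, pow_succ, ← e3]; group
      rw [e2]
      exact A.mul_mem ih h1
  obtain ⟨k, hk⟩ := hT ⟨t, ht⟩
  have hk' : t ^ p ^ k = 1 := congrArg Subtype.val hk
  have h2 := hpow (p ^ k)
  rw [hk', inv_one, mul_one] at h2
  obtain ⟨m, hm⟩ := exists_pow_eq_self_of_coprime (ho.symm.pow_left k)
  exact hm ▸ A.pow_mem h2 m

variable [Finite G] {p : ℕ} [hp : Fact p.Prime] (S : Sylow p G)

/-- Every overgroup `X` of `S` is generated by `N_X(S)` and `p`-minimal subgroups. -/
theorem pmin_generated {K : Subgroup G} : ∀ {X : Subgroup G}, (S : Subgroup G) ≤ X →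
    X ⊓ Subgroup.normalizer ((S : Subgroup G) : Set G) ≤ K →
    (∀ X' : Subgroup G, X' ≤ X → (S : Subgroup G) ≤ X' → Cfsg.IsPMinimal p ↥X' → X' ≤ K) → X ≤ K := by
  intro X
  induction hn : Nat.card X using Nat.strong_induction_on generalizing X with
  | _ n ih =>
    intro hSX hN hmin
    set S₀ : Sylow p ↥X := S.subtype hSX
    by_cases hnorm : (S₀ : Subgroup ↥X).Normal
    · exact (le_inf le_rfl ((Subgroup.normal_subgroupOf_iff_le_normalizer hSX).mp
        (by rw [← S.coe_subtype hSX]; exact hnorm))).trans hN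
    by_cases hu : ∃! M : Subgroup ↥X, IsCoatom M ∧ (S₀ : Subgroup ↥X) ≤ M
    · exact hmin X le_rfl hSX (isPMinimal_of_one S₀ hnorm hu)
    have hne : (S₀ : Subgroup ↥X) ≠ ⊤ := fun h => hnorm (by rw [h]; infer_instance)
    obtain ⟨M₁, hM₁, hS₁⟩ := (eq_top_or_exists_le_coatom (S₀ : Subgroup ↥X)).resolve_left hne
    obtain ⟨M₂, ⟨hM₂, hS₂⟩, hne₂⟩ : ∃ M₂, (IsCoatom M₂ ∧ (S₀ : Subgroup ↥X) ≤ M₂) ∧ M₂ ≠ M₁ := by
      by_contra hcon
      push Not at hcon
      exact hu ⟨M₁, ⟨hM₁, hS₁⟩, fun M hM => hcon M hM⟩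
    have hsub : ∀ M : Subgroup ↥X, M ≠ ⊤ → (S₀ : Subgroup ↥X) ≤ M → M.map X.subtype ≤ K := by
      intro M hM hSM
      have hle : M.map X.subtype ≤ X := Subgroup.map_subtype_le _
      refine ih (Nat.card (M.map X.subtype)) ?_ rfl (fun x hx => ⟨⟨x, hSX hx⟩, hSM ?_, rfl⟩)
        ((inf_le_inf_right _ hle).trans hN) fun X' h1 h2 h3 => hmin X' (h1.trans hle) h2 h3
      · rw [← hn, Subgroup.card_map_of_injective X.subtype_injective]
        exact Core.card_lt_of_ne_top hM
      · rw [S.coe_subtype]; exact Subgroup.mem_subgroupOf.mpr hx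
    have htop : M₁ ⊔ M₂ = ⊤ := by
      refine hM₁.2 _ (lt_of_le_of_ne le_sup_left fun h => hne₂ ?_)
      have h1 : M₂ ≤ M₁ := h ▸ le_sup_right
      rcases h1.lt_or_eq with h2 | h2
      · exact absurd (hM₂.2 _ h2) hM₁.1
      · exact h2
    have e : X = M₁.map X.subtype ⊔ M₂.map X.subtype := by
      rw [← Subgroup.map_sup, htop, ← MonoidHom.range_eq_map, Subgroup.range_subtype]
    rw [e]
    exact sup_le (hsub M₁ hM₁.1 hS₁) (hsub M₂ hM₂.1 hS₂)

variable {S} {P : Subgroup G}

theorem le_othersJoin_S : (S : Subgroup G) ≤ othersJoin p (S : Subgroup G) P :=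
  Subgroup.le_normalizer.trans le_sup_left

theorem le_othersJoin {X : Subgroup G} (hSX : (S : Subgroup G) ≤ X) (hX : Cfsg.IsPMinimal p ↥X)
    (hne : X ≠ P) : X ≤ othersJoin p (S : Subgroup G) P :=
  le_sup_of_le_right (le_iSup (fun P' : {P' : Subgroup G //
    (S : Subgroup G) ≤ P' ∧ Cfsg.IsPMinimal p ↥P' ∧ P' ≠ P} => (P' : Subgroup G)) ⟨X, hSX, hX, hne⟩)

theorem le_sylow_of_normalized {N : Subgroup G} (hN : IsPGroup p ↥N)
    (h : (S : Subgroup G) ≤ Subgroup.normalizer (N : Set G)) : N ≤ S :=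
  le_sup_left.trans (le_of_eq (S.3 (hN.to_sup_of_normal_left' S.isPGroup' h) le_sup_right))

theorem residual_sup_sylow (hSP : (S : Subgroup G) ≤ P) : resIn p P ⊔ (S : Subgroup G) = P := by
  refine le_antisymm (sup_le (Subgroup.map_subtype_le _) hSP) fun x hx => ?_
  have h : ((S.subtype hSP : Sylow p ↥P) : Subgroup ↥P) ⊔ Cfsg.pResidual p ↥P = ⊤ :=
    Core.sylow_sup_pResidual _
  have h2 : (⊤ : Subgroup ↥P) ≤ (resIn p P ⊔ (S : Subgroup G)).comap P.subtype := by
    rw [← h]
    refine sup_le (fun y hy => ?_) fun y hy => Subgroup.mem_sup_left ⟨y, hy, rfl⟩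
    rw [S.coe_subtype] at hy
    exact Subgroup.mem_sup_right (Subgroup.mem_subgroupOf.mp hy)
  exact h2 (Subgroup.mem_top (⟨x, hx⟩ : ↥P))

variable (S P)

/-- The hypotheses: `P` is an isolated `p`-minimal overgroup of `S`. -/
structure Isolated : Prop where
  hSP : (S : Subgroup G) ≤ P
  hP : Cfsg.IsPMinimal p ↥P
  hiso : ¬ coreIn p (othersJoin p (S : Subgroup G) P) ≤ coreIn p P

variable {S P}

theorem core_le_S : coreIn p (othersJoin p (S : Subgroup G) P) ≤ S :=
  le_sylow_of_normalized ((Core.isPGroup_pCore p _).map _)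
    (le_othersJoin_S.trans (haveI := (Core.isPGroup_pCore p ↥(othersJoin p (S : Subgroup G) P));
      le_normalizer_map_subtype _))

theorem Isolated.not_le (h : Isolated S P) : ¬ P ≤ othersJoin p (S : Subgroup G) P := fun hle =>
  h.hiso (le_coreIn (core_le_S.trans h.hSP) ((Core.isPGroup_pCore p _).map _)
    (hle.trans (le_normalizer_map_subtype _)))

theorem Isolated.dichotomy (h : Isolated S P) {X : Subgroup G} (hSX : (S : Subgroup G) ≤ X) :
    X ≤ othersJoin p (S : Subgroup G) P ∨ P ≤ X := by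
  by_cases hPX : P ≤ X
  · exact Or.inr hPX
  · refine Or.inl (pmin_generated S hSX (inf_le_right.trans le_sup_left) fun X' h1 h2 h3 => ?_)
    exact le_othersJoin h2 h3 fun e => hPX (e ▸ h1)

theorem Isolated.sup_eq_top (h : Isolated S P) {Y : Subgroup G} (hY : resIn p P ≤ Y) :
    Y ⊔ othersJoin p (S : Subgroup G) P = ⊤ := by
  refine top_le_iff.mp (pmin_generated S le_top (inf_le_right.trans ?_) fun X' _ h2 h3 => ?_)
  · exact le_sup_left.trans le_sup_right
  · by_cases e : X' = P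
    · rw [e, ← residual_sup_sylow h.hSP]
      exact sup_le_sup hY le_othersJoin_S
    · exact (le_othersJoin h2 h3 e).trans le_sup_right

theorem pCore_le_core {L : Subgroup G} (h : Cfsg.pCore p G ≤ L) : Cfsg.pCore p G ≤ coreIn p L := by
  haveI : (Cfsg.pCore p G).Normal := inferInstance
  exact le_coreIn h (Core.isPGroup_pCore p G)
    (le_top.trans (Subgroup.normalizer_eq_top_iff.mpr inferInstance).ge)

theorem Isolated.isoData (h : Isolated S P) {Y : Subgroup G}
    (hY : Y = Subgroup.normalClosure (resIn p P : Set G)) [hn : (Cfsg.pCore p G).Normal] :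
    IsoData p ((S : Subgroup G).map (QuotientGroup.mk' (Cfsg.pCore p G)))
      ((coreIn p (othersJoin p (S : Subgroup G) P)).map (QuotientGroup.mk' (Cfsg.pCore p G)))
      ((resIn p P).map (QuotientGroup.mk' (Cfsg.pCore p G)))
      (Y.map (QuotientGroup.mk' (Cfsg.pCore p G)))
      ((othersJoin p (S : Subgroup G) P).map (QuotientGroup.mk' (Cfsg.pCore p G))) := by
  set π := QuotientGroup.mk' (Cfsg.pCore p G)
  set L := othersJoin p (S : Subgroup G) P
  have hπ : Function.Surjective π := QuotientGroup.mk'_surjective _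
  have hker : π.ker = Cfsg.pCore p G := QuotientGroup.ker_mk' _
  have hGS : Cfsg.pCore p G ≤ (S : Subgroup G) := Core.pCore_le_sylow S
  have hGL : Cfsg.pCore p G ≤ L := hGS.trans le_othersJoin_S
  have hLc : (L.map π).comap π = L := Subgroup.comap_map_eq_self (le_of_eq_of_le hker hGL)
  have hPSπ : (P.map π) = (resIn p P).map π ⊔ (S : Subgroup G).map π := by
    rw [← Subgroup.map_sup, residual_sup_sylow h.hSP]
  have hqs : (S : Subgroup G).map π ≤ Subgroup.normalizer (((resIn p P).map π : Subgroup _) : Set _) :=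
    (Subgroup.map_mono (h.hSP.trans
      (haveI := Core.pResidual_normal p ↥P; le_normalizer_map_subtype _))).trans
      (Subgroup.le_normalizer_map π)
  have hgenQ : ∀ A : Subgroup (G ⧸ Cfsg.pCore p G),
      (S : Subgroup G).map π ≤ Subgroup.normalizer (A : Set _) →
      A ≤ L.map π ∨ (resIn p P).map π ≤ A := by
    intro A hA
    set X := (A ⊔ (S : Subgroup G).map π).comap π
    have hSX : (S : Subgroup G) ≤ X := fun x hx => Subgroup.mem_sup_right ⟨x, hx, rfl⟩
    rcases h.dichotomy hSX with hX | hX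
    · left
      refine le_trans ?_ (Subgroup.map_mono hX)
      rw [Subgroup.map_comap_eq_self_of_surjective hπ]
      exact le_sup_left
    · right
      rw [Subgroup.map_le_iff_le_comap, resIn, Subgroup.map_le_iff_le_comap, Cfsg.pResidual,
        Subgroup.closure_le]
      intro x hx
      refine mem_of_coprime_order (S.isPGroup'.map π) hA (hX x.2) ?_
      exact Nat.Coprime.coprime_dvd_left (orderOf_map_dvd π _)
        (by rw [Subgroup.coe_subtype, Subgroup.orderOf_coe]; exact hx)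
  refine
    { op := Core.pCore_quotient_pCore p G
      sp := S.isPGroup'.map π
      rs := Subgroup.map_mono core_le_S
      sl := Subgroup.map_mono le_othersJoin_S
      rn := (Subgroup.map_mono (le_normalizer_map_subtype _)).trans (Subgroup.le_normalizer_map π)
      qs := hqs
      hy := by rw [hY, Subgroup.map_normalClosure _ _ hπ]; rfl
      qr := ?_
      qcl := ?_
      ql := ?_
      gen := hgenQ
      gen2 := ?_
      top := by rw [← Subgroup.map_sup, h.sup_eq_top (hY ▸ Subgroup.le_normalClosure),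
        Subgroup.map_top_of_surjective _ hπ] }
  · intro hqr
    refine h.hiso (le_coreIn (core_le_S.trans h.hSP) ((Core.isPGroup_pCore p _).map _) ?_)
    conv_lhs => rw [← residual_sup_sylow h.hSP]
    refine sup_le (fun q hq => Coprime.mem_normalizer_of_conj_mem fun r hr => ?_)
      (le_othersJoin_S.trans (le_normalizer_map_subtype _))
    have h1 := Subgroup.commutator_mem_commutator (Subgroup.mem_map_of_mem π hq)
      (Subgroup.mem_map_of_mem π hr)
    rw [hqr, Subgroup.mem_bot, ← map_commutatorElement, ← MonoidHom.mem_ker, hker] at h1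
    have h2 : q * r * q⁻¹ * r⁻¹ ∈ coreIn p L := pCore_le_core hGL h1
    simpa using mul_mem h2 hr
  · obtain ⟨M, ⟨hM, hSM⟩, -⟩ := (h.hP (S.subtype h.hSP)).2
    have hRP : coreIn p L ≤ P := core_le_S.trans h.hSP
    set K := Subgroup.normalClosure (((coreIn p L).subgroupOf P : Subgroup ↥P) : Set ↥P)
    rcases pmin_normal_cases h.hP (S.subtype h.hSP) hM hSM K Subgroup.normalClosure_normal with hK | hK
    · have hle : resIn p P ≤ Subgroup.normalClosure (coreIn p L : Set G) := by
        refine (Subgroup.map_mono hK).trans (Subgroup.map_le_iff_le_comap.mpr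
          (Subgroup.normalClosure_le_normal fun x hx => ?_))
        exact Subgroup.subset_normalClosure (Subgroup.mem_subgroupOf.mp hx)
      refine (Subgroup.map_mono hle).trans (le_of_eq ?_)
      rw [Subgroup.map_normalClosure _ _ hπ]; rfl
    · refine absurd ?_ h.hiso
      intro x hx
      have hxP : (⟨x, hRP hx⟩ : ↥P) ∈ K := Subgroup.subset_normalClosure (Subgroup.mem_subgroupOf.mpr hx)
      refine ⟨⟨x, hRP hx⟩, pmin_subnormal_inf_le h.hP (S.subtype h.hSP) hM hSM
        (Subgroup.normalClosure_normal.isSubnormal) (hK.trans M.normalCore_le) ⟨hxP, ?_⟩, rfl⟩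
      rw [S.coe_subtype]
      exact Subgroup.mem_subgroupOf.mpr (core_le_S hx)
  · intro hle
    refine h.not_le ((residual_sup_sylow h.hSP).ge.trans ?_)
    exact sup_le ((Subgroup.map_le_iff_le_comap.mp hle).trans hLc.le) le_othersJoin_S
  · intro A hA hcop
    rcases hgenQ A hA with h1 | h1
    · exact le_sup_of_le_left (le_inf le_rfl h1)
    set Q := (resIn p P).map π
    set T := (S : Subgroup G).map π
    set B := A ⊓ L.map π ⊔ Q
    have hBA : B ≤ A := sup_le inf_le_left h1
    set X := (A ⊔ T).comap π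
    have hSX : (S : Subgroup G) ≤ X := fun x hx => Subgroup.mem_sup_right ⟨x, hx, rfl⟩
    have hX : X ≤ (X ⊓ L) ⊔ P := pmin_generated S hSX
      ((inf_le_inf_left _ le_sup_left).trans le_sup_left) fun X' h2 h3 h4 => by
        by_cases e : X' = P
        · exact e ▸ le_sup_right
        · exact (le_inf h2 (le_othersJoin h3 h4 e)).trans le_sup_left
    have hAB : A ≤ B ⊔ T := by
      have h2 : A ≤ X.map π := by
        rw [Subgroup.map_comap_eq_self_of_surjective hπ]; exact le_sup_left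
      refine h2.trans ((Subgroup.map_mono hX).trans ?_)
      rw [Subgroup.map_sup, hPSπ]
      refine sup_le ?_ (sup_le_sup_right le_sup_right _)
      rintro _ ⟨x, ⟨hx1, hx2⟩, rfl⟩
      obtain ⟨a, ha, t, ht, e⟩ := Coprime.exists_mul_of_mem_sup hA (Subgroup.mem_comap.mp hx1)
      rw [← e]
      refine Subgroup.mul_mem_sup (Subgroup.mem_sup_left (Subgroup.mem_inf.mpr ⟨ha, ?_⟩)) ht
      have : a = π x * t⁻¹ := by rw [← e, mul_inv_cancel_right]
      rw [this]
      exact mul_mem ⟨x, hx2, rfl⟩ (inv_mem (Subgroup.map_mono le_othersJoin_S ht))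
    have hTB : T ≤ Subgroup.normalizer (B : Set _) := le_normalizer_sup
      ((le_inf hA ((Subgroup.map_mono le_othersJoin_S).trans Subgroup.le_normalizer)).trans
        Subgroup.inf_normalizer_le_normalizer_inf) hqs
    intro a ha
    obtain ⟨b, hb, t, ht, rfl⟩ := Coprime.exists_mul_of_mem_sup hTB (hAB ha)
    have ht' : t ∈ A ⊓ T := Subgroup.mem_inf.mpr
      ⟨by simpa using A.mul_mem (A.inv_mem (hBA hb)) ha, ht⟩
    obtain ⟨k, hk⟩ := IsPGroup.iff_card.mp (S.isPGroup'.map π : IsPGroup p ↥T)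
    rw [Subgroup.inf_eq_bot_of_coprime (H := A) (K := T) (hk ▸ hcop.pow_right k), Subgroup.mem_bot] at ht'
    rwa [ht', mul_one]

/-- If `Y` has image `O^p(P)` modulo `O_p(G)` then `Y = O^p(P)`. -/
theorem residual_eq (hSP : (S : Subgroup G) ≤ P) {Y : Subgroup G}
    (hY : Y = Subgroup.normalClosure (resIn p P : Set G)) [hn : (Cfsg.pCore p G).Normal]
    (heq : (resIn p P).map (QuotientGroup.mk' (Cfsg.pCore p G)) =
      Y.map (QuotientGroup.mk' (Cfsg.pCore p G))) : resIn p P = Y := by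
  have hYP : Y ≤ P := by
    have h1 := (Subgroup.le_comap_map (QuotientGroup.mk' (Cfsg.pCore p G)) Y)
    rw [← heq, Subgroup.comap_map_eq, QuotientGroup.ker_mk'] at h1
    exact h1.trans (sup_le (Subgroup.map_subtype_le _) ((Core.pCore_le_sylow S).trans hSP))
  have hQY : resIn p P ≤ Y := hY ▸ Subgroup.le_normalClosure
  haveI hYn : Y.Normal := hY ▸ Subgroup.normalClosure_normal
  have hn' : (resIn p P).Normal := by
    refine ⟨fun x hx g => ?_⟩
    have hle : Cfsg.pResidual p ↥P ≤ ((resIn p P).comap (MulAut.conj g).toMonoidHom).comap P.subtype := by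
      rw [Cfsg.pResidual, Subgroup.closure_le]
      intro y hy
      have hy' : g * (y : G) * g⁻¹ ∈ Y := hYn.conj_mem _ (hQY ⟨y, Core.mem_pResidual hy, rfl⟩) g
      refine ⟨⟨g * (y : G) * g⁻¹, hYP hy'⟩, Core.mem_pResidual ?_, rfl⟩
      rw [← Subgroup.orderOf_coe]
      show (orderOf (MulAut.conj g (y : G))).Coprime p
      rw [MulEquiv.orderOf_eq, Subgroup.orderOf_coe]
      exact hy
    obtain ⟨y, hy, rfl⟩ := hx
    exact hle hy
  exact le_antisymm hQY (hY ▸ Subgroup.normalClosure_le_normal le_rfl)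

end Cfsg.Agent.LocalEven.Iso

namespace Cfsg.Agent.LocalEven.Iso

variable {G : Type*} [Group G] [Finite G] {p : ℕ} [hp : Fact p.Prime]

omit [Finite G] hp in
theorem ker_subgroupMap (Y : Subgroup G) [Y.Normal] [(Cfsg.pCore p G).Normal] :
    ((QuotientGroup.mk' (Cfsg.pCore p G)).subgroupMap Y).ker = Cfsg.pCore p ↥Y := by
  rw [Core.pCore_eq_subgroupOf p Y]
  ext y
  rw [MonoidHom.mem_ker, Subgroup.mem_subgroupOf, Subtype.ext_iff]
  exact QuotientGroup.eq_one_iff (y : G)

/-- `Y / O_p(Y)` is the image of `Y` in `G / O_p(G)`. -/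
noncomputable def imageEquiv (Y : Subgroup G) [Y.Normal] [(Cfsg.pCore p G).Normal] :
    (↥Y ⧸ Cfsg.pCore p ↥Y) ≃* ↥(Y.map (QuotientGroup.mk' (Cfsg.pCore p G))) :=
  (QuotientGroup.quotientMulEquivOfEq (ker_subgroupMap (p := p) Y).symm).trans
    (QuotientGroup.quotientKerEquivOfSurjective _ (MonoidHom.subgroupMap_surjective _ Y))

omit [Finite G] hp in
theorem imageEquiv_mk (Y : Subgroup G) [Y.Normal] [(Cfsg.pCore p G).Normal] (y : Y) :
    ((imageEquiv (p := p) Y (QuotientGroup.mk y) : ↥(Y.map (QuotientGroup.mk' (Cfsg.pCore p G)))) :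
      G ⧸ Cfsg.pCore p G) = QuotientGroup.mk' (Cfsg.pCore p G) (y : G) := rfl

theorem comap_mk_eq (Y : Subgroup G) [Y.Normal] [(Cfsg.pCore p G).Normal]
    (K : Subgroup (↥Y ⧸ Cfsg.pCore p ↥Y)) :
    (K.comap (QuotientGroup.mk' (Cfsg.pCore p ↥Y))).map Y.subtype =
      ((K.map (imageEquiv (p := p) Y).toMonoidHom).map
        (Y.map (QuotientGroup.mk' (Cfsg.pCore p G))).subtype).comap
        (QuotientGroup.mk' (Cfsg.pCore p G)) ⊓ Y := by
  ext x
  constructor
  · rintro ⟨y, hy, rfl⟩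
    exact Subgroup.mem_inf.mpr ⟨⟨_, ⟨_, hy, rfl⟩, imageEquiv_mk (p := p) Y y⟩, y.2⟩
  · intro hx
    obtain ⟨hx1, hx2⟩ := Subgroup.mem_inf.mp hx
    obtain ⟨_, ⟨q, hq, rfl⟩, e⟩ := hx1
    refine ⟨⟨x, hx2⟩, ?_, rfl⟩
    have h : q = QuotientGroup.mk (⟨x, hx2⟩ : Y) := (imageEquiv (p := p) Y).injective
      (Subtype.ext (e.trans (imageEquiv_mk (p := p) Y ⟨x, hx2⟩).symm))
    show QuotientGroup.mk (⟨x, hx2⟩ : Y) ∈ K
    exact h ▸ hq

omit [Finite G] hp in
theorem comap_cj_inf {H : Type*} [Group H] (π : G →* H) (Y : Subgroup G) [Y.Normal] (k : Subgroup H)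
    (s : G) : (cj (π s) k).comap π ⊓ Y = cj s (k.comap π ⊓ Y) := by
  ext x
  simp only [Subgroup.mem_inf, Subgroup.mem_comap, mem_cj, map_mul, map_inv]
  refine and_congr_right fun _ => ⟨fun h => ?_, fun h => ?_⟩
  · simpa using (inferInstance : Y.Normal).conj_mem x h s⁻¹
  · simpa [mul_assoc] using (inferInstance : Y.Normal).conj_mem _ h s

end Cfsg.Agent.LocalEven.Iso
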