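import Cfsg.Prelude.Def_PLocal
import Cfsg.Agent.LocalEven.Conj
import Cfsg.Agent.LocalEven.ProductCard
import Mathlib.Data.Set.Finite.Lemmas
import Mathlib.Data.Finset.Max
import Mathlib.GroupTheory.Abelianization.Defs

/-! Replacement in metabelian groups. -/

set_option autoImplicit false
set_option linter.style.haveILetI false

namespace Cfsg.Agent.LocalEven

variable {S : Type*} [Group S]

theorem exists_normal_maxAbelian [Finite S] (hD : IsMulCommutative ↥(commutator S)) (A : Subgroup S)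
    (hA : A ∈ Cfsg.maxAbelianSubgroups S) :
    ∃ B ∈ Cfsg.maxAbelianSubgroups S, B.Normal ∧ B ≤ Subgroup.normalClosure (A : Set S) := by
  set D := commutator S
  set N := Subgroup.normalClosure (A : Set S)
  haveI hNn : N.Normal := inferInstance
  obtain ⟨B, ⟨hBN, hBab, hBA⟩, hmax⟩ := Set.exists_max_image
    {B : Subgroup S | B ≤ N ∧ IsMulCommutative B ∧ Nat.card A ≤ Nat.card B}
    (fun B => Nat.card ↥(B ⊓ D)) (Set.toFinite _) ⟨A, Subgroup.le_normalClosure, hA.1, le_rfl⟩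
  haveI := hBab
  have hbb : ∀ a ∈ B, ∀ b ∈ B, a * b = b * a := fun a ha b hb =>
    congrArg Subtype.val (mul_comm' (⟨a, ha⟩ : B) ⟨b, hb⟩)
  have hdd : ∀ a ∈ D, ∀ b ∈ D, a * b = b * a := fun a ha b hb =>
    congrArg Subtype.val (mul_comm' (⟨a, ha⟩ : D) ⟨b, hb⟩)
  refine ⟨B, ⟨hBab, fun C hC => (hA.2 C hC).trans hBA⟩, ?_, hBN⟩
  refine ⟨fun b₀ hb₀ x => ?_⟩
  let u : S → S := fun b => x * b * x⁻¹ * b⁻¹
  have huD : ∀ b, u b ∈ D := fun b => by
    show x * b * x⁻¹ * b⁻¹ ∈ commutator S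
    rw [commutator_def]
    exact Subgroup.commutator_mem_commutator (Subgroup.mem_top x) (Subgroup.mem_top b)
  set M := Subgroup.closure (u '' (B : Set S))
  have hMD : M ≤ D := (Subgroup.closure_le _).mpr (by rintro _ ⟨b, -, rfl⟩; exact huD b)
  have hMN : M ≤ N := (Subgroup.closure_le _).mpr (by
    rintro _ ⟨b, hb, rfl⟩
    exact N.mul_mem (hNn.conj_mem b (hBN hb) x) (N.inv_mem (hBN hb)))
  have huM : ∀ b ∈ B, u b ∈ M := fun b hb => Subgroup.subset_closure ⟨b, hb, rfl⟩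
  suffices hMB : M ≤ B by
    have := B.mul_mem (hMB (huM b₀ hb₀)) hb₀
    simpa [u] using this
  by_contra hMB
  set C := B ⊓ Subgroup.centralizer (M : Set S)
  -- the counting map
  have key : ∀ a ∈ B, ∀ b ∈ B, (u a)⁻¹ * u b ∈ B → a⁻¹ * b ∈ C := by
    intro a ha b hb hab
    refine ⟨B.mul_mem (B.inv_mem ha) hb, ?_⟩
    show a⁻¹ * b ∈ Subgroup.centralizer (M : Set S)
    rw [Subgroup.centralizer_closure, Subgroup.mem_centralizer_iff]
    rintro _ ⟨c, hc, rfl⟩
    have hconj : ∀ b' ∈ B, ∀ v, v ∈ D → b' * v * b'⁻¹ ∈ D := fun b' _ v hv =>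
      (inferInstance : (commutator S).Normal).conj_mem v hv b'
    have eq1 : ∀ b' ∈ B, u b' * (b' * u c * b'⁻¹) = u c * (c * u b' * c⁻¹) := by
      intro b' hb'
      have e1 : u b' * (b' * u c * b'⁻¹) = x * (b' * c) * x⁻¹ * (b' * c)⁻¹ := by simp only [u]; group
      have e2 : u c * (c * u b' * c⁻¹) = x * (c * b') * x⁻¹ * (c * b')⁻¹ := by simp only [u]; group
      rw [e1, e2, hbb b' hb' c hc]
    have hd : ((u a)⁻¹ * u b) * c = c * ((u a)⁻¹ * u b) := hbb _ hab c hc
    have eq2 : a * u c * a⁻¹ = b * u c * b⁻¹ := by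
      have h1 : a * u c * a⁻¹ = (u a)⁻¹ * (u c * (c * u a * c⁻¹)) := by
        rw [← eq1 a ha, inv_mul_cancel_left]
      have h2 : b * u c * b⁻¹ = (u b)⁻¹ * (u c * (c * u b * c⁻¹)) := by
        rw [← eq1 b hb, inv_mul_cancel_left]
      rw [h1, h2]
      have h3 : c * u b * c⁻¹ = (c * u a * c⁻¹) * ((u a)⁻¹ * u b) := by
        calc c * u b * c⁻¹ = c * u a * c⁻¹ * (c * ((u a)⁻¹ * u b) * c⁻¹) := by group
          _ = _ := by rw [← hd, mul_inv_cancel_right]
      rw [h3]
      have hX : u c * (c * u a * c⁻¹) ∈ D := D.mul_mem (huD c) (hconj c hc _ (huD a))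
      generalize c * u a * c⁻¹ = P at hX ⊢
      have hw : (u a)⁻¹ * u b ∈ D := D.mul_mem (D.inv_mem (huD a)) (huD b)
      symm
      calc (u b)⁻¹ * (u c * (P * ((u a)⁻¹ * u b)))
          = (u b)⁻¹ * ((u c * P) * ((u a)⁻¹ * u b)) := by group
        _ = ((u b)⁻¹ * (u a)⁻¹) * u b * (u c * P) := by rw [hdd _ hX _ hw]; group
        _ = (u a)⁻¹ * (u c * P) := by
            rw [hdd _ (D.inv_mem (huD b)) _ (D.inv_mem (huD a)), inv_mul_cancel_right]
    show u c * (a⁻¹ * b) = a⁻¹ * b * u c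
    calc u c * (a⁻¹ * b) = a⁻¹ * (a * u c * a⁻¹) * b := by group
      _ = a⁻¹ * b * u c := by rw [eq2]; group
  have hidx : C.relIndex B ≤ B.relIndex M := by
    refine Nat.card_le_card_of_injective
      (fun q : B ⧸ C.subgroupOf B =>
        (QuotientGroup.mk (⟨u (q.out : B), huM _ (q.out : B).2⟩ : M) : M ⧸ B.subgroupOf M))
      fun q q' h => ?_
    have h' := key _ (q.out : B).2 _ (q'.out : B).2 (Subgroup.mem_subgroupOf.mp (QuotientGroup.eq.mp h))
    rw [← QuotientGroup.out_eq' q, ← QuotientGroup.out_eq' q']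
    exact QuotientGroup.eq.mpr h'
  set J := C ⊔ M
  have hJab : IsMulCommutative J := by
    rw [← Subgroup.le_centralizer_iff_isMulCommutative]
    refine sup_le (Subgroup.le_centralizer_iff.mpr (sup_le ?_ ?_))
      (Subgroup.le_centralizer_iff.mpr (sup_le ?_ ?_))
    · exact inf_le_left.trans ((Subgroup.le_centralizer_iff_isMulCommutative.mpr hBab).trans
        (Subgroup.centralizer_le inf_le_left))
    · exact Subgroup.le_centralizer_iff.mp inf_le_right
    · exact inf_le_right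
    · exact fun m hm => Subgroup.mem_centralizer_iff.mpr fun m' hm' => hdd _ (hMD hm') _ (hMD hm)
  have hJN : J ≤ N := sup_le (inf_le_left.trans hBN) hMN
  have hJA : Nat.card A ≤ Nat.card J := by
    refine hBA.trans (Nat.le_of_mul_le_mul_left ?_ (Nat.card_pos (α := ↥(B ⊓ M))))
    calc Nat.card ↥(B ⊓ M) * Nat.card B = Nat.card C * (Nat.card ↥(B ⊓ M) * C.relIndex B) := by
          rw [← Core.card_mul_relIndex (inf_le_left : C ≤ B)]; ring
      _ ≤ Nat.card C * (Nat.card ↥(B ⊓ M) * B.relIndex M) := by gcongr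
      _ = Nat.card C * Nat.card M := by
          rw [← Subgroup.inf_relIndex_right B M,
            Core.card_mul_relIndex (inf_le_right : B ⊓ M ≤ M)]
      _ ≤ Nat.card ↥(C ⊓ M) * Nat.card J := card_mul_le_of_le le_sup_left le_sup_right
      _ ≤ Nat.card ↥(B ⊓ M) * Nat.card J := by
          gcongr
          exact Subgroup.card_le_of_le (inf_le_inf_right M inf_le_left)
  have hBD : B ⊓ D ≤ J ⊓ D := le_inf (le_trans (le_inf inf_le_left fun d hd =>
    Subgroup.mem_centralizer_iff.mpr fun m hm => hdd _ (hMD hm) _ hd.2) le_sup_left) inf_le_right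
  have heq := Subgroup.eq_of_le_of_card_ge hBD (hmax J ⟨hJN, hJab, hJA⟩)
  exact hMB fun m hm => (heq.ge ⟨Subgroup.mem_sup_right hm, hMD hm⟩).1

end Cfsg.Agent.LocalEven
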