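import Cfsg.Agent.Components.Basic
import Cfsg.Agent.Core.BurnsidePQ
import Cfsg.Agent.FGS2.SylowTwoNormal
import Cfsg.Prelude.Def_Transfer
import Mathlib

/-!
# Best offenders: basic lemmas

Fixed-point submodules, the replacement of Thompson and Timmesfeld, and elementary facts about
the action of a component.
-/

set_option autoImplicit false
set_option linter.unusedSectionVars false

namespace Cfsg.Agent.LocalEven.Offender

open scoped commutatorElement

variable {p : ℕ} {G : Type*} [Group G] {V : Type*} [AddCommGroup V] [Module (ZMod p) V]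
variable (ρ : Representation (ZMod p) G V)

theorem rho_mul (x y : G) (v : V) : ρ (x * y) v = ρ x (ρ y v) := by rw [map_mul]; rfl

theorem rho_one (v : V) : ρ 1 v = v := by rw [map_one]; rfl

theorem rho_inv_self (x : G) (v : V) : ρ x⁻¹ (ρ x v) = v := by
  rw [← rho_mul, inv_mul_cancel, rho_one]

theorem rho_self_inv (x : G) (v : V) : ρ x (ρ x⁻¹ v) = v := by
  rw [← rho_mul, mul_inv_cancel, rho_one]

theorem rho_comm {x y : G} (h : x * y = y * x) (v : V) : ρ x (ρ y v) = ρ y (ρ x v) := by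
  rw [← rho_mul, h, rho_mul]

theorem rho_injective (x : G) : Function.Injective (ρ x) := fun v w h => by
  rw [← rho_inv_self ρ x v, h, rho_inv_self]

/-- The stabilizer of a vector. -/
def stab (v : V) : Subgroup G where
  carrier := {x | ρ x v = v}
  one_mem' := rho_one ρ v
  mul_mem' := fun {x y} hx hy => by
    show ρ (x * y) v = v
    rw [rho_mul, show ρ y v = v from hy, show ρ x v = v from hx]
  inv_mem' := fun {x} hx => by
    show ρ x⁻¹ v = v
    conv_lhs => rw [← show ρ x v = v from hx]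
    exact rho_inv_self ρ x v

theorem mem_stab {x : G} {v : V} : x ∈ stab ρ v ↔ ρ x v = v := Iff.rfl

/-- The fixed submodule. -/
def fx (D : Subgroup G) : Submodule (ZMod p) V where
  carrier := {v | ∀ d ∈ D, ρ d v = v}
  zero_mem' := fun d _ => map_zero (ρ d)
  add_mem' := fun hv hw d hd => by rw [map_add, hv d hd, hw d hd]
  smul_mem' := fun r v hv d hd => by rw [map_smul, hv d hd]

theorem mem_fx {D : Subgroup G} {v : V} : v ∈ fx ρ D ↔ ∀ d ∈ D, ρ d v = v := Iff.rfl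

theorem fx_anti {D E : Subgroup G} (h : D ≤ E) : fx ρ E ≤ fx ρ D := fun _ hv d hd => hv d (h hd)

/-- A normalized subgroup has invariant fixed points. -/
theorem fx_invariant {D : Subgroup G} {x : G} (hx : ∀ d ∈ D, x⁻¹ * d * x ∈ D) {v : V}
    (hv : v ∈ fx ρ D) : ρ x v ∈ fx ρ D := by
  intro d hd
  rw [show d = x * (x⁻¹ * d * x) * x⁻¹ by group, rho_mul, rho_mul, rho_inv_self, hv _ (hx d hd)]

/-- The best offender inequality. -/
def IsMax (A : Subgroup G) : Prop :=
  ∀ B : Subgroup G, B ≤ A → Nat.card B * Nat.card (fx ρ B) ≤ Nat.card A * Nat.card (fx ρ A)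

/-- `d` fixes the commutators of `A` on the module. -/
def Quad (A : Subgroup G) (d : G) : Prop := ∀ e ∈ A, ∀ v, ρ d (ρ e v - v) = ρ e v - v

theorem card_sup_mul_card_inf [Fact p.Prime] [Finite V] (X Y : Submodule (ZMod p) V) :
    Nat.card ↥(X ⊔ Y) * Nat.card ↥(X ⊓ Y) = Nat.card X * Nat.card Y := by
  rw [Module.natCard_eq_pow_finrank (K := ZMod p) (V := ↥(X ⊔ Y)), Module.natCard_eq_pow_finrank (K := ZMod p) (V := ↥(X ⊓ Y)),
    Module.natCard_eq_pow_finrank (K := ZMod p) (V := ↥X), Module.natCard_eq_pow_finrank (K := ZMod p) (V := ↥Y),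
    ← pow_add, ← pow_add, Submodule.finrank_sup_add_finrank_inf_eq]

theorem card_le_of_le [Finite V] {X Y : Submodule (ZMod p) V} (h : X ≤ Y) : Nat.card X ≤ Nat.card Y :=
  Nat.card_le_card_of_injective (Submodule.inclusion h) (Submodule.inclusion_injective h)

theorem eq_of_le_of_card [Finite V] {X Y : Submodule (ZMod p) V} (h : X ≤ Y) (hc : Nat.card Y ≤ Nat.card X) :
    X = Y := by
  refine SetLike.coe_injective (Set.eq_of_subset_of_ncard_le h ?_ (Set.toFinite _))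
  exact hc

theorem card_mul_card_le {D E : Subgroup G} [Finite G] :
    Nat.card D * Nat.card E ≤ Nat.card ↥(D ⊔ E) * Nat.card ↥(D ⊓ E) := by
  have h1 := Subgroup.relIndex_mul_relIndex (⊥ : Subgroup G) (D ⊓ E) D bot_le inf_le_left
  have h2 := Subgroup.relIndex_mul_relIndex (⊥ : Subgroup G) E (D ⊔ E) bot_le le_sup_right
  simp only [Subgroup.relIndex_bot_left] at h1 h2
  rw [Subgroup.inf_relIndex_left] at h1
  have h3 : E.relIndex D ≤ E.relIndex (D ⊔ E) :=
    Subgroup.relIndex_le_of_le_right le_sup_left (Subgroup.index_ne_zero_of_finite (H := E.subgroupOf (D ⊔ E)))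
  calc Nat.card D * Nat.card E = Nat.card ↥(D ⊓ E) * E.relIndex D * Nat.card E := by rw [h1]
    _ ≤ Nat.card ↥(D ⊓ E) * E.relIndex (D ⊔ E) * Nat.card E :=
      Nat.mul_le_mul_right _ (Nat.mul_le_mul_left _ h3)
    _ = Nat.card ↥(D ⊓ E) * (Nat.card E * E.relIndex (D ⊔ E)) := by ring
    _ = _ := by rw [h2, mul_comm]

theorem sub_one_pow_prime [Fact p.Prime] {a : G} (ha : a ^ p = 1) :
    (ρ a - 1 : Module.End (ZMod p) V) ^ p = 0 := by
  haveI : Nontrivial (Module.End (ZMod p) V) ∨ Subsingleton (Module.End (ZMod p) V) := (subsingleton_or_nontrivial _).symm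
  rcases subsingleton_or_nontrivial (Module.End (ZMod p) V) with h | h
  · exact Subsingleton.elim _ _
  haveI : CharP (Module.End (ZMod p) V) p := charP_of_injective_algebraMap (algebraMap (ZMod p) (Module.End (ZMod p) V)).injective p
  rw [sub_pow_char_of_commute p (Commute.one_right (ρ a)), one_pow, ← map_pow, ha, map_one, sub_self]

/-- The replacement theorem: some subgroup of quadratic elements is again a best offender. -/
theorem replacement [Fact p.Prime] [Finite G] [Finite V] (A : Subgroup G) (hcomm : ∀ a ∈ A, ∀ b ∈ A, a * b = b * a)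
    (hexp : ∀ a ∈ A, a ^ p = 1) (hP : IsMax ρ A) (hnt : ∃ a ∈ A, ρ a ≠ 1) :
    ∃ D : Subgroup G, D ≤ A ∧ (∀ d ∈ D, Quad ρ A d) ∧
      Nat.card A * Nat.card (fx ρ A) ≤ Nat.card D * Nat.card (fx ρ D) ∧ ∃ d ∈ D, ρ d ≠ 1 := by
  classical
  set m := Nat.card A * Nat.card (fx ρ A) with hm
  set S : Submodule (ZMod p) V := fx ρ A ⊔ Submodule.span (ZMod p) {w | ∃ a ∈ A, ∃ v, w = ρ a v - v} with hS
  have step : ∀ v : V, ∃ (D : Subgroup G) (X : Submodule (ZMod p) V), D ≤ A ∧ fx ρ A ≤ X ∧ X ≤ S ∧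
      X ≤ fx ρ D ∧ m ≤ Nat.card D * Nat.card X ∧ ∀ a ∈ A, ρ a v - v ∈ X := by
    intro v
    set X : Submodule (ZMod p) V := fx ρ A ⊔ Submodule.span (ZMod p) {w | ∃ a ∈ A, w = ρ a v - v} with hX
    set D : Subgroup G := A ⊓ ⨅ x : X, stab ρ (x : V) with hD
    have hvX : ∀ a ∈ A, ρ a v - v ∈ X := fun a ha =>
      Submodule.mem_sup_right (Submodule.subset_span ⟨a, ha, rfl⟩)
    have hXD : X ≤ fx ρ D := fun x hx d hd => Subgroup.mem_iInf.mp hd.2 ⟨x, hx⟩
    have hXS : X ≤ S := sup_le le_sup_left (le_sup_of_le_right (Submodule.span_mono (by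
      rintro w ⟨a, ha, rfl⟩; exact ⟨a, ha, v, rfl⟩)))
    refine ⟨D, X, inf_le_left, le_sup_left, hXS, hXD, ?_, hvX⟩
    let Y : Submodule (ZMod p) X := (fx ρ A).comap X.subtype
    let ψ : ↥A → X ⧸ Y := fun a => Submodule.Quotient.mk ⟨ρ a v - v, hvX a a.2⟩
    have hψ : ∀ a b : ↥A, ψ a = ψ b → (a : G)⁻¹ * b ∈ D := by
      intro a b hab
      have h1 : (ρ a v - v) - (ρ b v - v) ∈ fx ρ A := (Submodule.Quotient.eq Y).mp hab
      rw [sub_sub_sub_cancel_right] at h1
      refine ⟨mul_mem (Subgroup.inv_mem A a.2) b.2, Subgroup.mem_iInf.mpr fun ⟨x, hx⟩ => ?_⟩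
      have hge : X ≤ LinearMap.eqLocus (ρ ((a : G)⁻¹ * b)) LinearMap.id := by
        refine sup_le (fun y hy => hy _ (mul_mem (inv_mem a.2) b.2)) (Submodule.span_le.mpr ?_)
        rintro _ ⟨c, hc, rfl⟩
        show ρ ((a : G)⁻¹ * b) (ρ c v - v) = ρ c v - v
        have e := h1 c hc
        rw [map_sub, rho_comm ρ (hcomm c hc a a.2), rho_comm ρ (hcomm c hc b b.2)] at e
        have e2 : ρ b (ρ c v - v) = ρ a (ρ c v - v) := by
          rw [map_sub, map_sub]
          rw [← neg_sub (ρ a v), ← neg_sub (ρ b v), neg_inj]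
          exact (sub_eq_sub_iff_sub_eq_sub.mp e.symm).symm
        rw [rho_mul, e2, rho_inv_self]
      exact hge hx
    have hcard : Nat.card (↥A ⧸ D.subgroupOf A) ≤ Nat.card (X ⧸ Y) := by
      haveI : Finite (↥X ⧸ Y) := Finite.of_surjective _ (Submodule.Quotient.mk_surjective Y)
      refine Nat.card_le_card_of_injective (fun q => ψ q.out) fun q r h => ?_
      rw [← q.out_eq, ← r.out_eq]
      exact QuotientGroup.eq.mpr (Subgroup.mem_subgroupOf.mpr (hψ _ _ h))
    have hY : Nat.card Y = Nat.card (fx ρ A) := Nat.card_congr (Submodule.comapSubtypeEquivOfLe (le_sup_left : fx ρ A ≤ X)).toEquiv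
    rw [hm, Subgroup.card_eq_card_quotient_mul_card_subgroup (D.subgroupOf A),
      Nat.card_congr (Subgroup.subgroupOfEquivOfLe (inf_le_left : D ≤ A)).toEquiv,
      Submodule.card_eq_card_quotient_mul_card Y, hY]
    calc _ ≤ Nat.card (X ⧸ Y) * Nat.card D * Nat.card (fx ρ A) :=
        Nat.mul_le_mul_right _ (Nat.mul_le_mul_right _ hcard)
      _ = _ := by ring
  have fold : ∀ s : Finset V, ∃ (D : Subgroup G) (X : Submodule (ZMod p) V), D ≤ A ∧ fx ρ A ≤ X ∧ X ≤ S ∧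
      X ≤ fx ρ D ∧ m ≤ Nat.card D * Nat.card X ∧ ∀ v ∈ s, ∀ a ∈ A, ρ a v - v ∈ X := by
    intro s
    induction s using Finset.induction_on with
    | empty => exact ⟨A, fx ρ A, le_rfl, le_rfl, le_sup_left, le_rfl, le_rfl, fun v hv => absurd hv (Finset.notMem_empty v)⟩
    | @insert v s hvs ih =>
      obtain ⟨D₁, X₁, hD₁, hA₁, hS₁, hX₁, hm₁, h₁⟩ := ih
      obtain ⟨D₂, X₂, hD₂, hA₂, hS₂, hX₂, hm₂, h₂⟩ := step v
      refine ⟨D₁ ⊓ D₂, X₁ ⊔ X₂, inf_le_left.trans hD₁, hA₁.trans le_sup_left, sup_le hS₁ hS₂,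
        sup_le (hX₁.trans (fx_anti ρ inf_le_left)) (hX₂.trans (fx_anti ρ inf_le_right)), ?_, ?_⟩
      · have h3 : Nat.card ↥(D₁ ⊔ D₂) * Nat.card ↥(X₁ ⊓ X₂) ≤ m := by
          refine le_trans (Nat.mul_le_mul_left _ (card_le_of_le ?_)) (hP _ (sup_le hD₁ hD₂))
          intro x hx
          have hsub : D₁ ⊔ D₂ ≤ stab ρ x := sup_le (fun d hd => hX₁ hx.1 d hd) (fun d hd => hX₂ hx.2 d hd)
          exact fun d hd => hsub hd
        have hmpos : 0 < m := Nat.mul_pos Nat.card_pos Nat.card_pos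
        refine Nat.le_of_mul_le_mul_left ?_ hmpos
        calc m * m ≤ (Nat.card D₁ * Nat.card X₁) * (Nat.card D₂ * Nat.card X₂) := Nat.mul_le_mul hm₁ hm₂
          _ = (Nat.card D₁ * Nat.card D₂) * (Nat.card X₁ * Nat.card X₂) := by ring
          _ ≤ (Nat.card ↥(D₁ ⊔ D₂) * Nat.card ↥(D₁ ⊓ D₂)) * (Nat.card X₁ * Nat.card X₂) :=
            Nat.mul_le_mul_right _ card_mul_card_le
          _ = (Nat.card ↥(D₁ ⊔ D₂) * Nat.card ↥(X₁ ⊓ X₂)) * (Nat.card ↥(D₁ ⊓ D₂) * Nat.card ↥(X₁ ⊔ X₂)) := by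
            rw [← card_sup_mul_card_inf X₁ X₂]; ring
          _ ≤ m * (Nat.card ↥(D₁ ⊓ D₂) * Nat.card ↥(X₁ ⊔ X₂)) := Nat.mul_le_mul_right _ h3
      · intro w hw a ha
        rcases Finset.mem_insert.mp hw with rfl | hw
        · exact Submodule.mem_sup_right (h₂ a ha)
        · exact Submodule.mem_sup_left (h₁ w hw a ha)
  haveI : Fintype V := Fintype.ofFinite V
  obtain ⟨D, X, hDA, hAX, hXS, hXD, hmD, hall⟩ := fold Finset.univ
  have hm2 := le_trans hmD (Nat.mul_le_mul_left _ (card_le_of_le hXD))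
  refine ⟨D, hDA, fun d hd e he v => hXD (hall v (Finset.mem_univ v) e he) d hd, hm2, ?_⟩
  by_contra! hall1
  have htop : fx ρ D = ⊤ := by
    rw [eq_top_iff]
    intro v _ d hd
    rw [hall1 d hd]; rfl
  have hXtop : X = ⊤ := by
    refine htop ▸ eq_of_le_of_card hXD ?_
    exact Nat.le_of_mul_le_mul_left ((hP D hDA).trans hmD) Nat.card_pos
  -- a maximal invariant submodule over the fixed points
  have hfxA : fx ρ A ≠ ⊤ := by
    intro h
    obtain ⟨a, ha, ha1⟩ := hnt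
    exact ha1 (LinearMap.ext fun v => (h.ge (Submodule.mem_top (x := v))) a ha)
  obtain ⟨M, -, ⟨hM1, hM2, hM3⟩, hMmax⟩ := (Set.toFinite {M : Submodule (ZMod p) V | fx ρ A ≤ M ∧ M ≠ ⊤ ∧
      ∀ a ∈ A, ∀ v ∈ M, ρ a v ∈ M}).exists_le_maximal (a := fx ρ A)
    ⟨le_rfl, hfxA, fun a ha v hv => fx_invariant ρ (fun d hd => by
      rw [mul_assoc, hcomm d hd a ha, inv_mul_cancel_left]; exact hd) hv⟩
  have hSM : S ≤ M := by
    refine sup_le hM1 (Submodule.span_le.mpr ?_)
    rintro _ ⟨a, ha, v, rfl⟩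
    by_contra hnot
    set M' := M ⊔ LinearMap.range (ρ a - 1) with hM'
    have hinv : ∀ b ∈ A, ∀ w ∈ M', ρ b w ∈ M' := by
      intro b hb w hw
      obtain ⟨x, hx, y, ⟨z, rfl⟩, rfl⟩ := Submodule.mem_sup.mp hw
      rw [map_add]
      refine Submodule.add_mem_sup (hM3 b hb x hx) ⟨ρ b z, ?_⟩
      show ρ a (ρ b z) - ρ b z = ρ b (ρ a z - z)
      rw [map_sub, rho_comm ρ (hcomm a ha b hb)]
    have htop' : M' = ⊤ := by
      by_contra hne
      exact hnot (hMmax (y := M') ⟨hM1.trans le_sup_left, hne, hinv⟩ le_sup_left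
        (Submodule.mem_sup_right ⟨v, rfl⟩))
    have hmap : ∀ x ∈ M, ρ a x - x ∈ M := fun x hx => sub_mem (hM3 a ha x hx) hx
    have hiter : ∀ k, ∀ w : V, ∃ x ∈ M, ∃ z, w = x + ((ρ a - 1 : Module.End (ZMod p) V) ^ k) z := by
      intro k
      induction k with
      | zero => exact fun w => ⟨0, zero_mem _, w, by simp⟩
      | succ k ih =>
        intro w
        obtain ⟨x, hx, z, rfl⟩ := ih w
        obtain ⟨x', hx', y, ⟨z', rfl⟩, rfl⟩ := Submodule.mem_sup.mp (htop'.ge (Submodule.mem_top (x := z)))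
        refine ⟨x + ((ρ a - 1 : Module.End (ZMod p) V) ^ k) x', add_mem hx ?_, z', ?_⟩
        · clear ih
          induction k with
          | zero => simpa using hx'
          | succ j ihj => rw [pow_succ']; exact hmap _ ihj
        · rw [map_add, pow_succ, Module.End.mul_apply, add_assoc]
    refine hM2 (eq_top_iff.mpr fun w _ => ?_)
    obtain ⟨x, hx, z, rfl⟩ := hiter p w
    rw [sub_one_pow_prime ρ (hexp a ha), LinearMap.zero_apply, add_zero]
    exact hx
  exact hM2 (top_le_iff.mp (hXtop ▸ hXS.trans hSM))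

section Component

variable {K : Subgroup G}

theorem K_normal_cases (hq : Cfsg.IsQuasisimple ↥K) (N : Subgroup ↥K) [N.Normal] :
    N = ⊤ ∨ N ≤ Subgroup.center ↥K := Components.quasisimple_normal_eq_top_or_le_center hq N

/-- A subgroup containing all commutators with an element that normalizes but does not centralize `K`
contains `K`. -/
theorem le_of_commutators (hq : Cfsg.IsQuasisimple ↥K) {g : G} (hgK : ∀ l ∈ K, g * l * g⁻¹ ∈ K)
    (hnc : ∃ l ∈ K, g * l ≠ l * g) {T : Subgroup G} (hT : ∀ l ∈ K, g * l * g⁻¹ * l⁻¹ ∈ T) : K ≤ T := by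
  set c : ↥K → ↥K := fun l => ⟨g * l * g⁻¹ * (l : G)⁻¹, mul_mem (hgK l l.2) (inv_mem l.2)⟩ with hc
  have hcm : ∀ m l, m * c l * m⁻¹ = (c m)⁻¹ * c (m * l) := fun m l => Subtype.ext (by
    show (m : G) * (g * l * g⁻¹ * (l : G)⁻¹) * (m : G)⁻¹ =
      (g * m * g⁻¹ * (m : G)⁻¹)⁻¹ * (g * (m * l) * g⁻¹ * ((m : G) * l)⁻¹)
    group)
  set N := Subgroup.closure (Set.range c) with hN
  haveI : N.Normal := ⟨fun x hx m => by
    have h : N ≤ N.comap (MulAut.conj m).toMonoidHom := by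
      refine (Subgroup.closure_le _).mpr ?_
      rintro _ ⟨l, rfl⟩
      show m * c l * m⁻¹ ∈ N
      rw [hcm]
      exact mul_mem (inv_mem (Subgroup.subset_closure ⟨m, rfl⟩)) (Subgroup.subset_closure ⟨_, rfl⟩)
    exact h hx⟩
  have hNT : N ≤ T.subgroupOf K := (Subgroup.closure_le _).mpr (by rintro _ ⟨l, rfl⟩; exact hT l l.2)
  rcases K_normal_cases hq N with h | h
  · exact fun l hl => hNT (h ▸ Subgroup.mem_top (⟨l, hl⟩ : ↥K))
  · exfalso
    have hz : ∀ l, c l ∈ Subgroup.center ↥K := fun l => h (Subgroup.subset_closure ⟨l, rfl⟩)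
    let f : ↥K →* ↥(Subgroup.center ↥K) := MonoidHom.mk' (fun l => ⟨c l, hz l⟩) fun m l => Subtype.ext (by
      have h1 := hcm m l
      rw [Subgroup.mem_center_iff.mp (hz l) m, mul_inv_cancel_right] at h1
      show c (m * l) = c m * c l
      rw [h1, mul_inv_cancel_left])
    haveI := hq.1
    have hker : f.ker = ⊤ := by
      rw [eq_top_iff, ← Group.IsPerfect.commutator_eq_top (G := ↥K)]
      rw [commutator_def, Subgroup.commutator_le]
      intro x _ y _
      rw [MonoidHom.mem_ker, map_commutatorElement, commutatorElement_eq_one_iff_mul_comm]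
      exact Subtype.ext (Subgroup.mem_center_iff.mp (f y).2 (f x))
    obtain ⟨l, hl, hgl⟩ := hnc
    refine hgl ?_
    have h2 : c ⟨l, hl⟩ = 1 := congrArg Subtype.val (MonoidHom.mem_ker.mp (hker.ge (Subgroup.mem_top (⟨l, hl⟩ : ↥K))))
    have h3 : g * l * g⁻¹ * l⁻¹ = 1 := congrArg Subtype.val h2
    rwa [mul_inv_eq_one, mul_inv_eq_iff_eq_mul] at h3

/-- A vector moved only inside fixed points of `K` is fixed. -/
theorem fixed_of_additive (hq : Cfsg.IsQuasisimple ↥K) {v : V}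
    (h : ∀ g ∈ K, ∀ l ∈ K, ρ l (ρ g v - v) = ρ g v - v) : ∀ g ∈ K, ρ g v = v := by
  haveI := hq.1
  let f : ↥K →* Multiplicative V := MonoidHom.mk' (fun g => Multiplicative.ofAdd (ρ (g : G) v - v)) fun x y => by
    apply Multiplicative.toAdd.injective
    show ρ ((x : G) * y) v - v = (ρ (x : G) v - v) + (ρ (y : G) v - v)
    have hxy := h y y.2 x x.2
    rw [map_sub, ← rho_mul] at hxy
    rw [eq_add_of_sub_eq hxy]
    abel
  intro g hg
  have hker : (⟨g, hg⟩ : ↥K) ∈ f.ker :=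
    Abelianization.commutator_subset_ker f (by rw [Group.IsPerfect.commutator_eq_top]; trivial)
  exact sub_eq_zero.mp (Multiplicative.ofAdd.injective (hker.trans ofAdd_zero.symm))

/-- `K` acts non-trivially. -/
def Moves (K : Subgroup G) : Prop := ∃ k ∈ K, ρ k ≠ 1

theorem central_of_rho_commute (hq : Cfsg.IsQuasisimple ↥K) (hnt : Moves ρ K) {g : G} (hg : g ∈ K)
    (h : ∀ l ∈ K, ∀ v, ρ g (ρ l v) = ρ l (ρ g v)) : ∀ l ∈ K, g * l = l * g := by
  haveI := hq.1
  let N : Subgroup ↥K :=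
    { carrier := {x | ∀ l ∈ K, ∀ v, ρ (x : G) (ρ l v) = ρ l (ρ (x : G) v)}
      one_mem' := fun l _ v => by simp [rho_one]
      mul_mem' := fun {x y} hx hy l hl v => by
        show ρ ((x : G) * y) (ρ l v) = ρ l (ρ ((x : G) * y) v)
        rw [rho_mul, rho_mul, hy l hl, hx l hl]
      inv_mem' := fun {x} hx l hl v => by
        show ρ (x : G)⁻¹ (ρ l v) = ρ l (ρ (x : G)⁻¹ v)
        apply rho_injective ρ (x : G)
        rw [rho_self_inv, hx l hl, rho_self_inv] }
  haveI : N.Normal := ⟨fun x hx m l hl v => by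
    show ρ ((m : G) * x * (m : G)⁻¹) (ρ l v) = ρ l (ρ ((m : G) * x * (m : G)⁻¹) v)
    simp only [rho_mul]
    rw [hx _ (inv_mem m.2), rho_self_inv, hx _ (inv_mem m.2), rho_self_inv, hx l hl]⟩
  rcases K_normal_cases hq N with h1 | h1
  · exfalso
    obtain ⟨k, hk, hk1⟩ := hnt
    let f : ↥K →* Module.End (ZMod p) V := (ρ : G →* _).comp K.subtype
    refine hk1 ?_
    have hk' : (⟨k, hk⟩ : ↥K) ∈ commutator ↥K := by rw [Group.IsPerfect.commutator_eq_top]; trivial
    have hle : commutator ↥K ≤ f.ker := by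
      rw [commutator_def, Subgroup.commutator_le]
      intro x _ y _
      rw [MonoidHom.mem_ker, commutatorElement_def]
      have hc : f (x * y) = f (y * x) := by
        refine LinearMap.ext fun v => ?_
        show ρ ((x : G) * y) v = ρ ((y : G) * x) v
        rw [rho_mul, rho_mul]
        exact (h1 ▸ Subgroup.mem_top x : x ∈ N) y y.2 v
      rw [show x * y * x⁻¹ * y⁻¹ = (x * y) * (y * x)⁻¹ by group, map_mul, hc, ← map_mul, mul_inv_cancel, map_one]
    exact hle hk'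
  · intro l hl
    exact congrArg Subtype.val (Subgroup.mem_center_iff.mp (h1 (show (⟨g, hg⟩ : ↥K) ∈ N from h)) ⟨l, hl⟩).symm

theorem exists_noncentral (hq : Cfsg.IsQuasisimple ↥K) : ∃ g ∈ K, ∃ l ∈ K, g * l ≠ l * g := by
  by_contra! h
  exact Components.quasisimple_not_isMulCommutative hq ⟨⟨fun x y => Subtype.ext (h x x.2 y y.2)⟩⟩

/-- An involution normalizing but not centralizing `K` inverts a non-central element of odd order. -/
theorem exists_inverted [Finite G] (hq : Cfsg.IsQuasisimple ↥K) {b : G} (hb : b * b = 1)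
    (hbK : ∀ l ∈ K, b * l * b⁻¹ ∈ K) (hnc : ∃ l ∈ K, b * l ≠ l * b) :
    ∃ k ∈ K, Odd (orderOf k) ∧ (∃ l ∈ K, k * l ≠ l * k) ∧ b * k * b⁻¹ = k⁻¹ := by
  classical
  haveI : Fact (Nat.Prime 2) := ⟨Nat.prime_two⟩
  by_contra! hcon
  set H := K ⊔ Subgroup.zpowers b with hH
  have hKH : K ≤ H := le_sup_left
  have hbH : b ∈ H := Subgroup.mem_sup_right (Subgroup.mem_zpowers b)
  have hbinv : b⁻¹ = b := inv_eq_of_mul_eq_one_right hb
  have hHK : H ≤ Subgroup.normalizer (K : Set G) :=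
    sup_le Subgroup.le_normalizer (Subgroup.zpowers_le.mpr (Subgroup.mem_normalizer_fintype hbK))
  haveI : (K.subgroupOf H).Normal := Subgroup.normal_subgroupOf_of_le_normalizer hHK
  let Z : Subgroup ↥H := ((Subgroup.center ↥(K.subgroupOf H)).map (K.subgroupOf H).subtype)
  haveI : Z.Normal := ConjAct.normal_of_characteristic_of_normal
  have hZ : ∀ z : ↥H, z ∈ Z ↔ (z : G) ∈ K ∧ ∀ l ∈ K, (z : G) * l = l * (z : G) := by
    intro z
    constructor
    · rintro ⟨w, hw, rfl⟩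
      exact ⟨w.2, fun l hl => (congrArg (fun t : ↥(K.subgroupOf H) => ((t : ↥H) : G))
        (Subgroup.mem_center_iff.mp hw ⟨⟨l, hKH hl⟩, hl⟩)).symm⟩
    · rintro ⟨hz, hzl⟩
      exact ⟨⟨z, hz⟩, Subgroup.mem_center_iff.mpr fun w => Subtype.ext (Subtype.ext (hzl _ w.2).symm), rfl⟩
  let π := QuotientGroup.mk' Z
  set s : ↥H ⧸ Z := π ⟨b, hbH⟩ with hs
  have hss : s * s = 1 := by
    rw [hs, ← map_mul, show (⟨b, hbH⟩ : ↥H) * ⟨b, hbH⟩ = 1 from Subtype.ext hb, map_one]
  have hall : ∀ g : ↥H ⧸ Z, IsPGroup 2 ↥(Subgroup.zpowers s ⊔ (Subgroup.zpowers s).map (MulAut.conj g).toMonoidHom) := by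
    intro g
    obtain ⟨g, rfl⟩ : ∃ x, π x = g := QuotientGroup.mk'_surjective Z g
    rw [MonoidHom.map_zpowers]
    set t := (MulAut.conj (π g)).toMonoidHom s with ht
    have htt : t * t = 1 := by rw [ht, ← map_mul, hss, map_one]
    refine FGS2.isPGroup_two_sup s t hss htt ?_
    set y : ↥H := ⟨b, hbH⟩ * (g * ⟨b, hbH⟩ * g⁻¹) with hy
    have hst : s * t = π y := rfl
    have hyK : (y : G) ∈ K := by
      have hg : (g : G) ∈ ((K ⊔ Subgroup.zpowers b : Subgroup G) : Set G) := g.2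
      rw [Subgroup.coe_mul_of_right_le_normalizer_left K _ (Subgroup.zpowers_le.mpr (Subgroup.mem_normalizer_fintype hbK))] at hg
      obtain ⟨k, hk, e, he, hke⟩ := hg
      obtain ⟨i, rfl⟩ := Subgroup.mem_zpowers_iff.mp he
      show b * ((g : G) * b * (g : G)⁻¹) ∈ K
      rw [← hke, show b * (k * b ^ i * b * (k * b ^ i)⁻¹) = (b * k * b) * k⁻¹ by group]
      refine mul_mem ?_ (inv_mem hk)
      have := hbK k hk
      rwa [hbinv] at this
    obtain ⟨a, m, hm, ham⟩ := Nat.exists_eq_two_pow_mul_odd (orderOf_pos (y : G)).ne'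
    have hko : orderOf ((y : G) ^ 2 ^ a) = m := by
      rw [orderOf_pow' _ (pow_ne_zero _ (by norm_num)), ham, Nat.gcd_eq_right (dvd_mul_right _ _),
        Nat.mul_div_cancel_left _ (by positivity : 0 < 2 ^ a)]
    have hyb : b * (y : G) * b⁻¹ = (y : G)⁻¹ := by
      show b * (b * ((g : G) * b * (g : G)⁻¹)) * b⁻¹ = (b * ((g : G) * b * (g : G)⁻¹))⁻¹
      rw [← mul_assoc b b, hb, one_mul, mul_inv_rev, mul_inv_rev, mul_inv_rev, inv_inv, hbinv]
      group
    have hz : y ^ 2 ^ a ∈ Z := by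
      rw [hZ]
      refine ⟨pow_mem hyK _, fun l hl => ?_⟩
      by_contra hne
      exact hcon _ (pow_mem hyK _) (hko ▸ hm) ⟨l, hl, hne⟩ (by rw [← conj_pow, hyb, inv_pow])
    have hpow : (s * t) ^ 2 ^ a = 1 := by
      rw [hst, ← map_pow]
      exact (QuotientGroup.eq_one_iff _).mpr hz
    obtain ⟨i, -, hi⟩ := (Nat.dvd_prime_pow Nat.prime_two).1 (orderOf_dvd_of_pow_eq_one hpow)
    exact IsPGroup.of_card (n := i) (by rw [Nat.card_zpowers, hi])
  obtain ⟨M, hMn, hM2, hsM⟩ := Components.baer_suzuki (Subgroup.zpowers s) hall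
  obtain ⟨l, hl, hbl⟩ := hnc
  let N₀ : Subgroup ↥K := ((M.comap π).comap (Subgroup.inclusion hKH))
  haveI : N₀.Normal := (hMn.comap π).comap _
  have hmem : ∀ x : ↥K, (⟨b * x * b⁻¹ * (x : G)⁻¹, mul_mem (hbK x x.2) (inv_mem x.2)⟩ : ↥K) ∈ N₀ := by
    intro x
    show π (⟨b, hbH⟩ * Subgroup.inclusion hKH x * ⟨b, hbH⟩⁻¹ * (Subgroup.inclusion hKH x)⁻¹) ∈ M
    rw [map_mul, map_mul, map_mul, map_inv, map_inv, mul_assoc _ s⁻¹, mul_assoc s]
    exact mul_mem (hsM (Subgroup.mem_zpowers s))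
      (by rw [← mul_assoc]; exact hMn.conj_mem _ (inv_mem (hsM (Subgroup.mem_zpowers s))) _)
  have htop : K ≤ N₀.map K.subtype :=
    le_of_commutators hq hbK ⟨l, hl, hbl⟩ fun x hx => ⟨_, hmem ⟨x, hx⟩, rfl⟩
  have hN₀ : ∀ x : ↥K, x ∈ N₀ := fun x => by
    obtain ⟨y, hy, he⟩ := htop x.2
    rwa [show x = y from Subtype.ext he.symm]
  obtain ⟨g, hg, l', hl', hgl'⟩ := exists_noncentral hq
  let φ : ↥K →* ↥M := (π.comp (Subgroup.inclusion hKH)).codRestrict M fun x => hN₀ x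
  haveI := hM2.isNilpotent
  haveI := hq.1
  haveI : Group.IsPerfect ↥φ.range := Group.IsPerfect.ofSurjective φ.rangeRestrict_surjective
  have hsub : Subsingleton ↥φ.range := by
    by_contra hns
    haveI : Nontrivial ↥φ.range := not_subsingleton_iff_nontrivial.mp hns
    exact Group.IsPerfect.not_isSolvable ↥φ.range inferInstance
  have h1 : φ ⟨g, hg⟩ = 1 :=
    congrArg Subtype.val (Subsingleton.elim (φ.rangeRestrict ⟨g, hg⟩) 1)
  have h2 : (Subgroup.inclusion hKH ⟨g, hg⟩) ∈ Z := (QuotientGroup.eq_one_iff _).mp (congrArg Subtype.val h1)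
  exact hgl' (((hZ _).mp h2).2 l' hl')

end Component

end Cfsg.Agent.LocalEven.Offender
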