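import Cfsg.Agent.LocalEven.OffenderCore

/-!
# Best offenders: quadratic elements moving or fixing a component
-/

set_option autoImplicit false
set_option linter.unusedSectionVars false

namespace Cfsg.Agent.LocalEven.Offender

variable {p : ℕ} {G : Type*} [Group G] {V : Type*} [AddCommGroup V] [Module (ZMod p) V]
variable {ρ : Representation (ZMod p) G V} {A K : Subgroup G}

namespace Setup

/-- For odd `p`, no quadratic element moves `K`. -/
theorem odd_moving (S : Setup ρ A K) [Fact p.Prime] (hp : p ≠ 2) {d : G} (hd : d ∈ A)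
    (hdN : d ∉ Subgroup.normalizer (K : Set G)) (hn : ∀ v, ρ d (ρ d v - v) = ρ d v - v) : False := by
  set Nn := Subgroup.normalizer (K : Set G) with hNn
  have hodd : Odd p := (Fact.out : p.Prime).odd_of_ne_two hp
  have hd2 : d * d ∉ Nn := by
    intro h
    obtain ⟨k, hk⟩ := hodd
    refine hdN ?_
    have e : d = (d * d) ^ (k + 1) := by
      rw [← pow_two, ← pow_mul, show 2 * (k + 1) = p + 1 by omega, pow_succ, S.exp d hd, one_mul]
    rw [e]; exact pow_mem h _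
  have h12 : d⁻¹ * (d * d) ∉ Nn := by rwa [inv_mul_cancel_left]
  have h21 : (d * d)⁻¹ * d ∉ Nn := by
    rw [show (d * d)⁻¹ * d = d⁻¹ by group]; exact fun h => hdN (inv_mem_iff.mp h)
  have h2 : (2 : ZMod p) ≠ 0 := fun h => by
    have : ((2 : ℕ) : ZMod p) = 0 := by simpa using h
    exact hp ((Nat.prime_dvd_prime_iff_eq Fact.out Nat.prime_two).mp ((ZMod.natCast_eq_zero_iff 2 p).mp this))
  -- the operator
  let T : G → Module.End (ZMod p) V := fun g =>
    ρ g - (2 : ZMod p) • ρ (d * g * d⁻¹) + ρ (d * d * g * (d * d)⁻¹)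
  set n : Module.End (ZMod p) V := ρ d - 1 with hndef
  have hρ : ∀ x, ρ d x = x + n x := fun x => by
    rw [hndef, LinearMap.sub_apply, Module.End.one_apply, add_sub_cancel]
  have hnn : ∀ x, n (n x) = 0 := fun x => by
    show ρ d (ρ d x - x) - (ρ d x - x) = 0
    rw [hn, sub_self]
  have hρi : ∀ x, ρ d⁻¹ x = x - n x := fun x => by
    apply rho_injective ρ d
    rw [rho_self_inv, map_sub, hρ x, hρ (n x), hnn, add_zero, add_sub_cancel_right]
  have hT : ∀ g v, T g v = -(n (ρ g (n v)) + n (ρ g (n v))) := by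
    intro g v
    show ρ g v - (2 : ZMod p) • ρ (d * g * d⁻¹) v + ρ (d * d * g * (d * d)⁻¹) v = _
    rw [two_smul, mul_inv_rev]
    simp only [rho_mul, hρi, hρ, map_sub, map_add, hnn, map_zero, sub_zero, add_zero]
    abel
  have hTd : ∀ g v, T g (ρ d v) = T g v := fun g v => by rw [hT, hT, hρ v, map_add n, hnn, add_zero]
  have hTdd : ∀ g v, T g (ρ (d * d) v) = T g v := fun g v => by rw [rho_mul, hTd, hTd]
  have hTg : ∀ g ∈ K, ∀ v, T g (ρ g v) = ρ g (T g v) := by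
    intro g hg v
    show ρ g (ρ g v) - (2 : ZMod p) • ρ (d * g * d⁻¹) (ρ g v) + ρ (d * d * g * (d * d)⁻¹) (ρ g v) =
      ρ g (ρ g v - (2 : ZMod p) • ρ (d * g * d⁻¹) v + ρ (d * d * g * (d * d)⁻¹) v)
    rw [map_add, map_sub, map_smul, rho_comm ρ (S.cj_comm_one hd hdN hg hg) v,
      rho_comm ρ (S.cj_comm_one (mul_mem hd hd) hd2 hg hg) v]
  have hexp : ∀ g ∈ K, ∀ l ∈ K, ∀ c ∈ A, c ∉ Nn → ∀ w,
      ρ (c * g * c⁻¹) (ρ (c * l * c⁻¹) w) = ρ (c * l * c⁻¹) (ρ (c * g * c⁻¹) w) →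
      ρ (c * (g⁻¹ * l⁻¹ * g * l) * c⁻¹) w = w := by
    intro g _ l _ c _ _ w e
    rw [show c * (g⁻¹ * l⁻¹ * g * l) * c⁻¹ =
      ((c * l * c⁻¹) * (c * g * c⁻¹))⁻¹ * ((c * g * c⁻¹) * (c * l * c⁻¹)) by group, rho_mul, rho_mul, e,
      ← rho_mul ρ (c * l * c⁻¹), rho_inv_self]
  have hU1 : ∀ g ∈ K, ∀ v, ρ g v - v ∈ cfix ρ K d :=
    S.three (mul_mem hd hd) hd hd2 hdN h21 T (fun g _ => hTdd g) hTg fun g hg w hz l hl => by
      refine hexp g hg l hl d hd hdN w ?_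
      have h0 : T g w = 0 := by simpa [rho_one] using hz 1 (one_mem K)
      have e1 := hz l hl
      have e2 := congrArg (ρ (d * l * d⁻¹)) h0
      change ρ g (ρ (d * l * d⁻¹) w) - (2 : ZMod p) • ρ (d * g * d⁻¹) (ρ (d * l * d⁻¹) w) +
        ρ (d * d * g * (d * d)⁻¹) (ρ (d * l * d⁻¹) w) = 0 at e1
      rw [rho_comm ρ (S.cj_comm_one hd hdN hg hl) w,
        rho_comm ρ (S.cj_comm (mul_mem hd hd) hd h21 hg hl) w] at e1
      change ρ (d * l * d⁻¹) (ρ g w - (2 : ZMod p) • ρ (d * g * d⁻¹) w + ρ (d * d * g * (d * d)⁻¹) w) =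
        ρ (d * l * d⁻¹) 0 at e2
      rw [map_add, map_sub, map_smul, map_zero, ← e1, add_left_inj, sub_right_inj] at e2
      exact (smul_right_injective V h2 e2).symm
  have hU2 : ∀ g ∈ K, ∀ v, ρ g v - v ∈ cfix ρ K (d * d) :=
    S.three hd (mul_mem hd hd) hdN hd2 h12 T (fun g _ => hTd g) hTg fun g hg w hz l hl => by
      refine hexp g hg l hl _ (mul_mem hd hd) hd2 w ?_
      have h0 : T g w = 0 := by simpa [rho_one] using hz 1 (one_mem K)
      have e1 := hz l hl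
      have e2 := congrArg (ρ (d * d * l * (d * d)⁻¹)) h0
      change ρ g (ρ (d * d * l * (d * d)⁻¹) w) - (2 : ZMod p) • ρ (d * g * d⁻¹) (ρ (d * d * l * (d * d)⁻¹) w) +
        ρ (d * d * g * (d * d)⁻¹) (ρ (d * d * l * (d * d)⁻¹) w) = 0 at e1
      rw [rho_comm ρ (S.cj_comm_one (mul_mem hd hd) hd2 hg hl) w,
        rho_comm ρ (S.cj_comm hd (mul_mem hd hd) h12 hg hl) w] at e1
      change ρ (d * d * l * (d * d)⁻¹) (ρ g w - (2 : ZMod p) • ρ (d * g * d⁻¹) w + ρ (d * d * g * (d * d)⁻¹) w) =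
        ρ (d * d * l * (d * d)⁻¹) 0 at e2
      rw [map_add, map_sub, map_smul, map_zero, ← e1, add_right_inj] at e2
      exact e2.symm
  refine S.finish (a := d⁻¹) (by rw [inv_inv]; exact hU1) fun l hl v g hg => ?_
  set u := ρ l v - v with hu
  have ht : T g u = ρ g u - u := by
    show ρ g u - (2 : ZMod p) • ρ (d * g * d⁻¹) u + ρ (d * d * g * (d * d)⁻¹) u = _
    rw [hU1 l hl v g hg, hU2 l hl v g hg, two_smul, hu]
    abel
  have hd' : ρ d (T g u) = T g u := by rw [hρ, hT, map_neg, map_add, hnn, add_zero, neg_zero, add_zero]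
  rw [← ht]
  conv_lhs => rw [← hd']
  exact rho_inv_self ρ d _

/-- For `p = 2`, a quadratic element moving `K` forces `K` to have only two conjugates. -/
theorem two_moving (S : Setup ρ A K) (hp : p = 2) {d b : G} (hd : d ∈ A) (hb : b ∈ A)
    (hdN : d ∉ Subgroup.normalizer (K : Set G)) (hbN : b ∉ Subgroup.normalizer (K : Set G))
    (hdbN : d * b ∉ Subgroup.normalizer (K : Set G)) (hn : ∀ v, ρ d (ρ d v - v) = ρ d v - v)
    (hnb : ∀ v, ρ d (ρ b v - v) = ρ b v - v) : False := by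
  subst hp
  set Nn := Subgroup.normalizer (K : Set G) with hNn
  have hdd : d * d = 1 := by rw [← pow_two]; exact S.exp d hd
  have hbb : b * b = 1 := by rw [← pow_two]; exact S.exp b hb
  have hdi : d⁻¹ = d := inv_eq_of_mul_eq_one_right hdd
  have hbi : b⁻¹ = b := inv_eq_of_mul_eq_one_right hbb
  have hdbb : d * b * (d * b) = 1 := by rw [← pow_two]; exact S.exp _ (mul_mem hd hb)
  have hdbi : (d * b)⁻¹ = d * b := inv_eq_of_mul_eq_one_right hdbb
  have hd_b : d⁻¹ * b ∉ Nn := by rwa [hdi]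
  have hd_db : d⁻¹ * (d * b) ∉ Nn := by rwa [inv_mul_cancel_left]
  have hb_db : b⁻¹ * (d * b) ∉ Nn := by
    rw [S.comm d hd b hb, inv_mul_cancel_left]; exact hdN
  have hdb_b : (d * b)⁻¹ * b ∉ Nn := fun h => hb_db (by simpa [mul_inv_rev, mul_assoc] using inv_mem h)
  let T : G → Module.End (ZMod 2) V := fun g =>
    ρ g + ρ (d * g * d⁻¹) + ρ (b * g * b⁻¹) + ρ (d * b * g * (d * b)⁻¹)
  set n : Module.End (ZMod 2) V := ρ d - 1 with hndef
  set m : Module.End (ZMod 2) V := ρ b - 1 with hmdef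
  have hρd : ∀ x, ρ d x = x + n x := fun x => by
    rw [hndef, LinearMap.sub_apply, Module.End.one_apply, add_sub_cancel]
  have hρb : ∀ x, ρ b x = x + m x := fun x => by
    rw [hmdef, LinearMap.sub_apply, Module.End.one_apply, add_sub_cancel]
  have hnn : ∀ x, n (n x) = 0 := fun x => by
    show ρ d (ρ d x - x) - (ρ d x - x) = 0
    rw [hn, sub_self]
  have hnm : ∀ x, n (m x) = 0 := fun x => by
    show ρ d (ρ b x - x) - (ρ b x - x) = 0
    rw [hnb, sub_self]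
  have hmn : ∀ x, m (n x) = 0 := fun x => by
    show ρ b (ρ d x - x) - (ρ d x - x) = 0
    have h1 := hnb x
    rw [map_sub] at h1
    rw [map_sub, rho_comm ρ (S.comm b hb d hd), ← sub_eq_zero.mpr h1]
    abel
  have hT : ∀ g v, T g v = n (ρ g (m v)) + m (ρ g (n v)) := by
    intro g v
    show ρ g v + ρ (d * g * d⁻¹) v + ρ (b * g * b⁻¹) v + ρ (d * b * g * (d * b)⁻¹) v = _
    rw [hdbi, hdi, hbi]
    simp only [rho_mul, hρd, hρb, map_add, hnm, hmn, map_zero, add_zero]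
    set e1 := n (ρ g v); set e2 := ρ g (n v); set e3 := n (ρ g (n v)); set e4 := m (ρ g v)
    set e5 := ρ g (m v); set e6 := m (ρ g (m v)); set e0 := ρ g v
    have key : ∀ z : V, z + z = 0 := ZModModule.add_self
    have hsum := key (e0 + e0 + e1 + e2 + e3 + e4 + e5 + e6)
    calc _ = (n (ρ g (m v)) + m (ρ g (n v))) + ((e0 + e0 + e1 + e2 + e3 + e4 + e5 + e6) +
          (e0 + e0 + e1 + e2 + e3 + e4 + e5 + e6)) := by abel
      _ = _ := by rw [hsum, add_zero]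
  have hTd : ∀ g v, T g (ρ d v) = T g v := fun g v => by
    rw [hT, hT, hρd v, map_add m, map_add n, hnn, hmn, add_zero, add_zero]
  have hTg : ∀ g ∈ K, ∀ v, T g (ρ g v) = ρ g (T g v) := by
    intro g hg v
    show ρ g (ρ g v) + ρ (d * g * d⁻¹) (ρ g v) + ρ (b * g * b⁻¹) (ρ g v) + ρ (d * b * g * (d * b)⁻¹) (ρ g v) =
      ρ g (ρ g v + ρ (d * g * d⁻¹) v + ρ (b * g * b⁻¹) v + ρ (d * b * g * (d * b)⁻¹) v)
    rw [map_add, map_add, map_add, rho_comm ρ (S.cj_comm_one hd hdN hg hg) v,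
      rho_comm ρ (S.cj_comm_one hb hbN hg hg) v, rho_comm ρ (S.cj_comm_one (mul_mem hd hb) hdbN hg hg) v]
  have hfix : ∀ g ∈ K, ∀ l ∈ K, ∀ c : G, ∀ w,
      ρ (c * g * c⁻¹) (ρ (c * l * c⁻¹) w) = ρ (c * l * c⁻¹) (ρ (c * g * c⁻¹) w) →
      ρ (c * (g⁻¹ * l⁻¹ * g * l) * c⁻¹) w = w := by
    intro g _ l _ c w e
    rw [show c * (g⁻¹ * l⁻¹ * g * l) * c⁻¹ =
      ((c * l * c⁻¹) * (c * g * c⁻¹))⁻¹ * ((c * g * c⁻¹) * (c * l * c⁻¹)) by group, rho_mul, rho_mul, e,
      ← rho_mul ρ (c * l * c⁻¹), rho_inv_self]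
  have hUb : ∀ g ∈ K, ∀ v, ρ g v - v ∈ cfix ρ K b :=
    S.three hd hb hdN hbN hd_b T (fun g _ => hTd g) hTg fun g hg w hz l hl => by
      refine hfix g hg l hl b w ?_
      have h0 : T g w = 0 := by simpa [rho_one] using hz 1 (one_mem K)
      have e1 := hz l hl
      have e2 := congrArg (ρ (b * l * b⁻¹)) h0
      change ρ g (ρ (b * l * b⁻¹) w) + ρ (d * g * d⁻¹) (ρ (b * l * b⁻¹) w) +
        ρ (b * g * b⁻¹) (ρ (b * l * b⁻¹) w) + ρ (d * b * g * (d * b)⁻¹) (ρ (b * l * b⁻¹) w) = 0 at e1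
      rw [rho_comm ρ (S.cj_comm_one hb hbN hg hl) w, rho_comm ρ (S.cj_comm hd hb hd_b hg hl) w,
        rho_comm ρ (S.cj_comm (mul_mem hd hb) hb hdb_b hg hl) w] at e1
      change ρ (b * l * b⁻¹) (ρ g w + ρ (d * g * d⁻¹) w + ρ (b * g * b⁻¹) w +
        ρ (d * b * g * (d * b)⁻¹) w) = ρ (b * l * b⁻¹) 0 at e2
      rw [map_add, map_add, map_add, map_zero, ← e1, add_left_inj, add_right_inj] at e2
      exact e2.symm
  have hUdb : ∀ g ∈ K, ∀ v, ρ g v - v ∈ cfix ρ K (d * b) :=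
    S.three hd (mul_mem hd hb) hdN hdbN hd_db T (fun g _ => hTd g) hTg fun g hg w hz l hl => by
      refine hfix g hg l hl _ w ?_
      have h0 : T g w = 0 := by simpa [rho_one] using hz 1 (one_mem K)
      have e1 := hz l hl
      have e2 := congrArg (ρ (d * b * l * (d * b)⁻¹)) h0
      change ρ g (ρ (d * b * l * (d * b)⁻¹) w) + ρ (d * g * d⁻¹) (ρ (d * b * l * (d * b)⁻¹) w) +
        ρ (b * g * b⁻¹) (ρ (d * b * l * (d * b)⁻¹) w) +
        ρ (d * b * g * (d * b)⁻¹) (ρ (d * b * l * (d * b)⁻¹) w) = 0 at e1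
      rw [rho_comm ρ (S.cj_comm_one (mul_mem hd hb) hdbN hg hl) w,
        rho_comm ρ (S.cj_comm hd (mul_mem hd hb) hd_db hg hl) w,
        rho_comm ρ (S.cj_comm hb (mul_mem hd hb) hb_db hg hl) w] at e1
      change ρ (d * b * l * (d * b)⁻¹) (ρ g w + ρ (d * g * d⁻¹) w + ρ (b * g * b⁻¹) w +
        ρ (d * b * g * (d * b)⁻¹) w) = ρ (d * b * l * (d * b)⁻¹) 0 at e2
      rw [map_add, map_add, map_add, map_zero, ← e1, add_right_inj] at e2
      exact e2.symm
  set Gen : V → Prop := fun u => ∃ l ∈ K, ∃ v, u = ρ l v - v with hGen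
  have hgen : ∀ x ∈ K, ∀ u, Gen u → Gen (ρ x u) := by
    rintro x hx _ ⟨l, hl, v, rfl⟩
    refine ⟨x * l * x⁻¹, mul_mem (mul_mem hx hl) (inv_mem hx), ρ x v, ?_⟩
    rw [map_sub, rho_mul, rho_mul, rho_inv_self]
  have hnK : ∀ u, Gen u → ∀ h ∈ K, ρ h (n u) = n u := by
    rintro u ⟨l, hl, v, rfl⟩ h hh
    set u := ρ l v - v with hu
    have f1 : ρ h (ρ b u) = ρ b u := by
      have e : ρ (b * h * b⁻¹) u = u := hUb l hl v h hh
      rw [hbi, rho_mul, rho_mul] at e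
      have := congrArg (ρ b) e
      rwa [← rho_mul ρ b b, hbb, rho_one] at this
    have f2 : ρ h (ρ (d * b) u) = ρ (d * b) u := by
      have e : ρ (d * b * h * (d * b)⁻¹) u = u := hUdb l hl v h hh
      rw [hdbi, rho_mul, rho_mul ρ (d * b) h] at e
      have := congrArg (ρ (d * b)) e
      rwa [← rho_mul ρ (d * b) (d * b), hdbb, rho_one] at this
    have e : n u = ρ (d * b) u - ρ b u := by
      rw [rho_mul]
      have h1 : n (ρ b u) = n u := by rw [hρb, map_add, hnm, add_zero]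
      exact h1.symm
    rw [e, map_sub, f1, f2]
  have hcomm : ∀ g ∈ K, ∀ h ∈ K, ∀ u, Gen u → ∀ m ∈ K,
      ρ m (ρ g (ρ h u) - ρ h (ρ g u)) = ρ g (ρ h u) - ρ h (ρ g u) := by
    intro g hg h hh u hu m' hm'
    have hφ : ∀ x, Gen x → ρ (d * g * d⁻¹) x = x + ρ d (ρ g x - x) := by
      intro x hx
      rw [hdi, rho_mul, rho_mul]
      have e : ρ d x = x + n x := hρd x
      rw [e, map_add (ρ g), hnK x hx g hg, show ρ g x + n x = ρ d x + (ρ g x - x) by rw [e]; abel, map_add,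
        ← rho_mul ρ d d, hdd, rho_one]
    have c1 : ρ (d * g * d⁻¹) (ρ h u) = ρ h (ρ (d * g * d⁻¹) u) :=
      (rho_comm ρ (S.cj_comm_one hd hdN hh hg) u).symm
    rw [hφ _ (hgen h hh u hu), hφ u hu, map_add (ρ h)] at c1
    set y := ρ g u - u with hy
    have hyG : Gen y := ⟨g, hg, u, rfl⟩
    rw [hρd y, map_add (ρ h), hnK y hyG h hh, add_right_inj, hρd] at c1
    set z := ρ g (ρ h u) - ρ h u with hz
    set r' := ρ g (ρ h u - u) - (ρ h u - u) with hr'
    have hr'G : Gen r' := ⟨g, hg, _, rfl⟩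
    have e1 : r' = z - y := by rw [hr', hz, hy, map_sub]; abel
    have e2 : ρ g (ρ h u) - ρ h (ρ g u) = -n r' := by
      have e3 : z + n z - (y + n y) = ρ h y - y := by rw [c1]; abel
      have e4 : n r' = ρ h y - y - (z - y) := by rw [e1, map_sub, ← e3]; abel
      rw [e4, hz, hy, map_sub]; abel
    rw [e2, map_neg, hnK r' hr'G m' hm']
  let M : Subgroup G :=
    { carrier := {x | x ∈ K ∧ ∀ u, Gen u → ∀ m ∈ K, ρ m (ρ x u - u) = ρ x u - u}
      one_mem' := ⟨one_mem K, fun u _ m _ => by rw [rho_one, sub_self, map_zero]⟩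
      mul_mem' := fun {x y} hx hy => ⟨mul_mem hx.1 hy.1, fun u hu m hm => by
        rw [rho_mul, ← sub_add_sub_cancel (ρ x (ρ y u)) (ρ y u) u, map_add, hx.2 _ (hgen y hy.1 u hu) m hm,
          hy.2 u hu m hm]⟩
      inv_mem' := fun {x} hx => ⟨inv_mem hx.1, fun u hu m hm => by
        have := hx.2 _ (hgen x⁻¹ (inv_mem hx.1) u hu) m hm
        rw [rho_self_inv] at this
        rw [← neg_sub u, map_neg, this]⟩ }
  refine S.fixed_twice fun l hl v g hg m' hm' => (perfect_le S.q (S := M) ?_ hg).2 _ ⟨l, hl, v, rfl⟩ m' hm'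
  intro g hg l hl
  refine ⟨mul_mem (mul_mem (mul_mem hg hl) (inv_mem hg)) (inv_mem hl), fun u hu m hm => ?_⟩
  have := hcomm g hg l hl _ (hgen _ (inv_mem (mul_mem hl hg)) u hu) m hm
  rw [← rho_mul, ← rho_mul, ← rho_mul, ← rho_mul, show l * g * (l * g)⁻¹ = 1 by group, rho_one,
    show g * l * (l * g)⁻¹ = g * l * g⁻¹ * l⁻¹ by group] at this
  exact this

end Setup

end Cfsg.Agent.LocalEven.Offender
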