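import Cfsg.Agent.LocalEven.OffenderBasic

/-!
# Best offenders: the three-component lemma

If an operator attached to an element of a component absorbs `a` and depends in a controlled way on the
conjugate component `K^c`, then `[V, K]` is centralized by `K^c`.
-/

set_option autoImplicit false
set_option linter.unusedSectionVars false

namespace Cfsg.Agent.LocalEven.Offender

variable {p : ℕ} {G : Type*} [Group G] {V : Type*} [AddCommGroup V] [Module (ZMod p) V]
variable (ρ : Representation (ZMod p) G V)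

/-- The standing hypotheses. -/
structure Setup (A K : Subgroup G) : Prop where
  comm : ∀ a ∈ A, ∀ b ∈ A, a * b = b * a
  exp : ∀ a ∈ A, a ^ p = 1
  q : Cfsg.IsQuasisimple ↥K
  conj : ∀ a ∈ A, a ∉ Subgroup.normalizer (K : Set G) →
    ∀ g ∈ K, ∀ l ∈ K, g * (a * l * a⁻¹) = a * l * a⁻¹ * g
  top : A ⊔ K = ⊤
  mv : Moves ρ K

/-- Every proper invariant submodule is centralized by `K`. -/
def Minimal (K : Subgroup G) : Prop :=
  ∀ W : Submodule (ZMod p) V, (∀ x : G, ∀ w ∈ W, ρ x w ∈ W) → W ≠ ⊤ → ∀ k ∈ K, ∀ w ∈ W, ρ k w = w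

/-- The vectors fixed by the conjugate of `K` by `c`. -/
def cfix (K : Subgroup G) (c : G) : Submodule (ZMod p) V where
  carrier := {v | ∀ h ∈ K, ρ (c * h * c⁻¹) v = v}
  zero_mem' := fun h _ => map_zero _
  add_mem' := fun hv hw h hh => by rw [map_add, hv h hh, hw h hh]
  smul_mem' := fun r v hv h hh => by rw [map_smul, hv h hh]

theorem perfect_le {K : Subgroup G} (hq : Cfsg.IsQuasisimple ↥K) {S : Subgroup G}
    (h : ∀ g ∈ K, ∀ l ∈ K, g * l * g⁻¹ * l⁻¹ ∈ S) : K ≤ S := by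
  intro x hx
  haveI := hq.1
  have hle : commutator ↥K ≤ S.subgroupOf K := by
    rw [commutator_def, Subgroup.commutator_le]
    exact fun g _ l _ => h g g.2 l l.2
  exact hle (show (⟨x, hx⟩ : ↥K) ∈ commutator ↥K by rw [Group.IsPerfect.commutator_eq_top]; trivial)

namespace Setup

variable {ρ} {A K : Subgroup G}

theorem cj_comm (S : Setup ρ A K) {e f : G} (he : e ∈ A) (hf : f ∈ A)
    (hef : e⁻¹ * f ∉ Subgroup.normalizer (K : Set G)) {g l : G} (hg : g ∈ K) (hl : l ∈ K) :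
    e * g * e⁻¹ * (f * l * f⁻¹) = f * l * f⁻¹ * (e * g * e⁻¹) := by
  have h := S.conj _ (mul_mem (inv_mem he) hf) hef g hg l hl
  calc e * g * e⁻¹ * (f * l * f⁻¹) = e * (g * (e⁻¹ * f * l * (e⁻¹ * f)⁻¹)) * e⁻¹ := by group
    _ = e * (e⁻¹ * f * l * (e⁻¹ * f)⁻¹ * g) * e⁻¹ := by rw [h]
    _ = _ := by group

theorem cj_comm_one (S : Setup ρ A K) {f : G} (hf : f ∈ A) (hfN : f ∉ Subgroup.normalizer (K : Set G))
    {g l : G} (hg : g ∈ K) (hl : l ∈ K) : g * (f * l * f⁻¹) = f * l * f⁻¹ * g :=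
  S.conj f hf hfN g hg l hl

theorem noncentral (S : Setup ρ A K) : ∃ g ∈ K, ∃ l ∈ K, g * l ≠ l * g := exists_noncentral S.q

/-- An element of `A` acting trivially normalizes `K`. -/
theorem mem_normalizer_of_rho_eq_one (S : Setup ρ A K) {a : G} (ha : a ∈ A) (h : ρ a = 1) :
    a ∈ Subgroup.normalizer (K : Set G) := by
  by_contra haN
  obtain ⟨g, hg, l, hl, hgl⟩ := S.noncentral
  refine hgl (central_of_rho_commute ρ S.q S.mv hg (fun l hl v => ?_) l hl)
  have e : ∀ w, ρ (a * l * a⁻¹) w = ρ l w := fun w => by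
    have h1 : ρ a⁻¹ w = w := by
      conv_lhs => rw [show w = ρ a w by rw [h]; rfl]
      exact rho_inv_self ρ a w
    rw [rho_mul, rho_mul, h1, h]; rfl
  rw [← e v, rho_comm ρ (S.cj_comm_one ha haN hg hl), e]

/-- An element of `A` centralizing `K` is central. -/
theorem central_of (S : Setup ρ A K) {e : G} (he : e ∈ A) (hc : ∀ l ∈ K, e * l = l * e) (x : G) :
    e * x = x * e := by
  have h : A ⊔ K ≤ Subgroup.centralizer ({e} : Set G) := by
    refine sup_le (fun y hy => ?_) (fun y hy => ?_)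
    · exact Subgroup.mem_centralizer_iff.mpr fun z hz => by rw [Set.mem_singleton_iff.mp hz]; exact S.comm e he y hy
    · exact Subgroup.mem_centralizer_iff.mpr fun z hz => by rw [Set.mem_singleton_iff.mp hz]; exact hc y hy
  rw [S.top] at h
  exact Subgroup.mem_centralizer_iff.mp (h (Subgroup.mem_top x)) e rfl

theorem cfix_invariant (S : Setup ρ A K) {e c : G} (he : e ∈ A) (hc : c ∈ A)
    (hec : e⁻¹ * c ∉ Subgroup.normalizer (K : Set G)) {g : G} (hg : g ∈ K) {v : V} (hv : v ∈ cfix ρ K c) :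
    ρ (e * g * e⁻¹) v ∈ cfix ρ K c := fun h hh => by
  rw [← rho_comm ρ (S.cj_comm he hc hec hg hh), hv h hh]

/-- The three-component lemma. -/
theorem three (S : Setup ρ A K) {a c : G} (ha : a ∈ A) (hc : c ∈ A)
    (haN : a ∉ Subgroup.normalizer (K : Set G)) (hcN : c ∉ Subgroup.normalizer (K : Set G))
    (hac : a⁻¹ * c ∉ Subgroup.normalizer (K : Set G)) (T : G → Module.End (ZMod p) V)
    (hTa : ∀ g ∈ K, ∀ v, T g (ρ a v) = T g v) (hTg : ∀ g ∈ K, ∀ v, T g (ρ g v) = ρ g (T g v))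
    (hvar : ∀ g ∈ K, ∀ w, (∀ l ∈ K, T g (ρ (c * l * c⁻¹) w) = 0) →
      ∀ l ∈ K, ρ (c * (g⁻¹ * l⁻¹ * g * l) * c⁻¹) w = w) :
    ∀ g ∈ K, ∀ v, ρ g v - v ∈ cfix ρ K c := by
  have hkill : ∀ g ∈ K, ∀ v, T g (ρ g v - ρ (a * g * a⁻¹) v) = 0 := by
    intro g hg v
    rw [map_sub, rho_mul, rho_mul, hTa g hg, hTg g hg, hTg g hg]
    rw [show T g (ρ a⁻¹ v) = T g v by
      conv_rhs => rw [← rho_self_inv ρ a v, hTa g hg]]
    exact sub_self _
  set E : G → Prop := fun g => ∀ v, ρ g v - ρ (a * g * a⁻¹) v ∈ cfix ρ K c with hE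
  have hnc : ∀ g ∈ K, (∃ l ∈ K, g * l ≠ l * g) → E g := by
    intro g hg hne v h hh
    set w := ρ g v - ρ (a * g * a⁻¹) v with hw
    have hz : ∀ l ∈ K, T g (ρ (c * l * c⁻¹) w) = 0 := fun l hl => by
      rw [hw, map_sub, ← rho_comm ρ (S.cj_comm_one hc hcN hg hl),
        ← rho_comm ρ (S.cj_comm ha hc hac hg hl)]
      exact hkill g hg _
    have hle : K ≤ (stab ρ w).comap (MulAut.conj c).toMonoidHom := by
      obtain ⟨l₀, hl₀, hgl₀⟩ := hne
      refine le_of_commutators S.q (g := g⁻¹) (fun l hl => ?_) ⟨l₀, hl₀, fun e => hgl₀ ?_⟩ fun l hl => ?_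
      · exact mul_mem (mul_mem (inv_mem hg) hl) (by rw [inv_inv]; exact hg)
      · exact ((Commute.inv_left_iff).mp e : Commute g l₀)
      · show ρ (c * (g⁻¹ * l * g⁻¹⁻¹ * l⁻¹) * c⁻¹) w = w
        have := hvar g hg w hz l⁻¹ (inv_mem hl)
        simpa using this
    exact hle hh
  have hmul : ∀ x ∈ K, ∀ y ∈ K, E x → E y → E (x * y) := by
    intro x hx y hy hEx hEy v
    have e : ρ (x * y) v - ρ (a * (x * y) * a⁻¹) v =
        ρ x (ρ y v - ρ (a * y * a⁻¹) v) + (ρ x (ρ (a * y * a⁻¹) v) - ρ (a * x * a⁻¹) (ρ (a * y * a⁻¹) v)) := by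
      rw [show a * (x * y) * a⁻¹ = (a * x * a⁻¹) * (a * y * a⁻¹) by group, rho_mul ρ x y,
        rho_mul ρ (a * x * a⁻¹), map_sub]
      abel
    rw [e]
    refine add_mem ?_ (hEx _)
    have := S.cfix_invariant (e := 1) (one_mem A) hc (by rwa [inv_one, one_mul]) hx (hEy v)
    simpa using this
  have hall : ∀ g ∈ K, E g := by
    intro g hg
    by_cases hne : ∃ l ∈ K, g * l ≠ l * g
    · exact hnc g hg hne
    · push_neg at hne
      obtain ⟨x, hx, l, hl, hxl⟩ := S.noncentral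
      have h1 : E (g * x) := hnc _ (mul_mem hg hx) ⟨l, hl, fun e => hxl (by
        have : g * (x * l) = g * (l * x) := by rw [← mul_assoc, e, ← mul_assoc, ← hne l hl, mul_assoc]
        exact mul_left_cancel this)⟩
      have h2 : E x⁻¹ := hnc _ (inv_mem hx) ⟨l, hl, fun e => hxl (Commute.inv_left_iff.mp e : Commute x l)⟩
      simpa using hmul _ (mul_mem hg hx) _ (inv_mem hx) h1 h2
  let M : Subgroup G :=
    { carrier := {x | ∀ v, ρ x v - v ∈ cfix ρ K c}
      one_mem' := fun v => by rw [rho_one, sub_self]; exact zero_mem _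
      mul_mem' := fun {x y} hx hy v => by
        have := add_mem (hx (ρ y v)) (hy v)
        rwa [sub_add_sub_cancel, ← rho_mul] at this
      inv_mem' := fun {x} hx v => by
        have := neg_mem (hx (ρ x⁻¹ v))
        rwa [rho_self_inv, neg_sub] at this }
  refine fun g hg => (perfect_le S.q (S := M) ?_) hg
  intro g hg l hl v
  set w := ρ (g⁻¹ * l⁻¹) v with hw
  have hv : v = ρ l (ρ g w) := by rw [hw, ← rho_mul, ← rho_mul, show l * g * (g⁻¹ * l⁻¹) = 1 by group, rho_one]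
  rw [hw] at hv
  have e1 : ρ (g * l * g⁻¹ * l⁻¹) v = ρ g (ρ l w) := by
    rw [hw, ← rho_mul, ← rho_mul]; congr 2; group
  rw [e1]
  conv => arg 2; arg 2; rw [hv]
  rw [← hw]
  have t1 : ρ g (ρ l w) - ρ g (ρ (a * l * a⁻¹) w) ∈ cfix ρ K c := by
    rw [← map_sub]
    simpa using S.cfix_invariant (e := 1) (one_mem A) hc (by rwa [inv_one, one_mul]) hg (hall l hl w)
  have t2 : ρ (a * l * a⁻¹) (ρ g w) - ρ (a * l * a⁻¹) (ρ (a * g * a⁻¹) w) ∈ cfix ρ K c := by
    rw [← map_sub]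
    exact S.cfix_invariant ha hc hac hl (hall g hg w)
  have t3 : ρ (l * g) w - ρ (a * (l * g) * a⁻¹) w ∈ cfix ρ K c := hall _ (mul_mem hl hg) w
  rw [← rho_comm ρ (S.cj_comm_one ha haN hg hl)] at t2
  rw [rho_mul, show a * (l * g) * a⁻¹ = (a * l * a⁻¹) * (a * g * a⁻¹) by group, rho_mul] at t3
  have := sub_mem (add_mem t1 t2) t3
  convert this using 1
  abel

/-- `[[V, K], K]` fixed by `K` is impossible. -/
theorem fixed_twice (S : Setup ρ A K)
    (h : ∀ l ∈ K, ∀ v, ∀ g ∈ K, ∀ m ∈ K, ρ m (ρ g (ρ l v - v) - (ρ l v - v)) = ρ g (ρ l v - v) - (ρ l v - v)) :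
    False := by
  obtain ⟨k, hk, hk1⟩ := S.mv
  refine hk1 (LinearMap.ext fun v => ?_)
  exact fixed_of_additive ρ S.q
    (fun l hl g hg => fixed_of_additive ρ S.q (h l hl v) g hg) k hk

/-- If `[V, K]` is centralized by `K^{a⁻¹}` and `a` centralizes `[[V, K], K]`, contradiction. -/
theorem finish (S : Setup ρ A K) {a : G} (hU : ∀ g ∈ K, ∀ v, ρ g v - v ∈ cfix ρ K a⁻¹)
    (hy : ∀ l ∈ K, ∀ v, ∀ g ∈ K, ρ a (ρ g (ρ l v - v) - (ρ l v - v)) = ρ g (ρ l v - v) - (ρ l v - v)) :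
    False := by
  refine S.fixed_twice fun l hl v g hg m hm => ?_
  set y := ρ g (ρ l v - v) - (ρ l v - v) with hyd
  have e : ρ (a⁻¹ * m * a⁻¹⁻¹) y = y := hU g hg _ m hm
  rw [inv_inv, rho_mul, hy l hl v g hg, rho_mul] at e
  have := congrArg (ρ a) e
  rwa [rho_self_inv, hy l hl v g hg] at this

end Setup

end Cfsg.Agent.LocalEven.Offender
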