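import Cfsg.Agent.LocalEven.OffenderCore

/-!
# Best offenders: a quadratic element normalizing a component

The product of the conjugates of an element of the component under a complement-like subgroup `C` of `A`.
-/

set_option autoImplicit false
set_option linter.unusedSectionVars false

namespace Cfsg.Agent.LocalEven.Offender

variable {p : ℕ} {G : Type*} [Group G] {V : Type*} [AddCommGroup V] [Module (ZMod p) V]
variable {ρ : Representation (ZMod p) G V} {A K : Subgroup G}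

namespace Setup

/-- No quadratic element normalizes without centralizing `K`, if at least three conjugates of `K` are
permuted regularly by a subgroup of `A`. -/
theorem normalizing [Finite G] (S : Setup ρ A K) {d : G} (hd : d ∈ A)
    (hdN : d ∈ Subgroup.normalizer (K : Set G)) (hdc : ∃ l ∈ K, d * l ≠ l * d) (hq : Quad ρ A d)
    (C : Subgroup G) (hCA : C ≤ A) (hCN : ∀ e ∈ C, e ∈ Subgroup.normalizer (K : Set G) → e = 1)
    (hC3 : ∀ c ∈ C, ∃ a ∈ C, a ≠ 1 ∧ a ≠ c) : False := by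
  classical
  haveI : Fintype ↥C := Fintype.ofFinite _
  set Nn := Subgroup.normalizer (K : Set G) with hNn
  have hCne : ∀ {e f : ↥C}, e ≠ f → (e : G)⁻¹ * f ∉ Nn := fun {e f} hne h =>
    hne (Subtype.ext (inv_mul_eq_one.mp (hCN _ (mul_mem (inv_mem e.2) f.2) h)))
  let φ : ↥C → (↥K →* G) := fun e => (MulAut.conj (e : G)).toMonoidHom.comp K.subtype
  have hφ : ∀ e g, φ e g = (e : G) * (g : G) * (e : G)⁻¹ := fun e g => rfl
  have hcomm : Pairwise fun e f => ∀ x y, Commute (φ e x) (φ f y) := fun e f hef x y =>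
    S.cj_comm (hCA e.2) (hCA f.2) (hCne hef) x.2 y.2
  let Φ : (↥C → ↥K) →* G := MonoidHom.noncommPiCoprod φ hcomm
  have hΦ : ∀ e g, Φ (Pi.mulSingle e g) = (e : G) * (g : G) * (e : G)⁻¹ := fun e g => by
    rw [MonoidHom.noncommPiCoprod_mulSingle]; rfl
  let H : ↥K →* G := MonoidHom.mk' (fun g => Φ fun _ => g) fun x y => map_mul Φ (fun _ => x) (fun _ => y)
  have hH : ∀ g, H g = Φ fun _ => g := fun g => rfl
  -- invariance under `C`
  have hHC : ∀ a ∈ C, ∀ g, a * H g = H g * a := by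
    intro a ha g
    let σ : (↥C → ↥K) →* (↥C → ↥K) := MonoidHom.mk' (fun f e => f (⟨a, ha⟩⁻¹ * e)) fun x y => rfl
    have h1 : (MulAut.conj a).toMonoidHom.comp Φ = Φ.comp σ := by
      refine MonoidHom.ext fun f => Subgroup.pi_mem_of_mulSingle_mem (H := MonoidHom.eqLocus _ _) f fun e => ?_
      set x := f e
      show a * Φ (Pi.mulSingle e x) * a⁻¹ = Φ (σ (Pi.mulSingle e x))
      have h2 : σ (Pi.mulSingle e x) = Pi.mulSingle ((⟨a, ha⟩ : ↥C) * e) x := by
        funext f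
        show (Pi.mulSingle e x : ↥C → ↥K) (⟨a, ha⟩⁻¹ * f) = _
        by_cases hf : f = ⟨a, ha⟩ * e
        · subst hf; rw [inv_mul_cancel_left, Pi.mulSingle_eq_same, Pi.mulSingle_eq_same]
        · rw [Pi.mulSingle_eq_of_ne hf, Pi.mulSingle_eq_of_ne]
          intro h; exact hf (by rw [← h, mul_inv_cancel_left])
      rw [h2, hΦ, hΦ]
      show a * ((e : G) * x * (e : G)⁻¹) * a⁻¹ = a * (e : G) * x * (a * (e : G))⁻¹
      group
    have := DFunLike.congr_fun h1 (fun _ => g)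
    change a * H g * a⁻¹ = H g at this
    exact mul_inv_eq_iff_eq_mul.mp this
  -- action of `d`
  have hdK : ∀ l ∈ K, d * l * d⁻¹ ∈ K := fun l hl => (Subgroup.mem_normalizer_iff.mp hdN l).mp hl
  have hHd : ∀ g : ↥K, d * H g * d⁻¹ = H ⟨d * g * d⁻¹, hdK g g.2⟩ := by
    intro g
    let σ : (↥C → ↥K) →* (↥C → ↥K) := MonoidHom.mk' (fun f e => ⟨d * f e * d⁻¹, hdK _ (f e).2⟩) fun x y => by
      funext e; apply Subtype.ext
      show d * (x e * y e : G) * d⁻¹ = d * (x e : G) * d⁻¹ * (d * (y e : G) * d⁻¹)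
      group
    have h1 : (MulAut.conj d).toMonoidHom.comp Φ = Φ.comp σ := by
      refine MonoidHom.ext fun f => Subgroup.pi_mem_of_mulSingle_mem (H := MonoidHom.eqLocus _ _) f fun e => ?_
      set x := f e
      show d * Φ (Pi.mulSingle e x) * d⁻¹ = Φ (σ (Pi.mulSingle e x))
      have h2 : σ (Pi.mulSingle e x) = Pi.mulSingle e (⟨d * x * d⁻¹, hdK _ x.2⟩ : ↥K) := by
        funext f; apply Subtype.ext
        show d * ((Pi.mulSingle e x : ↥C → ↥K) f : G) * d⁻¹ = _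
        by_cases hf : f = e
        · subst hf; rw [Pi.mulSingle_eq_same, Pi.mulSingle_eq_same]
        · rw [Pi.mulSingle_eq_of_ne hf, Pi.mulSingle_eq_of_ne hf]; simp
      rw [h2, hΦ, hΦ]
      show d * ((e : G) * x * (e : G)⁻¹) * d⁻¹ = (e : G) * (d * x * d⁻¹) * (e : G)⁻¹
      have hde := S.comm d hd e (hCA e.2)
      calc d * ((e : G) * x * (e : G)⁻¹) * d⁻¹ = d * (e : G) * x * (d * (e : G))⁻¹ := by group
        _ = (e : G) * d * x * ((e : G) * d)⁻¹ := by rw [hde]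
        _ = _ := by group
    exact DFunLike.congr_fun h1 (fun _ => g)
  -- the identity
  have hfixn : ∀ a ∈ C, ∀ (g : ↥K) v, ρ (H g) (ρ a v - v) = ρ a v - v := by
    intro a ha
    let S₀ : Subgroup G := ⨅ v, stab ρ (ρ a v - v)
    have hle : K ≤ (S₀.comap H).map K.subtype := by
      refine le_of_commutators S.q hdK hdc fun l hl => ⟨⟨d * l * d⁻¹ * l⁻¹, mul_mem (hdK l hl) (inv_mem hl)⟩, ?_, rfl⟩
      refine Subgroup.mem_iInf.mpr fun v => ?_
      show ρ (H ⟨d * l * d⁻¹ * l⁻¹, _⟩) (ρ a v - v) = ρ a v - v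
      have e : (⟨d * l * d⁻¹ * l⁻¹, mul_mem (hdK l hl) (inv_mem hl)⟩ : ↥K) = ⟨d * l * d⁻¹, hdK l hl⟩ * ⟨l, hl⟩⁻¹ := rfl
      rw [e, map_mul, map_inv, ← hHd ⟨l, hl⟩]
      set X := H ⟨l, hl⟩ with hX
      have hcom : ∀ w, ρ X (ρ a w - w) = ρ a (ρ X w) - ρ X w := fun w => by
        rw [map_sub, rho_comm ρ (hHC a ha _)]
      have e1 : ρ X⁻¹ (ρ a v - v) = ρ a (ρ X⁻¹ v) - ρ X⁻¹ v := by
        apply rho_injective ρ X
        rw [rho_self_inv, hcom, rho_self_inv]
      have e2 : ∀ w, ρ d⁻¹ (ρ a w - w) = ρ a w - w := fun w => by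
        apply rho_injective ρ d
        rw [rho_self_inv, hq a (hCA ha) w]
      rw [rho_mul, rho_mul, rho_mul, e1, e2, hcom, rho_self_inv, hq a (hCA ha) v]
    intro g v
    obtain ⟨x, hx, hxe⟩ := hle g.2
    rw [show g = x from Subtype.ext hxe.symm]
    exact Subgroup.mem_iInf.mp hx v
  let T : G → Module.End (ZMod p) V := fun g => if h : g ∈ K then ρ (H ⟨g, h⟩) - 1 else 0
  have hT : ∀ g (hg : g ∈ K) v, T g v = ρ (H ⟨g, hg⟩) v - v := fun g hg v => by
    simp only [T, dif_pos hg]; rfl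
  have hTa : ∀ a ∈ C, ∀ g ∈ K, ∀ v, T g (ρ a v) = T g v := by
    intro a ha g hg v
    rw [hT g hg, hT g hg, ← sub_eq_zero]
    have := hfixn a ha ⟨g, hg⟩ v
    rw [map_sub, ← sub_eq_zero] at this
    rw [← this]; abel
  have hTg : ∀ g ∈ K, ∀ v, T g (ρ g v) = ρ g (T g v) := by
    intro g hg v
    rw [hT g hg, hT g hg, map_sub]
    congr 1
    refine rho_comm ρ ?_ v
    have e : Φ (Pi.mulSingle 1 ⟨g, hg⟩) = g := by rw [hΦ]; simp
    calc H ⟨g, hg⟩ * g = Φ (fun _ => ⟨g, hg⟩) * Φ (Pi.mulSingle 1 ⟨g, hg⟩) := by rw [e, hH]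
      _ = Φ (Pi.mulSingle 1 ⟨g, hg⟩) * Φ (fun _ => ⟨g, hg⟩) := by
          rw [← map_mul, ← map_mul]
          congr 1
          funext f
          by_cases hf : f = 1
          · subst hf; simp
          · simp [Pi.mulSingle_eq_of_ne hf]
      _ = g * H ⟨g, hg⟩ := by rw [e, hH]
  -- splitting off one factor
  have hsplit : ∀ (c : ↥C) (g : ↥K), H g = ((c : G) * g * (c : G)⁻¹) * Φ (Function.update (fun _ => g) c 1) ∧
      ∀ l : ↥K, Φ (Function.update (fun _ => g) c 1) * ((c : G) * l * (c : G)⁻¹) =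
        ((c : G) * l * (c : G)⁻¹) * Φ (Function.update (fun _ => g) c 1) := by
    refine fun c g => ⟨?_, fun l => ?_⟩
    · rw [← hΦ, ← map_mul, hH]
      congr 1
      funext f
      by_cases hf : f = c
      · subst hf; simp
      · simp [Pi.mulSingle_eq_of_ne hf, Function.update_of_ne hf]
    · rw [← hΦ, ← map_mul, ← map_mul]
      congr 1
      funext f
      by_cases hf : f = c
      · subst hf; simp
      · simp [Pi.mulSingle_eq_of_ne hf]
  have hU : ∀ c ∈ C, c ≠ 1 → ∀ g ∈ K, ∀ v, ρ g v - v ∈ cfix ρ K c := by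
    intro c hc hc1
    obtain ⟨a, ha, ha1, hac⟩ := hC3 c hc
    refine S.three (hCA ha) (hCA hc) (fun h => ha1 (hCN a ha h)) (fun h => hc1 (hCN c hc h))
      (hCne (e := ⟨a, ha⟩) (f := ⟨c, hc⟩) fun h => hac (congrArg Subtype.val h)) T (hTa a ha) hTg ?_
    intro g hg w hz
    obtain ⟨hX, hR⟩ := hsplit ⟨c, hc⟩ ⟨g, hg⟩
    set R := Φ (Function.update (fun _ => (⟨g, hg⟩ : ↥K)) ⟨c, hc⟩ 1)
    have key : ∀ l ∈ K, ρ (c * g * c⁻¹) (ρ R (ρ (c * l * c⁻¹) w)) = ρ (c * l * c⁻¹) w := fun l hl => by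
      have := hz l hl
      rw [hT g hg, sub_eq_zero, hX, rho_mul] at this
      exact this
    have hRw : ρ R w = ρ (c * g * c⁻¹)⁻¹ w := by
      apply rho_injective ρ (c * g * c⁻¹)
      rw [rho_self_inv]
      simpa [rho_one] using key 1 (one_mem K)
    intro l hl
    have := key (l * g) (mul_mem hl hg)
    have hc' := hR ⟨l * g, mul_mem hl hg⟩
    change R * (c * (l * g) * c⁻¹) = c * (l * g) * c⁻¹ * R at hc'
    rw [rho_comm ρ hc', hRw, ← rho_mul, ← rho_mul] at this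
    rw [show c * (g⁻¹ * l⁻¹ * g * l) * c⁻¹ =
      (c * (l * g) * c⁻¹)⁻¹ * (c * g * c⁻¹ * (c * (l * g) * c⁻¹) * (c * g * c⁻¹)⁻¹) by group,
      rho_mul, this, rho_inv_self]
  obtain ⟨a, ha, ha1, -⟩ := hC3 1 (one_mem C)
  refine S.finish (a := a) (hU a⁻¹ (inv_mem ha) (by simpa using ha1)) fun l hl v g hg => ?_
  set u := ρ l v - v with hu
  have hy : T g u = ρ g u - u := by
    rw [hT g hg, (hsplit 1 ⟨g, hg⟩).1, rho_mul]
    congr 1
    have hmem : (Function.update (fun _ => (⟨g, hg⟩ : ↥K)) (1 : ↥C) 1) ∈ (stab ρ u).comap Φ := by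
      refine Subgroup.pi_mem_of_mulSingle_mem _ fun e => ?_
      show ρ (Φ (Pi.mulSingle e _)) u = u
      by_cases he : e = 1
      · subst he; simp [rho_one]
      · rw [hΦ]
        exact hU e e.2 (fun h => he (Subtype.ext h)) l hl v _ (Function.update (fun _ => (⟨g, hg⟩ : ↥K)) (1 : ↥C) 1 e).2
    rw [show ρ (Φ (Function.update (fun _ => (⟨g, hg⟩ : ↥K)) (1 : ↥C) 1)) u = u from hmem]
    simp
  rw [← hy, hT g hg]
  have h1 := hfixn a ha ⟨g, hg⟩ u
  rw [map_sub, rho_comm ρ (hHC a ha _).symm] at h1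
  rw [map_sub]
  exact (sub_eq_sub_iff_sub_eq_sub.mp h1)

end Setup

end Cfsg.Agent.LocalEven.Offender
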