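import Cfsg.Agent.LocalEven.OffenderTwo

/-!
# Best offenders: a quadratic element normalizing one of two conjugate components
-/

set_option autoImplicit false
set_option linter.unusedSectionVars false

namespace Cfsg.Agent.LocalEven.Offender

variable {G : Type*} [Group G] [Finite G] {V : Type*} [AddCommGroup V] [Finite V] [Module (ZMod 2) V]
variable {ρ : Representation (ZMod 2) G V} {A K : Subgroup G}

theorem two_add (x y : V) : x + y + y = x := by rw [add_assoc, add_self_v, add_zero]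

theorem sub_eq_add_v (x y : V) : x - y = x + y := by
  rw [sub_eq_add_neg, neg_eq_of_add_eq_zero_left (add_self_v y)]

theorem odd_nsmul_v {m : ℕ} (hm : Odd m) (z : V) : m • z = z := by
  obtain ⟨j, rfl⟩ := hm
  rw [add_nsmul, one_nsmul, mul_nsmul, two_nsmul, add_self_v, nsmul_zero, zero_add]

namespace Setup

/-- A submodule stable under `A` and `K` is stable under the group. -/
theorem invariant_of (S : Setup ρ A K) (W : Submodule (ZMod 2) V) (hWA : ∀ x ∈ A, ∀ w ∈ W, ρ x w ∈ W)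
    (hWK : ∀ x ∈ K, ∀ w ∈ W, ρ x w ∈ W) : ∀ x : G, ∀ w ∈ W, ρ x w ∈ W := by
  let M : Subgroup G :=
    { carrier := {x | ∀ w, ρ x w ∈ W ↔ w ∈ W}
      one_mem' := fun w => by rw [rho_one]
      mul_mem' := fun {x y} hx hy w => by rw [rho_mul, hx, hy]
      inv_mem' := fun {x} hx w => by rw [← hx (ρ x⁻¹ w), rho_self_inv] }
  have hmem : ∀ H : Subgroup G, (∀ x ∈ H, ∀ w ∈ W, ρ x w ∈ W) → H ≤ M := fun H hH x hx w =>
    ⟨fun h => by simpa [rho_inv_self] using hH x⁻¹ (inv_mem hx) _ h, hH x hx w⟩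
  have htop : A ⊔ K ≤ M := sup_le (hmem A hWA) (hmem K hWK)
  rw [S.top] at htop
  exact fun x w hw => (htop (Subgroup.mem_top x) w).mpr hw

/-- The case of two conjugates and a quadratic element normalizing without centralizing. -/
theorem swap (S : Setup ρ A K) (hmin : Minimal ρ K) (hP : IsMax ρ A)
    (h2 : ∀ x ∈ A, ∀ y ∈ A, x ∉ Subgroup.normalizer (K : Set G) → y ∉ Subgroup.normalizer (K : Set G) →
      x * y ∈ Subgroup.normalizer (K : Set G))
    {a d : G} (ha : a ∈ A) (haN : a ∉ Subgroup.normalizer (K : Set G)) (hd : d ∈ A)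
    (hdN : d ∈ Subgroup.normalizer (K : Set G)) (hdc : ∃ l ∈ K, d * l ≠ l * d) (hq : Quad ρ A d) : False := by
  classical
  set Nn := Subgroup.normalizer (K : Set G) with hNn
  have hsq : ∀ x ∈ A, x * x = 1 := fun x hx => by rw [← pow_two]; exact S.exp x hx
  have hinv : ∀ x ∈ A, x⁻¹ = x := fun x hx => inv_eq_of_mul_eq_one_right (hsq x hx)
  have hdK : ∀ l ∈ K, d * l * d⁻¹ ∈ K := fun l hl => (Subgroup.mem_normalizer_iff.mp hdN l).mp hl
  have haa : ∀ g, a * (a * g * a⁻¹) * a⁻¹ = g := fun g => by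
    calc a * (a * g * a⁻¹) * a⁻¹ = (a * a) * g * (a * a)⁻¹ := by group
      _ = g := by rw [hsq a ha]; simp
  have hcomm : ∀ g ∈ K, ∀ l ∈ K, g * (a * l * a⁻¹) = a * l * a⁻¹ * g := fun g hg l hl =>
    S.cj_comm_one ha haN hg hl
  let H : ↥K →* G := MonoidHom.mk' (fun g => (g : G) * (a * g * a⁻¹)) fun x y => by
    show (x : G) * y * (a * (x * y) * a⁻¹) = (x : G) * (a * x * a⁻¹) * ((y : G) * (a * y * a⁻¹))
    calc (x : G) * y * (a * (x * y) * a⁻¹) = (x : G) * ((y : G) * (a * x * a⁻¹)) * (a * y * a⁻¹) := by group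
      _ = (x : G) * ((a * x * a⁻¹) * (y : G)) * (a * y * a⁻¹) := by rw [hcomm y y.2 x x.2]
      _ = _ := by group
  have hHa : ∀ g : ↥K, a * H g = H g * a := fun g => by
    refine mul_inv_eq_iff_eq_mul.mp ?_
    show a * ((g : G) * (a * g * a⁻¹)) * a⁻¹ = (g : G) * (a * g * a⁻¹)
    calc a * ((g : G) * (a * g * a⁻¹)) * a⁻¹ = a * g * a⁻¹ * (a * (a * g * a⁻¹) * a⁻¹) := by group
      _ = a * g * a⁻¹ * g := by rw [haa]
      _ = _ := (hcomm g g.2 g g.2).symm
  have hHd : ∀ g : ↥K, d * H g * d⁻¹ = H ⟨d * g * d⁻¹, hdK g g.2⟩ := fun g => by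
    show d * ((g : G) * (a * g * a⁻¹)) * d⁻¹ = d * g * d⁻¹ * (a * (d * g * d⁻¹) * a⁻¹)
    calc d * ((g : G) * (a * g * a⁻¹)) * d⁻¹ = d * g * d⁻¹ * ((d * a) * g * (d * a)⁻¹) := by group
      _ = d * g * d⁻¹ * ((a * d) * g * (a * d)⁻¹) := by rw [S.comm d hd a ha]
      _ = _ := by group
  have hfixn : ∀ (g : ↥K) v, ρ (H g) (ρ a v - v) = ρ a v - v := by
    let S₀ : Subgroup G := ⨅ v, stab ρ (ρ a v - v)
    have hle : K ≤ (S₀.comap H).map K.subtype := by
      refine le_of_commutators S.q hdK hdc fun l hl => ⟨⟨d * l * d⁻¹ * l⁻¹, mul_mem (hdK l hl) (inv_mem hl)⟩, ?_, rfl⟩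
      refine Subgroup.mem_iInf.mpr fun v => ?_
      show ρ (H ⟨d * l * d⁻¹ * l⁻¹, _⟩) (ρ a v - v) = ρ a v - v
      have e : (⟨d * l * d⁻¹ * l⁻¹, mul_mem (hdK l hl) (inv_mem hl)⟩ : ↥K) = ⟨d * l * d⁻¹, hdK l hl⟩ * ⟨l, hl⟩⁻¹ := rfl
      rw [e, map_mul, map_inv, ← hHd ⟨l, hl⟩]
      set X := H ⟨l, hl⟩ with hX
      have hcom : ∀ w, ρ X (ρ a w - w) = ρ a (ρ X w) - ρ X w := fun w => by
        rw [map_sub, rho_comm ρ (hHa _)]
      have e1 : ρ X⁻¹ (ρ a v - v) = ρ a (ρ X⁻¹ v) - ρ X⁻¹ v := by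
        apply rho_injective ρ X
        rw [rho_self_inv, hcom, rho_self_inv]
      have e2 : ∀ w, ρ d⁻¹ (ρ a w - w) = ρ a w - w := fun w => by
        apply rho_injective ρ d
        rw [rho_self_inv, hq a ha w]
      rw [rho_mul, rho_mul, rho_mul, e1, e2, hcom, rho_self_inv, hq a ha v]
    intro g v
    obtain ⟨x, hx, hxe⟩ := hle g.2
    rw [show g = x from Subtype.ext hxe.symm]
    exact Subgroup.mem_iInf.mp hx v
  -- the identity `g + g⁻¹ = g' + g'⁻¹`
  have hid : ∀ g ∈ K, ∀ v, ρ g v + ρ g⁻¹ v = ρ (a * g * a⁻¹) v + ρ (a * g * a⁻¹)⁻¹ v := by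
    intro g hg v
    set g' := a * g * a⁻¹ with hg'
    let Y : V → V := fun w => ρ g' w - ρ g⁻¹ w
    have hHg : ∀ w, ρ (H ⟨g, hg⟩) w = ρ g (ρ g' w) := fun w => rho_mul ρ g g' w
    have h1 : ∀ w, ρ a (ρ g (ρ g' w) - w) = ρ g (ρ g' w) - w := fun w => by
      have := hfixn ⟨g, hg⟩ w
      rw [map_sub, ← rho_comm ρ (hHa ⟨g, hg⟩), hHg] at this
      rw [map_sub]
      exact sub_eq_sub_iff_sub_eq_sub.mp this
    have hY1 : ∀ w, ρ a (Y w) = Y w := fun w => by
      have := h1 (ρ g⁻¹ w)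
      rwa [← rho_comm ρ (Commute.inv_left (hcomm g hg g hg : Commute g g')), rho_self_inv] at this
    have hY2 : ∀ w, Y (ρ a w) = Y w := fun w => by
      have := congrArg (ρ g⁻¹) (hfixn ⟨g, hg⟩ w)
      rw [hHg, rho_inv_self, map_sub, map_sub] at this
      exact sub_eq_sub_iff_sub_eq_sub.mp this
    have h3 : ρ a (Y (ρ a v)) = Y v := by rw [hY2, hY1]
    simp only [Y, map_sub, ← rho_mul] at h3
    rw [show a * (g' * a) = g by
        calc a * (g' * a) = (a * a) * g := by rw [hg']; group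
          _ = g := by rw [hsq a ha, one_mul],
      show a * (g⁻¹ * a) = g'⁻¹ by
        rw [hg']
        calc a * (g⁻¹ * a) = a * g⁻¹ * a⁻¹ * (a * a) := by group
          _ = (a * g * a⁻¹)⁻¹ := by rw [hsq a ha, mul_one]; group] at h3
    rw [sub_eq_add_v, sub_eq_add_v] at h3
    calc ρ g v + ρ g⁻¹ v = (ρ g v + ρ g'⁻¹ v) + (ρ g'⁻¹ v + ρ g⁻¹ v) := by rw [← add_assoc, two_add]
      _ = (ρ g' v + ρ g⁻¹ v) + (ρ g'⁻¹ v + ρ g⁻¹ v) := by rw [h3]
      _ = ρ g' v + ρ g'⁻¹ v + (ρ g⁻¹ v + ρ g⁻¹ v) := by abel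
      _ = _ := by rw [add_self_v, add_zero]
  have hsK : ∀ g ∈ K, ∀ l ∈ K, ∀ v, ρ l (ρ g v + ρ g⁻¹ v) = ρ g (ρ l v) + ρ g⁻¹ (ρ l v) := fun g hg l hl v => by
    rw [hid g hg, hid g hg, map_add, rho_comm ρ (hcomm l hl g hg),
      rho_comm ρ (Commute.inv_right (hcomm l hl g hg : Commute l (a * g * a⁻¹)))]
  have hsa : ∀ g ∈ K, ∀ v, ρ a (ρ g v + ρ g⁻¹ v) = ρ g (ρ a v) + ρ g⁻¹ (ρ a v) := fun g hg v => by
    rw [hid g hg (ρ a v), map_add]
    simp only [← rho_mul]
    congr 3 <;> group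
  have hmul2 : ∀ {x}, x ∈ A → x ∉ Nn → a * x ∈ Nn := fun hx hxN => h2 a ha _ hx haN hxN
  -- no non-central element of odd order has fixed points
  have hk0 : ∀ k ∈ K, Odd (orderOf k) → (∃ l ∈ K, k * l ≠ l * k) → ∀ v, ρ k v = v → v = 0 := by
    intro k hk hkodd hknc
    haveI : Fintype ↥(Subgroup.zpowers k) := Fintype.ofFinite _
    let Q : Module.End (ZMod 2) V := ∑ x : ↥(Subgroup.zpowers k), ρ (x : G)
    have hQ : ∀ v, Q v = ∑ x : ↥(Subgroup.zpowers k), ρ (x : G) v := fun v => by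
      simp only [Q, LinearMap.sum_apply]
    have hm : Odd (Fintype.card ↥(Subgroup.zpowers k)) := by
      rw [← Nat.card_eq_fintype_card, Nat.card_zpowers]; exact hkodd
    have hxK : ∀ x : ↥(Subgroup.zpowers k), (x : G) ∈ K := fun x => Subgroup.zpowers_le.mpr hk x.2
    have hQL : ∀ e : G, (∀ g ∈ K, ∀ v, ρ e (ρ g v + ρ g⁻¹ v) = ρ g (ρ e v) + ρ g⁻¹ (ρ e v)) →
        ∀ v, Q (ρ e v) = ρ e (Q v) := by
      intro e he v
      rw [hQ, hQ, map_sum, ← sub_eq_zero, ← Finset.sum_sub_distrib]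
      refine Finset.sum_involution (fun x _ => x⁻¹) (fun x _ => ?_) (fun x _ hne h => hne ?_)
        (fun _ _ => Finset.mem_univ _) (fun x _ => inv_inv x)
      · show ρ (x : G) (ρ e v) - ρ e (ρ (x : G) v) + (ρ (x : G)⁻¹ (ρ e v) - ρ e (ρ (x : G)⁻¹ v)) = 0
        rw [sub_add_sub_comm, ← map_add, he _ (hxK x), sub_self]
      · have h1 : x = 1 := by
          have h' : x ^ 2 = 1 := by rw [pow_two]; nth_rewrite 1 [← h]; exact inv_mul_cancel x
          have h3 : orderOf x = 1 := Nat.eq_one_of_dvd_coprimes (Nat.coprime_two_right.mpr hm)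
            orderOf_dvd_card (orderOf_dvd_of_pow_eq_one h')
          exact orderOf_eq_one_iff.mp h3
        subst h1
        simp [rho_one]
    have hQfix : ∀ v, ρ k v = v → Q v = v := by
      intro v hv
      rw [hQ, Finset.sum_congr rfl fun (x : ↥(Subgroup.zpowers k)) _ => (Subgroup.zpowers_le.mpr (show k ∈ stab ρ v from hv) x.2 : ρ (x : G) v = v),
        Finset.sum_const, Finset.card_univ, odd_nsmul_v hm]
    have hkQ : ∀ v, ρ k (Q v) = Q v := by
      intro v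
      rw [hQ, map_sum]
      refine Fintype.sum_equiv (Equiv.mulLeft ⟨k, Subgroup.mem_zpowers k⟩) _ _ fun x => ?_
      rw [← rho_mul]; rfl
    have hQK : ∀ g ∈ K, ∀ v, Q (ρ g v) = ρ g (Q v) := fun g hg v =>
      hQL g (fun x hx w => hsK x hx g hg w) v
    -- the fixed points of `k` are fixed by `K`
    have hCK : ∀ g ∈ K, ∀ v, ρ k v = v → ρ g v = v := by
      let N₁ : Subgroup ↥K := (⨅ v : {v : V // ρ k v = v}, stab ρ (v : V)).subgroupOf K
      have hN₁ : ∀ {x : ↥K}, x ∈ N₁ ↔ ∀ v, ρ k v = v → ρ (x : G) v = v := fun {x} => by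
        rw [Subgroup.mem_subgroupOf, Subgroup.mem_iInf, Subtype.forall]; rfl
      haveI : N₁.Normal := ⟨fun x hx m => hN₁.mpr fun v hv => by
        have hw : ρ k (ρ (m : G)⁻¹ v) = ρ (m : G)⁻¹ v := by
          rw [show v = Q v from (hQfix v hv).symm, ← hQK _ (inv_mem m.2), hkQ]
        show ρ ((m : G) * x * (m : G)⁻¹) v = v
        rw [rho_mul, rho_mul, hN₁.mp hx _ hw, rho_self_inv]⟩
      rcases K_normal_cases S.q N₁ with h | h
      · exact fun g hg => hN₁.mp (h.ge (Subgroup.mem_top (⟨g, hg⟩ : ↥K)))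
      · exfalso
        obtain ⟨l, hl, hkl⟩ := hknc
        exact hkl (congrArg Subtype.val (Subgroup.mem_center_iff.mp (h (hN₁.mpr fun v hv => hv :
          (⟨k, hk⟩ : ↥K) ∈ N₁)) ⟨l, hl⟩)).symm
    have hQg : ∀ g ∈ K, ∀ v, Q (ρ g v) = Q v := fun g hg v => by rw [hQK g hg, hCK g hg _ (hkQ v)]
    let W := LinearMap.ker Q
    have hWB : ∀ b ∈ A, b ∈ Nn → ∀ w ∈ W, ρ b w ∈ W := by
      intro b _ hbN w hw
      have e : ∀ x : ↥(Subgroup.zpowers k), Q (ρ b w) = Q (ρ b (ρ (x : G) w)) := fun x => by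
        rw [← rho_mul, show b * (x : G) = b * x * b⁻¹ * b by group, rho_mul,
          hQg _ ((Subgroup.mem_normalizer_iff.mp hbN _).mp (hxK x))]
      rw [LinearMap.mem_ker] at hw ⊢
      rw [← odd_nsmul_v hm (Q (ρ b w)), ← Finset.card_univ, ← Finset.sum_const,
        Finset.sum_congr rfl fun x _ => e x, ← map_sum, ← map_sum, ← hQ, hw, map_zero, map_zero]
    have hWa : ∀ w ∈ W, ρ a w ∈ W := fun w hw => by
      rw [LinearMap.mem_ker] at hw ⊢
      rw [hQL a hsa, hw, map_zero]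
    have hWinv := S.invariant_of W (fun x hx w hw => ?_) (fun g hg w hw => by
      rw [LinearMap.mem_ker] at hw ⊢; rw [hQg g hg, hw])
    swap
    · by_cases hxN : x ∈ Nn
      · exact hWB x hx hxN w hw
      · have e : x = a * (a * x) := by rw [← mul_assoc, hsq a ha, one_mul]
        rw [e, rho_mul]
        exact hWa _ (hWB _ (mul_mem ha hx) (hmul2 hx hxN) w hw)
    intro v hv
    by_cases hW : W = ⊤
    · rw [← hQfix v hv]; exact LinearMap.mem_ker.mp (hW.ge (Submodule.mem_top (x := v)))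
    · exfalso
      obtain ⟨g, hg, hg1⟩ := S.mv
      refine hg1 (LinearMap.ext fun v => sub_eq_zero.mp ?_)
      have hw : ρ g v - v ∈ W := by rw [LinearMap.mem_ker, map_sub, hQg g hg, sub_self]
      have h1 := hQfix _ (hmin W hWinv hW k hk _ hw)
      rw [LinearMap.mem_ker.mp hw] at h1
      exact h1.symm
  have hinj2 : ∀ k ∈ K, Odd (orderOf k) → (∃ l ∈ K, k * l ≠ l * k) → ∀ v, ρ k (ρ k v) = v → v = 0 := by
    intro k hk hko hknc v hv
    refine hk0 k hk hko hknc v ?_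
    obtain ⟨j, hj⟩ := hko
    have h1 : (k * k) ^ (j + 1) ∈ stab ρ v := pow_mem (show ρ (k * k) v = v by rw [rho_mul, hv]) _
    rwa [← pow_two, ← pow_mul, show 2 * (j + 1) = orderOf k + 1 by omega, pow_succ, pow_orderOf_eq_one,
      one_mul] at h1
  -- elements centralizing `K` act trivially
  have hA0 : ∀ e ∈ A, (∀ l ∈ K, e * l = l * e) → ∀ v, ρ e v = v := by
    intro e he hc
    obtain ⟨k, hk, hko, hknc, -⟩ := exists_inverted S.q (hsq d hd) hdK hdc
    set C := LinearMap.ker (ρ e - 1) with hC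
    have hCinv : ∀ x : G, ∀ w ∈ C, ρ x w ∈ C := fun x w hw => by
      rw [hC, LinearMap.mem_ker, LinearMap.sub_apply, Module.End.one_apply, sub_eq_zero] at hw ⊢
      rw [rho_comm ρ (S.central_of he hc x), hw]
    intro v
    by_cases hCt : C = ⊤
    · exact sub_eq_zero.mp (LinearMap.mem_ker.mp (hCt.ge (Submodule.mem_top (x := v))))
    · have hnv : ρ e v - v ∈ C := by
        show ρ e (ρ e v - v) - (ρ e v - v) = 0
        rw [map_sub, ← rho_mul, hsq e he, rho_one, sub_eq_add_v, sub_eq_add_v, sub_eq_add_v]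
        calc v + ρ e v + (ρ e v + v) = (v + v) + (ρ e v + ρ e v) := by abel
          _ = 0 := by rw [add_self_v, add_self_v, add_zero]
      exact sub_eq_zero.mp (hk0 k hk hko hknc _ (hmin C hCinv hCt k hk _ hnv))
  set J := LinearMap.ker (ρ d - 1) with hJ
  have hmemJ : ∀ v, v ∈ J ↔ ρ d v = v := fun v => by
    rw [hJ, LinearMap.mem_ker, LinearMap.sub_apply, Module.End.one_apply, sub_eq_zero]
  have hqJ : ∀ e ∈ A, ∀ v, ρ e v - v ∈ J := fun e he v => (hmemJ _).mpr (hq e he v)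
  have hqJ' : ∀ e ∈ A, ∀ u, ρ e (ρ d u - u) = ρ d u - u := fun e he u => by
    have h1 := hq e he u
    rw [map_sub, rho_comm ρ (S.comm d hd e he)] at h1
    rw [map_sub]; exact sub_eq_sub_iff_sub_eq_sub.mp h1
  -- fixed points of a non-centralizing element of the normalizer
  have hfixb : ∀ b ∈ A, b ∈ Nn → (∃ l ∈ K, b * l ≠ l * b) → ∀ v, ρ b v = v → ∃ u, v = ρ b u - u := by
    intro b hb hbN hbnc v hv
    obtain ⟨k, hk, hko, hknc, hkb⟩ := exists_inverted S.q (hsq b hb)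
      (fun l hl => (Subgroup.mem_normalizer_iff.mp hbN l).mp hl) hbnc
    let z : Module.End (ZMod 2) V := ρ k + ρ k⁻¹
    have hz : Function.Injective z := by
      rw [← LinearMap.ker_eq_bot]
      refine (Submodule.eq_bot_iff _).mpr fun w hw => hinj2 k hk hko hknc w ?_
      have h1 : ρ k w + ρ k⁻¹ w = 0 := hw
      rw [← sub_eq_add_v, sub_eq_zero] at h1
      rw [h1, rho_self_inv]
    obtain ⟨w, hw⟩ := (Finite.injective_iff_surjective.mp hz) v
    have hbk : b * k = k⁻¹ * b := mul_inv_eq_iff_eq_mul.mp hkb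
    have hbk' : b * k⁻¹ = k * b := by
      have := congrArg (fun t => k * t * k⁻¹) hbk
      simp only [mul_assoc, mul_inv_cancel, mul_inv_cancel_left, mul_one] at this
      exact this.symm
    have hbw : ρ b w = w := hz (by
      show ρ k (ρ b w) + ρ k⁻¹ (ρ b w) = z w
      rw [← rho_mul, ← rho_mul, ← hbk, ← hbk', rho_mul, rho_mul, add_comm, ← map_add,
        show ρ k w + ρ k⁻¹ w = v from hw, hv, hw])
    refine ⟨ρ k w, ?_⟩
    rw [← rho_mul, hbk, rho_mul, hbw, sub_eq_add_v, add_comm]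
    exact hw.symm
  have hJa : ∀ v ∈ J, ρ a v = v := fun v hv => by
    obtain ⟨u, rfl⟩ := hfixb d hd hdN hdc v ((hmemJ v).mp hv)
    exact hqJ' a ha u
  have hCb : ∀ b ∈ A, b ∈ Nn → (∃ l ∈ K, b * l ≠ l * b) → ∀ v, ρ b v = v ↔ v ∈ J := by
    intro b hb hbN hbnc v
    constructor
    · intro hv
      obtain ⟨u, rfl⟩ := hfixb b hb hbN hbnc v hv
      exact hqJ b hb u
    · intro hv
      obtain ⟨u, rfl⟩ := hfixb d hd hdN hdc v ((hmemJ v).mp hv)
      exact hqJ' b hb u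
  set X := LinearMap.ker (ρ a - 1) with hX
  set R := LinearMap.range (ρ a - 1) with hR
  have hmemX : ∀ v, v ∈ X ↔ ρ a v = v := fun v => by
    rw [hX, LinearMap.mem_ker, LinearMap.sub_apply, Module.End.one_apply, sub_eq_zero]
  have hRJ : R ≤ J := by rintro _ ⟨u, rfl⟩; exact hqJ a ha u
  have hcardV : ∀ f : Module.End (ZMod 2) V, Nat.card V = Nat.card (LinearMap.range f) * Nat.card (LinearMap.ker f) :=
    fun f => by
      rw [Submodule.card_eq_card_quotient_mul_card (LinearMap.ker f), Nat.card_congr f.quotKerEquivRange.toEquiv]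
      ring
  have hJJ : Nat.card V = Nat.card J * Nat.card J := by
    rw [hcardV (ρ d - 1), show LinearMap.range (ρ d - 1) = J from le_antisymm
      (by rintro _ ⟨u, rfl⟩; exact hqJ d hd u)
      (fun v hv => by obtain ⟨u, hu⟩ := hfixb d hd hdN hdc v ((hmemJ v).mp hv); exact ⟨u, hu.symm⟩)]
  -- the key identity, for each inverted element
  have hkey : ∀ b ∈ A, b ∈ Nn → (∃ l ∈ K, b * l ≠ l * b) → ∃ k ∈ K, Odd (orderOf k) ∧ (∃ l ∈ K, k * l ≠ l * k) ∧
      (∀ u, ρ k (ρ a u - u) + ρ k⁻¹ (ρ a u - u) = ρ k (ρ b u - u) + ρ (a * k * a⁻¹) (ρ b u - u)) ∧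
      (∀ u, ∃ j, ρ b j = j ∧ ρ b (u - ρ k j) = u - ρ k j) := by
    intro b hb hbN hbnc
    obtain ⟨k, hk, hko, hknc, hkb⟩ := exists_inverted S.q (hsq b hb)
      (fun l hl => (Subgroup.mem_normalizer_iff.mp hbN l).mp hl) hbnc
    let z : Module.End (ZMod 2) V := ρ k + ρ k⁻¹
    have hz : Function.Injective z := by
      rw [← LinearMap.ker_eq_bot]
      refine (Submodule.eq_bot_iff _).mpr fun w hw => hinj2 k hk hko hknc w ?_
      have h1 : ρ k w + ρ k⁻¹ w = 0 := hw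
      rw [← sub_eq_add_v, sub_eq_zero] at h1
      rw [h1, rho_self_inv]
    have hbk : b * k = k⁻¹ * b := mul_inv_eq_iff_eq_mul.mp hkb
    have hbk' : b * k⁻¹ = k * b := by
      have := congrArg (fun t => k * t * k⁻¹) hbk
      simp only [mul_assoc, mul_inv_cancel, mul_inv_cancel_left, mul_one] at this
      exact this.symm
    have hbz : ∀ w, ρ b (z w) = z (ρ b w) := fun w => by
      show ρ b (ρ k w + ρ k⁻¹ w) = ρ k (ρ b w) + ρ k⁻¹ (ρ b w)
      rw [map_add, ← rho_mul, ← rho_mul, hbk, hbk', rho_mul, rho_mul, add_comm]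
    have hdec : ∀ u, ∃ j, z j = ρ b u - u ∧ ρ b j = j ∧ ρ b (u - ρ k j) = u - ρ k j := by
      intro u
      obtain ⟨j, hj⟩ := (Finite.injective_iff_surjective.mp hz) (ρ b u - u)
      have hjb : ρ b j = j := hz (by
        rw [← hbz, hj, map_sub, ← rho_mul, hsq b hb, rho_one, sub_eq_add_v, sub_eq_add_v, add_comm])
      refine ⟨j, hj, hjb, sub_eq_zero.mp ?_⟩
      rw [map_sub, show ρ b (ρ k j) = ρ k⁻¹ j by rw [← rho_mul, hbk, rho_mul, hjb]]
      calc ρ b u - ρ k⁻¹ j - (u - ρ k j) = (ρ b u - u) - (ρ k⁻¹ j - ρ k j) := by abel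
        _ = z j - (ρ k⁻¹ j + ρ k j) := by rw [hj, sub_eq_add_v (ρ k⁻¹ j)]
        _ = 0 := by rw [add_comm (ρ k⁻¹ j)]; exact sub_self _
    refine ⟨k, hk, hko, hknc, fun u => ?_, fun u => (hdec u).imp fun j hj => hj.2⟩
    obtain ⟨j, hj, hjb, hub⟩ := hdec u
    have hjJ := (hCb b hb hbN hbnc j).mp hjb
    set r := u - ρ k j with hr
    have hra : ρ a r = r := hJa _ ((hCb b hb hbN hbnc r).mp hub)
    set k' := a * k * a⁻¹ with hk'
    have hak : ρ a (ρ k j) = ρ k' j := by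
      rw [← rho_mul, show a * k = k' * a by rw [hk']; group, rho_mul, hJa j hjJ]
    have e1 : ρ a u - u = ρ k' j + ρ k j := by
      rw [show u = r + ρ k j by rw [hr, sub_add_cancel], map_add, hra, hak, sub_eq_add_v]
      calc r + ρ k' j + (r + ρ k j) = (r + r) + (ρ k' j + ρ k j) := by abel
        _ = _ := by rw [add_self_v, zero_add]
    rw [e1, ← hj]
    show ρ k (ρ k' j + ρ k j) + ρ k⁻¹ (ρ k' j + ρ k j) =
      ρ k (ρ k j + ρ k⁻¹ j) + ρ k' (ρ k j + ρ k⁻¹ j)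
    rw [map_add, map_add, map_add, map_add, rho_comm ρ (hcomm k hk k hk),
      rho_comm ρ (hcomm k⁻¹ (inv_mem hk) k hk), rho_comm ρ (show k⁻¹ * k = k * k⁻¹ by group)]
    abel
  have hclaim : ∀ b ∈ A, b ∈ Nn → (∃ l ∈ K, b * l ≠ l * b) → ∀ v, ρ b v - v ∈ R → ∀ k ∈ K,
      (∀ u, ρ k (ρ a u - u) + ρ k⁻¹ (ρ a u - u) = ρ k (ρ b u - u) + ρ (a * k * a⁻¹) (ρ b u - u)) →
      Odd (orderOf k) → (∃ l ∈ K, k * l ≠ l * k) →
      ρ k (ρ (a * k * a⁻¹) (ρ b v - v)) = ρ b v - v := by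
    intro b _ _ _ v hv k hk hid' hko hknc
    set w := ρ b v - v
    obtain ⟨u, hu⟩ := hv
    change ρ a u - u = w at hu
    have h1 := hid' u
    rw [hu] at h1
    set y := ρ b u - u
    set k' := a * k * a⁻¹ with hk'
    have hkk : k * k' = k' * k := hcomm k hk k hk
    -- `k k'` fixes the image of `k + k'`
    have hpp : ρ k (ρ k' (ρ k y + ρ k' y)) = ρ k y + ρ k' y := by
      have e := hid k hk y
      rw [← hk'] at e
      have e2 : ρ k y + ρ k' y = ρ k⁻¹ y + ρ k'⁻¹ y := by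
        calc ρ k y + ρ k' y = (ρ k y + ρ k⁻¹ y) + (ρ k⁻¹ y + ρ k' y) := by rw [← add_assoc, two_add]
          _ = (ρ k' y + ρ k'⁻¹ y) + (ρ k⁻¹ y + ρ k' y) := by rw [e]
          _ = (ρ k⁻¹ y + ρ k'⁻¹ y) + (ρ k' y + ρ k' y) := by abel
          _ = _ := by rw [add_self_v, add_zero]
      conv_lhs => rw [e2]
      rw [map_add, map_add, rho_self_inv, rho_comm ρ hkk, rho_self_inv, add_comm]
    rw [← h1, ← rho_mul] at hpp
    have hcz : ∀ t : G, k * t = t * k → ρ t (ρ k w + ρ k⁻¹ w) = ρ k (ρ t w) + ρ k⁻¹ (ρ t w) := fun t ht => by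
      rw [map_add, rho_comm ρ ht.symm, rho_comm ρ (Commute.inv_left (ht : Commute k t)).symm]
    rw [hcz (k * k') (by rw [← mul_assoc, mul_assoc k k' k, ← hkk, mul_assoc])] at hpp
    rw [← rho_mul]
    set x := ρ (k * k') w
    have h3 : ρ k (x - w) + ρ k⁻¹ (x - w) = 0 := by
      rw [map_sub (ρ k) x w, map_sub (ρ k⁻¹) x w, sub_add_sub_comm, hpp, sub_self]
    refine sub_eq_zero.mp (hinj2 k hk hko hknc _ ?_)
    rw [← sub_eq_add_v, sub_eq_zero] at h3
    rw [h3, rho_self_inv]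
  -- some fixed vector of `a` lies outside `J`
  obtain ⟨v, hvX, hvJ⟩ : ∃ v, v ∈ X ∧ v ∉ J := by
    by_contra! hall
    have hXJ : X = J := le_antisymm hall fun v hv => (hmemX v).mpr (hJa v hv)
    have hRcard : Nat.card R = Nat.card J := by
      refine Nat.eq_of_mul_eq_mul_right (Nat.card_pos : 0 < Nat.card J) ?_
      rw [← hJJ, hcardV (ρ a - 1), ← hX, ← hR, hXJ]
    have hRJ' : R = J := eq_of_le_of_card hRJ hRcard.ge
    obtain ⟨k, hk, hko, hknc, hkid, hkdec⟩ := hkey d hd hdN hdc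
    have hall' : ∀ w ∈ J, ρ k (ρ (a * k * a⁻¹) w) = w := fun w hw => by
      obtain ⟨u, rfl⟩ := hfixb d hd hdN hdc w ((hmemJ w).mp hw)
      exact hclaim d hd hdN hdc u (hRJ' ▸ hqJ d hd u) k hk hkid hko hknc
    have hkk : k * (a * k * a⁻¹) = a * k * a⁻¹ * k := hcomm k hk k hk
    have hone : ∀ u, ρ k (ρ (a * k * a⁻¹) u) = u := fun u => by
      obtain ⟨j, hj, hr⟩ := hkdec u
      have e1 := hall' _ ((hmemJ _).mpr hr)
      have e2 := hall' _ ((hmemJ _).mpr hj)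
      rw [map_sub, map_sub, ← rho_comm ρ hkk j, e2] at e1
      exact sub_left_inj.mp e1
    obtain ⟨l, hl, hkl⟩ := hknc
    refine hkl (central_of_rho_commute ρ S.q S.mv hk (fun l hl u => ?_) l hl)
    have e : ∀ u, ρ k u = ρ (a * k * a⁻¹)⁻¹ u := fun u => by
      apply rho_injective ρ (a * k * a⁻¹)
      rw [rho_self_inv, ← rho_comm ρ hkk, hone]
    rw [e, e]
    exact rho_comm ρ (Commute.inv_left (hcomm l hl k hk).symm) u
  have hBJ : ∀ b ∈ A, b ∈ Nn → ∀ w ∈ J, ρ b w = w := by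
    intro b hb hbN w hw
    by_cases hbnc : ∃ l ∈ K, b * l ≠ l * b
    · exact (hCb b hb hbN hbnc w).mpr hw
    · push Not at hbnc; exact hA0 b hb hbnc w
  let B : Subgroup G := A ⊓ Nn
  let B₀ : Subgroup G := A ⊓ Subgroup.centralizer (K : Set G)
  have hB₀B : B₀ ≤ B := by
    intro x hx
    refine ⟨hx.1, Subgroup.mem_normalizer_fintype fun n hn => ?_⟩
    have e : n * x = x * n := Subgroup.mem_centralizer_iff.mp hx.2 n hn
    rwa [← e, mul_inv_cancel_right]
  -- an injection of `B / B₀` into `J / R`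
  let R' : Submodule (ZMod 2) J := R.comap J.subtype
  let ψ : ↥B → J ⧸ R' := fun b => Submodule.Quotient.mk ⟨ρ (b : G) v - v, hqJ b b.2.1 v⟩
  have hψ : ∀ b c : ↥B, ψ b = ψ c → (b : G)⁻¹ * c ∈ B₀ := by
    intro b c h
    have h1 : (ρ (b : G) v - v) - (ρ (c : G) v - v) ∈ R := (Submodule.Quotient.eq R').mp h
    set e := (b : G)⁻¹ * c with he
    have heB : e ∈ B := B.mul_mem (B.inv_mem b.2) c.2
    refine ⟨heB.1, Subgroup.mem_centralizer_iff.mpr ?_⟩
    by_contra hcon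
    push Not at hcon
    obtain ⟨l, hl, hel⟩ := hcon
    obtain ⟨k, hk, hko, hknc, hkid, -⟩ := hkey e heB.1 heB.2 ⟨l, hl, Ne.symm hel⟩
    have e1 : ρ e v - v = (ρ (b : G) v - v) - (ρ (c : G) v - v) := by
      rw [he, hinv _ b.2.1, rho_mul,
        show ρ (c : G) v = v + (ρ (c : G) v - v) by rw [add_sub_cancel], map_add,
        hBJ _ b.2.1 b.2.2 _ (hqJ _ c.2.1 v)]
      rw [sub_eq_add_v (ρ (b : G) v - v)]
      abel
    have hwR : ρ e v - v ∈ R := e1 ▸ h1
    have hfix := hclaim e heB.1 heB.2 ⟨l, hl, Ne.symm hel⟩ v hwR k hk hkid hko hknc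
    set w := ρ e v - v
    have h2' : ρ k w = ρ (a * k * a⁻¹) w := by
      have := hkid v
      rw [(hmemX v).mp hvX, sub_self, map_zero, map_zero, add_zero, eq_comm, ← sub_eq_add_v, sub_eq_zero] at this
      exact this
    rw [← h2'] at hfix
    have hw0 := hinj2 k hk hko hknc _ hfix
    exact hvJ ((hCb e heB.1 heB.2 ⟨l, hl, Ne.symm hel⟩ v).mp (sub_eq_zero.mp hw0))
  have hcard : Nat.card (↥B ⧸ B₀.subgroupOf B) ≤ Nat.card (J ⧸ R') := by
    haveI : Finite (J ⧸ R') := Finite.of_surjective _ (Submodule.Quotient.mk_surjective R')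
    refine Nat.card_le_card_of_injective (fun q => ψ q.out) fun q r h => ?_
    rw [← q.out_eq, ← r.out_eq]
    exact QuotientGroup.eq.mpr (Subgroup.mem_subgroupOf.mpr (hψ _ _ h))
  have hA2 : Nat.card A ≤ 2 * Nat.card B := by
    let f : ↥A → ↥B × Bool := fun x =>
      if h : (x : G) ∈ Nn then (⟨x, x.2, h⟩, false) else (⟨a * x, mul_mem ha x.2, hmul2 x.2 h⟩, true)
    refine (Nat.card_le_card_of_injective f fun x y h => ?_).trans (by rw [Nat.card_prod, Nat.card_eq_fintype_card (α := Bool), Fintype.card_bool, mul_comm])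
    simp only [f] at h
    split_ifs at h
    · exact Subtype.ext (congrArg Subtype.val (Prod.mk.inj h).1 :)
    · exact absurd (Prod.mk.inj h).2 (by decide)
    · exact absurd (Prod.mk.inj h).2 (by decide)
    · exact Subtype.ext (mul_left_cancel (congrArg Subtype.val (Prod.mk.inj h).1))
  have hfA : Nat.card (fx ρ A) ≤ Nat.card J := card_le_of_le fun w hw => (hmemJ w).mpr (hw d hd)
  have hf0 : fx ρ B₀ = ⊤ := eq_top_iff.mpr fun w _ x hx =>
    hA0 x hx.1 (fun l hl => (Subgroup.mem_centralizer_iff.mp hx.2 l hl).symm) w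
  have hmax := hP B₀ inf_le_left
  rw [hf0, Nat.card_congr (Submodule.topEquiv (R := ZMod 2) (M := V)).toEquiv] at hmax
  have hBcard : Nat.card B ≤ Nat.card (J ⧸ R') * Nat.card B₀ := by
    rw [Subgroup.card_eq_card_quotient_mul_card_subgroup (B₀.subgroupOf B),
      Nat.card_congr (Subgroup.subgroupOfEquivOfLe hB₀B).toEquiv]
    exact Nat.mul_le_mul_right _ hcard
  have hJcard : Nat.card J = Nat.card (J ⧸ R') * Nat.card R := by
    rw [Submodule.card_eq_card_quotient_mul_card R', Nat.card_congr (Submodule.comapSubtypeEquivOfLe hRJ).toEquiv,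
      mul_comm]
  refine S.no_transvection ha haN ?_
  rw [← hX]
  have hVX : Nat.card V = Nat.card R * Nat.card X := hcardV (ρ a - 1)
  have hR2 : Nat.card R ≤ 2 := by
    have hpos : 0 < Nat.card B₀ * (Nat.card J * Nat.card (J ⧸ R')) := by
      haveI : Finite (J ⧸ R') := Finite.of_surjective _ (Submodule.Quotient.mk_surjective R')
      exact Nat.mul_pos Nat.card_pos (Nat.mul_pos Nat.card_pos Nat.card_pos)
    refine Nat.le_of_mul_le_mul_right ?_ hpos
    calc Nat.card R * (Nat.card B₀ * (Nat.card J * Nat.card (J ⧸ R')))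
        = Nat.card B₀ * Nat.card V := by rw [hJJ]; nth_rewrite 3 [hJcard]; ring
      _ ≤ Nat.card A * Nat.card (fx ρ A) := hmax
      _ ≤ (2 * Nat.card B) * Nat.card J := Nat.mul_le_mul hA2 hfA
      _ ≤ (2 * (Nat.card (J ⧸ R') * Nat.card B₀)) * Nat.card J :=
        Nat.mul_le_mul_right _ (Nat.mul_le_mul_left _ hBcard)
      _ = _ := by ring
  rw [hVX]
  exact Nat.mul_le_mul_right _ hR2

end Setup

end Cfsg.Agent.LocalEven.Offender
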