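import Cfsg.Agent.LocalEven.OffenderCases
import Cfsg.Agent.LocalEven.OffenderNormal
import Cfsg.Agent.LocalEven.OffenderSwap

/-!
# Best offenders normalize components: the induction
-/

set_option autoImplicit false
set_option linter.unusedSectionVars false

namespace Cfsg.Agent.LocalEven.Offender

universe u v

variable {p : ℕ} [Fact p.Prime] {G : Type u} [Group G] [Finite G] {A K : Subgroup G}

theorem Setup.centralizing_trivial {V : Type v} [AddCommGroup V] [Module (ZMod p) V]
    {ρ : Representation (ZMod p) G V} (S : Setup ρ A K) (hmin : Minimal ρ K) {d : G} (hd : d ∈ A)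
    (hc : ∀ l ∈ K, d * l = l * d) (hn : ∀ v, ρ d (ρ d v - v) = ρ d v - v) : ρ d = 1 := by
  set C := LinearMap.ker (ρ d - 1) with hC
  have hmem : ∀ v, v ∈ C ↔ ρ d v = v := fun v => by
    rw [hC, LinearMap.mem_ker, LinearMap.sub_apply, Module.End.one_apply, sub_eq_zero]
  by_cases hCt : C = ⊤
  · exact LinearMap.ext fun v => (hmem v).mp (hCt.ge Submodule.mem_top)
  exfalso
  have hfix := hmin C (fun x w hw => by
    rw [hmem] at hw ⊢; rw [rho_comm ρ (S.central_of hd hc x), hw]) hCt
  obtain ⟨k, hk, hk1⟩ := S.mv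
  refine hk1 (LinearMap.ext fun v => fixed_of_additive ρ S.q (fun g hg l hl => hfix l hl _ ?_) k hk)
  rw [hmem, map_sub, rho_comm ρ (hc g hg)]
  have h1 := hfix g hg _ ((hmem _).mpr (hn v))
  rw [map_sub] at h1
  exact sub_eq_sub_iff_sub_eq_sub.mp h1

theorem main : ∀ (n : ℕ) {V : Type v} [AddCommGroup V] [Module (ZMod p) V] [Finite V]
    (ρ : Representation (ZMod p) G V), Nat.card V = n → Setup ρ A K → IsMax ρ A →
      A ≤ Subgroup.normalizer (K : Set G) := by
  intro n
  induction n using Nat.strong_induction_on with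
  | _ n ih =>
  intro V _ _ _ ρ hn S hP
  classical
  by_contra hAN
  obtain ⟨a, ha, haN⟩ := SetLike.not_le_iff_exists.mp hAN
  set Nn := Subgroup.normalizer (K : Set G) with hNn
  have hmin : Minimal ρ K := by
    intro W hW hWt k hk w hw
    by_contra hne
    let ρW : Representation (ZMod p) G ↥W :=
      { toFun := fun x => (ρ x).restrict (hW x)
        map_one' := LinearMap.ext fun w => Subtype.ext (rho_one ρ (w : V))
        map_mul' := fun x y => LinearMap.ext fun w => Subtype.ext (rho_mul ρ x y (w : V)) }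
    have hlt : Nat.card W < n := by
      refine hn ▸ lt_of_le_of_ne (Nat.card_le_card_of_injective _ Subtype.val_injective) fun h => hWt ?_
      refine eq_top_iff.mpr fun x _ => ?_
      obtain ⟨y, hy⟩ := ((Nat.bijective_iff_injective_and_card (Subtype.val : W → V)).mpr ⟨Subtype.val_injective, h⟩).2 x
      exact hy ▸ y.2
    refine hAN (ih _ hlt ρW rfl ⟨S.comm, S.exp, S.q, S.conj, S.top, k, hk, fun h => hne ?_⟩ ?_)
    · exact congrArg Subtype.val (LinearMap.congr_fun h ⟨w, hw⟩)
    · intro B hB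
      have hfx : ∀ B : Subgroup G, Nat.card (fx ρW B) = Nat.card ↥(fx ρ B ⊓ W) := fun B => Nat.card_congr
        { toFun := fun x => ⟨((x : ↥W) : V), fun d hd => congrArg Subtype.val (x.2 d hd), (x : ↥W).2⟩
          invFun := fun x => ⟨⟨(x : V), x.2.2⟩, fun d hd => Subtype.ext (x.2.1 d hd)⟩
          left_inv := fun _ => rfl
          right_inv := fun _ => rfl }
      rw [hfx, hfx]
      have h1 := card_sup_mul_card_inf (p := p) (fx ρ B ⊓ W) (fx ρ A)
      have h2 : Nat.card ↥((fx ρ B ⊓ W) ⊓ fx ρ A) = Nat.card ↥(fx ρ A ⊓ W) := by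
        rw [show (fx ρ B ⊓ W) ⊓ fx ρ A = fx ρ A ⊓ W by
          rw [inf_comm (fx ρ A) W, inf_assoc, inf_comm W, ← inf_assoc, inf_eq_right.mpr (fx_anti ρ hB), inf_comm]]
      have h3 : Nat.card ↥((fx ρ B ⊓ W) ⊔ fx ρ A) ≤ Nat.card (fx ρ B) :=
        card_le_of_le (sup_le inf_le_left (fx_anti ρ hB))
      refine Nat.le_of_mul_le_mul_right ?_ (Nat.card_pos : 0 < Nat.card (fx ρ A))
      calc Nat.card B * Nat.card ↥(fx ρ B ⊓ W) * Nat.card (fx ρ A)
          = Nat.card B * (Nat.card ↥((fx ρ B ⊓ W) ⊔ fx ρ A) * Nat.card ↥(fx ρ A ⊓ W)) := by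
            rw [mul_assoc, ← h1, h2]
        _ ≤ Nat.card B * (Nat.card (fx ρ B) * Nat.card ↥(fx ρ A ⊓ W)) :=
            Nat.mul_le_mul_left _ (Nat.mul_le_mul_right _ h3)
        _ = (Nat.card B * Nat.card (fx ρ B)) * Nat.card ↥(fx ρ A ⊓ W) := by ring
        _ ≤ (Nat.card A * Nat.card (fx ρ A)) * Nat.card ↥(fx ρ A ⊓ W) := Nat.mul_le_mul_right _ (hP B hB)
        _ = _ := by ring
  obtain ⟨D, hDA, hDq, hDc, d₀, hd₀, hd₀1⟩ := replacement ρ A S.comm S.exp hP (by
    by_contra! h
    exact haN (S.mem_normalizer_of_rho_eq_one ha (h a ha)))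
  have hself : ∀ d ∈ D, ∀ v, ρ d (ρ d v - v) = ρ d v - v := fun d hd => hDq d hd d (hDA hd)
  have hone : (a : G) ≠ 1 := fun h => haN (h ▸ one_mem _)
  by_cases hcase : ∃ d ∈ D, d ∈ Nn ∧ ∃ l ∈ K, d * l ≠ l * d
  · obtain ⟨d, hd, hdN, hdc⟩ := hcase
    by_cases hp : p = 2
    · subst hp
      by_cases h2 : ∀ x ∈ A, ∀ y ∈ A, x ∉ Nn → y ∉ Nn → x * y ∈ Nn
      · exact S.swap hmin hP h2 ha haN (hDA hd) hdN hdc (hDq d hd)
      push Not at h2
      obtain ⟨x, hx, y, hy, hxN, hyN, hxyN⟩ := h2
      have hsq : ∀ x ∈ A, x * x = 1 := fun x hx => by rw [← pow_two]; exact S.exp x hx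
      have hc := S.comm x hx y hy
      let C : Subgroup G :=
        { carrier := {e | e = 1 ∨ e = x ∨ e = y ∨ e = x * y}
          one_mem' := Or.inl rfl
          mul_mem' := fun {e f} he hf => by
            have hxy : y * x = x * y := hc.symm
            have hxx : ∀ z, x * (x * z) = z := fun z => by rw [← mul_assoc, hsq x hx, one_mul]
            have hyy : ∀ z, y * (y * z) = z := fun z => by rw [← mul_assoc, hsq y hy, one_mul]
            have hyxz : ∀ z, y * (x * z) = x * (y * z) := fun z => by rw [← mul_assoc, hxy, mul_assoc]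
            show _ ∨ _ ∨ _ ∨ _
            rcases he with he | he | he | he <;> rcases hf with hf | hf | hf | hf <;>
              simp [he, hf, mul_assoc, hxy, hsq x hx, hsq y hy, hxx, hyy, hyxz]
          inv_mem' := fun {e} he => by
            have he' : e⁻¹ = e := by
              refine inv_eq_of_mul_eq_one_right ?_
              rcases he with he | he | he | he <;> rw [he]
              · exact one_mul 1
              · exact hsq _ hx
              · exact hsq _ hy
              · exact hsq _ (mul_mem hx hy)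
            rw [he']; exact he }
      refine S.normalizing (hDA hd) hdN hdc (hDq d hd) C ?_ ?_ fun c _ => ?_
      · rintro e (h | h | h | h) <;> rw [h]
        exacts [one_mem A, hx, hy, mul_mem hx hy]
      · rintro e (h | h | h | h) he <;> rw [h] at he ⊢
        exacts [absurd he hxN, absurd he hyN, absurd he hxyN]
      · by_cases hcx : x = c
        · refine ⟨y, Or.inr (Or.inr (Or.inl rfl)), fun h => hyN (h ▸ one_mem _), fun h => hxyN ?_⟩
          rw [hcx, ← h, hsq y hy]; exact one_mem _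
        · exact ⟨x, Or.inr (Or.inl rfl), fun h => hxN (h ▸ one_mem _), hcx⟩
    · refine S.normalizing (hDA hd) hdN hdc (hDq d hd) (Subgroup.zpowers a) (Subgroup.zpowers_le.mpr ha) ?_ fun c _ => ?_
      · intro e he heN
        have hcard : Nat.card ↥(Subgroup.zpowers a) = p := by
          rw [Nat.card_zpowers]; exact orderOf_eq_prime (S.exp a ha) hone
        haveI : Fact (Nat.card ↥(Subgroup.zpowers a)).Prime := ⟨by rw [hcard]; exact Fact.out⟩
        rcases (Nn.subgroupOf (Subgroup.zpowers a)).eq_bot_or_eq_top_of_prime_card with h | h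
        · exact congrArg Subtype.val ((Subgroup.eq_bot_iff_forall _).mp h ⟨e, he⟩ heN)
        · exact absurd (h.ge (Subgroup.mem_top (⟨a, Subgroup.mem_zpowers a⟩ : ↥(Subgroup.zpowers a)))) haN
      · by_cases hca : a = c
        · refine ⟨a * a, mul_mem (Subgroup.mem_zpowers a) (Subgroup.mem_zpowers a), fun h => ?_, fun h => hone ?_⟩
          · have h2' : orderOf a ∣ 2 := orderOf_dvd_of_pow_eq_one (by rw [pow_two, h])
            rw [orderOf_eq_prime (S.exp a ha) hone] at h2'
            exact hp ((Nat.prime_dvd_prime_iff_eq Fact.out Nat.prime_two).mp h2')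
          · exact mul_eq_left.mp (h.trans hca.symm)
        · exact ⟨a, Subgroup.mem_zpowers a, hone, hca⟩
  push Not at hcase
  have htriv : ∀ d ∈ D, d ∈ Nn → ρ d = 1 := fun d hd hdN =>
    S.centralizing_trivial hmin (hDA hd) (hcase d hd hdN) (hself d hd)
  have hd₀N : d₀ ∉ Nn := fun h => hd₀1 (htriv d₀ hd₀ h)
  by_cases hp : p = 2
  swap
  · exact S.odd_moving hp (hDA hd₀) hd₀N (hself d₀ hd₀)
  by_cases hb : ∃ b ∈ A, b ∉ Nn ∧ d₀ * b ∉ Nn
  · obtain ⟨b, hb, hbN, hdbN⟩ := hb
    exact S.two_moving hp (hDA hd₀) hb hd₀N hbN hdbN (hself d₀ hd₀) (hDq d₀ hd₀ b hb)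
  push Not at hb
  subst hp
  refine S.no_transvection (hDA hd₀) hd₀N ?_
  set D₀ := D ⊓ Nn with hD₀
  have hD2 : Nat.card D ≤ 2 * Nat.card D₀ := by
    let f : ↥D → ↥D₀ × Bool := fun x =>
      if h : (x : G) ∈ Nn then (⟨x, x.2, h⟩, false) else (⟨d₀ * x, mul_mem hd₀ x.2, hb x (hDA x.2) h⟩, true)
    refine (Nat.card_le_card_of_injective f fun x y h => ?_).trans
      (by rw [Nat.card_prod, Nat.card_eq_fintype_card (α := Bool), Fintype.card_bool, mul_comm])
    simp only [f] at h
    split_ifs at h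
    · exact Subtype.ext (congrArg Subtype.val (Prod.mk.inj h).1 :)
    · exact absurd (Prod.mk.inj h).2 (by decide)
    · exact absurd (Prod.mk.inj h).2 (by decide)
    · exact Subtype.ext (mul_left_cancel (congrArg Subtype.val (Prod.mk.inj h).1))
  have hmax := hP D₀ (inf_le_left.trans hDA)
  rw [show fx ρ D₀ = ⊤ from eq_top_iff.mpr fun w _ x hx => by rw [htriv x hx.1 hx.2]; rfl,
    Nat.card_congr (Submodule.topEquiv (R := ZMod 2) (M := V)).toEquiv] at hmax
  have hDfx : Nat.card (fx ρ D) ≤ Nat.card (LinearMap.ker (ρ d₀ - 1)) := card_le_of_le fun w hw => by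
    rw [LinearMap.mem_ker, LinearMap.sub_apply, Module.End.one_apply, hw d₀ hd₀, sub_self]
  refine Nat.le_of_mul_le_mul_left ?_ (Nat.card_pos : 0 < Nat.card D₀)
  calc Nat.card D₀ * Nat.card V ≤ Nat.card A * Nat.card (fx ρ A) := hmax
    _ ≤ Nat.card D * Nat.card (fx ρ D) := hDc
    _ ≤ (2 * Nat.card D₀) * Nat.card (LinearMap.ker (ρ d₀ - 1)) := Nat.mul_le_mul hD2 hDfx
    _ = _ := by ring

end Cfsg.Agent.LocalEven.Offender
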