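import Cfsg.Agent.LocalEven.OffenderCore

/-!
# Best offenders: two conjugates in characteristic two
-/

set_option autoImplicit false
set_option linter.unusedSectionVars false

namespace Cfsg.Agent.LocalEven.Offender

variable {G : Type*} [Group G] [Finite G] {V : Type*} [AddCommGroup V] [Finite V] [Module (ZMod 2) V]
variable {ρ : Representation (ZMod 2) G V} {A K : Subgroup G}

theorem add_self_v (v : V) : v + v = 0 := ZModModule.add_self v

/-- A permutation of at most four points fixing one of them has sixth power one. -/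
theorem pow_six_of_card_le {Q : Type*} [AddCommGroup Q] [Module (ZMod 2) Q] [Finite Q] (hQ : Nat.card Q ≤ 4)
    (q : Module.End (ZMod 2) Q) (hq : Function.Injective q) : q ^ 6 = 1 := by
  classical
  haveI : Fintype Q := Fintype.ofFinite Q
  let e : Equiv.Perm {x : Q // x ≠ 0} := Equiv.ofBijective
    (fun x => ⟨q x, fun h => x.2 (hq (h.trans (map_zero q).symm))⟩)
    (Finite.injective_iff_bijective.mp fun x y h => Subtype.ext (hq (congrArg Subtype.val h)))
  have h3 : Nat.card {x : Q // x ≠ 0} ≤ 3 := by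
    rw [Nat.card_eq_fintype_card, Fintype.card_subtype_compl, Fintype.card_subtype_eq]
    rw [Nat.card_eq_fintype_card] at hQ
    omega
  have he : e ^ 6 = 1 := by
    refine orderOf_dvd_iff_pow_eq_one.mp (dvd_trans (orderOf_dvd_natCard e) ?_)
    rw [Nat.card_perm]
    exact dvd_trans (Nat.factorial_dvd_factorial h3) (by decide)
  refine LinearMap.ext fun x => ?_
  by_cases hx : x = 0
  · subst hx; simp
  have key : ∀ k, ((e ^ k) ⟨x, hx⟩ : Q) = (q ^ k) x := by
    intro k
    induction k with
    | zero => rfl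
    | succ k ih => rw [pow_succ' e, pow_succ' q, Equiv.Perm.mul_apply, Module.End.mul_apply, ← ih]; rfl
  rw [← key 6, he]; rfl

namespace Setup

/-- No element moving `K` is a transvection. -/
theorem no_transvection (S : Setup ρ A K) {a : G} (ha : a ∈ A)
    (haN : a ∉ Subgroup.normalizer (K : Set G))
    (hV : Nat.card V ≤ 2 * Nat.card (LinearMap.ker (ρ a - 1))) : False := by
  classical
  set C := LinearMap.ker (ρ a - 1) with hC
  have hmemC : ∀ v, v ∈ C ↔ ρ a v = v := fun v => by
    rw [hC, LinearMap.mem_ker, LinearMap.sub_apply, Module.End.one_apply, sub_eq_zero]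
  have h12 : ∀ g ∈ K, ∀ l ∈ K, g ^ 12 * l = l * g ^ 12 := by
    intro g hg
    set W : Submodule (ZMod 2) V := C ⊓ C.comap (ρ g) with hW
    have hWV : Nat.card V ≤ 4 * Nat.card W := by
      have h1 := card_sup_mul_card_inf (p := 2) C (C.comap (ρ g))
      have h2 : Nat.card ↥(C ⊔ C.comap (ρ g)) ≤ Nat.card V := Nat.card_le_card_of_injective _ Subtype.val_injective
      have h3 : Nat.card C ≤ Nat.card ↥(C.comap (ρ g)) := by
        refine Nat.card_le_card_of_injective (fun v => ⟨ρ g⁻¹ (v : V), ?_⟩) fun v w h => ?_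
        · show ρ g (ρ g⁻¹ (v : V)) ∈ C
          rw [rho_self_inv]; exact v.2
        · exact Subtype.ext (rho_injective ρ g⁻¹ (congrArg Subtype.val h))
      have h4 : Nat.card C * Nat.card C ≤ Nat.card V * Nat.card W :=
        (Nat.mul_le_mul_left _ h3).trans (h1 ▸ Nat.mul_le_mul_right _ h2)
      have h5 : Nat.card V * Nat.card V ≤ 4 * (Nat.card V * Nat.card W) :=
        (Nat.mul_le_mul hV hV).trans (le_of_eq_of_le (by ring) (Nat.mul_le_mul_left 4 h4))
      exact Nat.le_of_mul_le_mul_left (h5.trans (le_of_eq (by ring))) (Nat.card_pos : 0 < Nat.card V)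
    set g' := a * g * a⁻¹ with hg'
    have hgg : g⁻¹ * g' = g' * g⁻¹ := (Commute.inv_left (S.cj_comm_one ha haN hg hg) : Commute g⁻¹ g')
    have hfix : ∀ w ∈ W, ρ (g⁻¹ * g') w = w := by
      intro w hw
      have h1 : ρ a⁻¹ w = w := by
        conv_lhs => rw [← (hmemC w).mp hw.1]
        exact rho_inv_self ρ a w
      rw [rho_mul, hg', rho_mul, rho_mul, h1, (hmemC _).mp hw.2, rho_inv_self]
    set h : Module.End (ZMod 2) V := ρ (g⁻¹ * g') with hh
    have hinv : W ≤ W.comap h := fun w hw => by show h w ∈ W; rw [hfix w hw]; exact hw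
    set q : Module.End (ZMod 2) (V ⧸ W) := W.mapQ W h hinv with hq
    haveI : Finite (V ⧸ W) := Finite.of_surjective _ (Submodule.Quotient.mk_surjective W)
    have hQ : Nat.card (V ⧸ W) ≤ 4 := by
      rw [Submodule.card_eq_card_quotient_mul_card W, mul_comm (Nat.card W)] at hWV
      exact Nat.le_of_mul_le_mul_right hWV Nat.card_pos
    have hqinj : Function.Injective q := by
      intro x y hxy
      obtain ⟨x, rfl⟩ := Submodule.Quotient.mk_surjective W x
      obtain ⟨y, rfl⟩ := Submodule.Quotient.mk_surjective W y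
      rw [hq, Submodule.mapQ_apply, Submodule.mapQ_apply, Submodule.Quotient.eq, ← map_sub] at hxy
      rw [Submodule.Quotient.eq]
      have : h (x - y) = h (h (x - y)) := (hfix _ hxy).symm
      exact (rho_injective ρ _ this).symm ▸ hxy
    have h6 := pow_six_of_card_le hQ q hqinj
    have hqk : ∀ k v, (q ^ k) (Submodule.Quotient.mk v) = Submodule.Quotient.mk ((h ^ k) v) := by
      intro k v
      induction k with
      | zero => rfl
      | succ k ih => rw [pow_succ', pow_succ', Module.End.mul_apply, Module.End.mul_apply, ih, hq, Submodule.mapQ_apply]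
    have hk : ∀ k, ∀ w ∈ W, (h ^ k) w = w := by
      intro k w hw
      induction k with
      | zero => rfl
      | succ k ih => rw [pow_succ, Module.End.mul_apply, hfix w hw, ih]
    have h12' : ∀ v, ρ ((g⁻¹ * g') ^ 12) v = v := by
      intro v
      rw [map_pow, ← hh]
      have hw : (h ^ 6) v - v ∈ W := by
        rw [← Submodule.Quotient.eq, ← hqk, h6]; rfl
      have e := hk 6 _ hw
      rw [map_sub, sub_eq_iff_eq_add, sub_add, sub_eq_add_neg ((h ^ 6) v), neg_sub] at e
      rw [pow_add h 6 6, Module.End.mul_apply, e, ← add_sub_assoc, add_self_v, zero_sub]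
      exact neg_eq_of_add_eq_zero_left (add_self_v v)
    refine fun l hl => central_of_rho_commute ρ S.q S.mv (pow_mem hg 12) (fun l hl v => ?_) l hl
    have e : ∀ w, ρ (g ^ 12) w = ρ (g' ^ 12) w := fun w => by
      have := h12' (ρ (g ^ 12) w)
      rw [Commute.mul_pow (hgg : Commute g⁻¹ g'), rho_mul, ← rho_mul ρ (g' ^ 12),
        ← (Commute.pow_pow (S.cj_comm_one ha haN hg hg : Commute g g') 12 12).eq, rho_mul, inv_pow,
        rho_inv_self] at this
      exact this.symm
    rw [e, e]
    have hc : g' ^ 12 * l = l * g' ^ 12 :=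
      (Commute.pow_left (S.cj_comm_one ha haN hl hg : Commute l g').symm 12).eq
    exact rho_comm ρ hc v
  haveI := S.q.1
  set Z := Subgroup.center ↥K
  have hpow : ∀ x : ↥K ⧸ Z, x ^ 12 = 1 := by
    intro x
    obtain ⟨x, rfl⟩ := QuotientGroup.mk'_surjective Z x
    rw [← map_pow]
    exact (QuotientGroup.eq_one_iff _).mpr
      (Subgroup.mem_center_iff.mpr fun y => Subtype.ext (h12 x x.2 y y.2).symm)
  haveI : Group.IsSolvable (↥K ⧸ Z) := by
    refine Core.isSolvable_of_primeFactors_card_le_two ?_
    refine (Finset.card_le_card (t := ({2, 3} : Finset ℕ)) fun r hr => ?_).trans Finset.card_le_two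
    obtain ⟨hr, hrd, -⟩ := Nat.mem_primeFactors.mp hr
    haveI : Fact r.Prime := ⟨hr⟩
    obtain ⟨x, hx⟩ := exists_prime_orderOf_dvd_card' r hrd
    have h12d : r ∣ 12 := hx ▸ orderOf_dvd_of_pow_eq_one (hpow x)
    have : r ≤ 12 := Nat.le_of_dvd (by norm_num) h12d
    interval_cases r <;> first | decide | exact absurd h12d (by decide) | exact absurd hr (by norm_num)
  haveI : Group.IsPerfect (↥K ⧸ Z) := Group.IsPerfect.ofSurjective (QuotientGroup.mk'_surjective Z)
  by_cases hn : Nontrivial (↥K ⧸ Z)
  · exact Group.IsPerfect.not_isSolvable (↥K ⧸ Z) inferInstance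
  · rw [not_nontrivial_iff_subsingleton] at hn
    obtain ⟨g, hg, l, hl, hgl⟩ := S.noncentral
    have hgz : (⟨g, hg⟩ : ↥K) ∈ Z := (QuotientGroup.eq_one_iff _).mp (Subsingleton.elim _ _)
    exact hgl (congrArg Subtype.val (Subgroup.mem_center_iff.mp hgz ⟨l, hl⟩)).symm

end Setup

end Cfsg.Agent.LocalEven.Offender
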