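import Cfsg.Agent.LocalEven.Conj
import Mathlib.GroupTheory.Transfer
import Mathlib.GroupTheory.SpecificGroups.Cyclic
import Mathlib.Data.Finset.Max
import Mathlib.Data.Set.Finite.Lemmas

/-! A transfer argument for a maximal subgroup `M` with a normal subgroup `H` of prime index:
an element of `M \ H` of least order. -/

set_option autoImplicit false

namespace Cfsg.Agent.LocalEven

variable {G : Type*} [Group G] [Finite G]

theorem exists_transfer_eq_self {M : Subgroup G} {A : Type*} [CommGroup A] (φ : M →* A)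
    (hne : ∃ m : M, φ m ≠ 1)
    (key : ∀ g : G, g ∉ M → ∀ m : M, φ m ≠ 1 → ∀ h : g⁻¹ * (m : G) * g ∈ M, φ ⟨_, h⟩ = 1) :
    ∃ m : M, φ m ≠ 1 ∧ MonoidHom.transfer φ (m : G) = φ m := by
  classical
  obtain ⟨m, hm, hmin⟩ := Set.exists_min_image {m : M | φ m ≠ 1} (fun m => orderOf (m : G))
    (Set.toFinite _) hne
  refine ⟨m, hm, ?_⟩
  let := M.fintypeQuotientOfFiniteIndex
  haveI : Fintype (Quotient (MulAction.orbitRel (Subgroup.zpowers (m : G)) (G ⧸ M))) :=
    Fintype.ofFinite _
  rw [MonoidHom.transfer_eq_prod_quotient_orbitRel_zpowers_quot]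
  let x1 : G ⧸ M := ((1 : G) : G ⧸ M)
  have hfix : (m : G) • x1 = x1 := by
    refine QuotientGroup.eq.mpr ?_
    simp
  have hout : (Quotient.mk'' x1 : Quotient (MulAction.orbitRel (Subgroup.zpowers (m : G))
      (G ⧸ M))).out = x1 := by
    have h := Quotient.exact' (Quotient.out_eq' (Quotient.mk'' x1 :
      Quotient (MulAction.orbitRel (Subgroup.zpowers (m : G)) (G ⧸ M))))
    rw [MulAction.orbitRel_apply] at h
    obtain ⟨⟨z, hz⟩, hzx⟩ := h
    rw [← hzx]
    exact (Subgroup.zpowers_le.mpr (show (m : G) ∈ MulAction.stabilizer G x1 from hfix)) hz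
  rw [Fintype.prod_eq_single (Quotient.mk'' x1)]
  · have hn : Function.minimalPeriod ((m : G) • ·) (Quotient.mk'' x1 :
        Quotient (MulAction.orbitRel (Subgroup.zpowers (m : G)) (G ⧸ M))).out = 1 := by
      rw [Function.minimalPeriod_eq_one_iff_isFixedPt, hout]
      exact hfix
    set g0 := (Quotient.mk'' x1 :
        Quotient (MulAction.orbitRel (Subgroup.zpowers (m : G)) (G ⧸ M))).out.out with hg0
    have hg0M : g0 ∈ M := by
      rw [hg0, hout]
      have := QuotientGroup.eq.mp (Quotient.out_eq' x1)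
      simpa using this
    calc _ = φ ((⟨g0, hg0M⟩ : M)⁻¹ * m * ⟨g0, hg0M⟩) := by
          congr 1
          refine Subtype.ext ?_
          simp only [hn, pow_one]
          rfl
      _ = φ m := by simp [mul_comm]
  · intro q hq
    by_contra hne1
    set n := Function.minimalPeriod ((m : G) • ·) q.out with hn
    set g0 := q.out.out with hg0
    have hg0M : g0 ∉ M := by
      intro h
      refine hq ?_
      have e : q.out = x1 := by
        rw [← Quotient.out_eq' q.out]
        exact QuotientGroup.eq.mpr (by simpa using M.inv_mem h)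
      rw [← e, Quotient.out_eq']
    have hdvd : n ∣ orderOf (m : G) := by
      refine Function.IsPeriodicPt.minimalPeriod_dvd ?_
      show ((m : G) • ·)^[orderOf (m : G)] q.out = q.out
      rw [smul_iterate]
      show (m : G) ^ orderOf (m : G) • q.out = q.out
      rw [pow_orderOf_eq_one, one_smul]
    have hn1 : n = 1 := by
      by_contra hn1
      have hn0 : n ≠ 0 := fun h => (orderOf_pos (m : G)).ne' (Nat.eq_zero_of_zero_dvd (h ▸ hdvd))
      have hlt := hmin _ hne1
      simp only at hlt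
      rw [show g0⁻¹ * (m : G) ^ n * g0 = g0⁻¹ * (m : G) ^ n * (g0⁻¹)⁻¹ by rw [inv_inv],
        ← MulAut.conj_apply, MulEquiv.orderOf_eq, orderOf_pow_of_dvd hn0 hdvd] at hlt
      exact absurd (Nat.div_lt_self (orderOf_pos (m : G)) (by omega)) (not_lt.mpr hlt)
    have hmem : g0⁻¹ * (m : G) * g0 ∈ M := by
      have := QuotientGroup.out_conj_pow_minimalPeriod_mem M (m : G) q.out
      rw [← hn, hn1, pow_one] at this
      exact this
    refine hne1 ?_
    rw [← key g0 hg0M m hm hmem]
    congr 1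
    refine Subtype.ext ?_
    show g0⁻¹ * (m : G) ^ n * g0 = g0⁻¹ * (m : G) * g0
    rw [hn1, pow_one]

/-- For a self-normalising maximal `M` and a normal maximal subgroup `H` of `M` such that two
conjugates of `H` never generate `G`, an element of `M \ H` moved into `M` by `g ∉ M` lands
in `H`. -/
theorem pair_key {H M : Subgroup G} (hHM : H ≤ M) (hmaxM : IsCoatom M)
    (hMH : M ≤ Subgroup.normalizer (H : Set G)) (hmaxH : IsCoatom (H.subgroupOf M))
    (hself : Subgroup.normalizer (M : Set G) ≤ M)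
    (hX : ∀ g : G, (H ⊔ cj g H) ≠ ⊤)
    (hnorm : ∀ g : G, (H ⊔ cj g H).Normal → H ⊔ cj g H = ⊤)
    {g : G} (hg : g ∉ M) {m : G} (hm : m ∈ M) (hmH : m ∉ H) (hgm : g⁻¹ * m * g ∈ M) :
    g⁻¹ * m * g ∈ H := by
  by_contra hgH
  have hmax' : ∀ y ∈ M, y ∉ H → ∀ K : Subgroup G, H ≤ K → y ∈ K → M ≤ K := by
    intro y hy hyH K hHK hyK
    refine Subgroup.subgroupOf_eq_top.mp (hmaxH.2 _ (lt_of_le_not_ge ?_ fun h => hyH ?_))
    · exact fun x hx => hHK hx
    · exact h (show (⟨y, hy⟩ : M) ∈ K.subgroupOf M from hyK)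
  set X := H ⊔ cj g H
  have hmX : m ∈ Subgroup.normalizer (X : Set G) := by
    have h1 := hMH hm
    have h2 : m ∈ Subgroup.normalizer (cj g H : Set G) := by
      rw [← cj_normalizer, mem_cj]
      exact hMH hgm
    rw [← cj_eq_self_iff] at h1 h2 ⊢
    rw [cj, Subgroup.map_sup]
    exact congrArg₂ _ h1 h2
  have hM1 : M ≤ Subgroup.normalizer (X : Set G) :=
    hmax' m hm hmH _ ((le_sup_left : H ≤ X).trans Subgroup.le_normalizer) hmX
  have hM2 : cj g M ≤ Subgroup.normalizer (X : Set G) := by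
    rintro _ ⟨y, hy, rfl⟩
    refine (show M ≤ (Subgroup.normalizer (X : Set G)).comap (MulAut.conj g).toMonoidHom from
      hmax' _ hgm hgH _ ?_ ?_) hy
    · rw [← Subgroup.map_le_iff_le_comap]
      exact (le_sup_right : cj g H ≤ X).trans Subgroup.le_normalizer
    · simpa [Subgroup.mem_comap, mul_assoc] using hmX
  rcases hmaxM.le_iff.mp hM1 with h | h
  · haveI : X.Normal := Subgroup.normalizer_eq_top_iff.mp h
    exact hX g (hnorm g inferInstance)
  · rw [h] at hM2
    exact hg (hself (cj_eq_self_iff.mp (Subgroup.eq_of_le_of_card_ge hM2 (card_cj g M).ge)))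

/-- The quotient of `M` by a normal subgroup of prime index is commutative. -/
theorem exists_hom_of_prime_index {M : Subgroup G} (H : Subgroup G)
    [hn : (H.subgroupOf M).Normal] (hq : (H.relIndex M).Prime) :
    ∃ (φ : M →* Multiplicative (ZMod (H.relIndex M))), ∀ m : M, φ m = 1 ↔ (m : G) ∈ H := by
  haveI : Fact (H.relIndex M).Prime := ⟨hq⟩
  have hc : Nat.card (M ⧸ H.subgroupOf M) = H.relIndex M := rfl
  have e : (M ⧸ H.subgroupOf M) ≃* Multiplicative (ZMod (H.relIndex M)) :=
    mulEquivOfPrimeCardEq hc (by simp)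
  refine ⟨e.toMonoidHom.comp (QuotientGroup.mk' _), fun m => ?_⟩
  simp [Subgroup.mem_subgroupOf]

end Cfsg.Agent.LocalEven
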