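import Cfsg.Prelude.Def_SylowChains
import Cfsg.Agent.LocalEven.MaxP
import Cfsg.Agent.LocalEven.SylowMk
import Mathlib.Data.List.OfFn
import Mathlib.Logic.Relation

/-! Chains of Sylow subgroups linked through a family of subgroups. -/

set_option autoImplicit false
set_option linter.style.haveILetI false

namespace Cfsg.Agent.LocalEven.SylowChain

variable {G : Type*} [Group G] {p : ℕ} {𝓕 : Set (Subgroup G)}

/-- One link of a chain above `D`. -/
def Step (p : ℕ) (𝓕 : Set (Subgroup G)) (D : Subgroup G) (A B : Sylow p G) : Prop :=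
  ∃ (X : Subgroup G) (x : G), X ∈ Cfsg.sylowMembers p 𝓕 (A : Subgroup G) ∧
    X ∈ Cfsg.sylowMembers p 𝓕 (B : Subgroup G) ∧ x ∈ X ∧
    Cfsg.subgroupConjRight x (B : Subgroup G) = (A : Subgroup G) ∧ D ≤ (B : Subgroup G) ⊓ X

/-- Linked by a chain above `D`. -/
def Conn (p : ℕ) (𝓕 : Set (Subgroup G)) (D : Subgroup G) : Sylow p G → Sylow p G → Prop :=
  Relation.ReflTransGen (Step p 𝓕 D)

theorem Conn.mono {D D' : Subgroup G} (h : D' ≤ D) {A B : Sylow p G} (hc : Conn p 𝓕 D A B) :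
    Conn p 𝓕 D' A B :=
  Relation.ReflTransGen.mono
    (fun _ _ ⟨X, x, h1, h2, h3, h4, h5⟩ => ⟨X, x, h1, h2, h3, h4, h.trans h5⟩) _ _ hc

theorem conn_of_chain {D : Subgroup G} {n : ℕ} (c : Fin (n + 1) → Sylow p G)
    (hstep : ∀ i : Fin n, Step p 𝓕 D (c i.castSucc) (c i.succ)) :
    ∀ i : Fin (n + 1), Conn p 𝓕 D (c 0) (c i) := by
  intro i
  induction i using Fin.induction with
  | zero => exact Relation.ReflTransGen.refl
  | succ i ih => exact ih.tail (hstep i)

theorem chain_of_conn {D : Subgroup G} {S T : Sylow p G} (h : Conn p 𝓕 D S T) :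
    ∃ (n : ℕ) (c : Fin (n + 1) → Sylow p G) (X : Fin n → Subgroup G) (x : Fin n → G),
      c 0 = S ∧ c (Fin.last n) = T ∧
      ∀ i : Fin n,
        X i ∈ Cfsg.sylowMembers p 𝓕 (c i.castSucc : Subgroup G) ∧
        X i ∈ Cfsg.sylowMembers p 𝓕 (c i.succ : Subgroup G) ∧ x i ∈ X i ∧
        Cfsg.subgroupConjRight (x i) (c i.succ : Subgroup G) = (c i.castSucc : Subgroup G) ∧
        D ≤ (c i.succ : Subgroup G) ⊓ X i := by
  induction h using Relation.ReflTransGen.head_induction_on with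
  | refl => exact ⟨0, fun _ => T, Fin.elim0, Fin.elim0, rfl, rfl, fun i => i.elim0⟩
  | @head A B hAB _ ih =>
    obtain ⟨Y, y, hY⟩ := hAB
    obtain ⟨n, c, X, x, h0, hl, hi⟩ := ih
    refine ⟨n + 1, Fin.cons A c, Fin.cons Y X, Fin.cons y x, rfl, ?_, ?_⟩
    · rw [← Fin.succ_last, Fin.cons_succ, hl]
    · intro i
      induction i using Fin.cases with
      | zero =>
        simp only [Fin.cons_zero, Fin.castSucc_zero, Fin.cons_succ, h0]
        exact hY
      | succ j =>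
        simp only [Fin.cons_succ, ← Fin.succ_castSucc]
        exact hi j

theorem controls_iff : Cfsg.ControlsSylowIntersections p 𝓕 ↔ ∀ S T : Sylow p G, S ≠ T →
    (S : Subgroup G) ⊓ (T : Subgroup G) ≠ ⊥ →
      Conn p 𝓕 ((S : Subgroup G) ⊓ (T : Subgroup G)) S T := by
  constructor
  · intro h S T hne hb
    obtain ⟨n, c, X, x, h0, hl, hi⟩ := h S T hne hb
    have := conn_of_chain c (fun i => ⟨X i, x i, hi i⟩) (Fin.last n)
    rwa [h0, hl] at this
  · exact fun h S T hne hb => chain_of_conn (h S T hne hb)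

theorem member_iff {S X : Subgroup G} :
    X ∈ Cfsg.sylowMembers p 𝓕 S ↔ X ∈ 𝓕 ∧ IsMaxP p (S ⊓ X) X := by
  refine and_congr_right fun _ => ⟨?_, fun h => h.exists_sylow⟩
  rintro ⟨P, hP⟩
  exact hP ▸ sylow_isMaxP P

theorem cj_mem_family (h𝓕 : Cfsg.IsNormalSet 𝓕) {X : Subgroup G} (hX : X ∈ 𝓕) (g : G) :
    cj g X ∈ 𝓕 := by
  have := h𝓕 X hX g⁻¹
  rwa [Cfsg.subgroupConjRight, inv_inv] at this

theorem member_cj [Finite G] (h𝓕 : Cfsg.IsNormalSet 𝓕) {S X : Subgroup G}
    (h : X ∈ Cfsg.sylowMembers p 𝓕 S) (g : G) :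
    cj g X ∈ Cfsg.sylowMembers p 𝓕 (cj g S) := by
  rw [member_iff] at h ⊢
  refine ⟨cj_mem_family h𝓕 h.1 g, ?_⟩
  rw [← cj_inf]
  exact h.2.cj g

theorem Conn.cj [Finite G] [Fact p.Prime] (h𝓕 : Cfsg.IsNormalSet 𝓕) {D : Subgroup G}
    {S T : Sylow p G} (h : Conn p 𝓕 D S T) (g : G) :
    Conn p 𝓕 (LocalEven.cj g D) (g • S) (g • T) := by
  refine Relation.ReflTransGen.lift (fun P : Sylow p G => g • P) ?_ _ _ h
  rintro A B ⟨X, x, h1, h2, h3, h4, h5⟩
  refine ⟨LocalEven.cj g X, g * x * g⁻¹, member_cj h𝓕 h1 g, member_cj h𝓕 h2 g, conj_mem_cj h3,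
    ?_, ?_⟩
  · show LocalEven.cj (g * x * g⁻¹)⁻¹ (LocalEven.cj g B) = LocalEven.cj g A
    rw [← h4]
    show _ = LocalEven.cj g (LocalEven.cj x⁻¹ B)
    rw [cj_cj, cj_cj]
    congr 1
    group
  · have := cj_mono (g := g) h5
    rwa [cj_inf] at this

/-- A member containing two Sylow subgroups links them. -/
theorem step_of_le [Finite G] [Fact p.Prime] {D X : Subgroup G} (hX : X ∈ 𝓕) {A B : Sylow p G}
    (hA : (A : Subgroup G) ≤ X) (hB : (B : Subgroup G) ≤ X) (hD : D ≤ (B : Subgroup G)) :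
    Step p 𝓕 D A B := by
  have hmax : ∀ P : Sylow p G, (P : Subgroup G) ≤ X → IsMaxP p ((P : Subgroup G) ⊓ X) X :=
    fun P hP => by
      rw [inf_of_le_left hP]
      exact ⟨hP, P.isPGroup', fun R hR _ hle => P.is_maximal' hR hle⟩
  obtain ⟨k, hk, hkle⟩ := (hmax A hA).conj_le B.isPGroup' hB
  rw [inf_of_le_left hA] at hkle
  refine ⟨X, k⁻¹, member_iff.mpr ⟨hX, hmax A hA⟩, member_iff.mpr ⟨hX, hmax B hB⟩, inv_mem hk, ?_,
    le_inf hD (hD.trans hB)⟩
  show cj k⁻¹⁻¹ (B : Subgroup G) = A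
  rw [inv_inv]
  refine Subgroup.eq_of_le_of_card_ge hkle ?_
  rw [card_cj, A.card_eq_multiplicity, B.card_eq_multiplicity]

theorem step_same_of_le [Finite G] [Fact p.Prime] {D : Subgroup G} {A B : Sylow p G} (h : A = B) :
    Conn p 𝓕 D A B := h ▸ Relation.ReflTransGen.refl

theorem eq_of_le [Finite G] [Fact p.Prime] {A B : Sylow p G}
    (h : (A : Subgroup G) ≤ (B : Subgroup G)) : A = B :=
  Sylow.ext (Subgroup.eq_of_le_of_card_ge h (by rw [A.card_eq_multiplicity, B.card_eq_multiplicity]))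

/-- A `p`-subgroup of maximal order in a subgroup containing a Sylow subgroup is Sylow. -/
theorem sylow_of_maxP [Finite G] [Fact p.Prime] {U W : Subgroup G} (hU : IsMaxP p U W)
    {S : Sylow p G} (hS : (S : Subgroup G) ≤ W) : ∃ T : Sylow p G, (T : Subgroup G) = U := by
  obtain ⟨T, hT⟩ := hU.2.1.exists_le_sylow
  obtain ⟨k, _, hk⟩ := hU.conj_le S.isPGroup' hS
  refine ⟨T, (Subgroup.eq_of_le_of_card_ge hT ?_).symm⟩
  have := Subgroup.card_le_of_le hk
  rw [card_cj, S.card_eq_multiplicity] at this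
  rwa [T.card_eq_multiplicity]

/-- The intersection of two conjugates of the factors contains a Sylow subgroup. -/
theorem exists_sylow_inf_factor [Finite G] [Fact p.Prime] {G₁ G₂ : Subgroup G} (S : Sylow p G)
    (h₁ : (S : Subgroup G) ≤ G₁) (h₂ : (S : Subgroup G) ≤ G₂)
    (hprod : ∀ g : G, ∃ g₁ ∈ G₁, ∃ g₂ ∈ G₂, g = g₁ * g₂) (a b : G) {D : Subgroup G}
    (hD : IsPGroup p D) (hDa : D ≤ cj a G₁) (hDb : D ≤ cj b G₂) :
    ∃ U : Sylow p G, D ≤ (U : Subgroup G) ∧ (U : Subgroup G) ≤ cj a G₁ ⊓ cj b G₂ := by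
  obtain ⟨g₁, hg₁, g₂, hg₂, he⟩ := hprod (a⁻¹ * b)
  have hS : (((a * g₁) • S : Sylow p G) : Subgroup G) ≤ cj a G₁ ⊓ cj b G₂ := by
    show cj (a * g₁) (S : Subgroup G) ≤ _
    have hb : b = a * g₁ * g₂ := by rw [mul_assoc, ← he, mul_inv_cancel_left]
    refine le_inf ?_ ?_
    · refine (cj_mono h₁).trans (le_of_eq ?_)
      rw [← cj_cj, cj_eq_self_iff.mpr (Subgroup.le_normalizer hg₁)]
    · refine (cj_mono h₂).trans (le_of_eq ?_)
      rw [hb, ← cj_cj (a * g₁) g₂, cj_eq_self_iff.mpr (Subgroup.le_normalizer hg₂)]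
  obtain ⟨U, hU, hDU⟩ := exists_isMaxP_le hD (le_inf hDa hDb)
  obtain ⟨T, hT⟩ := sylow_of_maxP hU hS
  exact ⟨T, hT ▸ hDU, hT ▸ hU.1⟩

/-- Chain-connected families generate, with the Sylow normalizer. -/
theorem generation [Finite G] [Fact p.Prime] (h𝓕 : Cfsg.IsNormalSet 𝓕)
    (hc : Cfsg.ControlsSylowIntersections p 𝓕) (hconn : Cfsg.IsSylowChainConnected p G)
    (S : Sylow p G) :
    (⨆ X ∈ Cfsg.sylowMembers p 𝓕 (S : Subgroup G), X) ⊔
      Subgroup.normalizer ((S : Subgroup G) : Set G) = ⊤ := by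
  set H := (⨆ X ∈ Cfsg.sylowMembers p 𝓕 (S : Subgroup G), X) ⊔
      Subgroup.normalizer ((S : Subgroup G) : Set G)
  have key : ∀ {D : Subgroup G} {A B : Sylow p G}, Conn p 𝓕 D A B →
      (∃ h ∈ H, (A : Subgroup G) = cj h S) → ∃ h ∈ H, (B : Subgroup G) = cj h S := by
    intro D A B hAB hA
    induction hAB with
    | refl => exact hA
    | @tail U V _ hUV ih =>
      obtain ⟨h, hh, hU⟩ := ih
      obtain ⟨X, x, h1, -, hx, h4, -⟩ := hUV
      have hY := member_cj h𝓕 h1 h⁻¹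
      rw [hU, cj_cj, inv_mul_cancel, cj_one] at hY
      have hYH : cj h⁻¹ X ≤ H :=
        le_trans (le_iSup₂_of_le (cj h⁻¹ X) hY le_rfl) le_sup_left
      have hy := hYH (conj_mem_cj hx)
      rw [inv_inv] at hy
      have hxH : x ∈ H := by
        have h' := H.mul_mem (H.mul_mem hh hy) (H.inv_mem hh)
        simpa [mul_assoc] using h'
      refine ⟨x * h, H.mul_mem hxH hh, ?_⟩
      rw [← cj_cj, ← hU, ← h4]
      show _ = cj x (cj x⁻¹ (V : Subgroup G))
      rw [cj_cj, mul_inv_cancel, cj_one]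
  refine top_le_iff.mp fun g _ => ?_
  obtain ⟨n, c, h0, hl, -, hstep⟩ := hconn S (g • S)
  have hall : ∀ i : Fin (n + 1), ∃ h ∈ H, (c i : Subgroup G) = cj h S := by
    intro i
    induction i using Fin.induction with
    | zero => exact ⟨1, H.one_mem, by rw [h0, cj_one]⟩
    | succ i ih => exact key (controls_iff.mp hc _ _ (hstep i).1 (hstep i).2) ih
  obtain ⟨h, hh, he⟩ := hall (Fin.last n)
  rw [hl] at he
  have hgh : h⁻¹ * g ∈ Subgroup.normalizer ((S : Subgroup G) : Set G) := cj_eq_iff.mp he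
  have := H.mul_mem hh (Subgroup.mem_sup_right hgh : h⁻¹ * g ∈ H)
  rwa [mul_inv_cancel_left] at this

/-- Membership of `x` in the subgroup obtained by right conjugation. -/
theorem conjRight_subset_cj {A : Set G} {g : G} {H : Subgroup G}
    (hA : A ⊆ (cj g H : Subgroup G)) : Cfsg.conjRight g A ⊆ (H : Set G) := by
  rintro _ ⟨a, ha, rfl⟩
  exact mem_cj.mp (hA ha)

theorem conjRight_mul (a b : G) (A : Set G) :
    Cfsg.conjRight (a * b) A = Cfsg.conjRight b (Cfsg.conjRight a A) := by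
  rw [Cfsg.conjRight, Cfsg.conjRight, Cfsg.conjRight, Set.image_image]
  exact Set.image_congr fun x _ => by group

theorem factorize [Finite G] [Fact p.Prime] (h𝓕 : Cfsg.IsNormalSet 𝓕) (S : Sylow p G)
    {D : Subgroup G} {U V : Sylow p G} (hc : Conn p 𝓕 D U V) :
    ∀ (A : Set G) (h : G), A ⊆ (D : Set G) → (U : Subgroup G) = cj h S →
      ∃ (n : ℕ) (Y : Fin n → Subgroup G) (y : Fin n → G),
        (∀ i : Fin n, Y i ∈ Cfsg.sylowMembers p 𝓕 (S : Subgroup G) ∧ y i ∈ Y i) ∧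
        (V : Subgroup G) = cj (h * (List.ofFn y).prod) S ∧
        ∀ i : Fin n, Cfsg.conjRight (h * ((List.ofFn y).take (i.val + 1)).prod) A ⊆
          (S : Set G) ∩ (Y i : Set G) := by
  induction hc using Relation.ReflTransGen.head_induction_on with
  | refl =>
    intro A h _ hU
    exact ⟨0, Fin.elim0, Fin.elim0, fun i => i.elim0, by simpa using hU, fun i => i.elim0⟩
  | @head U W hUW _ ih =>
    intro A h hA hU
    obtain ⟨X, x, h1, -, hx, h4, h5⟩ := hUW
    have hW : (W : Subgroup G) = cj (x * h) S := by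
      rw [← cj_cj, ← hU, ← h4]
      show _ = cj x (cj x⁻¹ (W : Subgroup G))
      rw [cj_cj, mul_inv_cancel, cj_one]
    obtain ⟨n, Y, y, hm, hV, ht⟩ := ih A (x * h) hA hW
    have hY := member_cj h𝓕 h1 h⁻¹
    rw [hU, cj_cj, inv_mul_cancel, cj_one] at hY
    have hy0 : h⁻¹ * x * h ∈ cj h⁻¹ X := by
      have := conj_mem_cj (g := h⁻¹) hx
      rwa [inv_inv] at this
    have hprod : ∀ z : G, h * (h⁻¹ * x * h * z) = x * h * z := fun z => by group
    refine ⟨n + 1, Fin.cons (cj h⁻¹ X) Y, Fin.cons (h⁻¹ * x * h) y, ?_, ?_, ?_⟩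
    · intro i
      induction i using Fin.cases with
      | zero => exact ⟨hY, hy0⟩
      | succ j => simpa only [Fin.cons_succ] using hm j
    · simpa [List.ofFn_succ, hprod] using hV
    · intro i
      induction i using Fin.cases with
      | zero =>
        simp only [List.ofFn_succ, Fin.cons_zero, Fin.val_zero, zero_add, List.take_succ_cons,
          List.take_zero, List.prod_cons, List.prod_nil]
        rw [hprod 1, mul_one]
        rintro _ ⟨a, ha, rfl⟩
        have ha' := h5 (hA ha)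
        refine ⟨mem_cj.mp (hW ▸ ha'.1), ?_⟩
        show (x * h)⁻¹ * a * (x * h) ∈ cj h⁻¹ X
        rw [mem_cj, show h⁻¹⁻¹ * ((x * h)⁻¹ * a * (x * h)) * h⁻¹ = x⁻¹ * a * x by group]
        exact X.mul_mem (X.mul_mem (X.inv_mem hx) ha'.2) hx
      | succ j => simpa [List.ofFn_succ, hprod] using ht j

/-- Control of Sylow intersections is strong control of fusion. -/
theorem controls_iff_stronglyControls [Finite G] [Fact p.Prime] (h𝓕 : Cfsg.IsNormalSet 𝓕) :
    Cfsg.ControlsSylowIntersections p 𝓕 ↔ Cfsg.FamilyStronglyControlsFusion p 𝓕 := by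
  constructor
  · intro hc S A g hAS hA1 hgA
    by_cases hST : (g • S : Sylow p G) = S
    · exact ⟨0, Fin.elim0, Fin.elim0, g,
        cj_eq_self_iff.mp (congrArg (fun P : Sylow p G => (P : Subgroup G)) hST),
        fun i => i.elim0, by simp, fun i => i.elim0⟩
    have hAD : A ⊆ (((S : Subgroup G) ⊓ ((g • S : Sylow p G) : Subgroup G) : Subgroup G) : Set G) :=
      fun a ha => ⟨hAS ha, show a ∈ cj g (S : Subgroup G) from mem_cj.mpr (hgA ⟨a, ha, rfl⟩)⟩
    obtain ⟨a, ha, ha1⟩ := hA1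
    have hb : (S : Subgroup G) ⊓ ((g • S : Sylow p G) : Subgroup G) ≠ ⊥ := fun h =>
      ha1 (Subgroup.mem_bot.mp (h ▸ hAD ha))
    obtain ⟨n, Y, y, hm, hV, ht⟩ := factorize h𝓕 S (controls_iff.mp hc S _ (Ne.symm hST) hb) A 1
      hAD (cj_one _).symm
    simp only [one_mul] at hV ht
    exact ⟨n, Y, y, (List.ofFn y).prod⁻¹ * g, cj_eq_iff.mp hV, hm,
      (mul_inv_cancel_left _ _).symm, ht⟩
  · intro hf
    rw [controls_iff]
    intro S T hne hb
    obtain ⟨g, rfl⟩ := MulAction.exists_smul_eq G S T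
    set D := (S : Subgroup G) ⊓ ((g • S : Sylow p G) : Subgroup G)
    obtain ⟨a, ha, ha1⟩ : ∃ a ∈ D, a ≠ 1 := by
      by_contra hcon
      push Not at hcon
      exact hb ((Subgroup.eq_bot_iff_forall _).mpr hcon)
    obtain ⟨n, Y, y, y₀, hy₀, hm, hg, ht⟩ := hf S (D : Set G) g inf_le_left ⟨a, ha, ha1⟩
      (conjRight_subset_cj (inf_le_right : D ≤ _))
    set q : ℕ → G := fun i => ((List.ofFn y).take i).prod
    have hq : ∀ i : Fin n, q (i.val + 1) = q i.val * y i := fun i => by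
      show ((List.ofFn y).take (i.val + 1)).prod = ((List.ofFn y).take i.val).prod * y i
      rw [List.prod_take_succ (List.ofFn y) i.val (by simp), List.getElem_ofFn]
    let c : Fin (n + 1) → Sylow p G := fun i => q i.val • S
    have hstep : ∀ i : Fin n, Step p 𝓕 D (c i.castSucc) (c i.succ) := by
      intro i
      have h2 : cj (q i.val) (Y i) = cj (q (i.val + 1)) (Y i) := by
        rw [hq, ← cj_cj, cj_eq_self_iff.mpr (Subgroup.le_normalizer (hm i).2)]
      refine ⟨cj (q i.val) (Y i), q i.val * y i * (q i.val)⁻¹, member_cj h𝓕 (hm i).1 _, ?_,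
        conj_mem_cj (hm i).2, ?_, ?_⟩
      · rw [h2]
        exact member_cj h𝓕 (hm i).1 _
      · show cj (q i.val * y i * (q i.val)⁻¹)⁻¹ (cj (q (i.val + 1)) (S : Subgroup G)) =
          cj (q i.val) (S : Subgroup G)
        rw [cj_cj, hq]
        congr 1
        group
      · intro d hd
        have hd' := ht i ⟨d, hd, rfl⟩
        refine ⟨show d ∈ cj (q (i.val + 1)) (S : Subgroup G) from mem_cj.mpr hd'.1, ?_⟩
        rw [h2]
        exact mem_cj.mpr hd'.2
    have h := conn_of_chain c hstep (Fin.last n)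
    have h0 : c 0 = S := by simp [c, q]
    have hl : c (Fin.last n) = g • S := by
      show q n • S = g • S
      have : q n = (List.ofFn y).prod := by simp [q, List.take_of_length_le]
      rw [this, hg, mul_smul]
      congr 1
      exact Sylow.ext (cj_eq_self_iff.mpr hy₀).symm
    rwa [h0, hl] at h

/-! ### The family induced by a normalizer functor -/

variable {f : Subgroup G → Set (Subgroup G)}

theorem mem_functorFamily_top {X : Subgroup G} [Finite G] [Fact p.Prime] :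
    X ∈ Cfsg.functorFamily p f ⊤ ↔
      ∃ P : Sylow p G, ∃ F ∈ f (P : Subgroup G), X = Subgroup.normalizer (F : Set G) := by
  constructor
  · rintro ⟨P, F, hF, rfl⟩
    obtain ⟨Q, hQ⟩ := sylow_of_maxP (sylow_isMaxP P) (S := (default : Sylow p G)) le_top
    exact ⟨Q, F, hQ ▸ hF, by rw [top_inf_eq]⟩
  · rintro ⟨P, F, hF, rfl⟩
    obtain ⟨Q, hQ⟩ := IsMaxP.exists_sylow (show IsMaxP p (P : Subgroup G) ⊤ from
      ⟨le_top, P.isPGroup', fun R hR _ hle => P.is_maximal' hR hle⟩)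
    exact ⟨Q, F, hQ.symm ▸ hF, by rw [top_inf_eq]⟩

theorem functorFamily_normal [Finite G] [Fact p.Prime] (hf : Cfsg.IsNormalizerFunctor p f) :
    Cfsg.IsNormalSet (Cfsg.functorFamily p f ⊤) := by
  intro X hX g
  obtain ⟨P, F, hF, rfl⟩ := mem_functorFamily_top.mp hX
  refine mem_functorFamily_top.mpr ⟨g⁻¹ • P, cj g⁻¹ F, ?_, cj_normalizer g⁻¹ F⟩
  show cj g⁻¹ F ∈ f ((P : Subgroup G).map (MulAut.conj g⁻¹).toMonoidHom)
  rw [(hf _ P.isPGroup').2 g⁻¹]
  exact ⟨F, hF, rfl⟩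

/-- Chains inside a regular subgroup. -/
theorem regular_lift [Finite G] [Fact p.Prime] (hf : Cfsg.IsNormalizerFunctor p f) {M : Subgroup G}
    (hr : Cfsg.IsFunctorRegular p f M) {D : Subgroup G} (hD1 : D ≠ ⊥)
    (hbase : ∀ A : Subgroup G, IsMaxP p A M → D ≤ A → ∀ R R' : Sylow p G, A ≤ (R : Subgroup G) →
      A ≤ (R' : Subgroup G) → Conn p 𝓕 D R R')
    (hlink : ∀ A B P : Subgroup G, IsMaxP p A M → IsMaxP p B M → IsMaxP p P M → D ≤ A → D ≤ B →
      ∀ F ∈ f P, A ≤ Subgroup.normalizer (F : Set G) → B ≤ Subgroup.normalizer (F : Set G) →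
      ∀ R R' : Sylow p G, A ≤ (R : Subgroup G) → B ≤ (R' : Subgroup G) → Conn p 𝓕 D R R')
    {A B : Subgroup G} (hA : IsMaxP p A M) (hB : IsMaxP p B M) (hDA : D ≤ A) (hDB : D ≤ B)
    {R R' : Sylow p G} (hR : A ≤ (R : Subgroup G)) (hR' : B ≤ (R' : Subgroup G)) :
    Conn p 𝓕 D R R' := by
  obtain ⟨a, rfl⟩ := hA.exists_sylow
  obtain ⟨b, rfl⟩ := hB.exists_sylow
  by_cases hab : a = b
  · subst hab; exact hbase _ hA hDA R R' hR hR'
  have hb : (a : Subgroup M) ⊓ (b : Subgroup M) ≠ ⊥ := by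
    intro h
    refine hD1 ((Subgroup.eq_bot_iff_forall _).mpr fun d hd => ?_)
    obtain ⟨x, hx, rfl⟩ := hDA hd
    obtain ⟨y, hy, hyx⟩ := hDB hd
    have hxy : y = x := Subtype.ext hyx
    subst hxy
    have : y ∈ (⊥ : Subgroup M) := h ▸ ⟨hx, hy⟩
    rw [Subgroup.mem_bot] at this
    rw [this]; rfl
  have hDab : D ≤ ((a : Subgroup M) ⊓ (b : Subgroup M)).map M.subtype := by
    rw [Subgroup.map_inf _ _ _ M.subtype_injective]; exact le_inf hDA hDB
  have hc := controls_iff.mp hr a b hab hb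
  suffices key : ∀ (c : Sylow p M), Conn p
      ((fun X : Subgroup G => X.subgroupOf M) '' Cfsg.functorFamily p f M)
      ((a : Subgroup M) ⊓ (b : Subgroup M)) a c → D ≤ (c : Subgroup M).map M.subtype ∧
      ∀ Q : Sylow p G, (c : Subgroup M).map M.subtype ≤ (Q : Subgroup G) → Conn p 𝓕 D R Q from
    (key b hc).2 R' hR'
  intro c hc
  induction hc with
  | refl => exact ⟨hDA, fun Q hQ => hbase _ hA hDA R Q hR hQ⟩
  | @tail U V _ hUV ih =>
    obtain ⟨Z, z, hU, hV, -, -, h5⟩ := hUV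
    have hDV : D ≤ (V : Subgroup M).map M.subtype :=
      hDab.trans (Subgroup.map_mono (h5.trans inf_le_left))
    refine ⟨hDV, fun Q hQ => ?_⟩
    obtain ⟨⟨_, ⟨P, F, hF, rfl⟩, rfl⟩, -⟩ := id hU
    set Z' := (M ⊓ Subgroup.normalizer (F : Set G)).subgroupOf M
    have hPZ : (P : Subgroup M) ≤ Z' := fun x hx => ⟨x.2,
      ((hf _ (P.isPGroup'.map M.subtype)).1 F hF).2
        (Subgroup.le_normalizer (Subgroup.mem_map_of_mem _ hx))⟩
    have hall : ∀ W : Sylow p M, Z' ∈ Cfsg.sylowMembers p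
        ((fun X : Subgroup G => X.subgroupOf M) '' Cfsg.functorFamily p f M) (W : Subgroup M) →
        (W : Subgroup M).map M.subtype ≤ Subgroup.normalizer (F : Set G) := by
      intro W hW
      obtain ⟨k, _, hk⟩ := (member_iff.mp hW).2.conj_le P.isPGroup' hPZ
      have hWZ : (W : Subgroup M) ⊓ Z' = W := Subgroup.eq_of_le_of_card_ge inf_le_left (by
        have := Subgroup.card_le_of_le hk
        rw [card_cj, P.card_eq_multiplicity] at this
        rwa [W.card_eq_multiplicity])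
      rintro _ ⟨x, hx, rfl⟩
      exact (show x ∈ Z' from (inf_eq_left.mp hWZ) hx).2
    obtain ⟨Q₀, hQ₀⟩ := (U.isPGroup'.map M.subtype).exists_le_sylow
    exact (ih.2 Q₀ hQ₀).trans (hlink _ _ _ (sylow_isMaxP U) (sylow_isMaxP V) (sylow_isMaxP P) ih.1 hDV
      F hF (hall U hU) (hall V hV) Q₀ Q hQ₀ hQ)

/-- Regularity of two factors gives regularity of the product. -/
theorem factor_regular [Finite G] [Fact p.Prime] (hf : Cfsg.IsNormalizerFunctor p f)
    (S : Sylow p G) {G₁ G₂ : Subgroup G} (h₁ : (S : Subgroup G) ≤ G₁) (h₂ : (S : Subgroup G) ≤ G₂)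
    (hprod : ∀ g : G, ∃ g₁ ∈ G₁, ∃ g₂ ∈ G₂, g = g₁ * g₂)
    (hr₁ : Cfsg.IsFunctorRegular p f G₁) (hr₂ : Cfsg.IsFunctorRegular p f G₂) :
    Cfsg.ControlsSylowIntersections p (Cfsg.functorFamily p f ⊤) := by
  have hn := functorFamily_normal hf
  have hpart : ∀ H : Subgroup G, (S : Subgroup G) ≤ H → Cfsg.IsFunctorRegular p f H →
      ∀ a : G, ∀ R R' : Sylow p G, (R : Subgroup G) ≤ cj a H → (R' : Subgroup G) ≤ cj a H →
      ∀ D : Subgroup G, D ≠ ⊥ → D ≤ (R : Subgroup G) → D ≤ (R' : Subgroup G) →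
        Conn p (Cfsg.functorFamily p f ⊤) D R R' := by
    intro H hS hr a R R' hR hR' D hD1 hDR hDR'
    have hfull : ∀ A : Subgroup G, IsMaxP p A H → ∀ Q : Sylow p G, A ≤ (Q : Subgroup G) →
        (Q : Subgroup G) = A := fun A hA Q hQ => by
      obtain ⟨T, rfl⟩ := sylow_of_maxP hA hS
      rw [eq_of_le hQ]
    have hback : ∀ {X : Subgroup G}, X ≤ cj a H → cj a⁻¹ X ≤ H := fun h => by
      have := cj_mono (g := a⁻¹) h
      rwa [cj_cj, inv_mul_cancel, cj_one] at this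
    have hmax : ∀ Q : Sylow p G, (Q : Subgroup G) ≤ H → IsMaxP p (Q : Subgroup G) H := fun Q hQ =>
      ⟨hQ, Q.isPGroup', fun P hP _ hle => Q.is_maximal' hP hle⟩
    have h := regular_lift (𝓕 := Cfsg.functorFamily p f ⊤) hf hr (D := cj a⁻¹ D) ?_ ?_ ?_
      (hmax (a⁻¹ • R) (hback hR)) (hmax (a⁻¹ • R') (hback hR')) (cj_mono hDR) (cj_mono hDR')
      le_rfl le_rfl
    · have := h.cj hn a
      rwa [cj_cj, mul_inv_cancel, cj_one, smul_inv_smul, smul_inv_smul] at this
    · intro h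
      refine hD1 ?_
      have := congrArg (cj a) h
      rwa [cj_cj, mul_inv_cancel, cj_one, cj, Subgroup.map_bot] at this
    · intro A hA _ Q Q' hQ hQ'
      exact step_same_of_le (eq_of_le (by rw [hfull A hA Q hQ]; exact hQ'))
    · intro A B P hA hB hP _ hDB F hF hAF hBF Q Q' hQ hQ'
      obtain ⟨P', rfl⟩ := sylow_of_maxP hP hS
      refine Relation.ReflTransGen.single (step_of_le (mem_functorFamily_top.mpr ⟨P', F, hF, rfl⟩)
        ?_ ?_ (hDB.trans hQ'))
      · rw [hfull A hA Q hQ]; exact hAF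
      · rw [hfull B hB Q' hQ']; exact hBF
  rw [controls_iff]
  intro R R' _ hb
  obtain ⟨a, rfl⟩ := MulAction.exists_smul_eq G S R
  obtain ⟨b, rfl⟩ := MulAction.exists_smul_eq G S R'
  have ha : ((a • S : Sylow p G) : Subgroup G) ≤ cj a G₁ := cj_mono h₁
  have hb' : ((b • S : Sylow p G) : Subgroup G) ≤ cj b G₂ := cj_mono h₂
  obtain ⟨U, hDU, hU⟩ := exists_sylow_inf_factor S h₁ h₂ hprod a b
    ((a • S).isPGroup'.to_le inf_le_left) (inf_le_left.trans ha) (inf_le_right.trans hb')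
  exact (hpart G₁ h₁ hr₁ a _ U ha (hU.trans inf_le_left) _ hb inf_le_left hDU).trans
    (hpart G₂ h₂ hr₂ b U _ (hU.trans inf_le_right) hb' _ hb hDU inf_le_right)

theorem exists_isMaximalPLocal_ge [Finite G] {N : Subgroup G} (hN : Cfsg.IsPLocal p N) :
    ∃ M : Subgroup G, Cfsg.IsMaximalPLocal p M ∧ N ≤ M := by
  obtain ⟨M, hle, hM, hmax⟩ := (Set.toFinite {M : Subgroup G | Cfsg.IsPLocal p M}).exists_le_maximal
    (a := N) hN
  exact ⟨M, ⟨hM, fun L hL hML => le_antisymm (hmax hL hML) hML⟩, hle⟩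

theorem normalizer_grows [Finite G] [Fact p.Prime] {Q P : Subgroup G} (hQ : IsPGroup p Q)
    (hPQ : P ≤ Q) (hne : P ≠ Q) :
    Nat.card P < Nat.card ↥(Q ⊓ Subgroup.normalizer (P : Set G)) := by
  by_contra h
  exact hne (eq_of_normalizer_le hQ hPQ
    (Subgroup.eq_of_le_of_card_ge (le_inf hPQ Subgroup.le_normalizer) (not_lt.mp h)).ge)

/-- The normalizers of the functor together with the singular maximal locals control. -/
theorem singular_control [Finite G] [Fact p.Prime] (hf : Cfsg.IsNormalizerFunctor p f)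
    (hf1 : ∀ P : Subgroup G, IsPGroup p ↥P → P ≠ ⊥ → ∀ F ∈ f P, F ≠ ⊥) :
    Cfsg.ControlsSylowIntersections p (Cfsg.functorFamily p f ⊤ ∪
      {M | Cfsg.IsMaximalPLocal p M ∧ ¬ Cfsg.IsFunctorRegular p f M}) := by
  set 𝓖 := Cfsg.functorFamily p f ⊤ ∪
      {M | Cfsg.IsMaximalPLocal p M ∧ ¬ Cfsg.IsFunctorRegular p f M}
  suffices main : ∀ n, ∀ D : Subgroup G, Nat.card G - Nat.card D = n → D ≠ ⊥ →
      ∀ R R' : Sylow p G, D = (R : Subgroup G) ⊓ (R' : Subgroup G) → Conn p 𝓖 D R R' from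
    controls_iff.mpr fun S T _ hb => main _ _ rfl hb S T rfl
  intro n
  induction n using Nat.strong_induction_on with
  | _ n ih =>
  intro D hn hD1 S T hDST
  by_cases hST : S = T
  · exact step_same_of_le hST
  have outer : ∀ R R' : Sylow p G, D ≤ (R : Subgroup G) ⊓ (R' : Subgroup G) →
      Nat.card D < Nat.card ↥((R : Subgroup G) ⊓ (R' : Subgroup G)) → Conn p 𝓖 D R R' := by
    intro R R' hle hlt
    refine Conn.mono hle (ih _ ?_ _ rfl ?_ R R' rfl)
    · have := Subgroup.card_le_card_group ((R : Subgroup G) ⊓ (R' : Subgroup G)); omega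
    · intro h; exact hD1 (le_bot_iff.mp (h ▸ hle))
  have meet : ∀ A : Subgroup G, D ≤ A → Nat.card D < Nat.card A → ∀ R R' : Sylow p G,
      A ≤ (R : Subgroup G) → A ≤ (R' : Subgroup G) → Conn p 𝓖 D R R' := fun A hDA hlt R R' hR hR' =>
    outer R R' (hDA.trans (le_inf hR hR')) (hlt.trans_le (Subgroup.card_le_of_le (le_inf hR hR')))
  -- all pairs of Sylow subgroups of a maximal local subgroup
  have claim : ∀ m, ∀ M A B : Subgroup G, Cfsg.IsMaximalPLocal p M → IsMaxP p A M → IsMaxP p B M →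
      D ≤ A → D ≤ B → Nat.card D < Nat.card A → Nat.card G - Nat.card A = m →
      ∀ R R' : Sylow p G, A ≤ (R : Subgroup G) → B ≤ (R' : Subgroup G) → Conn p 𝓖 D R R' := by
    intro m
    induction m using Nat.strong_induction_on with
    | _ m ihm =>
    intro M A B hM hA hB hDA hDB hlt hm R R' hR hR'
    have hcard : ∀ P : Subgroup G, IsMaxP p P M → Nat.card P = Nat.card A := by
      intro P hP
      obtain ⟨k, _, hk⟩ := hA.conj_le hP.2.1 hP.1
      obtain ⟨k', _, hk'⟩ := hP.conj_le hA.2.1 hA.1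
      have h1 := Subgroup.card_le_of_le hk
      have h2 := Subgroup.card_le_of_le hk'
      rw [card_cj] at h1 h2
      omega
    by_cases hreg : Cfsg.IsFunctorRegular p f M
    · refine regular_lift hf hreg hD1 (fun C hC hDC => meet C hDC (by rw [hcard C hC]; exact hlt))
        ?_ hA hB hDA hDB hR hR'
      intro C E P hC hE hP hDC hDE F hF hCF hEF Q Q' hQ hQ'
      obtain ⟨P', hP'⟩ := hP.2.1.exists_le_sylow
      by_cases hfull : P = (P' : Subgroup G)
      · have hsz : ∀ X : Subgroup G, IsMaxP p X M → ∀ U : Sylow p G, X ≤ (U : Subgroup G) →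
            (U : Subgroup G) = X := fun X hX U hU => (Subgroup.eq_of_le_of_card_ge hU (by
              rw [U.card_eq_multiplicity, ← P'.card_eq_multiplicity, ← hfull, hcard X hX,
                hcard P hP])).symm
        refine Relation.ReflTransGen.single (step_of_le (X := Subgroup.normalizer (F : Set G))
          (Or.inl (mem_functorFamily_top.mpr ⟨P', F, hfull ▸ hF, rfl⟩)) ?_ ?_ (hDE.trans hQ'))
        · rw [hsz C hC Q hQ]; exact hCF
        · rw [hsz E hE Q' hQ']; exact hEF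
      · have hPne : P ≠ ⊥ := fun h => by
          have := hcard P hP
          rw [h, Subgroup.card_bot] at this
          have hD0 := Nat.card_pos (α := D)
          omega
        have hloc : Cfsg.IsPLocal p (Subgroup.normalizer (F : Set G)) :=
          ⟨F, hP.2.1.to_le ((hf P hP.2.1).1 F hF).1, hf1 P hP.2.1 hPne F hF, rfl⟩
        obtain ⟨M', hM', hFM'⟩ := exists_isMaximalPLocal_ge hloc
        obtain ⟨C', hC', hCC'⟩ := exists_isMaxP_le hC.2.1 (hCF.trans hFM')
        obtain ⟨E', hE', hEE'⟩ := exists_isMaxP_le hE.2.1 (hEF.trans hFM')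
        obtain ⟨k, _, hk⟩ := hC'.conj_le (P'.isPGroup'.to_le
            (inf_le_left : (P' : Subgroup G) ⊓ Subgroup.normalizer (P : Set G) ≤ P'))
          (inf_le_right.trans (((hf P hP.2.1).1 F hF).2.trans hFM'))
        have hbig := normalizer_grows P'.isPGroup' hP' hfull
        have hk' := Subgroup.card_le_of_le hk
        rw [card_cj] at hk'
        rw [hcard P hP] at hbig
        obtain ⟨U, hU⟩ := hC'.2.1.exists_le_sylow
        obtain ⟨V, hV⟩ := hE'.2.1.exists_le_sylow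
        have hlt' : ∀ X : Subgroup G, IsMaxP p X M → Nat.card D < Nat.card X := fun X hX => by
          rw [hcard X hX]; exact hlt
        have hle' := Subgroup.card_le_card_group C'
        refine ((meet C hDC (hlt' C hC) Q U hQ (hCC'.trans hU)).trans
          (ihm (Nat.card G - Nat.card C') (by omega) M' C' E' hM' hC' hE' (hDC.trans hCC')
            (hDE.trans hEE') (by omega) rfl U V hU hV)).trans
          (meet E hDE (hlt' E hE) V Q' (hEE'.trans hV) hQ')
    · obtain ⟨k, hk, hkle⟩ := hA.conj_le hB.2.1 hB.1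
      have heq : cj k B = A := Subgroup.eq_of_le_of_card_ge hkle
        (by rw [card_cj, hcard B hB])
      have hR'' : A ≤ ((k • R' : Sylow p G) : Subgroup G) := heq ▸ cj_mono hR'
      refine (meet A hDA hlt R (k • R') hR hR'').tail ⟨M, k⁻¹, ?_, ?_, inv_mem hk, ?_,
        le_inf (hDB.trans hR') (hDB.trans hB.1)⟩
      · refine member_iff.mpr ⟨Or.inr ⟨hM, hreg⟩, ?_⟩
        rwa [hA.2.2 _ ((k • R').isPGroup'.to_le inf_le_left) inf_le_right (le_inf hR'' hA.1)]
      · refine member_iff.mpr ⟨Or.inr ⟨hM, hreg⟩, ?_⟩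
        rwa [hB.2.2 _ (R'.isPGroup'.to_le inf_le_left) inf_le_right (le_inf hR' hB.1)]
      · show cj k⁻¹⁻¹ (R' : Subgroup G) = cj k (R' : Subgroup G)
        rw [inv_inv]
  have hDp : IsPGroup p D := S.isPGroup'.to_le (hDST.le.trans inf_le_left)
  obtain ⟨M, hM, hNM⟩ := exists_isMaximalPLocal_ge (p := p) ⟨D, hDp, hD1, rfl⟩
  have hgrow : ∀ R : Sylow p G, D ≤ (R : Subgroup G) → D ≠ (R : Subgroup G) → ∃ A : Subgroup G,
      IsMaxP p A M ∧ D ≤ A ∧ Nat.card D < Nat.card A ∧ ∃ Q : Sylow p G, A ≤ (Q : Subgroup G) ∧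
        Conn p 𝓖 D R Q ∧ Conn p 𝓖 D Q R := by
    intro R hDR hne
    obtain ⟨A, hA, hle⟩ := exists_isMaxP_le
      (R.isPGroup'.to_le (inf_le_left : (R : Subgroup G) ⊓ Subgroup.normalizer (D : Set G) ≤ R))
      (inf_le_right.trans hNM)
    obtain ⟨Q, hQ⟩ := hA.2.1.exists_le_sylow
    have h1 : D ≤ (R : Subgroup G) ⊓ Subgroup.normalizer (D : Set G) :=
      le_inf hDR Subgroup.le_normalizer
    have h2 := normalizer_grows R.isPGroup' hDR hne
    exact ⟨A, hA, h1.trans hle, h2.trans_le (Subgroup.card_le_of_le hle), Q, hQ,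
      meet _ h1 h2 R Q inf_le_left (hle.trans hQ), meet _ h1 h2 Q R (hle.trans hQ) inf_le_left⟩
  obtain ⟨A, hA, hDA, hlt, U, hU, hSU, -⟩ := hgrow S (hDST.le.trans inf_le_left)
    (fun h => hST (eq_of_le (h.symm.le.trans (hDST.le.trans inf_le_right))))
  obtain ⟨B, hB, hDB, -, V, hV, -, hVT⟩ := hgrow T (hDST.le.trans inf_le_right)
    (fun h => hST (eq_of_le (h.symm.le.trans (hDST.le.trans inf_le_left))).symm)
  exact (hSU.trans (claim _ M A B hM hA hB hDA hDB hlt rfl U V hU hV)).trans hVT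

/-- Chains transfer to the whole group viewed as a subgroup. -/
theorem restrict_top [Finite G] [Fact p.Prime] {D : Subgroup G}
    {D₀ : Subgroup (⊤ : Subgroup G)} {A B : Sylow p G} {A₀ B₀ : Sylow p (⊤ : Subgroup G)}
    (h : Conn p 𝓕 D A B) (hD : D₀.map (⊤ : Subgroup G).subtype = D)
    (hA : (A : Subgroup G) = (A₀ : Subgroup (⊤ : Subgroup G)).map (⊤ : Subgroup G).subtype)
    (hB : (B : Subgroup G) = (B₀ : Subgroup (⊤ : Subgroup G)).map (⊤ : Subgroup G).subtype) :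
    Conn p ((fun X : Subgroup G => X.subgroupOf ⊤) '' 𝓕) D₀ A₀ B₀ := by
  have hinj := Subgroup.map_injective (⊤ : Subgroup G).subtype_injective
  let φ : Sylow p G → Sylow p (⊤ : Subgroup G) := fun Q => Q.subtype le_top
  have hφ : ∀ Q : Sylow p G, ((φ Q : Subgroup (⊤ : Subgroup G))).map (⊤ : Subgroup G).subtype = Q :=
    fun Q => by
      show ((Q : Subgroup G).subgroupOf ⊤).map (⊤ : Subgroup G).subtype = Q
      rw [Subgroup.subgroupOf_map_subtype, inf_top_eq]
  have eA : φ A = A₀ := Sylow.ext (hinj ((hφ A).trans hA))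
  have eB : φ B = B₀ := Sylow.ext (hinj ((hφ B).trans hB))
  rw [← eA, ← eB]
  refine Relation.ReflTransGen.lift φ ?_ _ _ h
  have hmem : ∀ (Q : Sylow p G) (X : Subgroup G), X ∈ Cfsg.sylowMembers p 𝓕 (Q : Subgroup G) →
      X.subgroupOf ⊤ ∈ Cfsg.sylowMembers p ((fun X : Subgroup G => X.subgroupOf ⊤) '' 𝓕)
        (φ Q : Subgroup (⊤ : Subgroup G)) := by
    intro Q X hX
    rw [member_iff] at hX ⊢
    refine ⟨⟨X, hX.1, rfl⟩, inf_le_right, (φ Q).isPGroup'.to_le inf_le_left, fun R hR hRX hle => ?_⟩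
    refine le_antisymm (fun r hr => ?_) hle
    have h := hX.2.2.2 (R.map (⊤ : Subgroup G).subtype) (hR.map _)
      (fun _ ⟨r, hr, e⟩ => e ▸ hRX hr) (fun x hx =>
        ⟨⟨x, Subgroup.mem_top x⟩, hle ⟨hx.1, hx.2⟩, rfl⟩)
    have hr' : (r : G) ∈ (Q : Subgroup G) ⊓ X := h ▸ ⟨r, hr, rfl⟩
    exact ⟨hr'.1, hr'.2⟩
  rintro U V ⟨X, x, h1, h2, h3, h4, h5⟩
  refine ⟨X.subgroupOf ⊤, ⟨x, Subgroup.mem_top x⟩, hmem U X h1, hmem V X h2, h3, ?_, ?_⟩
  · refine hinj ?_
    rw [hφ U, ← h4, ← hφ V, Cfsg.subgroupConjRight, Cfsg.subgroupConjRight, Subgroup.map_map,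
      Subgroup.map_map]
    rfl
  · intro d hd
    have := h5 (hD ▸ ⟨d, hd, rfl⟩ : (d : G) ∈ D)
    exact ⟨this.1, this.2⟩

end Cfsg.Agent.LocalEven.SylowChain
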